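import Mathlib
import Cfsg.Agent.S1949

set_option autoImplicit false
set_option linter.style.haveILetI false

namespace Cfsg.Agent.Lib.helper15.S1454E

open scoped commutatorElement

/-- A critical subgroup, with the extra property `⁅D, P⁆ ≤ C(D)`. -/
theorem exists_critical_plus {G : Type*} [Group G] [Finite G] (p : ℕ) [Fact p.Prime] (hp : p ≠ 2)
    (P : Subgroup G) (hP : IsPGroup p P) :
    ∃ D : Subgroup G, D ≤ P ∧ (∀ d ∈ D, d ^ p = 1) ∧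
      (∀ x ∈ D, ∀ y ∈ D, ∀ z ∈ D, ⁅x, y⁆ * z = z * ⁅x, y⁆) ∧
      Subgroup.normalizer (P : Set G) ≤ Subgroup.normalizer (D : Set G) ∧
      (∀ a ∈ Subgroup.normalizer (P : Set G), (orderOf a).Coprime p →
        a ∈ Subgroup.centralizer (D : Set G) → a ∈ Subgroup.centralizer (P : Set G)) ∧
      (∀ d ∈ D, ∀ r ∈ P, ⁅d, r⁆ ∈ Subgroup.centralizer (D : Set G)) := by
  obtain ⟨D', h1', -, h3', h4, h5', -⟩ :=
    Cfsg.Agent.S1949.result (P := ↥P) (p := p) hP (⊤ : Subgroup (MulAut ↥P)) le_top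
  have h1 : ∀ α : MulAut ↥P, D'.map α.toMonoidHom = D' := fun α => h1' α (Subgroup.mem_top α)
  have h3 : ∀ d ∈ D', d ^ p = 1 := by
    intro d hd
    rcases h3' d hd with h | ⟨h2, -⟩
    · exact h
    · exact absurd h2 hp
  have h5 : ∀ α : MulAut ↥P, (orderOf α).Coprime p → (∀ d ∈ D', α d = d) → α = 1 :=
    fun α hcop hfix => h5' α (Subgroup.mem_top α) hcop hfix
  obtain ⟨D, hD⟩ : ∃ D : Subgroup G, D = D'.map P.subtype := ⟨_, rfl⟩
  have hDP : D ≤ P := by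
    rw [hD]
    exact Subgroup.map_subtype_le D'
  have hDmem : ∀ g, g ∈ D ↔ ∃ h : g ∈ P, (⟨g, h⟩ : ↥P) ∈ D' := by
    intro g
    rw [hD]
    constructor
    · rintro ⟨d, hd, rfl⟩
      exact ⟨d.2, hd⟩
    · rintro ⟨h, hd⟩
      exact ⟨⟨g, h⟩, hd, rfl⟩
  have hexpD : ∀ d ∈ D, d ^ p = 1 := by
    intro d hd
    obtain ⟨hdP, hdD'⟩ := (hDmem d).mp hd
    exact congrArg Subtype.val (h3 _ hdD')
  let φ : ↥(Subgroup.normalizer (P : Set G)) →* MulAut ↥P := P.normalizerMonoidHom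
  have hφ : ∀ (a : ↥(Subgroup.normalizer (P : Set G))) (r : ↥P),
      ((φ a r : ↥P) : G) = (a : G) * r * (a : G)⁻¹ := fun a r => rfl
  have hconj : ∀ a ∈ Subgroup.normalizer (P : Set G), ∀ d ∈ D, a * d * a⁻¹ ∈ D := by
    intro a ha d hd
    obtain ⟨hdP, hdD'⟩ := (hDmem d).mp hd
    have h6 : φ ⟨a, ha⟩ ⟨d, hdP⟩ ∈ D'.map (φ ⟨a, ha⟩).toMonoidHom := Subgroup.mem_map_of_mem _ hdD'
    rw [h1] at h6
    rw [hD]
    exact ⟨_, h6, rfl⟩
  refine ⟨D, hDP, hexpD, ?_, ?_, ?_, ?_⟩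
  · intro x hx y hy z hz
    obtain ⟨hxP, hxD'⟩ := (hDmem x).mp hx
    obtain ⟨hyP, hyD'⟩ := (hDmem y).mp hy
    obtain ⟨hzP, hzD'⟩ := (hDmem z).mp hz
    have h6 : ⁅(⟨x, hxP⟩ : ↥P), ⟨y, hyP⟩⁆ ∈ ⁅D', (⊤ : Subgroup ↥P)⁆ :=
      Subgroup.commutator_mem_commutator hxD' (Subgroup.mem_top _)
    have h7 : ⁅(⟨x, hxP⟩ : ↥P), ⟨y, hyP⟩⁆ ∈ Subgroup.centralizer (D' : Set ↥P) := (h4 h6).2
    rw [Subgroup.mem_centralizer_iff] at h7
    have h8 := h7 ⟨z, hzP⟩ hzD'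
    exact (congrArg Subtype.val h8).symm
  · intro a ha
    rw [Subgroup.mem_normalizer_iff]
    intro d
    constructor
    · exact hconj a ha d
    · intro h
      have h6 := hconj a⁻¹ (Subgroup.inv_mem _ ha) _ h
      have h7 : a⁻¹ * (a * d * a⁻¹) * a⁻¹⁻¹ = d := by group
      rwa [h7] at h6
  · intro a ha hcop hcent
    have h6 : φ ⟨a, ha⟩ = 1 := by
      apply h5
      · have hdvd : orderOf (φ ⟨a, ha⟩) ∣ orderOf (⟨a, ha⟩ : ↥(Subgroup.normalizer (P : Set G))) :=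
          orderOf_map_dvd φ _
        rw [Subgroup.orderOf_mk] at hdvd
        exact Nat.Coprime.coprime_dvd_left hdvd hcop
      · intro d hd
        apply Subtype.ext
        rw [hφ]
        have h7 := Subgroup.mem_centralizer_iff.mp hcent d ((hDmem d).mpr ⟨d.2, hd⟩)
        show a * (d : G) * a⁻¹ = d
        rw [← h7, mul_inv_cancel_right]
    rw [Subgroup.mem_centralizer_iff]
    intro r hr
    have h8 : ((φ ⟨a, ha⟩ ⟨r, hr⟩ : ↥P) : G) = r := by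
      rw [h6]
      rfl
    rw [hφ] at h8
    calc r * a = a * r * a⁻¹ * a := by rw [h8]
      _ = a * r := by group
  · intro d hd r hr
    obtain ⟨hdP, hdD'⟩ := (hDmem d).mp hd
    have h6 : ⁅(⟨d, hdP⟩ : ↥P), ⟨r, hr⟩⁆ ∈ ⁅D', (⊤ : Subgroup ↥P)⁆ :=
      Subgroup.commutator_mem_commutator hdD' (Subgroup.mem_top _)
    have h7 : ⁅(⟨d, hdP⟩ : ↥P), ⟨r, hr⟩⁆ ∈ Subgroup.centralizer (D' : Set ↥P) := (h4 h6).2
    rw [Subgroup.mem_centralizer_iff] at h7 ⊢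
    intro z hz
    obtain ⟨hzP, hzD'⟩ := (hDmem z).mp hz
    have h8 := h7 ⟨z, hzP⟩ hzD'
    exact congrArg Subtype.val h8

end Cfsg.Agent.Lib.helper15.S1454E
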