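import Mathlib
import Cfsg.Agent.Lib.helper10.Alperin
import Cfsg.Agent.Lib.helper10.LocalGlobal2

set_option autoImplicit false

namespace Cfsg.Agent.Lib.helper15.AG

open Cfsg Cfsg.Agent.Lib.helper10

variable {G : Type*} [Group G]

/-- `Chain St A g`: the conjugation `a ↦ g⁻¹ a g` of the set `A` is performed step by step; each
step is a conjugation by an element `x` with `St T x` for a subgroup `T` containing the current
image of `A`. -/
inductive Chain (St : Subgroup G → G → Prop) : Set G → G → Prop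
  | nil (A : Set G) : Chain St A 1
  | cons (A : Set G) (T : Subgroup G) (x g : G) (hT : St T x) (hA : A ⊆ T)
      (h : Chain St ((fun a => x⁻¹ * a * x) '' A) g) : Chain St A (x * g)

theorem Chain.mono {St : Subgroup G → G → Prop} {A : Set G} {g : G} (h : Chain St A g) :
    ∀ {A' : Set G}, A' ⊆ A → Chain St A' g := by
  induction h with
  | nil A => intro A' _; exact Chain.nil A'
  | cons A T x g hT hA _ ih =>
    intro A' hA'
    exact Chain.cons A' T x g hT (hA'.trans hA) (ih (Set.image_mono hA'))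

theorem Chain.single {St : Subgroup G → G → Prop} {A : Set G} {T : Subgroup G} {x : G}
    (hT : St T x) (hA : A ⊆ T) : Chain St A x := by
  have := Chain.cons A T x 1 hT hA (Chain.nil _)
  rwa [mul_one] at this

theorem Chain.trans {St : Subgroup G → G → Prop} {A : Set G} {g : G} (h : Chain St A g) :
    ∀ {k : G}, Chain St ((fun a => g⁻¹ * a * g) '' A) k → Chain St A (g * k) := by
  induction h with
  | nil A =>
    intro k hk
    rw [one_mul]
    apply hk.mono
    intro a ha
    exact ⟨a, ha, by simp⟩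
  | cons A T x g hT hA _ ih =>
    intro k hk
    rw [mul_assoc]
    apply Chain.cons A T x (g * k) hT hA
    apply ih
    apply hk.mono
    rintro _ ⟨_, ⟨a, ha, rfl⟩, rfl⟩
    exact ⟨a, ha, by group⟩

/-- A chain gives the list data. -/
theorem Chain.exists_chain {St : Subgroup G → G → Prop} {A : Set G} {g : G} (h : Chain St A g) :
    ∃ (n : ℕ) (T : Fin n → Subgroup G) (x : Fin n → G), (List.ofFn x).prod = g ∧
      ∀ i : Fin n, St (T i) (x i) ∧
        (fun a => (((List.ofFn x).take i.val).prod)⁻¹ * a * ((List.ofFn x).take i.val).prod) '' A ⊆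
          (T i : Set G) := by
  induction h with
  | nil A => exact ⟨0, Fin.elim0, Fin.elim0, by simp, fun i => i.elim0⟩
  | cons A T0 x0 g hT hA _ ih =>
    obtain ⟨n, T, x, hprod, hall⟩ := ih
    refine ⟨n + 1, Fin.cons T0 T, Fin.cons x0 x, ?_, ?_⟩
    · rw [List.ofFn_succ]
      simp [hprod]
    · intro i
      have hlist : List.ofFn (Fin.cons x0 x : Fin (n + 1) → G) = x0 :: List.ofFn x := by
        rw [List.ofFn_succ]; simp
      refine Fin.cases ?_ (fun j => ?_) i
      · refine ⟨by simpa using hT, ?_⟩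
        rintro _ ⟨a, ha, rfl⟩
        simpa using hA ha
      · obtain ⟨h1, h2⟩ := hall j
        refine ⟨by simpa using h1, ?_⟩
        rw [hlist]
        rintro _ ⟨a, ha, rfl⟩
        have hmem := h2 ⟨x0⁻¹ * a * x0, ⟨a, ha, rfl⟩, rfl⟩
        simp only [Fin.val_succ, List.take_succ_cons, List.prod_cons, Fin.cons_succ]
        have e : (x0 * (List.take j.val (List.ofFn x)).prod)⁻¹ * a *
            (x0 * (List.take j.val (List.ofFn x)).prod) =
            ((List.take j.val (List.ofFn x)).prod)⁻¹ * (x0⁻¹ * a * x0) *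
              (List.take j.val (List.ofFn x)).prod := by group
        rw [e]; exact hmem

/-- `Good St P A g`: `g = c w y` with `c` centralizing `A`, `w` a chain from `A`, and `y`
normalizing `P`. -/
def Good (St : Subgroup G → G → Prop) (P : Subgroup G) (A : Set G) (g : G) : Prop :=
  ∃ c w y, c ∈ Subgroup.centralizer A ∧ Chain St A w ∧ y ∈ Subgroup.normalizer (P : Set G) ∧
    g = c * w * y

theorem Good.mono {St : Subgroup G → G → Prop} {P : Subgroup G} {A A' : Set G} {g : G}
    (h : Good St P A g) (hA : A' ⊆ A) : Good St P A' g := by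
  obtain ⟨c, w, y, hc, hw, hy, rfl⟩ := h
  exact ⟨c, w, y, Subgroup.centralizer_le hA hc, hw.mono hA, hy, rfl⟩

theorem Good.mul_norm {St : Subgroup G → G → Prop} {P : Subgroup G} {A : Set G} {g y' : G}
    (h : Good St P A g) (hy' : y' ∈ Subgroup.normalizer (P : Set G)) : Good St P A (g * y') := by
  obtain ⟨c, w, y, hc, hw, hy, rfl⟩ := h
  exact ⟨c, w, y * y', hc, hw, mul_mem hy hy', by group⟩

theorem Good.cent_mul {St : Subgroup G → G → Prop} {P : Subgroup G} {A : Set G} {g c' : G}
    (h : Good St P A g) (hc' : c' ∈ Subgroup.centralizer A) : Good St P A (c' * g) := by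
  obtain ⟨c, w, y, hc, hw, hy, rfl⟩ := h
  exact ⟨c' * c, w, y, mul_mem hc' hc, hw, hy, by group⟩

theorem good_of_norm {St : Subgroup G → G → Prop} {P : Subgroup G} (A : Set G) {y : G}
    (hy : y ∈ Subgroup.normalizer (P : Set G)) : Good St P A y :=
  ⟨1, 1, y, one_mem _, Chain.nil A, hy, by group⟩

theorem good_single {St : Subgroup G → G → Prop} {P : Subgroup G} {A : Set G} {T : Subgroup G}
    {x : G} (hT : St T x) (hA : A ⊆ T) : Good St P A x :=
  ⟨1, x, 1, one_mem _, Chain.single hT hA, one_mem _, by group⟩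

/-- Composition: the second factor must be good for every `N(P)`-conjugate. -/
theorem Good.comp {St : Subgroup G → G → Prop} {P : Subgroup G} {A : Set G} {g₁ g₂ : G}
    (h : Good St P A g₁)
    (h2 : ∀ y ∈ Subgroup.normalizer (P : Set G),
      Good St P ((fun a => y * a * y⁻¹) '' ((fun a => g₁⁻¹ * a * g₁) '' A)) (y * g₂)) :
    Good St P A (g₁ * g₂) := by
  obtain ⟨c, w, y, hc, hw, hy, rfl⟩ := h
  obtain ⟨c', w', y', hc', hw', hy', e⟩ := h2 y hy
  have hsub : (fun a => w⁻¹ * a * w) '' A ⊆
      (fun a => y * a * y⁻¹) '' ((fun a => (c * w * y)⁻¹ * a * (c * w * y)) '' A) := by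
    rintro _ ⟨a, ha, rfl⟩
    refine ⟨(c * w * y)⁻¹ * a * (c * w * y), ⟨a, ha, rfl⟩, ?_⟩
    have hca : a * c = c * a := Subgroup.mem_centralizer_iff.mp hc a ha
    show y * ((c * w * y)⁻¹ * a * (c * w * y)) * y⁻¹ = w⁻¹ * a * w
    have e1 : y * ((c * w * y)⁻¹ * a * (c * w * y)) * y⁻¹ = w⁻¹ * (c⁻¹ * (a * c)) * w := by group
    rw [e1, hca]; group
  refine ⟨c * (w * c' * w⁻¹), w * w', y', ?_, hw.trans (hw'.mono hsub), hy', ?_⟩
  · apply mul_mem hc
    rw [Subgroup.mem_centralizer_iff]
    intro a ha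
    have h3 := Subgroup.mem_centralizer_iff.mp (Subgroup.centralizer_le hsub hc') (w⁻¹ * a * w)
      ⟨a, ha, rfl⟩
    have e1 : a * (w * c' * w⁻¹) = w * (w⁻¹ * a * w * c') * w⁻¹ := by group
    rw [e1, h3]; group
  · have e1 : c * w * y * g₂ = c * w * (y * g₂) := by group
    rw [e1, e]; group

end Cfsg.Agent.Lib.helper15.AG
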