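import Mathlib
import Cfsg.Prelude.Def_Local
import Cfsg.Prelude.Def_Transfer
import Cfsg.Prelude.Def_SylowChains
import Cfsg.Agent.Lib.helper15.AGChain
import Cfsg.Agent.Lib.helper15.SubnSyl
import Cfsg.Agent.Lib.helper15.SylGen
import Cfsg.Agent.Lib.helper16.PConstr
import Cfsg.Agent.Lib.helper14.PStabQuot
import Cfsg.Agent.Lib.helper9.PPrimeCore
import Cfsg.Agent.Lib.helper9.StrEmb3
import Cfsg.Agent.Lib.helper15.PMin
import Cfsg.Agent.S3056
import Cfsg.Agent.S3058

set_option autoImplicit false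

namespace Cfsg.Agent.Lib.helper15.AG

open Cfsg Cfsg.Agent.Lib.helper10

variable {G : Type*} [Group G]

theorem norm_le_norm_cent (B : Subgroup G) : Subgroup.normalizer (B : Set G) ≤
    Subgroup.normalizer ((Subgroup.centralizer (B : Set G) : Subgroup G) : Set G) := by
  intro n hn
  rw [Subgroup.mem_normalizer_iff]
  intro c
  constructor
  · intro hc
    rw [Subgroup.mem_centralizer_iff] at hc ⊢
    intro b hb
    have hb' : n⁻¹ * b * n ∈ B := by
      have := (Subgroup.mem_normalizer_iff.mp (inv_mem hn) b).mp hb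
      simpa using this
    have h1 := hc _ hb'
    have e1 : b * (n * c * n⁻¹) = n * (n⁻¹ * b * n * c) * n⁻¹ := by group
    rw [e1, h1]; group
  · intro hc
    rw [Subgroup.mem_centralizer_iff] at hc ⊢
    intro b hb
    have hb' : n * b * n⁻¹ ∈ B := (Subgroup.mem_normalizer_iff.mp hn b).mp hb
    have h1 := hc _ hb'
    have e1 : b * c = n⁻¹ * (n * b * n⁻¹ * (n * c * n⁻¹)) * n := by group
    rw [e1, h1]; group

theorem coe_mem_normalizer_map {N : Subgroup G} {K : Subgroup ↥N} {x : ↥N}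
    (hx : x ∈ Subgroup.normalizer (K : Set ↥N)) :
    (x : G) ∈ Subgroup.normalizer ((K.map N.subtype : Subgroup G) : Set G) :=
  Subgroup.le_normalizer_map N.subtype (Subgroup.mem_map_of_mem _ hx)

variable [Finite G] {p : ℕ} [Fact p.Prime]

theorem rel_sylow {N S R : Subgroup G} (hSN : S ≤ N) (hS : ¬ p ∣ S.relIndex N) (hRN : R ≤ N)
    (hNR : N ≤ Subgroup.normalizer (R : Set G)) : ¬ p ∣ (S ⊓ R).relIndex R := by
  intro h
  apply hS
  have e1 : (S ⊓ R).relIndex R = S.relIndex R := Subgroup.inf_relIndex_right S R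
  have e2 : S.relIndex (S ⊔ R) = S.relIndex R :=
    relIndex_sup_of_le_normalizer S R (hSN.trans hNR)
  have e3 := Subgroup.relIndex_mul_relIndex S (S ⊔ R) N le_sup_left (sup_le hSN hRN)
  rw [← e3, e2, ← e1]
  exact Dvd.dvd.mul_right h _

theorem rel_frattini {N R Q : Subgroup G} (hNR : N ≤ Subgroup.normalizer (R : Set G))
    (hQR : Q ≤ R) (hQ : IsPGroup p Q) (hidx : ¬ p ∣ Q.relIndex R) {n : G} (hn : n ∈ N) :
    ∃ r ∈ R, ∃ x ∈ Subgroup.normalizer (Q : Set G), n = r * x := by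
  have hT : Q.map (MulAut.conj n).toMonoidHom ≤ R := by
    rw [map_conj_le_iff]
    intro x hx
    exact (Subgroup.mem_normalizer_iff.mp (hNR hn) x).mp (hQR hx)
  obtain ⟨y, hyR, hy⟩ := exists_conj_le_of_relIndex hQ hidx hT (isPGroup_map_conj Q n hQ)
  have h1 : Q.map (MulAut.conj (y * n)).toMonoidHom ≤ Q := by
    rw [map_conj_le_iff]
    intro x hx
    have h2 := hy _ (conj_mem_map_conj Q n x hx)
    have e : y * n * x * (y * n)⁻¹ = y * (n * x * n⁻¹) * y⁻¹ := by group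
    rw [e]; exact h2
  have h2 : Q.map (MulAut.conj (y * n)).toMonoidHom = Q :=
    Subgroup.eq_of_le_of_card_ge h1 (by rw [Subgroup.card_map_of_injective (conj_injective _)])
  exact ⟨y⁻¹, inv_mem hyR, y * n, mem_normalizer_of_map_conj_eq Q _ h2, by group⟩

/-- The induction hypothesis at level `m`. -/
def IHyp (St : Subgroup G → G → Prop) (P : Sylow p G) (m : ℕ) : Prop :=
  ∀ E : Subgroup G, E ≤ (P : Subgroup G) → m < Nat.card E → ∀ g : G,
    (∀ a ∈ E, g⁻¹ * a * g ∈ (P : Subgroup G)) → Good St (P : Subgroup G) (E : Set G) g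

theorem ih_conj {St : Subgroup G → G → Prop} (P : Sylow p G) {m : ℕ} (ih : IHyp St P m)
    {E : Subgroup G} (hE : E ≤ (P : Subgroup G)) (hm : m < Nat.card E) {g : G}
    (hg : ∀ a ∈ E, g⁻¹ * a * g ∈ (P : Subgroup G)) {A' : Set G} (hA' : A' ⊆ E) {y : G}
    (hy : y ∈ Subgroup.normalizer ((P : Subgroup G) : Set G)) :
    Good St (P : Subgroup G) ((fun a => y * a * y⁻¹) '' A') (y * g) := by
  have h1 : E.map (MulAut.conj y).toMonoidHom ≤ (P : Subgroup G) := by
    rw [map_conj_le_iff]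
    intro x hx
    exact (Subgroup.mem_normalizer_iff.mp hy x).mp (hE hx)
  have h2 : m < Nat.card (E.map (MulAut.conj y).toMonoidHom) := by
    rw [Subgroup.card_map_of_injective (conj_injective y)]; exact hm
  have h3 := ih _ h1 h2 (y * g) (by
    intro a ha
    rw [mem_map_conj] at ha
    have h4 := hg _ ha
    have e : (y * g)⁻¹ * a * (y * g) = g⁻¹ * (y⁻¹ * a * y) * g := by group
    rw [e]; exact h4)
  apply h3.mono
  rintro _ ⟨a, ha, rfl⟩
  exact conj_mem_map_conj E y a (hA' ha)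

theorem card_lt_of_lt {B B₁ : Subgroup G} (hBB₁ : B ≤ B₁) (hne : B ≠ B₁) :
    Nat.card B < Nat.card B₁ := by
  by_contra hcon
  exact hne (Subgroup.eq_of_le_of_card_ge hBB₁ (not_lt.1 hcon))

theorem good_lift {St : Subgroup G → G → Prop} (P : Sylow p G) {m : ℕ} (ih : IHyp St P m)
    {B B₁ : Subgroup G} (hm : Nat.card B = m) (hBB₁ : B ≤ B₁) (hne : B ≠ B₁)
    (hB₁ : B₁ ≤ (P : Subgroup G)) {x : G} (hx : x ∈ Subgroup.normalizer (B₁ : Set G)) :
    Good St (P : Subgroup G) (B : Set G) x := by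
  have hcard : m < Nat.card B₁ := hm ▸ card_lt_of_lt hBB₁ hne
  have h1 := ih B₁ hB₁ hcard x (by
    intro a ha
    have h2 := (Subgroup.mem_normalizer_iff.mp (inv_mem hx) a).mp ha
    rw [inv_inv] at h2
    exact hB₁ h2)
  exact h1.mono hBB₁

/-- Case 1: `C_P(B)` is not contained in `B`. -/
theorem case1 {St : Subgroup G → G → Prop} (P : Sylow p G) {m : ℕ} (ih : IHyp St P m)
    {B : Subgroup G} (hBP : B ≤ (P : Subgroup G)) (hm : Nat.card B = m)
    (hfn : ¬ p ∣ ((P : Subgroup G) ⊓ Subgroup.normalizer (B : Set G)).relIndex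
      (Subgroup.normalizer (B : Set G)))
    (hc : ¬ (P : Subgroup G) ⊓ Subgroup.centralizer (B : Set G) ≤ B) :
    ∀ n ∈ Subgroup.normalizer (B : Set G), Good St (P : Subgroup G) (B : Set G) n := by
  intro n hn
  have hRN : Subgroup.centralizer (B : Set G) ≤ Subgroup.normalizer (B : Set G) :=
    Subgroup.centralizer_le_normalizer _
  have hNR := norm_le_norm_cent B
  have hQ : ¬ p ∣ ((P : Subgroup G) ⊓ Subgroup.normalizer (B : Set G) ⊓
      Subgroup.centralizer (B : Set G)).relIndex (Subgroup.centralizer (B : Set G)) :=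
    rel_sylow inf_le_right hfn hRN hNR
  have hQeq : (P : Subgroup G) ⊓ Subgroup.normalizer (B : Set G) ⊓
      Subgroup.centralizer (B : Set G) = (P : Subgroup G) ⊓ Subgroup.centralizer (B : Set G) := by
    rw [inf_assoc, inf_eq_right.mpr hRN]
  rw [hQeq] at hQ
  obtain ⟨r, hr, x, hx, rfl⟩ := rel_frattini hNR inf_le_right (P.isPGroup'.to_le inf_le_left) hQ hn
  have hxB : x ∈ Subgroup.normalizer (B : Set G) := by
    have e : x = r⁻¹ * (r * x) := by group
    rw [e]; exact mul_mem (inv_mem (hRN hr)) hn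
  have hx1 : x ∈ Subgroup.normalizer
      ((B ⊔ (P : Subgroup G) ⊓ Subgroup.centralizer (B : Set G) : Subgroup G) : Set G) := by
    apply mem_normalizer_of_map_conj_eq
    rw [Subgroup.map_sup, map_conj_eq_of_mem_normalizer _ _ hxB, map_conj_eq_of_mem_normalizer _ _ hx]
  refine Good.cent_mul ?_ hr
  exact good_lift P ih hm le_sup_left (fun h => hc (le_sup_right.trans h.ge))
    (sup_le hBP inf_le_left) hx1

theorem exists_pow_coprime_order {X : Type*} [Group X] [Finite X] (p : ℕ) [Fact p.Prime] (g : X) :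
    ∃ k : ℕ, (orderOf (g ^ p ^ k)).Coprime p := by
  have hp : p.Prime := Fact.out
  obtain ⟨e, n', hn', he⟩ := Nat.exists_eq_pow_mul_and_not_dvd (orderOf_pos g).ne' p hp.ne_one
  refine ⟨e, ?_⟩
  have h1 : (g ^ p ^ e) ^ n' = 1 := by
    rw [← pow_mul, ← he, pow_orderOf_eq_one]
  exact Nat.Coprime.coprime_dvd_left (orderOf_dvd_of_pow_eq_one h1)
    ((Nat.Prime.coprime_iff_not_dvd hp).mpr hn').symm

theorem central_sylow_ker {Γ : Type*} [Group Γ] [Finite Γ] (Z : Sylow p Γ)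
    (hz : ∀ z ∈ (Z : Subgroup Γ), ∀ c : Γ, c * z = z * c) :
    ∃ K : Subgroup Γ, ¬ p ∣ Nat.card K ∧ ∀ g : Γ, (orderOf g).Coprime p → g ∈ K := by
  have hP : Subgroup.normalizer ((Z : Subgroup Γ) : Set Γ) ≤
      Subgroup.centralizer ((Z : Subgroup Γ) : Set Γ) := by
    intro c _
    rw [Subgroup.mem_centralizer_iff]
    intro z hz'
    exact (hz z hz' c).symm
  refine ⟨(MonoidHom.transferSylow Z hP).ker, MonoidHom.not_dvd_card_ker_transferSylow Z hP, ?_⟩
  intro g hg
  rw [MonoidHom.mem_ker]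
  obtain ⟨k, hk⟩ := Z.isPGroup' (MonoidHom.transferSylow Z hP g)
  have hcop : (orderOf (MonoidHom.transferSylow Z hP g)).Coprime p :=
    Nat.Coprime.coprime_dvd_left (orderOf_map_dvd _ g) hg
  exact Cfsg.Agent.Lib.helper16.eq_one_of_pow_of_coprime_order hcop hk

/-- Structure of `O_{p',p}(N)` for `N` normalizing the `p`-group `B`, with `S` a Sylow
`p`-subgroup of `N`. -/
theorem ppc_struct {N S B : Subgroup G} (hBN : B ≤ N) (hNB : N ≤ Subgroup.normalizer (B : Set G))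
    (hS : IsPGroup p S) (hBS : B ≤ S) (hfn : ¬ p ∣ S.relIndex N) :
    ∃ Q : Subgroup G, B ≤ Q ∧ Q ≤ S ∧
      (∀ n ∈ N, ∃ o ∈ Subgroup.centralizer (B : Set G),
        ∃ x ∈ Subgroup.normalizer (Q : Set G), n = o * x) ∧
      (Cfsg.pPrimePCore p ↥N).map N.subtype ≤ Subgroup.centralizer (B : Set G) ⊔ Q ∧
      B ≤ (Cfsg.pPrimePCore p ↥N).map N.subtype := by
  have hσ : IsPGroup p (S.subgroupOf N) := hS.comap_subtype
  let Sσ : Sylow p ↥N := hσ.toSylow hfn
  haveI hRn : (pPrimePCore p ↥N).Normal := Cfsg.Agent.Lib.helper16.pPrimePCore_normal p ↥N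
  obtain ⟨hfr, Q', hQ'⟩ := frattini_inf Sσ (pPrimePCore p ↥N)
  have hSσ : (Sσ : Subgroup ↥N) = S.subgroupOf N := IsPGroup.toSylow_coe hσ hfn
  haveI hβn : (B.subgroupOf N).Normal := Subgroup.normal_subgroupOf_of_le_normalizer hNB
  have hβ : IsPGroup p (B.subgroupOf N) := (hS.to_le hBS).comap_subtype
  have hβR : B.subgroupOf N ≤ pPrimePCore p ↥N :=
    Cfsg.Agent.Lib.helper14.normal_pgroup_le_pPrimePCore _ hβn hβ
  have hO : ∀ w ∈ pPrimeCore p ↥N, (w : G) ∈ Subgroup.centralizer (B : Set G) := by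
    intro w hw
    rw [Subgroup.mem_centralizer_iff]
    intro b hb
    have hOn : (pPrimeCore p ↥N).Normal := Cfsg.Agent.Lib.helper9.ppc_normal p ↥N
    have hb' : (⟨b, hBN hb⟩ : ↥N) ∈ B.subgroupOf N := Subgroup.mem_subgroupOf.mpr hb
    have h1 : w * (⟨b, hBN hb⟩ : ↥N) * w⁻¹ * (⟨b, hBN hb⟩ : ↥N)⁻¹ ∈ pPrimeCore p ↥N := by
      have e : w * (⟨b, hBN hb⟩ : ↥N) * w⁻¹ * (⟨b, hBN hb⟩ : ↥N)⁻¹ =
          w * ((⟨b, hBN hb⟩ : ↥N) * w⁻¹ * (⟨b, hBN hb⟩ : ↥N)⁻¹) := by group
      rw [e]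
      exact mul_mem hw (hOn.conj_mem _ (inv_mem hw) _)
    have h2 : w * (⟨b, hBN hb⟩ : ↥N) * w⁻¹ * (⟨b, hBN hb⟩ : ↥N)⁻¹ ∈ B.subgroupOf N :=
      mul_mem (hβn.conj_mem _ hb' w) (inv_mem hb')
    have h3 := Cfsg.Agent.Lib.helper16.inter_eq_one _ _
      (Cfsg.Agent.Lib.helper9.pPrimeCore_coprime p ↥N) hβ h1 h2
    have h4 : w * (⟨b, hBN hb⟩ : ↥N) = (⟨b, hBN hb⟩ : ↥N) * w := by
      have e : w * (⟨b, hBN hb⟩ : ↥N) =
          (w * (⟨b, hBN hb⟩ : ↥N) * w⁻¹ * (⟨b, hBN hb⟩ : ↥N)⁻¹) * ((⟨b, hBN hb⟩ : ↥N) * w) := by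
        group
      rw [e, h3, one_mul]
    have h5 := congrArg Subtype.val h4
    simpa using h5.symm
  refine ⟨((Sσ : Subgroup ↥N) ⊓ pPrimePCore p ↥N).map N.subtype, ?_, ?_, ?_, ?_, ?_⟩
  · intro b hb
    refine ⟨⟨b, hBN hb⟩, ⟨?_, hβR (Subgroup.mem_subgroupOf.mpr hb)⟩, rfl⟩
    show (⟨b, hBN hb⟩ : ↥N) ∈ (Sσ : Subgroup ↥N)
    rw [hSσ]; exact Subgroup.mem_subgroupOf.mpr (hBS hb)
  · rintro _ ⟨x, ⟨hx, -⟩, rfl⟩
    have hx' : x ∈ (Sσ : Subgroup ↥N) := hx
    rw [hSσ] at hx'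
    exact Subgroup.mem_subgroupOf.mp hx'
  · intro n hn
    have hx : (⟨n, hn⟩ : ↥N)⁻¹ ∈ Subgroup.normalizer
        ((((Sσ : Subgroup ↥N) ⊓ pPrimePCore p ↥N : Subgroup ↥N)) : Set ↥N) ⊔ pPrimePCore p ↥N := by
      rw [hfr]; exact Subgroup.mem_top _
    obtain ⟨y, hy, z, hz, hyz⟩ := Subgroup.mem_sup_of_normal_right.mp hx
    obtain ⟨w, hw, t, ht, hwt⟩ := Cfsg.Agent.Lib.helper16.pPrimePCore_decomp Q' (inv_mem hz)
    rw [hQ'] at ht
    refine ⟨(w : G), hO w hw, ((t * y⁻¹ : ↥N) : G),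
      coe_mem_normalizer_map (mul_mem (Subgroup.le_normalizer ht) (inv_mem hy)), ?_⟩
    have h6 : (⟨n, hn⟩ : ↥N) = w * (t * y⁻¹) := by
      have e : (⟨n, hn⟩ : ↥N) = z⁻¹ * y⁻¹ := by
        rw [← mul_inv_rev, hyz, inv_inv]
      rw [e, hwt]; group
    have h7 := congrArg Subtype.val h6
    simpa using h7
  · rintro _ ⟨g, hg, rfl⟩
    obtain ⟨w, hw, t, ht, hwt⟩ := Cfsg.Agent.Lib.helper16.pPrimePCore_decomp Q' hg
    rw [hQ'] at ht
    rw [hwt]
    exact mul_mem (Subgroup.mem_sup_left (hO w hw))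
      (Subgroup.mem_sup_right (Subgroup.mem_map_of_mem _ ht))
  · intro b hb
    exact ⟨⟨b, hBN hb⟩, hβR (Subgroup.mem_subgroupOf.mpr hb), rfl⟩

/-- If `C_S(B) ≤ B` then `C_N(B) ≤ O_{p',p}(N)`. -/
theorem cent_le_ppc {N S B : Subgroup G} (hNB : N ≤ Subgroup.normalizer (B : Set G))
    (hS : IsPGroup p S) (hfn : ¬ p ∣ S.relIndex N)
    (hc : S ⊓ Subgroup.centralizer (B : Set G) ≤ B) :
    Subgroup.centralizer (B : Set G) ⊓ N ≤ (Cfsg.pPrimePCore p ↥N).map N.subtype := by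
  have hσ : IsPGroup p (S.subgroupOf N) := hS.comap_subtype
  let Sσ : Sylow p ↥N := hσ.toSylow hfn
  have hSσ : (Sσ : Subgroup ↥N) = S.subgroupOf N := IsPGroup.toSylow_coe hσ hfn
  haveI hγn : ((Subgroup.centralizer (B : Set G)).subgroupOf N).Normal :=
    Subgroup.normal_subgroupOf_of_le_normalizer (hNB.trans (norm_le_norm_cent B))
  have hidx : ¬ p ∣ ((Sσ : Subgroup ↥N).subgroupOf
      ((Subgroup.centralizer (B : Set G)).subgroupOf N)).index :=
    sylow_inf_normal_not_dvd Sσ _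
  have hζp : IsPGroup p ((Sσ : Subgroup ↥N).subgroupOf
      ((Subgroup.centralizer (B : Set G)).subgroupOf N)) := Sσ.isPGroup'.comap_subtype
  obtain ⟨Z, hZ⟩ : ∃ Z : Sylow p ↥((Subgroup.centralizer (B : Set G)).subgroupOf N),
      (Z : Subgroup _) = (Sσ : Subgroup ↥N).subgroupOf
        ((Subgroup.centralizer (B : Set G)).subgroupOf N) :=
    ⟨hζp.toSylow hidx, IsPGroup.toSylow_coe hζp hidx⟩
  have hcentral : ∀ z ∈ (Z : Subgroup ↥((Subgroup.centralizer (B : Set G)).subgroupOf N)),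
      ∀ c, c * z = z * c := by
    intro z hz c
    rw [hZ, Subgroup.mem_subgroupOf, hSσ, Subgroup.mem_subgroupOf] at hz
    have hzc : ((z : ↥N) : G) ∈ Subgroup.centralizer (B : Set G) := Subgroup.mem_subgroupOf.mp z.2
    have hzB : ((z : ↥N) : G) ∈ B := hc ⟨hz, hzc⟩
    have hcc : ((c : ↥N) : G) ∈ Subgroup.centralizer (B : Set G) := Subgroup.mem_subgroupOf.mp c.2
    have h1 := Subgroup.mem_centralizer_iff.mp hcc _ hzB
    apply Subtype.ext; apply Subtype.ext
    simpa using h1.symm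
  obtain ⟨K, hK, hKmem⟩ := central_sylow_ker Z hcentral
  have hKc : (Nat.card K).Coprime p := ((Nat.Prime.coprime_iff_not_dvd Fact.out).mpr hK).symm
  have hK'n : (K.map ((Subgroup.centralizer (B : Set G)).subgroupOf N).subtype).Normal := by
    constructor
    rintro _ ⟨k, hk, rfl⟩ x
    have hmem : x * (k : ↥N) * x⁻¹ ∈ (Subgroup.centralizer (B : Set G)).subgroupOf N :=
      hγn.conj_mem _ k.2 x
    refine ⟨⟨x * (k : ↥N) * x⁻¹, hmem⟩, hKmem _ ?_, rfl⟩
    have ho : orderOf (⟨x * (k : ↥N) * x⁻¹, hmem⟩ :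
        ↥((Subgroup.centralizer (B : Set G)).subgroupOf N)) = orderOf k := by
      rw [Subgroup.orderOf_mk]
      have h1 := orderOf_injective (MulAut.conj x).toMonoidHom (MulAut.conj x).injective (k : ↥N)
      rw [← Subgroup.orderOf_coe k, ← h1]
      rfl
    rw [ho]
    exact Nat.Coprime.coprime_dvd_left (Subgroup.orderOf_dvd_natCard _ hk) hKc
  have hK'c : (Nat.card (K.map
      ((Subgroup.centralizer (B : Set G)).subgroupOf N).subtype)).Coprime p := by
    rw [Subgroup.card_map_of_injective (Subgroup.subtype_injective _)]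
    exact hKc
  have hK'O := Cfsg.Agent.Lib.helper9.le_pPrimeCore hK'n hK'c
  have hγR : (Subgroup.centralizer (B : Set G)).subgroupOf N ≤ pPrimePCore p ↥N := by
    apply Cfsg.Agent.Lib.helper16.le_pPrimePCore_of_pow
    intro g hg
    obtain ⟨k, hk⟩ := exists_pow_coprime_order p g
    refine ⟨k, hK'O ⟨⟨g ^ p ^ k, pow_mem hg _⟩, hKmem _ ?_, rfl⟩⟩
    rw [Subgroup.orderOf_mk]; exact hk
  rintro x ⟨hx1, hx2⟩
  exact ⟨⟨x, hx2⟩, hγR (Subgroup.mem_subgroupOf.mpr hx1), rfl⟩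

/-- In a chain-connected quotient `X ⧸ β`, the normalizers of the subgroups strictly between `β`
and a Sylow `p`-subgroup `σ` generate `X`. -/
theorem gen_of_conn {X : Type*} [Group X] [Finite X] {p : ℕ} [Fact p.Prime] (β σ L : Subgroup X)
    [hβn : β.Normal] (hσ : IsPGroup p σ) (hidx : ¬ p ∣ σ.index) (hβσ : β ≤ σ) (hne : β ≠ σ)
    (hσL : σ ≤ L)
    (hL : ∀ Q : Subgroup X, β ≤ Q → Q ≤ σ → β ≠ Q → Subgroup.normalizer (Q : Set X) ≤ L)
    (hconn : Cfsg.IsSylowChainConnected p (X ⧸ β)) : L = ⊤ := by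
  by_contra hcon
  have hMne : L.map (QuotientGroup.mk' β) ≠ ⊤ := by
    intro h
    apply hcon
    rw [eq_top_iff]
    intro x _
    have hx : QuotientGroup.mk' β x ∈ L.map (QuotientGroup.mk' β) := by
      rw [h]; exact Subgroup.mem_top _
    obtain ⟨l, hl, hlx⟩ := hx
    have h2 : l⁻¹ * x ∈ β := QuotientGroup.eq.mp hlx
    have e : x = l * (l⁻¹ * x) := by group
    rw [e]; exact mul_mem hl (hσL (hβσ h2))
  have hσ'p : IsPGroup p (σ.map (QuotientGroup.mk' β)) := hσ.map _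
  have hσ'M : σ.map (QuotientGroup.mk' β) ≤ L.map (QuotientGroup.mk' β) := Subgroup.map_mono hσL
  have hσ'idx : ¬ p ∣ (σ.map (QuotientGroup.mk' β)).index := fun h =>
    hidx (h.trans (Subgroup.index_map_dvd _ (QuotientGroup.mk'_surjective _)))
  have hσ'ne : σ.map (QuotientGroup.mk' β) ≠ ⊥ := by
    intro h
    apply hne
    apply le_antisymm hβσ
    intro x hx
    have h1 : QuotientGroup.mk' β x ∈ σ.map (QuotientGroup.mk' β) := Subgroup.mem_map_of_mem _ hx
    rw [h, Subgroup.mem_bot] at h1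
    exact (QuotientGroup.eq_one_iff x).mp h1
  have hpM : p ∣ Nat.card (L.map (QuotientGroup.mk' β)) := by
    have h1 : p ∣ Nat.card (σ.map (QuotientGroup.mk' β)) := by
      rcases hσ'p.card_eq_or_dvd with h | h
      · exact absurd (Subgroup.card_eq_one.mp h) hσ'ne
      · exact h
    exact h1.trans (Subgroup.card_dvd_of_le hσ'M)
  have hTp : IsPGroup p ((σ.map (QuotientGroup.mk' β)).subgroupOf (L.map (QuotientGroup.mk' β))) :=
    hσ'p.comap_subtype
  have hTidx : ¬ p ∣ ((σ.map (QuotientGroup.mk' β)).subgroupOf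
      (L.map (QuotientGroup.mk' β))).index := fun h =>
    hσ'idx (h.trans (Subgroup.relIndex_dvd_index_of_le hσ'M))
  have hNP : Cfsg.Agent.Lib.helper9.NormProp p (L.map (QuotientGroup.mk' β)) := by
    apply Cfsg.Agent.Lib.helper9.normProp_of_sylow (hTp.toSylow hTidx)
    intro Xs hXs hXne
    rw [IsPGroup.toSylow_coe] at hXs
    have hQσ' : Xs.map (L.map (QuotientGroup.mk' β)).subtype ≤ σ.map (QuotientGroup.mk' β) := by
      rintro _ ⟨x, hx, rfl⟩
      exact Subgroup.mem_subgroupOf.mp (hXs hx)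
    have hQne : Xs.map (L.map (QuotientGroup.mk' β)).subtype ≠ ⊥ := by
      intro h
      apply hXne
      rwa [Subgroup.map_eq_bot_iff_of_injective _ (Subgroup.subtype_injective _)] at h
    intro s' hs'
    obtain ⟨s, rfl⟩ := QuotientGroup.mk'_surjective β s'
    apply Subgroup.mem_map_of_mem
    refine hL ((Xs.map (L.map (QuotientGroup.mk' β)).subtype).comap (QuotientGroup.mk' β))
      ?_ ?_ ?_ ?_
    · intro b hb
      rw [Subgroup.mem_comap]
      have h1 : QuotientGroup.mk' β b = 1 := (QuotientGroup.eq_one_iff b).mpr hb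
      rw [h1]; exact one_mem _
    · intro q hq
      rw [Subgroup.mem_comap] at hq
      obtain ⟨t, ht, htq⟩ := hQσ' hq
      have h2 : t⁻¹ * q ∈ β := QuotientGroup.eq.mp htq
      have e : q = t * (t⁻¹ * q) := by group
      rw [e]; exact mul_mem ht (hβσ h2)
    · intro h
      apply hQne
      rw [eq_bot_iff]
      intro q' hq'
      obtain ⟨q, rfl⟩ := QuotientGroup.mk'_surjective β q'
      have hq : q ∈ (Xs.map (L.map (QuotientGroup.mk' β)).subtype).comap (QuotientGroup.mk' β) :=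
        hq'
      rw [← h] at hq
      rw [Subgroup.mem_bot]
      exact (QuotientGroup.eq_one_iff q).mpr hq
    · rw [Subgroup.mem_normalizer_iff]
      intro h
      rw [Subgroup.mem_comap, Subgroup.mem_comap, map_mul, map_mul, map_inv]
      exact Subgroup.mem_normalizer_iff.mp hs' _
  exact (Cfsg.Agent.S3056.result p).mpr
    ⟨_, hMne, hpM, fun g hg => Cfsg.Agent.Lib.helper9.normProp_inter hNP hg⟩ hconn

/-- Case 3: `N(B)/B` is chain-connected. -/
theorem case3 {St : Subgroup G → G → Prop} (P : Sylow p G) {m : ℕ} (ih : IHyp St P m)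
    {B N : Subgroup G} (hN : N = Subgroup.normalizer (B : Set G)) [hβn : (B.subgroupOf N).Normal]
    (hBP : B ≤ (P : Subgroup G)) (hm : Nat.card B = m) (hne : B ≠ (P : Subgroup G))
    (hfn : ¬ p ∣ ((P : Subgroup G) ⊓ N).relIndex N)
    (hconn : Cfsg.IsSylowChainConnected p (↥N ⧸ B.subgroupOf N)) :
    ∀ n ∈ N, Good St (P : Subgroup G) (B : Set G) n := by
  have hBN : B ≤ N := hN ▸ Subgroup.le_normalizer
  have hNB : N ≤ Subgroup.normalizer (B : Set G) := hN.le
  have hSne : B ≠ (P : Subgroup G) ⊓ N := by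
    obtain ⟨x, hxP, hxN, hxB⟩ := exists_mem_normalizer_not_mem P.isPGroup' hBP hne
    intro h
    apply hxB; rw [h]; exact ⟨hxP, hN ▸ hxN⟩
  have hSp : IsPGroup p ((P : Subgroup G) ⊓ N : Subgroup G) := P.isPGroup'.to_le inf_le_left
  obtain ⟨Γ, hΓ⟩ : ∃ Γ : Set ↥N, Γ = {s : ↥N | ∃ Q : Subgroup G, B ≤ Q ∧ B ≠ Q ∧
      Q ≤ (P : Subgroup G) ∧ (s : G) ∈ Subgroup.normalizer (Q : Set G)} := ⟨_, rfl⟩
  have hΓP : ∀ b : ↥N, (b : G) ∈ (P : Subgroup G) → b ∈ Γ := by
    intro b hb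
    rw [hΓ]
    exact ⟨(P : Subgroup G) ⊓ N, le_inf hBP hBN, hSne, inf_le_left,
      Subgroup.le_normalizer ⟨hb, b.2⟩⟩
  have hΓinv : ∀ s ∈ Γ, s⁻¹ ∈ Γ := by
    intro s hs
    rw [hΓ] at hs ⊢
    obtain ⟨Q, h1, h2, h3, h4⟩ := hs
    exact ⟨Q, h1, h2, h3, by simpa using inv_mem h4⟩
  have hstep : ∀ n : ↥N, Good St (P : Subgroup G) (B : Set G) (n : G) → ∀ s ∈ Γ,
      Good St (P : Subgroup G) (B : Set G) ((n * s : ↥N) : G) := by
    intro n hg s hs
    rw [hΓ] at hs
    obtain ⟨Q, hBQ, hneQ, hQP, hsQ⟩ := hs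
    have hcard : m < Nat.card Q := hm ▸ card_lt_of_lt hBQ hneQ
    show Good St (P : Subgroup G) (B : Set G) ((n : G) * (s : G))
    apply hg.comp
    intro y hy
    refine ih_conj P ih hQP hcard ?_ ?_ hy
    · intro a ha
      have h2 := (Subgroup.mem_normalizer_iff.mp (inv_mem hsQ) a).mp ha
      rw [inv_inv] at h2
      exact hQP h2
    · rintro _ ⟨b, hb, rfl⟩
      apply hBQ
      have h2 := (Subgroup.mem_normalizer_iff.mp (inv_mem (hNB n.2)) b).mp hb
      rw [inv_inv] at h2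
      exact h2
  have hcl : ∀ x ∈ Subgroup.closure Γ, Good St (P : Subgroup G) (B : Set G) ((x : ↥N) : G) := by
    intro x hx
    refine Subgroup.closure_induction_right
      (p := fun x _ => Good St (P : Subgroup G) (B : Set G) ((x : ↥N) : G)) ?_ ?_ ?_ hx
    · exact good_of_norm _ (one_mem _)
    · intro x _ y hy ih'
      exact hstep x ih' y hy
    · intro x _ y hy ih'
      exact hstep x ih' y⁻¹ (hΓinv y hy)
  have htop : Subgroup.closure Γ = ⊤ := by
    apply gen_of_conn (B.subgroupOf N) (((P : Subgroup G) ⊓ N).subgroupOf N) (Subgroup.closure Γ)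
      hSp.comap_subtype hfn ?_ ?_ ?_ ?_ hconn
    · intro x hx
      exact Subgroup.mem_subgroupOf.mpr ⟨hBP (Subgroup.mem_subgroupOf.mp hx), x.2⟩
    · intro h
      apply hSne
      apply le_antisymm (le_inf hBP hBN)
      intro x hx
      have h1 : (⟨x, hx.2⟩ : ↥N) ∈ ((P : Subgroup G) ⊓ N).subgroupOf N :=
        Subgroup.mem_subgroupOf.mpr hx
      rw [← h] at h1
      exact Subgroup.mem_subgroupOf.mp h1
    · intro x hx
      exact Subgroup.subset_closure (hΓP x (Subgroup.mem_subgroupOf.mp hx).1)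
    · intro Q' hβQ hQσ hneQ s hs
      apply Subgroup.subset_closure
      rw [hΓ]
      refine ⟨Q'.map N.subtype, ?_, ?_, ?_, coe_mem_normalizer_map hs⟩
      · intro b hb
        exact ⟨⟨b, hBN hb⟩, hβQ (Subgroup.mem_subgroupOf.mpr hb), rfl⟩
      · intro h
        apply hneQ
        apply le_antisymm hβQ
        intro q hq
        rw [Subgroup.mem_subgroupOf, h]
        exact Subgroup.mem_map_of_mem _ hq
      · rintro _ ⟨q, hq, rfl⟩
        exact (Subgroup.mem_subgroupOf.mp (hQσ hq)).1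
  intro n hn
  exact hcl ⟨n, hn⟩ (by rw [htop]; exact Subgroup.mem_top _)

/-- Smallest normal subgroup above `β` of index divisible by `p`, when `X ⧸ β` is not
chain-connected. -/
theorem min_normal {X : Type*} [Group X] [Finite X] {p : ℕ} [Fact p.Prime] (β : Subgroup X)
    [hβn : β.Normal] (hconn : ¬ Cfsg.IsSylowChainConnected p (X ⧸ β)) :
    ∃ K : Subgroup X, β ≤ K ∧ K.Normal ∧ p ∣ β.relIndex K ∧
      ∀ Y : Subgroup X, β ≤ Y → Y.Normal → p ∣ β.relIndex Y → K ≤ Y := by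
  have hrel : ∀ Y : Subgroup X, β.relIndex Y = Nat.card (Y.map (QuotientGroup.mk' β)) := by
    intro Y
    have h1 := Subgroup.relIndex_comap (⊥ : Subgroup (X ⧸ β)) (QuotientGroup.mk' β) Y
    rw [MonoidHom.comap_bot, QuotientGroup.ker_mk', Subgroup.relIndex_bot_left] at h1
    exact h1
  have hptop : p ∣ Nat.card (⊤ : Subgroup (X ⧸ β)) := by
    obtain ⟨H, -, hpH, -⟩ := (Cfsg.Agent.S3056.result p).mp hconn
    rw [Subgroup.card_top]
    exact hpH.trans (Subgroup.card_subgroup_dvd_card H)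
  obtain ⟨K', ⟨hK'n, hK'p⟩, hmin⟩ := WellFounded.has_min
    (measure fun K : Subgroup (X ⧸ β) => Nat.card K).wf
    {K : Subgroup (X ⧸ β) | K.Normal ∧ p ∣ Nat.card K} ⟨⊤, inferInstance, hptop⟩
  have hle : ∀ L' : Subgroup (X ⧸ β), L'.Normal → p ∣ Nat.card L' → K' ≤ L' := by
    intro L' hLn hLp
    haveI := hK'n
    haveI := hLn
    have h1 := Cfsg.Agent.S3058.result p hconn K' L' hK'p hLp
    have h2 : ¬ Nat.card (K' ⊓ L' : Subgroup (X ⧸ β)) < Nat.card K' :=
      hmin _ ⟨Subgroup.normal_inf_normal K' L', h1⟩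
    have h3 : K' ⊓ L' = K' := Subgroup.eq_of_le_of_card_ge inf_le_left (not_lt.mp h2)
    exact inf_eq_left.mp h3
  refine ⟨K'.comap (QuotientGroup.mk' β), ?_, hK'n.comap _, ?_, ?_⟩
  · intro b hb
    rw [Subgroup.mem_comap]
    have h1 : QuotientGroup.mk' β b = 1 := (QuotientGroup.eq_one_iff b).mpr hb
    rw [h1]; exact one_mem _
  · rw [hrel, Subgroup.map_comap_eq_self_of_surjective (QuotientGroup.mk'_surjective β)]
    exact hK'p
  · intro Y hβY hYn hpY
    rw [hrel] at hpY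
    have h1 := hle _ (hYn.map _ (QuotientGroup.mk'_surjective β)) hpY
    intro x hx
    obtain ⟨y, hy, hyx⟩ := h1 hx
    have h2 : y⁻¹ * x ∈ β := QuotientGroup.eq.mp hyx
    have e : x = y * (y⁻¹ * x) := by group
    rw [e]; exact mul_mem hy (hβY h2)

/-- Conditions (a)–(f) of the strong Alperin–Goldschmidt theorem. -/
def Ess (p : ℕ) (P H X : Subgroup G) : Prop :=
  H ≤ P ∧
  ¬ p ∣ (P ⊓ Subgroup.normalizer (H : Set G)).relIndex (Subgroup.normalizer (H : Set G)) ∧
  P ⊓ Subgroup.centralizer (H : Set G) ≤ H ∧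
  (Cfsg.pPrimePCore p ↥(Subgroup.normalizer (H : Set G))).map
      (Subgroup.normalizer (H : Set G)).subtype = H ⊔ Subgroup.centralizer (H : Set G) ∧
  ¬ Cfsg.IsSylowChainConnected p
      (↥(Subgroup.normalizer (H : Set G)) ⧸ H.subgroupOf (Subgroup.normalizer (H : Set G))) ∧
  (H ≤ X ∧ X ≤ Subgroup.normalizer (H : Set G) ∧
    (X.subgroupOf (Subgroup.normalizer (H : Set G))).Normal ∧ p ∣ H.relIndex X ∧
    ∀ Y : Subgroup G, H ≤ Y → Y ≤ Subgroup.normalizer (H : Set G) →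
      (Y.subgroupOf (Subgroup.normalizer (H : Set G))).Normal → p ∣ H.relIndex Y → X ≤ Y)

/-- The admissible steps: elements of `O^p(X)` for the smallest normal subgroup `X`. -/
def St (p : ℕ) (P : Subgroup G) (H : Subgroup G) (x : G) : Prop :=
  ∃ X : Subgroup G, Ess p P H X ∧ x ∈ (Cfsg.pResidual p ↥X).map X.subtype

/-- Case 4: `B` is a member of the family. -/
theorem case4 (P : Sylow p G) {m : ℕ} (ih : IHyp (St p (P : Subgroup G)) P m)
    {B N : Subgroup G} (hN : N = Subgroup.normalizer (B : Set G)) [hβn : (B.subgroupOf N).Normal]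
    (hBP : B ≤ (P : Subgroup G)) (hm : Nat.card B = m)
    (hfn : ¬ p ∣ ((P : Subgroup G) ⊓ N).relIndex N)
    (hc : (P : Subgroup G) ⊓ Subgroup.centralizer (B : Set G) ≤ B)
    (hd : (Cfsg.pPrimePCore p ↥N).map N.subtype = B ⊔ Subgroup.centralizer (B : Set G))
    (hconn : ¬ Cfsg.IsSylowChainConnected p (↥N ⧸ B.subgroupOf N)) :
    ∀ n ∈ N, Good (St p (P : Subgroup G)) (P : Subgroup G) (B : Set G) n := by
  have hBN : B ≤ N := hN ▸ Subgroup.le_normalizer
  have hNB : N ≤ Subgroup.normalizer (B : Set G) := hN.le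
  obtain ⟨K, hβK, hKn, hpK, hKmin⟩ := min_normal (B.subgroupOf N) hconn
  have hXN : K.map N.subtype ≤ N := Subgroup.map_subtype_le K
  have hBX : B ≤ K.map N.subtype := by
    intro b hb
    exact ⟨⟨b, hBN hb⟩, hβK (Subgroup.mem_subgroupOf.mpr hb), rfl⟩
  have hXsub : (K.map N.subtype).subgroupOf N = K :=
    Subgroup.comap_map_eq_self_of_injective (Subgroup.subtype_injective N) K
  have hXn : ((K.map N.subtype).subgroupOf N).Normal := by rw [hXsub]; exact hKn
  have hpX : p ∣ B.relIndex (K.map N.subtype) := by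
    rw [← Subgroup.relIndex_subgroupOf hXN, hXsub]; exact hpK
  have hXmin : ∀ Y : Subgroup G, B ≤ Y → Y ≤ N → (Y.subgroupOf N).Normal → p ∣ B.relIndex Y →
      K.map N.subtype ≤ Y := by
    intro Y hBY hYN hYn hpY
    have h1 : K ≤ Y.subgroupOf N := by
      apply hKmin _ _ hYn
      · rw [Subgroup.relIndex_subgroupOf hYN]; exact hpY
      · intro b hb
        exact Subgroup.mem_subgroupOf.mpr (hBY (Subgroup.mem_subgroupOf.mp hb))
    rintro _ ⟨k, hk, rfl⟩
    exact Subgroup.mem_subgroupOf.mp (h1 hk)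
  have hEss : Ess p (P : Subgroup G) B (K.map N.subtype) := by
    subst hN
    exact ⟨hBP, hfn, hc, hd, hconn, hBX, hXN, hXn, hpX, hXmin⟩
  have hNX : N ≤ Subgroup.normalizer ((K.map N.subtype : Subgroup G) : Set G) :=
    (Subgroup.normal_subgroupOf_iff_le_normalizer hXN).mp hXn
  have hQ0 : ¬ p ∣ ((P : Subgroup G) ⊓ N ⊓ K.map N.subtype).relIndex (K.map N.subtype) :=
    rel_sylow inf_le_right hfn hXN hNX
  have hQeq : (P : Subgroup G) ⊓ N ⊓ K.map N.subtype = (P : Subgroup G) ⊓ K.map N.subtype := by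
    rw [inf_assoc, inf_eq_right.mpr hXN]
  rw [hQeq] at hQ0
  have hQp : IsPGroup p ((P : Subgroup G) ⊓ K.map N.subtype : Subgroup G) :=
    P.isPGroup'.to_le inf_le_left
  have hBQ : B ≤ (P : Subgroup G) ⊓ K.map N.subtype := le_inf hBP hBX
  have hBneQ : B ≠ (P : Subgroup G) ⊓ K.map N.subtype := by
    intro h
    apply hQ0
    rw [← h]
    exact hpX
  have hcard : m < Nat.card ((P : Subgroup G) ⊓ K.map N.subtype : Subgroup G) :=
    hm ▸ card_lt_of_lt hBQ hBneQ
  have hdec : ∀ r ∈ K.map N.subtype,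
      ∃ k ∈ (Cfsg.pResidual p ↥(K.map N.subtype)).map (K.map N.subtype).subtype,
        ∃ q ∈ (P : Subgroup G) ⊓ K.map N.subtype, r = k * q := by
    intro r hr
    have hQs : IsPGroup p (((P : Subgroup G) ⊓ K.map N.subtype).subgroupOf (K.map N.subtype)) :=
      hQp.comap_subtype
    have h1 := le_pprime_closure_sup_sylow p (K.map N.subtype) (hQs.toSylow hQ0) hr
    rw [IsPGroup.toSylow_coe hQs hQ0, Subgroup.subgroupOf_map_subtype, inf_assoc, inf_idem] at h1
    have hle : Subgroup.closure {g : G | g ∈ K.map N.subtype ∧ (orderOf g).Coprime p} ≤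
        (Cfsg.pResidual p ↥(K.map N.subtype)).map (K.map N.subtype).subtype := by
      rw [Subgroup.closure_le]
      rintro g ⟨hg, hgo⟩
      refine ⟨⟨g, hg⟩, Subgroup.subset_closure ?_, rfl⟩
      show Nat.Coprime (orderOf (⟨g, hg⟩ : ↥(K.map N.subtype))) p
      rw [Subgroup.orderOf_mk]; exact hgo
    have h2 : r ∈ (Cfsg.pResidual p ↥(K.map N.subtype)).map (K.map N.subtype).subtype ⊔
        ((P : Subgroup G) ⊓ K.map N.subtype) := sup_le_sup_right hle _ h1
    have hnorm : (P : Subgroup G) ⊓ K.map N.subtype ≤ Subgroup.normalizer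
        (((Cfsg.pResidual p ↥(K.map N.subtype)).map (K.map N.subtype).subtype : Subgroup G) :
          Set G) := by
      intro q hq
      haveI : (Cfsg.pResidual p ↥(K.map N.subtype)).Normal := pResidual_normal_h15 p _
      have h3 : (⟨q, hq.2⟩ : ↥(K.map N.subtype)) ∈ Subgroup.normalizer
          ((Cfsg.pResidual p ↥(K.map N.subtype) : Subgroup _) : Set _) := by
        rw [Subgroup.normalizer_eq_top]; exact Subgroup.mem_top _
      exact coe_mem_normalizer_map h3
    have h3 : r ∈ ((((Cfsg.pResidual p ↥(K.map N.subtype)).map (K.map N.subtype).subtype ⊔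
        ((P : Subgroup G) ⊓ K.map N.subtype) : Subgroup G)) : Set G) := h2
    rw [Subgroup.coe_mul_of_right_le_normalizer_left _ _ hnorm] at h3
    obtain ⟨k, hk, q, hq, rfl⟩ := Set.mem_mul.mp h3
    exact ⟨k, hk, q, hq, rfl⟩
  intro n hn
  obtain ⟨r, hr, x, hx, rfl⟩ := rel_frattini hNX inf_le_right hQp hQ0 hn
  obtain ⟨k, hk, q, hq, rfl⟩ := hdec r hr
  have hkX : k ∈ K.map N.subtype := by
    obtain ⟨k', -, rfl⟩ := hk
    exact k'.2
  have e : k * q * x = k * (q * x) := mul_assoc _ _ _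
  rw [e]
  apply (good_single (St := St p (P : Subgroup G)) (P := (P : Subgroup G))
    ⟨K.map N.subtype, hEss, hk⟩ (subset_refl _)).comp
  intro y hy
  refine ih_conj P ih inf_le_left hcard ?_ ?_ hy
  · intro a ha
    have hqx : q * x ∈ Subgroup.normalizer
        ((((P : Subgroup G) ⊓ K.map N.subtype : Subgroup G)) : Set G) :=
      mul_mem (Subgroup.le_normalizer hq) hx
    have h2 := (Subgroup.mem_normalizer_iff.mp (inv_mem hqx) a).mp ha
    rw [inv_inv] at h2
    exact h2.1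
  · rintro _ ⟨b, hb, rfl⟩
    apply hBQ
    have h2 := (Subgroup.mem_normalizer_iff.mp (inv_mem (hNB (hXN hkX))) b).mp hb
    rw [inv_inv] at h2
    exact h2

/-- Every automorphism of a fully normalized proper subgroup `B` of `P` induced by `G` is good. -/
theorem aut_good (P : Sylow p G) {m : ℕ} (ih : IHyp (St p (P : Subgroup G)) P m)
    {B : Subgroup G} (hBP : B ≤ (P : Subgroup G)) (hm : Nat.card B = m)
    (hne : B ≠ (P : Subgroup G))
    (hfn : ¬ p ∣ ((P : Subgroup G) ⊓ Subgroup.normalizer (B : Set G)).relIndex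
      (Subgroup.normalizer (B : Set G))) :
    ∀ n ∈ Subgroup.normalizer (B : Set G),
      Good (St p (P : Subgroup G)) (P : Subgroup G) (B : Set G) n := by
  by_cases hc : (P : Subgroup G) ⊓ Subgroup.centralizer (B : Set G) ≤ B
  swap
  · exact case1 P ih hBP hm hfn hc
  have hSp : IsPGroup p ((P : Subgroup G) ⊓ Subgroup.normalizer (B : Set G) : Subgroup G) :=
    P.isPGroup'.to_le inf_le_left
  obtain ⟨Q, hBQ, hQS, hfac, hle, hBR⟩ := ppc_struct (N := Subgroup.normalizer (B : Set G))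
    (S := (P : Subgroup G) ⊓ Subgroup.normalizer (B : Set G)) Subgroup.le_normalizer le_rfl hSp
    (le_inf hBP Subgroup.le_normalizer) hfn
  by_cases hQB : Q = B
  · have hd : (Cfsg.pPrimePCore p ↥(Subgroup.normalizer (B : Set G))).map
        (Subgroup.normalizer (B : Set G)).subtype = B ⊔ Subgroup.centralizer (B : Set G) := by
      apply le_antisymm
      · rw [hQB] at hle; rw [sup_comm]; exact hle
      · apply sup_le hBR
        have h1 := cent_le_ppc (N := Subgroup.normalizer (B : Set G))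
          (S := (P : Subgroup G) ⊓ Subgroup.normalizer (B : Set G)) le_rfl hSp hfn
          ((inf_le_inf_right _ inf_le_left).trans hc)
        rw [inf_eq_left.mpr (Subgroup.centralizer_le_normalizer _)] at h1
        exact h1
    by_cases hconn : Cfsg.IsSylowChainConnected p
        (↥(Subgroup.normalizer (B : Set G)) ⧸ B.subgroupOf (Subgroup.normalizer (B : Set G)))
    · exact case3 P ih rfl hBP hm hne hfn hconn
    · exact case4 P ih rfl hBP hm hfn hc hd hconn
  · intro n hn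
    obtain ⟨o, ho, x, hx, rfl⟩ := hfac n hn
    exact (good_lift P ih hm hBQ (Ne.symm hQB) (hQS.trans inf_le_left) hx).cent_mul ho

end Cfsg.Agent.Lib.helper15.AG
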