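import Mathlib
import Cfsg.Agent.Lib.helper15.AGAut

set_option autoImplicit false

namespace Cfsg.Agent.Lib.helper15.AG

open Cfsg Cfsg.Agent.Lib.helper10

variable {G : Type*} [Group G] [Finite G] {p : ℕ} [Fact p.Prime]

/-- Full normalization is preserved by conjugation with elements of `N(P)`. -/
theorem fn_conj (P : Sylow p G) {U : Subgroup G} {y : G}
    (hy : y ∈ Subgroup.normalizer ((P : Subgroup G) : Set G))
    (hfn : ¬ p ∣ ((P : Subgroup G) ⊓ Subgroup.normalizer (U : Set G)).relIndex
      (Subgroup.normalizer (U : Set G))) :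
    ¬ p ∣ ((P : Subgroup G) ⊓ Subgroup.normalizer
      ((U.map (MulAut.conj y).toMonoidHom : Subgroup G) : Set G)).relIndex
      (Subgroup.normalizer ((U.map (MulAut.conj y).toMonoidHom : Subgroup G) : Set G)) := by
  have e1 : (P : Subgroup G) ⊓ Subgroup.normalizer
      ((U.map (MulAut.conj y).toMonoidHom : Subgroup G) : Set G) =
      ((P : Subgroup G) ⊓ Subgroup.normalizer (U : Set G)).map (MulAut.conj y).toMonoidHom := by
    rw [map_conj_inf, map_conj_eq_of_mem_normalizer _ _ hy, normalizer_map_conj]
  rw [e1, normalizer_map_conj, relIndex_map_conj]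
  exact hfn

/-- The strong Alperin–Goldschmidt theorem, in chain form. -/
theorem main (P : Sylow p G) : ∀ (k : ℕ) (A : Subgroup G), A ≤ (P : Subgroup G) →
    Nat.card (P : Subgroup G) - Nat.card A = k →
    ∀ g : G, (∀ a ∈ A, g⁻¹ * a * g ∈ (P : Subgroup G)) →
      Good (St p (P : Subgroup G)) (P : Subgroup G) (A : Set G) g := by
  intro k
  induction k using Nat.strong_induction_on with
  | _ k ihk =>
  intro A hAS hk g hg
  have ih : IHyp (St p (P : Subgroup G)) P (Nat.card A) := by
    intro E hE hm g' hg'
    have hle : Nat.card E ≤ Nat.card (P : Subgroup G) := Subgroup.card_le_of_le hE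
    exact ihk (Nat.card (P : Subgroup G) - Nat.card E) (by omega) E hE rfl g' hg'
  by_cases hA : A = (P : Subgroup G)
  · have hle : (P : Subgroup G).map (MulAut.conj g⁻¹).toMonoidHom ≤ (P : Subgroup G) := by
      rw [map_conj_le_iff]
      intro a ha
      have h1 := hg a (hA ▸ ha)
      simpa using h1
    have heq : (P : Subgroup G).map (MulAut.conj g⁻¹).toMonoidHom = (P : Subgroup G) :=
      Subgroup.eq_of_le_of_card_ge hle
        (by rw [Subgroup.card_map_of_injective (conj_injective _)])
    have hgN : g ∈ Subgroup.normalizer ((P : Subgroup G) : Set G) := by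
      have h1 := Subgroup.inv_mem _ (mem_normalizer_of_map_conj_eq _ _ heq)
      simpa using h1
    exact good_of_norm _ hgN
  · obtain ⟨U, h1, hh1, hUS, hidx, hh1N⟩ := exists_extremal_conj' P A hAS
    obtain ⟨D, hD⟩ : ∃ D : Subgroup G, D = A.map (MulAut.conj g⁻¹).toMonoidHom := ⟨_, rfl⟩
    have hDS : D ≤ (P : Subgroup G) := by
      rw [hD, map_conj_le_iff]
      intro a ha
      have h2 := hg a ha
      simpa using h2
    have hvD : D.map (MulAut.conj (h1 * g)).toMonoidHom = U := by
      rw [hD, map_conj_mul]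
      have e : h1 * g * g⁻¹ = h1 := by group
      rw [e, hh1]
    obtain ⟨h2, hh2, -, hh2N⟩ := exists_conj_normalizer_le P (h1 * g) hvD hidx
    have cardD : Nat.card D = Nat.card A := by
      rw [hD, Subgroup.card_map_of_injective (conj_injective _)]
    have cardU : Nat.card U = Nat.card A := by
      rw [← hh1, Subgroup.card_map_of_injective (conj_injective _)]
    have hcardS : Nat.card A < Nat.card (P : Subgroup G) := card_lt_of_lt hAS hA
    have hgrow : ∀ C : Subgroup G, C ≤ (P : Subgroup G) → Nat.card C = Nat.card A →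
        Nat.card A < Nat.card ↥((P : Subgroup G) ⊓ Subgroup.normalizer (C : Set G)) := by
      intro C hCS hcard
      have hCne : C ≠ (P : Subgroup G) := by
        intro hC; rw [hC] at hcard; omega
      obtain ⟨x, hxS, hxN, hxC⟩ := exists_mem_normalizer_not_mem P.isPGroup' hCS hCne
      rw [← hcard]
      apply card_lt_of_lt (le_inf hCS Subgroup.le_normalizer)
      intro h
      apply hxC
      rw [h]
      exact ⟨hxS, hxN⟩
    have hz : h1 * g * h2⁻¹ ∈ Subgroup.normalizer (U : Set G) := by
      have hinv : (h1 * g * h2⁻¹)⁻¹ ∈ Subgroup.normalizer (U : Set G) := by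
        apply mem_normalizer_of_map_conj_eq
        have e : (h1 * g * h2⁻¹)⁻¹ = h2 * (g⁻¹ * h1⁻¹) := by group
        have e1 : U.map (MulAut.conj h1⁻¹).toMonoidHom = A := by
          rw [← hh1, map_conj_inv_cancel]
        rw [e, ← map_conj_mul, ← map_conj_mul, e1, ← hD, hh2]
      have h3 := Subgroup.inv_mem _ hinv
      simpa using h3
    -- step 1
    have G1 : Good (St p (P : Subgroup G)) (P : Subgroup G) (A : Set G) h1⁻¹ := by
      have h3 := ih ((P : Subgroup G) ⊓ Subgroup.normalizer (A : Set G)) inf_le_left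
        (hgrow A hAS rfl) h1⁻¹ (by
          intro a ha
          have h4 := (hh1N a ha).1
          have e : (h1⁻¹)⁻¹ * a * h1⁻¹ = h1 * a * h1⁻¹ := by group
          rw [e]; exact h4)
      exact h3.mono (fun a ha => ⟨hAS ha, Subgroup.le_normalizer ha⟩)
    -- step 2
    have G2 : Good (St p (P : Subgroup G)) (P : Subgroup G) (A : Set G)
        (h1⁻¹ * (h1 * g * h2⁻¹)) := by
      apply G1.comp
      intro y hy
      have hUy : U.map (MulAut.conj y).toMonoidHom ≤ (P : Subgroup G) := by
        rw [map_conj_le_iff]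
        intro x hx
        exact (Subgroup.mem_normalizer_iff.mp hy x).mp (hUS hx)
      have hcardUy : Nat.card (U.map (MulAut.conj y).toMonoidHom) = Nat.card A := by
        rw [Subgroup.card_map_of_injective (conj_injective _), cardU]
      have hneUy : U.map (MulAut.conj y).toMonoidHom ≠ (P : Subgroup G) := by
        intro h; rw [h] at hcardUy; omega
      have hmemn : y * (h1 * g * h2⁻¹) * y⁻¹ ∈ Subgroup.normalizer
          ((U.map (MulAut.conj y).toMonoidHom : Subgroup G) : Set G) := by
        rw [normalizer_map_conj]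
        exact conj_mem_map_conj _ y _ hz
      have h3 := (aut_good P ih hUy hcardUy hneUy (fn_conj P hy hidx) _ hmemn).mul_norm hy
      have e : y * (h1 * g * h2⁻¹) * y⁻¹ * y = y * (h1 * g * h2⁻¹) := by group
      rw [e] at h3
      apply h3.mono
      rintro _ ⟨_, ⟨a, ha, rfl⟩, rfl⟩
      apply conj_mem_map_conj U y
      rw [← hh1]
      have h4 := conj_mem_map_conj A h1 a ha
      simpa using h4
    -- step 3
    have G3 : Good (St p (P : Subgroup G)) (P : Subgroup G) (A : Set G)
        (h1⁻¹ * (h1 * g * h2⁻¹) * h2) := by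
      apply G2.comp
      intro y hy
      have hE : ((P : Subgroup G) ⊓ Subgroup.normalizer (D : Set G)).map
          (MulAut.conj h2).toMonoidHom ≤ (P : Subgroup G) := by
        rw [map_conj_le_iff]
        intro a ha
        exact (hh2N a ha).1
      have hcardE : Nat.card A < Nat.card (((P : Subgroup G) ⊓ Subgroup.normalizer (D : Set G)).map
          (MulAut.conj h2).toMonoidHom) := by
        rw [Subgroup.card_map_of_injective (conj_injective _)]
        exact hgrow D hDS cardD
      refine ih_conj P ih hE hcardE ?_ ?_ hy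
      · intro a ha
        rw [mem_map_conj] at ha
        exact ha.1
      · rintro _ ⟨a, ha, rfl⟩
        have hU : U ≤ ((P : Subgroup G) ⊓ Subgroup.normalizer (D : Set G)).map
            (MulAut.conj h2).toMonoidHom := by
          rw [← hh2]
          exact Subgroup.map_mono (le_inf hDS Subgroup.le_normalizer)
        apply hU
        have h4 : h1 * a * h1⁻¹ ∈ U := by
          rw [← hh1]; exact conj_mem_map_conj A h1 a ha
        have h5 := (Subgroup.mem_normalizer_iff.mp (inv_mem hz) _).mp h4
        have e : (h1⁻¹ * (h1 * g * h2⁻¹))⁻¹ * a * (h1⁻¹ * (h1 * g * h2⁻¹)) =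
            (h1 * g * h2⁻¹)⁻¹ * (h1 * a * h1⁻¹) * (h1 * g * h2⁻¹)⁻¹⁻¹ := by group
        show (h1⁻¹ * (h1 * g * h2⁻¹))⁻¹ * a * (h1⁻¹ * (h1 * g * h2⁻¹)) ∈ U
        rw [e]; exact h5
    have e : h1⁻¹ * (h1 * g * h2⁻¹) * h2 = g := by group
    rw [e] at G3
    exact G3

end Cfsg.Agent.Lib.helper15.AG
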