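import Cfsg.Prelude.Def_BaumannBlocks
import Cfsg.Agent.Lib.helper15.CD

set_option autoImplicit false

namespace Cfsg.Agent.Lib.helper15

open scoped Pointwise

theorem maxCentralizerProduct_spec (S : Type*) [Group S] [Finite S] :
    (∃ R : Subgroup S, cdm R = Cfsg.maxCentralizerProduct S) ∧
      ∀ R : Subgroup S, cdm R ≤ Cfsg.maxCentralizerProduct S := by
  have hfin : {k : ℕ | ∃ R : Subgroup S,
      Nat.card ↥R * Nat.card ↥(Subgroup.centralizer (R : Set S)) = k}.Finite := by
    have e : {k : ℕ | ∃ R : Subgroup S,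
        Nat.card ↥R * Nat.card ↥(Subgroup.centralizer (R : Set S)) = k} =
        Set.range (fun R : Subgroup S => cdm R) := rfl
    rw [e]; exact Set.finite_range _
  have hne : {k : ℕ | ∃ R : Subgroup S,
      Nat.card ↥R * Nat.card ↥(Subgroup.centralizer (R : Set S)) = k}.Nonempty := ⟨_, ⊥, rfl⟩
  constructor
  · exact Nat.sSup_mem hne hfin.bddAbove
  · intro R
    exact le_csSup hfin.bddAbove ⟨R, rfl⟩

theorem isCentralizerLarge_iff {S : Type*} [Group S] [Finite S] (R : Subgroup S) :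
    Cfsg.IsCentralizerLarge R ↔ IsCD R := by
  obtain ⟨⟨R', hR'⟩, hle⟩ := maxCentralizerProduct_spec S
  constructor
  · intro hR K
    have hR2 : cdm R = Cfsg.maxCentralizerProduct S := hR
    rw [hR2]; exact hle K
  · intro hR
    have h1 : Cfsg.maxCentralizerProduct S ≤ cdm R := by rw [← hR']; exact hR R'
    exact le_antisymm (hle R) h1

/-- The measure `|R| · |Z(R)|`. -/
noncomputable def czm {S : Type*} [Group S] (R : Subgroup S) : ℕ :=
  Nat.card ↥R * Nat.card ↥(Subgroup.center ↥R)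

theorem card_center_eq {S : Type*} [Group S] (R : Subgroup S) :
    Nat.card ↥(Subgroup.center ↥R) = Nat.card ↥(R ⊓ Subgroup.centralizer (R : Set S)) := by
  have e : (Subgroup.center ↥R).map R.subtype = R ⊓ Subgroup.centralizer (R : Set S) := by
    ext x
    constructor
    · rintro ⟨y, hy, rfl⟩
      refine Subgroup.mem_inf.mpr ⟨y.2, ?_⟩
      rw [Subgroup.mem_centralizer_iff]
      intro h hh
      have := Subgroup.mem_center_iff.mp hy ⟨h, hh⟩
      exact congrArg Subtype.val this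
    · intro hx
      have hxR := (Subgroup.mem_inf.mp hx).1
      have hxC := (Subgroup.mem_inf.mp hx).2
      refine ⟨⟨x, hxR⟩, ?_, rfl⟩
      rw [SetLike.mem_coe, Subgroup.mem_center_iff]
      intro g
      apply Subtype.ext
      exact Subgroup.mem_centralizer_iff.mp hxC g g.2
  rw [← e, Subgroup.card_map_of_injective R.subtype_injective]

theorem czm_le_cdm {S : Type*} [Group S] [Finite S] (R : Subgroup S) : czm R ≤ cdm R := by
  unfold czm cdm
  rw [card_center_eq]
  exact Nat.mul_le_mul_left _ (Subgroup.card_le_of_le inf_le_right)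

theorem czm_eq_cdm_iff {S : Type*} [Group S] [Finite S] (R : Subgroup S) :
    czm R = cdm R ↔ Subgroup.centralizer (R : Set S) ≤ R := by
  unfold czm cdm
  rw [card_center_eq]
  constructor
  · intro h
    have h1 := Nat.eq_of_mul_eq_mul_left Nat.card_pos h
    have h2 : R ⊓ Subgroup.centralizer (R : Set S) = Subgroup.centralizer (R : Set S) :=
      Subgroup.eq_of_le_of_card_ge inf_le_right (le_of_eq h1.symm)
    exact inf_eq_right.mp h2
  · intro h
    rw [inf_eq_right.mpr h]

theorem exists_isCD_selfcentralizing (S : Type*) [Group S] [Finite S] :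
    ∃ T : Subgroup S, IsCD T ∧ Subgroup.centralizer (T : Set S) ≤ T := by
  obtain ⟨Q, hQ⟩ := exists_isCD S
  refine ⟨Q ⊔ Subgroup.centralizer (Q : Set S), hQ.sup hQ.centralizer, ?_⟩
  rw [centralizer_sup_eq, ← hQ.eq_centralizer_centralizer]
  exact le_trans inf_le_right le_sup_left

theorem maxCentralProduct_spec (S : Type*) [Group S] [Finite S] :
    (∃ R : Subgroup S, czm R = Cfsg.maxCentralProduct S) ∧
      ∀ R : Subgroup S, czm R ≤ Cfsg.maxCentralProduct S := by
  have hfin : {k : ℕ | ∃ R : Subgroup S,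
      Nat.card ↥R * Nat.card ↥(Subgroup.center ↥R) = k}.Finite := by
    have e : {k : ℕ | ∃ R : Subgroup S,
        Nat.card ↥R * Nat.card ↥(Subgroup.center ↥R) = k} =
        Set.range (fun R : Subgroup S => czm R) := rfl
    rw [e]; exact Set.finite_range _
  have hne : {k : ℕ | ∃ R : Subgroup S,
      Nat.card ↥R * Nat.card ↥(Subgroup.center ↥R) = k}.Nonempty := ⟨_, ⊥, rfl⟩
  constructor
  · exact Nat.sSup_mem hne hfin.bddAbove
  · intro R
    exact le_csSup hfin.bddAbove ⟨R, rfl⟩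

theorem isCentrallyLarge_iff {S : Type*} [Group S] [Finite S] (R : Subgroup S) :
    Cfsg.IsCentrallyLarge R ↔ IsCD R ∧ Subgroup.centralizer (R : Set S) ≤ R := by
  obtain ⟨⟨R', hR'⟩, hle⟩ := maxCentralProduct_spec S
  obtain ⟨T, hT, hTc⟩ := exists_isCD_selfcentralizing S
  have hTz : czm T = cdm T := (czm_eq_cdm_iff T).mpr hTc
  have hmax : Cfsg.maxCentralProduct S = cdm T := by
    apply le_antisymm
    · rw [← hR']
      exact le_trans (czm_le_cdm R') (hT R')
    · rw [← hTz]; exact hle T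
  constructor
  · intro hR
    have hR2 : czm R = Cfsg.maxCentralProduct S := hR
    rw [hmax] at hR2
    have h1 : cdm T ≤ cdm R := by rw [← hR2]; exact czm_le_cdm R
    have h2 : czm R = cdm R := le_antisymm (czm_le_cdm R) (by rw [hR2]; exact hT R)
    exact ⟨isCD_of_cdm_le hT h1, (czm_eq_cdm_iff R).mp h2⟩
  · rintro ⟨hR, hRc⟩
    show czm R = Cfsg.maxCentralProduct S
    rw [hmax, (czm_eq_cdm_iff R).mpr hRc]
    exact hR.cdm_eq hT

theorem isCentrallyLarge_sup {S : Type*} [Group S] [Finite S] {Q R : Subgroup S}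
    (hQ : Cfsg.IsCentrallyLarge Q) (hR : Cfsg.IsCentrallyLarge R) :
    Cfsg.IsCentrallyLarge (Q ⊔ R) := by
  rw [isCentrallyLarge_iff] at hQ hR ⊢
  refine ⟨hQ.1.sup hR.1, ?_⟩
  rw [centralizer_sup_eq]
  exact le_trans inf_le_left (le_trans hQ.2 le_sup_left)

theorem exists_isCentrallyLarge (S : Type*) [Group S] [Finite S] :
    ∃ T : Subgroup S, Cfsg.IsCentrallyLarge T := by
  obtain ⟨T, hT, hTc⟩ := exists_isCD_selfcentralizing S
  exact ⟨T, (isCentrallyLarge_iff T).mpr ⟨hT, hTc⟩⟩

theorem exists_isMinimalCentrallyLarge_le {S : Type*} [Group S] [Finite S] (T : Subgroup S)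
    (hT : Cfsg.IsCentrallyLarge T) :
    ∃ R : Subgroup S, Cfsg.IsMinimalCentrallyLarge R ∧ R ≤ T := by
  obtain ⟨R, ⟨hR1, hR2⟩, hRmin⟩ := Set.exists_min_image
    {R : Subgroup S | Cfsg.IsCentrallyLarge R ∧ R ≤ T} (fun R => Nat.card R) (Set.toFinite _)
    ⟨T, hT, le_rfl⟩
  refine ⟨R, ⟨hR1, ?_⟩, hR2⟩
  intro R' hR'R hR'
  have := hRmin R' ⟨hR', le_trans hR'R hR2⟩
  exact Subgroup.eq_of_le_of_card_ge hR'R this

theorem centrallyLargeJoin_isCentrallyLarge (S : Type*) [Group S] [Finite S] :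
    Cfsg.IsCentrallyLarge (Cfsg.centrallyLargeJoin S) := by
  obtain ⟨T, hT⟩ := exists_isCentrallyLarge S
  exact sSup_mem_of_sup_closed (C := {R : Subgroup S | Cfsg.IsCentrallyLarge R})
    (fun A hA B hB => isCentrallyLarge_sup hA hB) (fun _ h => h) ⟨T, hT⟩

theorem minimalCentrallyLargeJoin_isCentrallyLarge (S : Type*) [Group S] [Finite S] :
    Cfsg.IsCentrallyLarge (Cfsg.minimalCentrallyLargeJoin S) := by
  obtain ⟨T, hT⟩ := exists_isCentrallyLarge S
  obtain ⟨R, hR, -⟩ := exists_isMinimalCentrallyLarge_le T hT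
  exact sSup_mem_of_sup_closed (C := {R : Subgroup S | Cfsg.IsCentrallyLarge R})
    (fun A hA B hB => isCentrallyLarge_sup hA hB) (fun _ h => h.1) ⟨R, hR⟩

end Cfsg.Agent.Lib.helper15
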