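import Cfsg.Prelude.Def_PLocal
import Cfsg.Agent.Lib.helper15.CDB

set_option autoImplicit false

namespace Cfsg.Agent.Lib.helper15

open scoped Pointwise

theorem exists_maxAbelian (S : Type*) [Group S] [Finite S] :
    ∃ A : Subgroup S, A ∈ Cfsg.maxAbelianSubgroups S := by
  have hbot : IsMulCommutative ↥(⊥ : Subgroup S) := by
    rw [← Subgroup.le_centralizer_iff_isMulCommutative]; exact bot_le
  obtain ⟨A, hA, hmax⟩ := Set.exists_max_image {B : Subgroup S | IsMulCommutative ↥B}
    (fun B => Nat.card B) (Set.toFinite _) ⟨⊥, hbot⟩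
  exact ⟨A, hA, fun B hB => hmax B hB⟩

theorem maxAbelian_centralizer_le {S : Type*} [Group S] [Finite S] {B : Subgroup S}
    (hB : B ∈ Cfsg.maxAbelianSubgroups S) : Subgroup.centralizer (B : Set S) ≤ B := by
  intro y hy
  have hB1 : IsMulCommutative ↥B := hB.1
  have hab : IsMulCommutative ↥(B ⊔ Subgroup.zpowers y) := by
    rw [← Subgroup.le_centralizer_iff_isMulCommutative, centralizer_sup_eq]
    have hz : Subgroup.zpowers y ≤ Subgroup.centralizer (B : Set S) := by
      rw [Subgroup.zpowers_le]; exact hy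
    apply sup_le
    · exact le_inf (Subgroup.le_centralizer B) (Subgroup.le_centralizer_iff.mp hz)
    · refine le_inf hz ?_
      exact Subgroup.le_centralizer (Subgroup.zpowers y)
  have hcard := hB.2 _ hab
  have heq : B = B ⊔ Subgroup.zpowers y := Subgroup.eq_of_le_of_card_ge le_sup_left hcard
  exact (le_of_eq heq.symm) (Subgroup.mem_sup_right (Subgroup.mem_zpowers y))

/-- Glauberman: a centrally large subgroup `Q` and an abelian subgroup `A` of largest order. -/
theorem cl_sup_maxAbelian {S : Type*} [Group S] [Finite S] {Q A : Subgroup S} (hQ : IsCD Q)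
    (hQc : Subgroup.centralizer (Q : Set S) ≤ Q) (hA : A ∈ Cfsg.maxAbelianSubgroups S) :
    IsCD (Q ⊔ A) ∧
    Subgroup.centralizer ((Q ⊔ A : Subgroup S) : Set S) = A ⊓ Subgroup.centralizer (Q : Set S) ∧
    Nat.card Q * Nat.card A = Nat.card (Q ⊔ A : Subgroup S) * Nat.card (Q ⊓ A : Subgroup S) ∧
    (A ⊓ Q) ⊔ Subgroup.centralizer (Q : Set S) ∈ Cfsg.maxAbelianSubgroups S := by
  have hA1 : IsMulCommutative ↥A := hA.1
  have hZQ : Subgroup.centralizer (Q : Set S) ≤
      Subgroup.centralizer ((Subgroup.centralizer (Q : Set S) : Subgroup S) : Set S) :=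
    le_trans hQc (le_centralizer_centralizer' Q)
  have hBab : IsMulCommutative ↥((A ⊓ Q) ⊔ Subgroup.centralizer (Q : Set S)) := by
    rw [← Subgroup.le_centralizer_iff_isMulCommutative, centralizer_sup_eq]
    apply sup_le
    · refine le_inf ?_ (le_trans inf_le_right (le_centralizer_centralizer' Q))
      exact le_trans inf_le_left (le_trans (Subgroup.le_centralizer A)
        (Subgroup.centralizer_le (SetLike.coe_subset_coe.mpr inf_le_left)))
    · exact le_inf (Subgroup.centralizer_le (SetLike.coe_subset_coe.mpr inf_le_right)) hZQ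
  have hb := hA.2 _ hBab
  have hi' := card_mul_card_le (A ⊓ Q) (Subgroup.centralizer (Q : Set S))
  have einf : (A ⊓ Q) ⊓ Subgroup.centralizer (Q : Set S) = A ⊓ Subgroup.centralizer (Q : Set S) := by
    rw [inf_assoc, inf_eq_right.mpr hQc]
  rw [einf] at hi'
  have hii := card_mul_card_le Q A
  have hiii : A ⊓ Subgroup.centralizer (Q : Set S) ≤
      Subgroup.centralizer ((Q ⊔ A : Subgroup S) : Set S) := by
    rw [centralizer_sup_eq]
    exact le_inf inf_le_right (le_trans inf_le_left (Subgroup.le_centralizer A))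
  have hw := Subgroup.card_le_of_le hiii
  have hiv : cdm (Q ⊔ A) ≤ cdm Q := hQ _
  unfold cdm at hiv
  have eqi : Nat.card (A ⊓ Q : Subgroup S) = Nat.card (Q ⊓ A : Subgroup S) := by rw [inf_comm]
  rw [eqi] at hi'
  have hq : 0 < Nat.card Q := Nat.card_pos
  have hwpos : 0 < Nat.card (A ⊓ Subgroup.centralizer (Q : Set S) : Subgroup S) := Nat.card_pos
  have hspos : 0 < Nat.card (Q ⊔ A : Subgroup S) := Nat.card_pos
  have hipos : 0 < Nat.card (Q ⊓ A : Subgroup S) := Nat.card_pos
  have h12 : Nat.card Q * Nat.card (Subgroup.centralizer (Q : Set S)) * Nat.card (Q ⊓ A : Subgroup S)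
      ≤ Nat.card Q * Nat.card ((A ⊓ Q) ⊔ Subgroup.centralizer (Q : Set S) : Subgroup S) *
        Nat.card (A ⊓ Subgroup.centralizer (Q : Set S) : Subgroup S) := by
    have := Nat.mul_le_mul_left (Nat.card Q) hi'
    calc Nat.card Q * Nat.card (Subgroup.centralizer (Q : Set S)) *
          Nat.card (Q ⊓ A : Subgroup S)
        = Nat.card Q * (Nat.card (Q ⊓ A : Subgroup S) *
          Nat.card (Subgroup.centralizer (Q : Set S))) := by ring
      _ ≤ Nat.card Q * (Nat.card ((A ⊓ Q) ⊔ Subgroup.centralizer (Q : Set S) : Subgroup S) *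
          Nat.card (A ⊓ Subgroup.centralizer (Q : Set S) : Subgroup S)) := this
      _ = _ := by ring
  have h23 : Nat.card Q * Nat.card ((A ⊓ Q) ⊔ Subgroup.centralizer (Q : Set S) : Subgroup S) *
        Nat.card (A ⊓ Subgroup.centralizer (Q : Set S) : Subgroup S) ≤
      Nat.card Q * Nat.card A * Nat.card (A ⊓ Subgroup.centralizer (Q : Set S) : Subgroup S) :=
    Nat.mul_le_mul_right _ (Nat.mul_le_mul_left _ hb)
  have h34 : Nat.card Q * Nat.card A *
        Nat.card (A ⊓ Subgroup.centralizer (Q : Set S) : Subgroup S) ≤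
      Nat.card (Q ⊔ A : Subgroup S) * Nat.card (Q ⊓ A : Subgroup S) *
        Nat.card (A ⊓ Subgroup.centralizer (Q : Set S) : Subgroup S) :=
    Nat.mul_le_mul_right _ hii
  have h45 : Nat.card (Q ⊔ A : Subgroup S) * Nat.card (Q ⊓ A : Subgroup S) *
        Nat.card (A ⊓ Subgroup.centralizer (Q : Set S) : Subgroup S) ≤
      Nat.card (Q ⊔ A : Subgroup S) * Nat.card (Q ⊓ A : Subgroup S) *
        Nat.card (Subgroup.centralizer ((Q ⊔ A : Subgroup S) : Set S)) :=
    Nat.mul_le_mul_left _ hw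
  have h51 : Nat.card (Q ⊔ A : Subgroup S) * Nat.card (Q ⊓ A : Subgroup S) *
        Nat.card (Subgroup.centralizer ((Q ⊔ A : Subgroup S) : Set S)) ≤
      Nat.card Q * Nat.card (Subgroup.centralizer (Q : Set S)) * Nat.card (Q ⊓ A : Subgroup S) := by
    have := Nat.mul_le_mul_right (Nat.card (Q ⊓ A : Subgroup S)) hiv
    calc Nat.card (Q ⊔ A : Subgroup S) * Nat.card (Q ⊓ A : Subgroup S) *
          Nat.card (Subgroup.centralizer ((Q ⊔ A : Subgroup S) : Set S))
        = Nat.card (Q ⊔ A : Subgroup S) *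
          Nat.card (Subgroup.centralizer ((Q ⊔ A : Subgroup S) : Set S)) *
          Nat.card (Q ⊓ A : Subgroup S) := by ring
      _ ≤ _ := this
  have e23 : Nat.card Q * Nat.card ((A ⊓ Q) ⊔ Subgroup.centralizer (Q : Set S) : Subgroup S) *
        Nat.card (A ⊓ Subgroup.centralizer (Q : Set S) : Subgroup S) =
      Nat.card Q * Nat.card A * Nat.card (A ⊓ Subgroup.centralizer (Q : Set S) : Subgroup S) :=
    le_antisymm h23 (by linarith)
  have e34 : Nat.card Q * Nat.card A *
        Nat.card (A ⊓ Subgroup.centralizer (Q : Set S) : Subgroup S) =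
      Nat.card (Q ⊔ A : Subgroup S) * Nat.card (Q ⊓ A : Subgroup S) *
        Nat.card (A ⊓ Subgroup.centralizer (Q : Set S) : Subgroup S) :=
    le_antisymm h34 (by linarith)
  have e45 : Nat.card (Q ⊔ A : Subgroup S) * Nat.card (Q ⊓ A : Subgroup S) *
        Nat.card (A ⊓ Subgroup.centralizer (Q : Set S) : Subgroup S) =
      Nat.card (Q ⊔ A : Subgroup S) * Nat.card (Q ⊓ A : Subgroup S) *
        Nat.card (Subgroup.centralizer ((Q ⊔ A : Subgroup S) : Set S)) :=
    le_antisymm h45 (by linarith)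
  have e51 : Nat.card (Q ⊔ A : Subgroup S) * Nat.card (Q ⊓ A : Subgroup S) *
        Nat.card (Subgroup.centralizer ((Q ⊔ A : Subgroup S) : Set S)) =
      Nat.card Q * Nat.card (Subgroup.centralizer (Q : Set S)) * Nat.card (Q ⊓ A : Subgroup S) :=
    le_antisymm h51 (by linarith)
  have E1 : Nat.card ((A ⊓ Q) ⊔ Subgroup.centralizer (Q : Set S) : Subgroup S) = Nat.card A :=
    Nat.eq_of_mul_eq_mul_left hq (Nat.eq_of_mul_eq_mul_right hwpos e23)
  have E2 : Nat.card Q * Nat.card A =
      Nat.card (Q ⊔ A : Subgroup S) * Nat.card (Q ⊓ A : Subgroup S) :=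
    Nat.eq_of_mul_eq_mul_right hwpos e34
  have E3 : Nat.card (A ⊓ Subgroup.centralizer (Q : Set S) : Subgroup S) =
      Nat.card (Subgroup.centralizer ((Q ⊔ A : Subgroup S) : Set S)) :=
    Nat.eq_of_mul_eq_mul_left (Nat.mul_pos hspos hipos) e45
  have E4 : Nat.card (Q ⊔ A : Subgroup S) *
      Nat.card (Subgroup.centralizer ((Q ⊔ A : Subgroup S) : Set S)) =
      Nat.card Q * Nat.card (Subgroup.centralizer (Q : Set S)) := by
    rw [mul_right_comm] at e51
    exact Nat.eq_of_mul_eq_mul_right hipos e51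
  refine ⟨isCD_of_cdm_le hQ (le_of_eq E4.symm), ?_, E2, hBab, ?_⟩
  · exact (Subgroup.eq_of_le_of_card_ge hiii (le_of_eq E3.symm)).symm
  · intro B hB
    rw [E1]; exact hA.2 B hB

end Cfsg.Agent.Lib.helper15
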