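import Mathlib
import Cfsg.Agent.Lib.helper25.FusionFactor

set_option autoImplicit false

namespace Cfsg.Agent.Lib.helper15

open Cfsg Cfsg.FusionSystem Cfsg.Agent.Lib.helper25

/-- Normality criterion in a factor system of the fusion system of a group: a subgroup `W` of
`P/R` is normal in the factor system as soon as every conjugation map of `G` on an overgroup
`T` of `R` in `P` can be replaced, modulo `R`, by a conjugation normalizing the preimage of `W`. -/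
theorem factor_normal_of_ctl {G : Type*} [Group G] [Finite G] (P R : Subgroup G)
    (hR : (groupFusionSystem P).StronglyClosed R) [(R.subgroupOf P).Normal]
    (E : FusionSystem (⊤ : Subgroup (P ⧸ R.subgroupOf P)))
    (hE : (groupFusionSystem P).IsFactorSystem R (QuotientGroup.mk' (R.subgroupOf P)) E)
    (W : Subgroup (P ⧸ R.subgroupOf P))
    (hW : ∀ (T : Subgroup G), R ≤ T → T ≤ P → ∀ g : G, (∀ x ∈ T, g * x * g⁻¹ ∈ P) →
      ∃ c : G, (∀ x ∈ T, ∃ (h1 : c * x * c⁻¹ ∈ P) (h2 : g * x * g⁻¹ ∈ P),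
          QuotientGroup.mk' (R.subgroupOf P) ⟨c * x * c⁻¹, h1⟩ =
            QuotientGroup.mk' (R.subgroupOf P) ⟨g * x * g⁻¹, h2⟩) ∧
        (∀ x (hx : x ∈ P), QuotientGroup.mk' (R.subgroupOf P) ⟨x, hx⟩ ∈ W →
          ∃ h1 : c * x * c⁻¹ ∈ P, QuotientGroup.mk' (R.subgroupOf P) ⟨c * x * c⁻¹, h1⟩ ∈ W) ∧
        (∀ x (hx : x ∈ P), QuotientGroup.mk' (R.subgroupOf P) ⟨x, hx⟩ ∈ W →
          ∃ h1 : c⁻¹ * x * c ∈ P, QuotientGroup.mk' (R.subgroupOf P) ⟨c⁻¹ * x * c, h1⟩ ∈ W)) :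
    E.IsNormal W := by
  obtain ⟨hRP, hker, hrange, hE⟩ := hE
  refine ⟨le_top, fun P' φ' hφ' => ?_⟩
  obtain ⟨-, φ, ⟨hφle, hφP, g, hg⟩, hind⟩ := (hE P' φ').1 hφ'
  have hRT : R ≤ preimageAlong (QuotientGroup.mk' (R.subgroupOf P)) P' :=
    le_preimageAlong hRP hker P'
  obtain ⟨c, hc1, hc2, hc3⟩ := hW (preimageAlong (QuotientGroup.mk' (R.subgroupOf P)) P') hRT hφle g
    (fun x hx => by have := hφP ⟨x, hx⟩; rwa [hg] at this)
  have key : ∀ x ∈ preimageAlong (QuotientGroup.mk' (R.subgroupOf P)) (P' ⊔ W),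
      c * x * c⁻¹ ∈ P := by
    intro x hx
    obtain ⟨hxP, hx'⟩ := mem_preimageAlong.1 hx
    have hle : P' ⊔ W ≤ Subgroup.map (QuotientGroup.mk' (R.subgroupOf P))
        ((P ⊓ P.comap (MulAut.conj c).toMonoidHom).subgroupOf P) := by
      apply sup_le
      · intro y hy
        obtain ⟨x, hxS, hxy⟩ := exists_preimage_of_le_range hrange le_top (⟨y, hy⟩ : P')
        obtain ⟨h1, -, -⟩ := hc1 x x.2
        exact ⟨⟨x, hxS⟩, Subgroup.mem_subgroupOf.2 ⟨hxS, h1⟩, hxy⟩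
      · intro w hw
        obtain ⟨s, rfl⟩ := QuotientGroup.mk'_surjective _ w
        obtain ⟨h1, -⟩ := hc2 s s.2 hw
        exact ⟨s, Subgroup.mem_subgroupOf.2 ⟨s.2, h1⟩, rfl⟩
    obtain ⟨x', hx'c, hx'x⟩ := hle hx'
    have hx'c2 : c * (x' : G) * c⁻¹ ∈ P := (Subgroup.mem_subgroupOf.1 hx'c).2
    have h3 : x'⁻¹ * ⟨x, hxP⟩ ∈ R.subgroupOf P := QuotientGroup.eq.1 hx'x
    have h4 : (x' : G)⁻¹ * x ∈ R := Subgroup.mem_subgroupOf.1 h3
    obtain ⟨h5, -, -⟩ := hc1 _ (hRT h4)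
    have h6 : c * x * c⁻¹ = (c * (x' : G) * c⁻¹) * (c * ((x' : G)⁻¹ * x) * c⁻¹) := by group
    rw [h6]
    exact P.mul_mem hx'c2 h5
  have hχ : conjHom (preimageAlong (QuotientGroup.mk' (R.subgroupOf P)) (P' ⊔ W)) c ∈
      (groupFusionSystem P).Hom (preimageAlong (QuotientGroup.mk' (R.subgroupOf P)) (P' ⊔ W)) :=
    ⟨preimageAlong_le _ _, fun x => key x x.2, c, fun x => rfl⟩
  obtain ⟨ψ, hψ⟩ := exists_induced (groupFusionSystem P) hR hker hrange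
    (le_top : P' ⊔ W ≤ ⊤) hχ
  refine ⟨ψ, (hE _ ψ).2 ⟨le_top, _, hχ, hψ⟩, ?_, ?_⟩
  · obtain ⟨hT, hχP, hTP', hψ⟩ := hψ
    obtain ⟨hT0, hφP0, hTP0, hind⟩ := hind
    intro y
    obtain ⟨x, hxS, hxy⟩ := exists_preimage_of_le_range hrange le_top y
    have hxT : (x : G) ∈ preimageAlong (QuotientGroup.mk' (R.subgroupOf P)) (P' ⊔ W) :=
      mem_preimageAlong.2 ⟨hxS, by rw [hxy]; exact Subgroup.mem_sup_left y.2⟩
    have h1 := hψ ⟨x, hxT⟩
    have h2 := hind x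
    have e1 : (⟨QuotientGroup.mk' (R.subgroupOf P) ⟨x, hxS⟩,
        hTP' ⟨x, hxT⟩⟩ : ↥(P' ⊔ W)) = Subgroup.inclusion le_sup_left y := Subtype.ext hxy
    have e2 : (⟨QuotientGroup.mk' (R.subgroupOf P) ⟨x, hxS⟩, hTP0 x⟩ : P') = y :=
      Subtype.ext hxy
    rw [e1] at h1
    rw [e2] at h2
    rw [h1, h2]
    obtain ⟨h1', h2', h3'⟩ := hc1 x x.2
    refine h3'.trans ?_
    congr 1
    exact Subtype.ext (hg x).symm
  · obtain ⟨hT, hχP, hTP', hψ⟩ := hψ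
    apply le_antisymm
    · rintro _ ⟨y, hy, rfl⟩
      obtain ⟨x, hxS, hxy⟩ := exists_preimage_of_le_range hrange le_top y
      have h1 := hψ x
      have e1 : (⟨QuotientGroup.mk' (R.subgroupOf P) ⟨x, hxS⟩, hTP' x⟩ : ↥(P' ⊔ W)) = y :=
        Subtype.ext hxy
      rw [e1] at h1
      rw [h1]
      have hyW : QuotientGroup.mk' (R.subgroupOf P) ⟨x, hxS⟩ ∈ W := by
        rw [hxy]; exact Subgroup.mem_subgroupOf.1 hy
      obtain ⟨h1', h2'⟩ := hc2 x hxS hyW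
      exact h2'
    · intro w hw
      obtain ⟨s, rfl⟩ := QuotientGroup.mk'_surjective _ w
      obtain ⟨h1', h2'⟩ := hc3 s s.2 hw
      have hxT : c⁻¹ * s * c ∈ preimageAlong (QuotientGroup.mk' (R.subgroupOf P)) (P' ⊔ W) :=
        mem_preimageAlong.2 ⟨h1', Subgroup.mem_sup_right h2'⟩
      refine ⟨⟨QuotientGroup.mk' (R.subgroupOf P) ⟨c⁻¹ * s * c, h1'⟩,
        Subgroup.mem_sup_right h2'⟩, Subgroup.mem_subgroupOf.2 h2', ?_⟩
      have h1 := hψ ⟨_, hxT⟩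
      refine h1.trans ?_
      congr 1
      apply Subtype.ext
      show c * (c⁻¹ * s * c) * c⁻¹ = s
      group

end Cfsg.Agent.Lib.helper15
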