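import Mathlib
import Cfsg.Prelude.Def_Transfer
import Cfsg.Agent.Lib.helper8.CoprimeAction
import Cfsg.Agent.Lib.helper14.Basic
import Cfsg.Agent.Lib.helper25.SylowAux
import Cfsg.Agent.Lib.helper25.GroupFusion
import Cfsg.Agent.Lib.helper1.PGroup
import Cfsg.Agent.Lib.lead.Tate
import Cfsg.Agent.Lib.helper15.Omega
import Cfsg.Agent.Lib.helper15.SylGen
import Cfsg.Agent.Lib.helper15.CD

set_option autoImplicit false

namespace Cfsg.Agent.Lib.helper15

open scoped commutatorElement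

universe u

/-- An automorphism of a cyclic `p`-group whose order is prime to `p (p - 1)` is trivial. -/
theorem hs_aut_eq_one {X : Type*} [Group X] [Finite X] [IsCyclic X] {p : ℕ} [Fact p.Prime]
    (hX : IsPGroup p X) (β : MulAut X) (m : ℕ) (hβ : β ^ m = 1) (h1 : m.Coprime p)
    (h2 : m.Coprime (p - 1)) : β = 1 := by
  have hp : p.Prime := Fact.out
  have hd1 : orderOf β ∣ m := orderOf_dvd_of_pow_eq_one hβ
  have hd2 : orderOf β ∣ Nat.card (MulAut X) := orderOf_dvd_natCard β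
  rw [IsCyclic.card_mulAut] at hd2
  obtain ⟨a, ha⟩ := IsPGroup.iff_card.mp hX
  have hcop : m.Coprime (Nat.card X).totient := by
    rw [ha]
    rcases Nat.eq_zero_or_pos a with rfl | hpos
    · simp
    · rw [Nat.totient_prime_pow hp hpos]
      exact Nat.Coprime.mul_right (Nat.Coprime.pow_right _ h1) h2
  have h3 : orderOf β = 1 := Nat.eq_one_of_dvd_coprimes hcop hd1 hd2
  exact orderOf_eq_one_iff.mp h3

/-- An element of order prime to `p (p - 1)` normalizing a cyclic `p`-subgroup centralizes it. -/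
theorem hs_cyclic_central {G : Type*} [Group G] [Finite G] {p : ℕ} [Fact p.Prime]
    (C : Subgroup G) [IsCyclic ↥C] (hC : IsPGroup p C) (y : G)
    (hy : y ∈ Subgroup.normalizer (C : Set G)) (h1 : (orderOf y).Coprime p)
    (h2 : (orderOf y).Coprime (p - 1)) : ∀ c ∈ C, y * c * y⁻¹ = c := by
  intro c hc
  have hβ : (C.normalizerMonoidHom ⟨y, hy⟩) ^ (orderOf y) = 1 := by
    rw [← map_pow]
    have h0 : (⟨y, hy⟩ : ↥(Subgroup.normalizer (C : Set G))) ^ orderOf y = 1 := by
      apply Subtype.ext; simp [pow_orderOf_eq_one]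
    rw [h0, map_one]
  have h3 := hs_aut_eq_one hC (C.normalizerMonoidHom ⟨y, hy⟩) (orderOf y) hβ h1 h2
  have h4 : ((C.normalizerMonoidHom ⟨y, hy⟩ ⟨c, hc⟩ : ↥C) : G) = y * c * y⁻¹ := rfl
  rw [← h4, h3]; rfl

/-- An element of order prime to `p (p - 1)` normalizing `B` and a subgroup `M` of index `p`
acts trivially on `B / M`. -/
theorem hs_quot_trivial {G : Type*} [Group G] [Finite G] {p : ℕ} [Fact p.Prime]
    (B M : Subgroup G) (hMB : M ≤ B) (k : ℕ) (hB : Nat.card B = p ^ (k + 1))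
    (hM : Nat.card M = p ^ k) (y : G) (hyB : y ∈ Subgroup.normalizer (B : Set G))
    (hyM : y ∈ Subgroup.normalizer (M : Set G)) (h1 : (orderOf y).Coprime p)
    (h2 : (orderOf y).Coprime (p - 1)) : ∀ b ∈ B, b⁻¹ * (y * b * y⁻¹) ∈ M := by
  have hp : p.Prime := Fact.out
  obtain ⟨M', hM'⟩ : ∃ M' : Subgroup ↥B, M' = M.subgroupOf B := ⟨_, rfl⟩
  have hcM' : Nat.card M' = p ^ k := by
    rw [hM', ← hM]
    exact Nat.card_congr (Subgroup.subgroupOfEquivOfLe hMB).toEquiv
  have hidx : M'.index = p := by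
    have h3 := Subgroup.card_mul_index M'
    rw [hcM', hB, pow_succ] at h3
    exact Nat.eq_of_mul_eq_mul_left (pow_pos hp.pos k) h3
  have hnorm : M'.Normal := by
    apply Subgroup.normal_of_index_eq_minFac_card
    rw [hidx, hB, Nat.Prime.pow_minFac hp (Nat.succ_ne_zero k)]
  have hcard : Nat.card (↥B ⧸ M') = p := by rw [← Subgroup.index_eq_card]; exact hidx
  have hcyc : IsCyclic (↥B ⧸ M') := isCyclic_of_prime_card hcard
  have hXp : IsPGroup p (↥B ⧸ M') := IsPGroup.of_card (n := 1) (by rw [hcard, pow_one])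
  obtain ⟨e, he⟩ : ∃ e : MulAut ↥B, e = B.normalizerMonoidHom ⟨y, hyB⟩ := ⟨_, rfl⟩
  have hecoe : ∀ b : ↥B, ((e b : ↥B) : G) = y * b * y⁻¹ := by
    intro b; rw [he]; rfl
  have hmap : M'.map (e : ↥B ≃* ↥B).toMonoidHom = M' := by
    apply Subgroup.eq_of_le_of_card_ge
    · rintro _ ⟨x, hx, rfl⟩
      have hx' : x ∈ M' := hx
      rw [hM', Subgroup.mem_subgroupOf] at hx' ⊢
      show ((e x : ↥B) : G) ∈ M
      rw [hecoe]
      exact Cfsg.Agent.Lib.helper8.conj_mem_of_mem_normalizer hyM hx'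
    · rw [Subgroup.card_map_of_injective (e : ↥B ≃* ↥B).injective]
  obtain ⟨β, hβ⟩ : ∃ β : MulAut (↥B ⧸ M'), β = QuotientGroup.congr M' M' e hmap := ⟨_, rfl⟩
  have hβmk : ∀ b : ↥B, β (QuotientGroup.mk b) = QuotientGroup.mk (e b) := by
    intro b; rw [hβ]; exact QuotientGroup.congr_mk M' M' e hmap b
  have hpow : ∀ j : ℕ, ∀ b : ↥B, (β ^ j) (QuotientGroup.mk b) = QuotientGroup.mk ((e ^ j) b) := by
    intro j
    induction j with
    | zero => intro b; simp
    | succ j ih =>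
      intro b
      rw [pow_succ', MulAut.mul_apply, ih, pow_succ', MulAut.mul_apply, hβmk]
  have hem : e ^ orderOf y = 1 := by
    rw [he, ← map_pow]
    have h0 : (⟨y, hyB⟩ : ↥(Subgroup.normalizer (B : Set G))) ^ orderOf y = 1 := by
      apply Subtype.ext; simp [pow_orderOf_eq_one]
    rw [h0, map_one]
  have hβm : β ^ orderOf y = 1 := by
    apply MulEquiv.ext
    intro x
    obtain ⟨b, rfl⟩ := QuotientGroup.mk_surjective x
    rw [hpow, hem]; rfl
  have hβ1 := hs_aut_eq_one hXp β (orderOf y) hβm h1 h2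
  intro b hb
  have h5 := hβmk ⟨b, hb⟩
  rw [hβ1] at h5
  have h6 : (QuotientGroup.mk ⟨b, hb⟩ : ↥B ⧸ M') = QuotientGroup.mk (e ⟨b, hb⟩) := h5
  rw [QuotientGroup.eq, hM', Subgroup.mem_subgroupOf] at h6
  have h7 : (((⟨b, hb⟩ : ↥B)⁻¹ * e ⟨b, hb⟩ : ↥B) : G) = b⁻¹ * (y * b * y⁻¹) := by
    rw [Subgroup.coe_mul, hecoe]; rfl
  rw [← h7]; exact h6

/-- Subgroups of every intermediate order between two subgroups of a `p`-group. -/
theorem hs_exists_between {G : Type*} [Group G] [Finite G] {p : ℕ} [Fact p.Prime] (B : Subgroup G)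
    (hB : IsPGroup p B) (C : Subgroup G) (hCB : C ≤ B) (c : ℕ) (hc : Nat.card C = p ^ c) (k : ℕ)
    (hck : c ≤ k) (hk : p ^ k ≤ Nat.card B) :
    ∃ M : Subgroup G, C ≤ M ∧ M ≤ B ∧ Nat.card M = p ^ k := by
  have hp : p.Prime := Fact.out
  have hdvd : p ^ k ∣ Nat.card ↥B := by
    obtain ⟨n, hn⟩ := IsPGroup.iff_card.mp hB
    rw [hn] at hk ⊢
    exact pow_dvd_pow p ((Nat.pow_le_pow_iff_right hp.one_lt).mp hk)
  have hc' : Nat.card (C.subgroupOf B) = p ^ c := by
    rw [← hc]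
    exact Nat.card_congr (Subgroup.subgroupOfEquivOfLe hCB).toEquiv
  obtain ⟨K, hK, hle⟩ := Sylow.exists_subgroup_card_pow_prime_le p hdvd (C.subgroupOf B) hc' hck
  refine ⟨K.map B.subtype, ?_, Subgroup.map_subtype_le K, ?_⟩
  · intro x hx
    exact ⟨⟨x, hCB hx⟩, hle (Subgroup.mem_subgroupOf.mpr hx), rfl⟩
  · rw [Subgroup.card_map_of_injective B.subtype_injective, hK]

/-- An element of order prime to `p (p - 1)` normalizing a `p`-group `B` and all its subgroups
of index `p` centralizes `B`. -/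
theorem hs_centralize_of_max {G : Type u} [Group G] [Finite G] {p : ℕ} [Fact p.Prime]
    (B : Subgroup G) (k : ℕ) (hB : Nat.card B = p ^ (k + 1)) (y : G)
    (hyB : y ∈ Subgroup.normalizer (B : Set G))
    (hmax : ∀ M : Subgroup G, M ≤ B → Nat.card M = p ^ k →
      y ∈ Subgroup.normalizer (M : Set G))
    (h1 : (orderOf y).Coprime p) (h2 : (orderOf y).Coprime (p - 1)) :
    ∀ b ∈ B, y * b * y⁻¹ = b := by
  classical
  have hp : p.Prime := Fact.out
  have hBp : IsPGroup p B := IsPGroup.of_card hB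
  obtain ⟨A, hA⟩ : ∃ A : Subgroup G, A = Subgroup.zpowers y := ⟨_, rfl⟩
  obtain ⟨C, hC⟩ : ∃ C : Subgroup G, C = B ⊓ Subgroup.centralizer (A : Set G) := ⟨_, rfl⟩
  have hCle : C ≤ B := by rw [hC]; exact inf_le_left
  by_contra hcon
  push Not at hcon
  obtain ⟨b₀, hb₀, hne⟩ := hcon
  have hCB : C ≠ B := by
    intro h
    have h0 : b₀ ∈ C := h ▸ hb₀
    rw [hC] at h0
    have h3 := Subgroup.mem_centralizer_iff.mp h0.2 y (by rw [hA]; exact Subgroup.mem_zpowers y)
    apply hne; rw [h3]; group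
  obtain ⟨c, hc⟩ := IsPGroup.iff_card.mp (hBp.to_le hCle)
  have hck : c ≤ k := by
    by_contra hlt
    push Not at hlt
    apply hCB; apply Subgroup.eq_of_le_of_card_ge hCle
    rw [hB, hc]; exact Nat.pow_le_pow_right hp.pos hlt
  obtain ⟨M, hCM, hMB, hM⟩ := hs_exists_between B hBp C hCle c hc k hck
    (by rw [hB]; exact Nat.pow_le_pow_right hp.pos (Nat.le_succ k))
  have hyM := hmax M hMB hM
  have hAM : A ≤ Subgroup.normalizer (M : Set G) := by rw [hA]; exact Subgroup.zpowers_le.mpr hyM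
  have hAB : A ≤ Subgroup.normalizer (B : Set G) := by rw [hA]; exact Subgroup.zpowers_le.mpr hyB
  have hcop : (Nat.card A).Coprime (Nat.card M) := by
    rw [hM, hA, Nat.card_zpowers]; exact Nat.Coprime.pow_right k h1
  have hsolv : Group.IsSolvable A ∨ Group.IsSolvable M := by
    left
    rw [hA]
    exact Cfsg.Agent.Lib.helper8.isSolvable_of_isMulCommutative (Subgroup.zpowers y)
  have hBM : B ≤ M := by
    intro b hb
    have hx : ∀ a ∈ A, b⁻¹ * a * b * a⁻¹ ∈ M := by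
      intro a ha
      have ho : orderOf a ∣ orderOf y := by
        rw [hA] at ha
        exact orderOf_dvd_of_mem_zpowers ha
      have h5 := hs_quot_trivial B M hMB k hB hM a (hAB ha) (hAM ha)
        (Nat.Coprime.coprime_dvd_left ho h1) (Nat.Coprime.coprime_dvd_left ho h2) b hb
      have e : b⁻¹ * a * b * a⁻¹ = b⁻¹ * (a * b * a⁻¹) := by group
      rw [e]; exact h5
    obtain ⟨d, hd, hfix⟩ := Cfsg.Agent.Lib.helper8.coset_fix A M hAM hcop hsolv b hx
    have hbd : b * d ∈ C := by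
      rw [hC]
      refine ⟨B.mul_mem hb (hMB hd), ?_⟩
      show b * d ∈ Subgroup.centralizer (A : Set G)
      rw [Subgroup.mem_centralizer_iff]
      intro a ha
      exact hfix a ha
    have h6 := hCM hbd
    have e : b = (b * d) * d⁻¹ := by group
    rw [e]; exact M.mul_mem h6 (M.inv_mem hd)
  have h7 := Subgroup.card_le_of_le hBM
  rw [hB, hM] at h7
  exact absurd h7 (not_le.mpr (Nat.pow_lt_pow_right hp.one_lt (Nat.lt_succ_self k)))

/-- The `|P|`-th power of any element has order prime to `p`. -/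
theorem hs_pprime_pow {G : Type*} [Group G] [Finite G] {p : ℕ} [Fact p.Prime] (P : Sylow p G)
    (ν : G) : (orderOf (ν ^ Nat.card (P : Subgroup G))).Coprime p := by
  have h : (ν ^ Nat.card (P : Subgroup G)) ^ (P : Subgroup G).index = 1 := by
    rw [← pow_mul, Subgroup.card_mul_index, pow_card_eq_one']
  have hd := orderOf_dvd_of_pow_eq_one h
  have hp : p.Prime := Fact.out
  exact Nat.Coprime.coprime_dvd_left hd ((hp.coprime_iff_not_dvd).mpr P.not_dvd_index).symm

open Cfsg.Agent.Lib.helper8 Cfsg.Agent.Lib.helper14 in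
/-- Inductive form of `hs_omega_sq`. -/
theorem hs_omega_sq_aux {G : Type u} [Group G] [Finite G] {p : ℕ} [Fact p.Prime]
    (g : G) (hg : (orderOf g).Coprime p) :
    ∀ n : ℕ, ∀ Q : Subgroup G, Nat.card Q ≤ n → IsPGroup p Q →
      g ∈ Subgroup.normalizer (Q : Set G) → (∀ x ∈ Q, x ^ (p * p) = 1 → Commute g x) →
      ∀ x ∈ Q, Commute g x := by
  have hp : p.Prime := Fact.out
  intro n
  induction n with
  | zero =>
    intro Q hn
    have := Nat.card_pos (α := Q)
    omega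
  | succ n ih =>
    intro Q hn hQ hgN hΩ
    set A := Subgroup.zpowers g with hA
    have hAQ : A ≤ Subgroup.normalizer (Q : Set G) := Subgroup.zpowers_le.mpr hgN
    have hcop : (Nat.card A).Coprime (Nat.card Q) := by
      obtain ⟨k, hk⟩ := IsPGroup.iff_card.mp hQ
      rw [hk, Nat.card_zpowers]; exact Nat.Coprime.pow_right k hg
    have hsolv : Group.IsSolvable A ∨ Group.IsSolvable Q := by
      right
      have := hQ.isNilpotent
      infer_instance
    have hIH : ∀ D : Subgroup G, D ≤ Q → D ≠ Q → g ∈ Subgroup.normalizer (D : Set G) →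
        ∀ d ∈ D, Commute g d := by
      intro D hDQ hDne hgD
      apply ih D
      · by_contra hcon
        have : Nat.card Q ≤ Nat.card D := by omega
        exact hDne (Subgroup.eq_of_le_of_card_ge hDQ this)
      · exact hQ.to_le hDQ
      · exact hgD
      · intro x hx hxp; exact hΩ x (hDQ hx) hxp
    have hcent_of : ∀ D : Subgroup G, (∀ d ∈ D, Commute g d) →
        A ≤ Subgroup.centralizer (D : Set G) := by
      intro D h
      rw [hA, Subgroup.zpowers_le, Subgroup.mem_centralizer_iff]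
      intro d hd
      exact (h d hd).eq.symm
    by_cases hK : ⁅Q, A⁆ = Q
    · by_cases hQb : Q = ⊥
      · intro x hx
        rw [hQb, Subgroup.mem_bot] at hx
        rw [hx]; exact Commute.one_right g
      obtain ⟨M, hMQ, hMne, hMc, hMp⟩ := exists_proper_frattini_like Q hQ hQb
      set D : Subgroup G := Subgroup.closure
        ({y | ∃ a ∈ Q, ∃ b ∈ Q, y = ⁅a, b⁆} ∪ {y | ∃ x ∈ Q, y = x ^ p}) with hD
      have hDM : D ≤ M := by
        rw [hD, Subgroup.closure_le]
        rintro y (⟨a, ha, b, hb, rfl⟩ | ⟨x, hx, rfl⟩)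
        · exact hMc a ha b hb
        · exact hMp x hx
      have hDQ : D ≤ Q := hDM.trans hMQ
      have hDne : D ≠ Q := fun h => hMne (le_antisymm hMQ (h ▸ hDM))
      have hconj : ∀ h ∈ Subgroup.normalizer (Q : Set G), ∀ y ∈ D, h * y * h⁻¹ ∈ D := by
        intro h hh y hy
        have hle : D ≤ D.comap (MulAut.conj h).toMonoidHom := by
          rw [hD, Subgroup.closure_le]
          rintro y (⟨a, ha, b, hb, rfl⟩ | ⟨x, hx, rfl⟩)
          · show h * ⁅a, b⁆ * h⁻¹ ∈ Subgroup.closure _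
            have e : h * ⁅a, b⁆ * h⁻¹ = ⁅h * a * h⁻¹, h * b * h⁻¹⁆ := by
              simp only [commutatorElement_def]; group
            rw [e]
            exact Subgroup.subset_closure (Or.inl ⟨_, conj_mem_of_mem_normalizer hh ha, _,
              conj_mem_of_mem_normalizer hh hb, rfl⟩)
          · show h * x ^ p * h⁻¹ ∈ Subgroup.closure _
            rw [← conj_pow]
            exact Subgroup.subset_closure (Or.inr ⟨_, conj_mem_of_mem_normalizer hh hx, rfl⟩)
        exact hle hy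
      have hgD : g ∈ Subgroup.normalizer (D : Set G) := by
        rw [Subgroup.mem_normalizer_iff]
        intro y
        constructor
        · exact hconj g hgN y
        · intro hy
          have h1 := hconj g⁻¹ (Subgroup.inv_mem _ hgN) _ hy
          have e : g⁻¹ * (g * y * g⁻¹) * g⁻¹⁻¹ = y := by group
          rwa [e] at h1
      have hgcD := hIH D hDQ hDne hgD
      have hAD : ⁅A, D⁆ = ⊥ := by
        rw [Subgroup.commutator_eq_bot_iff_le_centralizer]; exact hcent_of D hgcD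
      have hDA : ⁅D, A⁆ = ⊥ := by rw [Subgroup.commutator_comm]; exact hAD
      have h1 : ⁅⁅A, D⁆, Q⁆ = ⊥ := by rw [hAD]; exact Subgroup.commutator_bot_left Q
      have h2 : ⁅⁅D, Q⁆, A⁆ = ⊥ := by
        have hle : ⁅D, Q⁆ ≤ D := by
          rw [Subgroup.commutator_le]
          intro d hd q hq
          exact Subgroup.subset_closure (Or.inl ⟨d, hDQ hd, q, hq, rfl⟩)
        exact le_bot_iff.mp (hDA ▸ Subgroup.commutator_mono hle le_rfl)
      have h3 := Subgroup.commutator_commutator_eq_bot_of_rotate h1 h2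
      rw [hK, Subgroup.commutator_eq_bot_iff_le_centralizer] at h3
      have hQD : ∀ q ∈ Q, ∀ d ∈ D, Commute d q := by
        intro q hq d hd
        exact Subgroup.mem_centralizer_iff.mp (h3 hq) d hd
      intro x hx
      set y := g * x⁻¹ * g⁻¹ with hy
      have hyQ : y ∈ Q := conj_mem_of_mem_normalizer hgN (Q.inv_mem hx)
      set c := ⁅y, x⁆ with hc
      have hcD : c ∈ D := Subgroup.subset_closure (Or.inl ⟨y, hyQ, x, hx, rfl⟩)
      have hcx : Commute c x := hQD x hx c hcD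
      have hcy : Commute c y := hQD y hyQ c hcD
      have e : y * x = c * (x * y) := by rw [hc, commutatorElement_def]; group
      have hxpD : x ^ p ∈ D := Subgroup.subset_closure (Or.inr ⟨x, hx, rfl⟩)
      have hypD : y ^ p ∈ D := Subgroup.subset_closure (Or.inr ⟨y, hyQ, rfl⟩)
      have hcp : c ^ p = 1 := by
        have h4 := pow_mul_comm_aux x y c e hcy p
        have h5 : y ^ p * x = x * y ^ p := (hQD x hx _ hypD).eq
        rw [h5] at h4
        exact mul_eq_right.mp h4.symm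
      have hyp : y ^ p = (x ^ p)⁻¹ := by
        have h6 : Commute g (x ^ p) := hgcD _ hxpD
        rw [hy, conj_pow, inv_pow]
        have h7 : g * (x ^ p)⁻¹ = (x ^ p)⁻¹ * g := (h6.inv_right).eq
        rw [h7]; group
      have hxy : (x * y) ^ (p * p) = 1 := by
        rw [pow_mul, mul_pow_aux x y c e hcx hcy p, hyp, mul_inv_cancel, mul_one, ← pow_mul,
          mul_comm, pow_mul, hcp, one_pow]
      have hxg : ⁅x, g⁆ = x * y := by rw [hy, commutatorElement_def]; group
      have hcQ : ⁅x, g⁆ ∈ Q := by rw [hxg]; exact Q.mul_mem hx hyQ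
      have hcomm : Commute ⁅x, g⁆ g := (hΩ _ hcQ (by rw [hxg]; exact hxy)).symm
      have h7 := commutator_eq_one_of_coprime x g hcomm
        ⟨2, by rw [hxg, pow_two]; exact hxy⟩ hg
      rw [commutatorElement_def] at h7
      show g * x = x * g
      have h8 : x * g = (x * g * x⁻¹ * g⁻¹) * (g * x) := by group
      rw [h8, h7, one_mul]
    · have hKQ : ⁅Q, A⁆ ≤ Q := commutator_le_of_le_normalizer hAQ
      have hgK : g ∈ Subgroup.normalizer ((⁅Q, A⁆ : Subgroup G) : Set G) :=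
        le_normalizer_commutator_right hAQ (Subgroup.mem_zpowers g)
      have hgcK := hIH _ hKQ hK hgK
      have h1 : ⁅⁅Q, A⁆, A⁆ = ⊥ := by
        rw [Subgroup.commutator_comm, Subgroup.commutator_eq_bot_iff_le_centralizer]
        exact hcent_of _ hgcK
      rw [commutator_commutator_eq A Q hAQ hcop hsolv,
        Subgroup.commutator_eq_bot_iff_le_centralizer] at h1
      intro x hx
      exact Subgroup.mem_centralizer_iff.mp (h1 hx) g (Subgroup.mem_zpowers g)


/-- Let `Q` be a `p`-subgroup of the finite group `G`, and `g` an element of order prime to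
`p` normalizing `Q` and centralizing every element `x` of `Q` with `x ^ (p * p) = 1`.
Then `g` centralizes `Q`. -/
theorem hs_omega_sq {G : Type u} [Group G] [Finite G] {p : ℕ} [Fact p.Prime]
    (Q : Subgroup G) (hQ : IsPGroup p Q) (g : G) (hgN : g ∈ Subgroup.normalizer (Q : Set G))
    (hg : (orderOf g).Coprime p) (hΩ : ∀ x ∈ Q, x ^ (p * p) = 1 → Commute g x) :
    ∀ x ∈ Q, g * x * g⁻¹ = x := by
  intro x hx
  have h := (hs_omega_sq_aux g hg _ Q le_rfl hQ hgN hΩ x hx).eq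
  rw [h]; group


/-- `E` is strongly closed in `P` with respect to `G`. -/
def HsSC {G : Type*} [Group G] (E P : Subgroup G) : Prop :=
  ∀ g x : G, x ∈ E → g * x * g⁻¹ ∈ P → g * x * g⁻¹ ∈ E

/-- The working hypothesis: every subgroup of `P` of order `p ^ d` (and of order `4` when
`p ^ d = 2`) is strongly closed in `P` and normal in `P`. -/
def HsHyp {G : Type*} [Group G] (p d : ℕ) (P : Subgroup G) : Prop :=
  ∀ E : Subgroup G, E ≤ P → (Nat.card E = p ^ d ∨ (p ^ d = 2 ∧ Nat.card E = 4)) →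
    HsSC E P ∧ P ≤ Subgroup.normalizer (E : Set G)

theorem hs_normal_of_hsub {G : Type*} [Group G] [Finite G] {p : ℕ} [Fact p.Prime]
    (P : Subgroup G) (hP : IsPGroup p P) (E : Subgroup G) (hEP : E ≤ P)
    (hE : ∀ g : G, E.map (MulAut.conj g).toMonoidHom ⊓ Subgroup.normalizer (E : Set G) ≤ E) :
    P ≤ Subgroup.normalizer (E : Set G) := by
  by_contra hcon
  have hlt : P ⊓ Subgroup.normalizer (E : Set G) < P :=
    lt_of_le_of_ne inf_le_left (fun h => hcon (inf_eq_left.mp h))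
  obtain ⟨s, hsP, hsN, hsn⟩ := Cfsg.Agent.Lib.helper8.normalizer_grows hP hlt
  apply hsn
  refine ⟨hsP, ?_⟩
  apply Cfsg.Agent.Lib.helper15.mem_normalizer_of_conj_le
  intro r hr
  have h1 : s * r * s⁻¹ ∈ P ⊓ Subgroup.normalizer (E : Set G) :=
    Cfsg.Agent.Lib.helper8.conj_mem_of_mem_normalizer hsN ⟨hEP hr, Subgroup.le_normalizer hr⟩
  exact hE s ⟨⟨r, hr, rfl⟩, h1.2⟩

theorem hs_sc_of_hsub {G : Type*} [Group G] (P E : Subgroup G)
    (hEN : P ≤ Subgroup.normalizer (E : Set G))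
    (hE : ∀ g : G, E.map (MulAut.conj g).toMonoidHom ⊓ Subgroup.normalizer (E : Set G) ≤ E) :
    HsSC E P := by
  intro g x hx hgx
  exact hE g ⟨⟨x, hx, rfl⟩, hEN hgx⟩

theorem hs_norm_of_sc {G : Type*} [Group G] [Finite G] {E P H : Subgroup G} (hE : HsSC E P)
    (hEH : E ≤ H) (hHP : H ≤ P) {y : G} (hy : y ∈ Subgroup.normalizer (H : Set G)) :
    y ∈ Subgroup.normalizer (E : Set G) := by
  apply Cfsg.Agent.Lib.helper15.mem_normalizer_of_conj_le
  intro r hr
  exact hE y r hr (hHP (Cfsg.Agent.Lib.helper8.conj_mem_of_mem_normalizer hy (hEH hr)))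

/-- Under the working hypothesis, an element of order prime to `p (p - 1)` normalizing a
subgroup `H` of `P` of order at least `p ^ (d + 1)` centralizes it. -/
theorem hs_l3 {G : Type u} [Group G] [Finite G] {p : ℕ} [Fact p.Prime] (d : ℕ) (hd : 1 ≤ d)
    (P : Subgroup G) (hP : IsPGroup p P) (hyp : HsHyp p d P)
    (H : Subgroup G) (hHP : H ≤ P) (hcard : p ^ (d + 1) ≤ Nat.card H)
    (y : G) (hy : y ∈ Subgroup.normalizer (H : Set G)) (h1 : (orderOf y).Coprime p)
    (h2 : (orderOf y).Coprime (p - 1)) : ∀ x ∈ H, y * x * y⁻¹ = x := by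
  have hp : p.Prime := Fact.out
  have hHp : IsPGroup p H := hP.to_le hHP
  have hnorm : ∀ E : Subgroup G, E ≤ H →
      (Nat.card E = p ^ d ∨ (p ^ d = 2 ∧ Nat.card E = 4)) →
      y ∈ Subgroup.normalizer (E : Set G) := fun E hEH hc =>
    hs_norm_of_sc (hyp E (hEH.trans hHP) hc).1 hEH hHP hy
  have key : ∀ x ∈ H, Nat.card (Subgroup.zpowers x) ≤ p ^ d → y * x * y⁻¹ = x := by
    intro x hx hxc
    have hzp : IsPGroup p (Subgroup.zpowers x) := hHp.to_le (Subgroup.zpowers_le.mpr hx)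
    obtain ⟨c, hc⟩ := IsPGroup.iff_card.mp hzp
    have hcd : c ≤ d := by
      rw [hc] at hxc; exact (Nat.pow_le_pow_iff_right hp.one_lt).mp hxc
    obtain ⟨E, hzE, hEH, hE⟩ := hs_exists_between H hHp (Subgroup.zpowers x)
      (Subgroup.zpowers_le.mpr hx) c hc d hcd
      ((Nat.pow_le_pow_right hp.pos (Nat.le_succ d)).trans hcard)
    have hxE : x ∈ E := hzE (Subgroup.mem_zpowers x)
    have hyE := hnorm E hEH (Or.inl hE)
    by_cases hcyc : IsCyclic ↥E
    · exact hs_cyclic_central E (IsPGroup.of_card hE) y hyE h1 h2 x hxE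
    · obtain ⟨B, hEB, hBH, hB⟩ := hs_exists_between H hHp E hEH d hE (d + 1) (Nat.le_succ d) hcard
      have hBp : IsPGroup p B := IsPGroup.of_card hB
      have hEneB : E ≠ B := by
        intro h
        rw [h, hB] at hE
        exact absurd (Nat.pow_right_injective hp.two_le hE) (by omega)
      obtain ⟨b, hbB, hbE⟩ : ∃ b ∈ B, b ∉ E := by
        by_contra hcon
        push Not at hcon
        exact hEneB (le_antisymm hEB hcon)
      have hzb : IsPGroup p (Subgroup.zpowers b) := hBp.to_le (Subgroup.zpowers_le.mpr hbB)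
      obtain ⟨c', hc'⟩ := IsPGroup.iff_card.mp hzb
      have hc'd : c' ≤ d := by
        by_contra hlt
        push Not at hlt
        have hzB : Subgroup.zpowers b = B :=
          Subgroup.eq_of_le_of_card_ge (Subgroup.zpowers_le.mpr hbB)
            (by rw [hB, hc']; exact Nat.pow_le_pow_right hp.pos hlt)
        apply hcyc
        have hBc : IsCyclic ↥B := by rw [← hzB]; infer_instance
        exact Subgroup.isCyclic_of_le hEB
      obtain ⟨E₂, hzE₂, hE₂B, hE₂⟩ := hs_exists_between B hBp (Subgroup.zpowers b)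
        (Subgroup.zpowers_le.mpr hbB) c' hc' d hc'd
        (by rw [hB]; exact Nat.pow_le_pow_right hp.pos (Nat.le_succ d))
      have hsup : E ⊔ E₂ = B := by
        apply Subgroup.eq_of_le_of_card_ge (sup_le hEB hE₂B)
        have hsp : IsPGroup p ↥(E ⊔ E₂) := hBp.to_le (sup_le hEB hE₂B)
        obtain ⟨j, hj⟩ := IsPGroup.iff_card.mp hsp
        have hlt : Nat.card E < Nat.card ↥(E ⊔ E₂) := by
          by_contra hge
          push Not at hge
          have h3 : E = E ⊔ E₂ := Subgroup.eq_of_le_of_card_ge le_sup_left hge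
          apply hbE
          rw [h3]
          exact Subgroup.mem_sup_right (hzE₂ (Subgroup.mem_zpowers b))
        rw [hE, hj] at hlt
        rw [hB, hj]
        exact Nat.pow_le_pow_right hp.pos ((Nat.pow_lt_pow_iff_right hp.one_lt).mp hlt)
      have hyE₂ := hnorm E₂ (hE₂B.trans hBH) (Or.inl hE₂)
      have hyB : y ∈ Subgroup.normalizer (B : Set G) := by
        rw [← hsup]
        apply Cfsg.Agent.Lib.helper15.mem_normalizer_of_conj_le
        intro r hr
        have hle : E ⊔ E₂ ≤ (E ⊔ E₂).comap (MulAut.conj y).toMonoidHom := by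
          apply sup_le
          · intro e he
            exact Subgroup.mem_sup_left (Cfsg.Agent.Lib.helper8.conj_mem_of_mem_normalizer hyE he)
          · intro e he
            exact Subgroup.mem_sup_right
              (Cfsg.Agent.Lib.helper8.conj_mem_of_mem_normalizer hyE₂ he)
        exact hle hr
      exact hs_centralize_of_max B d hB y hyB
        (fun M hMB hM => hnorm M (hMB.trans hBH) (Or.inl hM)) h1 h2 x (hEB hxE)
  have hpd : p ≤ p ^ d := by
    calc p = p ^ 1 := (pow_one p).symm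
      _ ≤ p ^ d := Nat.pow_le_pow_right hp.pos hd
  by_cases hp2 : p = 2
  · apply hs_omega_sq H hHp y hy h1
    intro x hx hx4
    have hcomm : y * x * y⁻¹ = x := by
      have hdvd : orderOf x ∣ p ^ 2 := by
        rw [pow_two]; exact orderOf_dvd_of_pow_eq_one hx4
      obtain ⟨j, hj2, hj⟩ := (Nat.dvd_prime_pow hp).mp hdvd
      by_cases hsmall : orderOf x ≤ p ^ d
      · exact key x hx (by rw [Nat.card_zpowers]; exact hsmall)
      · push Not at hsmall
        have hj2' : j = 2 := by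
          by_contra hne
          have hj1 : j ≤ 1 := by omega
          have : orderOf x ≤ p := by
            rw [hj]
            calc p ^ j ≤ p ^ 1 := Nat.pow_le_pow_right hp.pos hj1
              _ = p := pow_one p
          omega
        have hd1 : d = 1 := by
          by_contra hne
          have hd2 : 2 ≤ d := by omega
          have : p ^ 2 ≤ p ^ d := Nat.pow_le_pow_right hp.pos hd2
          rw [hj, hj2'] at hsmall
          omega
        have hc4 : Nat.card (Subgroup.zpowers x) = 4 := by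
          rw [Nat.card_zpowers, hj, hj2', hp2]; norm_num
        have hpd2 : p ^ d = 2 := by rw [hd1, hp2, pow_one]
        have hyZ := hnorm (Subgroup.zpowers x) (Subgroup.zpowers_le.mpr hx) (Or.inr ⟨hpd2, hc4⟩)
        exact hs_cyclic_central (Subgroup.zpowers x)
          (hHp.to_le (Subgroup.zpowers_le.mpr hx)) y hyZ h1 h2 x (Subgroup.mem_zpowers x)
    show y * x = x * y
    have e : y * x = (y * x * y⁻¹) * y := by group
    rw [e, hcomm]
  · have h3 := omega_centralize hp2 H hHp y hy h1 (by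
      intro x hx hxp
      have hdvd : orderOf x ∣ p := orderOf_dvd_of_pow_eq_one hxp
      have hcomm := key x hx (by
        rw [Nat.card_zpowers]; exact (Nat.le_of_dvd hp.pos hdvd).trans hpd)
      show y * x = x * y
      have e : y * x = (y * x * y⁻¹) * y := by group
      rw [e, hcomm])
    intro x hx
    have h4 := Subgroup.mem_centralizer_iff.mp h3 x hx
    rw [← h4]; group


/-- The fully normalized case of `hs_claimC_step`. -/
theorem hs_claimC_full {G : Type u} [Group G] [Finite G] {p : ℕ} [Fact p.Prime] (d : ℕ)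
    (hd : 1 ≤ d) (P : Sylow p G) (hyp : HsHyp p d (P : Subgroup G))
    (hcop : ∀ y : G, (orderOf y).Coprime p → (orderOf y).Coprime (p - 1))
    (E : Subgroup G) (hEP : E ≤ (P : Subgroup G)) (hEc : Nat.card E = p ^ d)
    (H : Subgroup G) (hHP : H ≤ (P : Subgroup G))
    (hsyl : Nat.card ↥((P : Subgroup G) ⊓ Subgroup.normalizer (H : Set G)) =
      p ^ (Nat.card ↥(Subgroup.normalizer (H : Set G))).factorization p)
    (hIH : ∀ H' : Subgroup G, H' ≤ (P : Subgroup G) → Nat.card H < Nat.card H' →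
      ∀ y ∈ Subgroup.normalizer (H' : Set G), (orderOf y).Coprime p →
      ∀ x ∈ H', y * x * y⁻¹ * x⁻¹ ∈ E) :
    ∀ y ∈ Subgroup.normalizer (H : Set G), (orderOf y).Coprime p →
      ∀ x ∈ H, y * x * y⁻¹ * x⁻¹ ∈ E := by
  classical
  have hp : p.Prime := Fact.out
  have hPp : IsPGroup p (P : Subgroup G) := P.isPGroup'
  have hHp : IsPGroup p H := hPp.to_le hHP
  have hSC : HsSC E (P : Subgroup G) := (hyp E hEP (Or.inl hEc)).1
  have hEN : (P : Subgroup G) ≤ Subgroup.normalizer (E : Set G) := (hyp E hEP (Or.inl hEc)).2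
  intro y hy hyc x hx
  by_cases hEH : E ≤ H
  · by_cases hc : Nat.card H = p ^ d
    · have hEq : E = H := Subgroup.eq_of_le_of_card_ge hEH (by rw [hEc, hc])
      rw [hEq]
      exact H.mul_mem (Cfsg.Agent.Lib.helper8.conj_mem_of_mem_normalizer hy hx) (H.inv_mem hx)
    · obtain ⟨j, hj⟩ := IsPGroup.iff_card.mp hHp
      have hle : p ^ d ≤ p ^ j := by
        rw [← hEc, ← hj]; exact Subgroup.card_le_of_le hEH
      have hdj : d ≤ j := (Nat.pow_le_pow_iff_right hp.one_lt).mp hle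
      have hdj' : d + 1 ≤ j := by
        rcases Nat.lt_or_ge d j with h | h
        · exact h
        · exfalso; apply hc; rw [hj, le_antisymm h hdj]
      have hcard : p ^ (d + 1) ≤ Nat.card H := by
        rw [hj]; exact Nat.pow_le_pow_right hp.pos hdj'
      have h3 := hs_l3 d hd (P : Subgroup G) hPp hyp H hHP hcard y hy hyc (hcop y hyc) x hx
      rw [h3, mul_inv_cancel]
      exact E.one_mem
  · obtain ⟨N, hN⟩ : ∃ N : Subgroup G, N = Subgroup.normalizer (H : Set G) := ⟨_, rfl⟩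
    rw [← hN] at hsyl hy
    have hHN : H ≤ N := by rw [hN]; exact Subgroup.le_normalizer
    have hconjH : ∀ n ∈ N, ∀ h ∈ H, n * h * n⁻¹ ∈ H := by
      intro n hn h hh
      rw [hN] at hn
      exact Cfsg.Agent.Lib.helper8.conj_mem_of_mem_normalizer hn hh
    have hinv : ∀ n ∈ N, ∀ e ∈ H ⊓ E, n * e * n⁻¹ ∈ H ⊓ E := by
      intro n hn e he
      have h1 := hconjH n hn e he.1
      exact ⟨h1, hSC n e he.2 (hHP h1)⟩
    have hcomm_mem : ∀ n ∈ N, ∀ h ∈ H, n * h * n⁻¹ * h⁻¹ ∈ H := by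
      intro n hn h hh
      exact H.mul_mem (hconjH n hn h hh) (H.inv_mem hh)
    obtain ⟨K, hK⟩ : ∃ K : Subgroup G, ∀ n, n ∈ K ↔ (n ∈ N ∧ ∀ h ∈ H, n * h * n⁻¹ * h⁻¹ ∈ E) := by
      refine ⟨{ carrier := {n | n ∈ N ∧ ∀ h ∈ H, n * h * n⁻¹ * h⁻¹ ∈ E}
                mul_mem' := ?_
                one_mem' := ?_
                inv_mem' := ?_ }, fun n => Iff.rfl⟩
      · rintro a b ⟨haN, ha⟩ ⟨hbN, hb⟩
        refine ⟨N.mul_mem haN hbN, fun h hh => ?_⟩
        have e : a * b * h * (a * b)⁻¹ * h⁻¹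
            = a * (b * h * b⁻¹ * h⁻¹) * a⁻¹ * (a * h * a⁻¹ * h⁻¹) := by group
        rw [e]
        exact E.mul_mem (hinv a haN _ ⟨hcomm_mem b hbN h hh, hb h hh⟩).2 (ha h hh)
      · refine ⟨N.one_mem, fun h hh => ?_⟩
        simp
      · rintro a ⟨haN, ha⟩
        refine ⟨N.inv_mem haN, fun h hh => ?_⟩
        have e : a⁻¹ * h * a⁻¹⁻¹ * h⁻¹ = a⁻¹ * (a * h * a⁻¹ * h⁻¹)⁻¹ * a⁻¹⁻¹ := by group
        rw [e]
        exact (hinv a⁻¹ (N.inv_mem haN) _
          ⟨H.inv_mem (hcomm_mem a haN h hh), E.inv_mem (ha h hh)⟩).2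
    have hKN : K ≤ N := fun n hn => ((hK n).mp hn).1
    have hNK : N ≤ Subgroup.normalizer (K : Set G) := by
      intro m hm
      apply Cfsg.Agent.Lib.helper15.mem_normalizer_of_conj_le
      intro n hn
      obtain ⟨hnN, hn2⟩ := (hK n).mp hn
      rw [hK]
      refine ⟨N.mul_mem (N.mul_mem hm hnN) (N.inv_mem hm), fun h hh => ?_⟩
      have hh' : m⁻¹ * h * m⁻¹⁻¹ ∈ H := hconjH m⁻¹ (N.inv_mem hm) h hh
      have e : m * n * m⁻¹ * h * (m * n * m⁻¹)⁻¹ * h⁻¹
          = m * (n * (m⁻¹ * h * m⁻¹⁻¹) * n⁻¹ * (m⁻¹ * h * m⁻¹⁻¹)⁻¹) * m⁻¹ := by group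
      rw [e]
      exact (hinv m hm _ ⟨hcomm_mem n hnN _ hh', hn2 _ hh'⟩).2
    -- an element of `E` normalizing `H` outside `H`
    obtain ⟨e₀, he₀E, he₀N, he₀H⟩ : ∃ e₀ ∈ E, e₀ ∈ N ∧ e₀ ∉ H := by
      have hHE : H ≤ Subgroup.normalizer (E : Set G) := hHP.trans hEN
      have hlt : H < E ⊔ H := by
        refine lt_of_le_of_ne le_sup_right ?_
        intro h
        exact hEH (h ▸ le_sup_left)
      have hUp : IsPGroup p ↥(E ⊔ H) := hPp.to_le (sup_le hEP hHP)
      obtain ⟨s, hsU, hsN, hsH⟩ := Cfsg.Agent.Lib.helper8.normalizer_grows hUp hlt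
      obtain ⟨e, he, h, hh, rfl⟩ :=
        (Cfsg.Agent.Lib.helper8.mem_sup_iff_of_le_normalizer hHE s).mp hsU
      refine ⟨e, he, ?_, ?_⟩
      · have e1 : e = (e * h) * h⁻¹ := by group
        rw [e1, hN]
        exact Subgroup.mul_mem _ hsN (Subgroup.inv_mem _ (Subgroup.le_normalizer hh))
      · intro heH
        exact hsH (H.mul_mem heH hh)
    have he₀K : e₀ ∈ K := by
      rw [hK]
      refine ⟨he₀N, fun h hh => ?_⟩
      have e1 : e₀ * h * e₀⁻¹ * h⁻¹ = e₀ * (h * e₀⁻¹ * h⁻¹) := by group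
      rw [e1]
      exact E.mul_mem he₀E
        (Cfsg.Agent.Lib.helper8.conj_mem_of_mem_normalizer (hEN (hHP hh)) (E.inv_mem he₀E))
    obtain ⟨R₁, hR₁⟩ : ∃ R₁ : Subgroup G, R₁ = ((P : Subgroup G) ⊓ N) ⊓ K := ⟨_, rfl⟩
    have hR₁card : Nat.card ↥R₁ = p ^ (Nat.card ↥K).factorization p := by
      rw [hR₁]
      exact Cfsg.Agent.Lib.helper25.sylCard_inf_of_le_normalizer
        (inf_le_right : (P : Subgroup G) ⊓ N ≤ N) hsyl hKN hNK
    have hR₁K : R₁ ≤ K := by rw [hR₁]; exact inf_le_right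
    have hR₁P : R₁ ≤ (P : Subgroup G) := by rw [hR₁]; exact inf_le_left.trans inf_le_left
    have he₀R : e₀ ∈ R₁ := by rw [hR₁]; exact ⟨⟨hEP he₀E, he₀N⟩, he₀K⟩
    obtain ⟨H₁, hH₁⟩ : ∃ H₁ : Subgroup G, H₁ = H ⊔ R₁ := ⟨_, rfl⟩
    have hH₁P : H₁ ≤ (P : Subgroup G) := by rw [hH₁]; exact sup_le hHP hR₁P
    have hHH₁ : H ≤ H₁ := by rw [hH₁]; exact le_sup_left
    have hlt : Nat.card H < Nat.card H₁ := by
      by_contra hge
      push Not at hge
      have h3 : H = H₁ := Subgroup.eq_of_le_of_card_ge hHH₁ hge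
      apply he₀H
      rw [h3, hH₁]
      exact Subgroup.mem_sup_right he₀R
    -- Frattini argument
    have hyK : y ∈ Subgroup.normalizer (K : Set G) := hNK hy
    have hXK : R₁.map (MulAut.conj y).toMonoidHom ≤ K := by
      rintro _ ⟨r, hr, rfl⟩
      exact Cfsg.Agent.Lib.helper8.conj_mem_of_mem_normalizer hyK (hR₁K hr)
    have hXp : IsPGroup p ↥(R₁.map (MulAut.conj y).toMonoidHom) :=
      (hPp.to_le hR₁P).map _
    obtain ⟨k, hk, hkle⟩ := Cfsg.Agent.Lib.helper25.exists_conj_le_of_sylCard hR₁K hR₁card hXp hXK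
    obtain ⟨ν, hν⟩ : ∃ ν : G, ν = k * y := ⟨_, rfl⟩
    have hνN : ν ∈ N := by rw [hν]; exact N.mul_mem (hKN hk) hy
    have hνR : ∀ r ∈ R₁, ν * r * ν⁻¹ ∈ R₁ := by
      intro r hr
      have h3 : k * (y * r * y⁻¹) * k⁻¹ ∈ R₁ := hkle ⟨_, ⟨r, hr, rfl⟩, rfl⟩
      have e1 : ν * r * ν⁻¹ = k * (y * r * y⁻¹) * k⁻¹ := by rw [hν]; group
      rw [e1]; exact h3
    have hνH₁ : ν ∈ Subgroup.normalizer (H₁ : Set G) := by
      apply Cfsg.Agent.Lib.helper15.mem_normalizer_of_conj_le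
      intro r hr
      have hle : H₁ ≤ H₁.comap (MulAut.conj ν).toMonoidHom := by
        rw [hH₁]
        apply sup_le
        · intro h hh
          exact Subgroup.mem_sup_left (hconjH ν hνN h hh)
        · intro r hr
          exact Subgroup.mem_sup_right (hνR r hr)
      exact hle hr
    obtain ⟨z, hz⟩ : ∃ z : G, z = ν ^ Nat.card (P : Subgroup G) := ⟨_, rfl⟩
    have hzc : (orderOf z).Coprime p := by rw [hz]; exact hs_pprime_pow P ν
    have hzH₁ : z ∈ Subgroup.normalizer (H₁ : Set G) := by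
      rw [hz]; exact Subgroup.pow_mem _ hνH₁ _
    have hzK : z ∈ K := by
      rw [hK]
      refine ⟨by rw [hz]; exact N.pow_mem hνN _, fun h hh => ?_⟩
      exact hIH H₁ hH₁P hlt z hzH₁ hzc h (hHH₁ hh)
    have hyk : y = k⁻¹ * ν := by rw [hν]; group
    have h5 := Cfsg.Agent.Lib.helper8.mul_pow_mem_of_mem_normalizer (K.inv_mem hk) (hNK hνN)
      (Nat.card (P : Subgroup G))
    rw [← hyk, ← hz] at h5
    have h6 : y ^ Nat.card (P : Subgroup G) ∈ K := by
      have e1 : y ^ Nat.card (P : Subgroup G) = y ^ Nat.card (P : Subgroup G) * z⁻¹ * z := by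
        group
      rw [e1]; exact K.mul_mem h5 hzK
    have hyK' : y ∈ K := by
      obtain ⟨a, ha⟩ := IsPGroup.iff_card.mp hPp
      have hcop' : (Nat.card (P : Subgroup G)).Coprime (orderOf y) := by
        rw [ha]; exact (Nat.Coprime.pow_right a hyc).symm
      obtain ⟨m, hm⟩ := exists_pow_eq_self_of_coprime hcop'
      rw [← hm]; exact K.pow_mem h6 m
    exact ((hK y).mp hyK').2 x hx

/-- One step of the induction for `hs_claimC`. -/
theorem hs_claimC_step {G : Type u} [Group G] [Finite G] {p : ℕ} [Fact p.Prime] (d : ℕ)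
    (hd : 1 ≤ d) (P : Sylow p G) (hyp : HsHyp p d (P : Subgroup G))
    (hcop : ∀ y : G, (orderOf y).Coprime p → (orderOf y).Coprime (p - 1))
    (E : Subgroup G) (hEP : E ≤ (P : Subgroup G)) (hEc : Nat.card E = p ^ d)
    (H : Subgroup G) (hHP : H ≤ (P : Subgroup G))
    (hIH : ∀ H' : Subgroup G, H' ≤ (P : Subgroup G) → Nat.card H < Nat.card H' →
      ∀ y ∈ Subgroup.normalizer (H' : Set G), (orderOf y).Coprime p →
      ∀ x ∈ H', y * x * y⁻¹ * x⁻¹ ∈ E) :
    ∀ y ∈ Subgroup.normalizer (H : Set G), (orderOf y).Coprime p →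
      ∀ x ∈ H, y * x * y⁻¹ * x⁻¹ ∈ E := by
  have hSC : HsSC E (P : Subgroup G) := (hyp E hEP (Or.inl hEc)).1
  obtain ⟨g, hg1, hg2⟩ := Cfsg.Agent.Lib.helper25.exists_conj_sylCard_normalizer P H hHP
  have hcardeq : Nat.card ↥(H.map (MulAut.conj g).toMonoidHom) = Nat.card H :=
    Subgroup.card_map_of_injective (MulAut.conj g).injective
  have hfull := hs_claimC_full d hd P hyp hcop E hEP hEc (H.map (MulAut.conj g).toMonoidHom) hg1
    hg2 (by rw [hcardeq]; exact hIH)
  intro y hy hyc x hx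
  have hy' : g * y * g⁻¹ ∈ Subgroup.normalizer
      ((H.map (MulAut.conj g).toMonoidHom : Subgroup G) : Set G) := by
    rw [Cfsg.Agent.Lib.helper25.normalizer_map_cj]
    exact ⟨y, hy, rfl⟩
  have hord : orderOf (g * y * g⁻¹) = orderOf y := by
    have := MulEquiv.orderOf_eq (MulAut.conj g) y
    rw [MulAut.conj_apply] at this
    exact this
  have h1 := hfull (g * y * g⁻¹) hy' (by rw [hord]; exact hyc) (g * x * g⁻¹) ⟨x, hx, rfl⟩
  have hw : y * x * y⁻¹ * x⁻¹ ∈ H :=
    H.mul_mem (Cfsg.Agent.Lib.helper8.conj_mem_of_mem_normalizer hy hx) (H.inv_mem hx)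
  have e1 : g * y * g⁻¹ * (g * x * g⁻¹) * (g * y * g⁻¹)⁻¹ * (g * x * g⁻¹)⁻¹
      = g * (y * x * y⁻¹ * x⁻¹) * g⁻¹ := by group
  rw [e1] at h1
  have h2 := hSC g⁻¹ _ h1 (by
    have e2 : g⁻¹ * (g * (y * x * y⁻¹ * x⁻¹) * g⁻¹) * g⁻¹⁻¹ = y * x * y⁻¹ * x⁻¹ := by group
    rw [e2]; exact hHP hw)
  have e2 : g⁻¹ * (g * (y * x * y⁻¹ * x⁻¹) * g⁻¹) * g⁻¹⁻¹ = y * x * y⁻¹ * x⁻¹ := by group
  rw [e2] at h2
  exact h2

/-- Under the working hypothesis, every element of order prime to `p` normalizing a subgroup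
`H` of `P` acts trivially on `H` modulo each subgroup `E` of `P` of order `p ^ d`. -/
theorem hs_claimC {G : Type u} [Group G] [Finite G] {p : ℕ} [Fact p.Prime] (d : ℕ)
    (hd : 1 ≤ d) (P : Sylow p G) (hyp : HsHyp p d (P : Subgroup G))
    (hcop : ∀ y : G, (orderOf y).Coprime p → (orderOf y).Coprime (p - 1))
    (E : Subgroup G) (hEP : E ≤ (P : Subgroup G)) (hEc : Nat.card E = p ^ d)
    (H : Subgroup G) (hHP : H ≤ (P : Subgroup G)) :
    ∀ y ∈ Subgroup.normalizer (H : Set G), (orderOf y).Coprime p →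
      ∀ x ∈ H, y * x * y⁻¹ * x⁻¹ ∈ E := by
  have main : ∀ (n : ℕ) (H : Subgroup G), H ≤ (P : Subgroup G) →
      Nat.card (P : Subgroup G) - Nat.card H ≤ n →
      ∀ y ∈ Subgroup.normalizer (H : Set G), (orderOf y).Coprime p →
      ∀ x ∈ H, y * x * y⁻¹ * x⁻¹ ∈ E := by
    intro n
    induction n with
    | zero =>
      intro H hHP hn
      apply hs_claimC_step d hd P hyp hcop E hEP hEc H hHP
      intro H' hH'P hlt
      have := Subgroup.card_le_of_le hH'P
      omega
    | succ n ih =>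
      intro H hHP hn
      apply hs_claimC_step d hd P hyp hcop E hEP hEc H hHP
      intro H' hH'P hlt
      have := Subgroup.card_le_of_le hH'P
      exact ih H' hH'P (by omega)
  exact main _ H hHP le_rfl


/-- If a Sylow `p`-subgroup of `N(D)` and all elements of `N(D)` of order prime to `p` act
trivially on `D` modulo `S`, so does `N(D)`. -/
theorem hs_norm_good {G : Type u} [Group G] [Finite G] {p : ℕ} [Fact p.Prime]
    (S D : Subgroup G)
    (Q₁ : Sylow p ↥(Subgroup.normalizer (D : Set G)))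
    (hS₁ : ∀ s ∈ (Q₁ : Subgroup ↥(Subgroup.normalizer (D : Set G))).map
      (Subgroup.normalizer (D : Set G)).subtype, ∀ x ∈ D, s * x * s⁻¹ * x⁻¹ ∈ S)
    (hloc : ∀ y ∈ Subgroup.normalizer (D : Set G), (orderOf y).Coprime p →
      ∀ x ∈ D, y * x * y⁻¹ * x⁻¹ ∈ S) :
    ∀ n ∈ Subgroup.normalizer (D : Set G), ∀ x ∈ D, n * x * n⁻¹ * x⁻¹ ∈ S := by
  classical
  obtain ⟨N, hN⟩ : ∃ N : Subgroup G, N = Subgroup.normalizer (D : Set G) := ⟨_, rfl⟩
  have hconjD : ∀ n ∈ N, ∀ h ∈ D, n * h * n⁻¹ ∈ D := by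
    intro n hn h hh
    rw [hN] at hn
    exact Cfsg.Agent.Lib.helper8.conj_mem_of_mem_normalizer hn hh
  obtain ⟨K, hK⟩ : ∃ K : Subgroup G, ∀ n, n ∈ K ↔ (n ∈ N ∧ ∀ h ∈ D, n * h * n⁻¹ * h⁻¹ ∈ S) := by
    refine ⟨{ carrier := {n | n ∈ N ∧ ∀ h ∈ D, n * h * n⁻¹ * h⁻¹ ∈ S}
              mul_mem' := ?_
              one_mem' := ?_
              inv_mem' := ?_ }, fun n => Iff.rfl⟩
    · rintro a b ⟨haN, ha⟩ ⟨hbN, hb⟩
      refine ⟨N.mul_mem haN hbN, fun h hh => ?_⟩
      have e : a * b * h * (a * b)⁻¹ * h⁻¹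
          = (a * (b * h * b⁻¹) * a⁻¹ * (b * h * b⁻¹)⁻¹) * (b * h * b⁻¹ * h⁻¹) := by group
      rw [e]
      exact S.mul_mem (ha _ (hconjD b hbN h hh)) (hb h hh)
    · refine ⟨N.one_mem, fun h hh => ?_⟩
      simp
    · rintro a ⟨haN, ha⟩
      refine ⟨N.inv_mem haN, fun h hh => ?_⟩
      have e : a⁻¹ * h * a⁻¹⁻¹ * h⁻¹
          = (a * (a⁻¹ * h * a⁻¹⁻¹) * a⁻¹ * (a⁻¹ * h * a⁻¹⁻¹)⁻¹)⁻¹ := by group
      rw [e]
      exact S.inv_mem (ha _ (hconjD a⁻¹ (N.inv_mem haN) h hh))
  have hle : N ≤ K := by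
    have h1 := le_pprime_closure_sup_sylow p (Subgroup.normalizer (D : Set G)) Q₁
    rw [hN]
    refine h1.trans (sup_le ?_ ?_)
    · rw [Subgroup.closure_le]
      rintro g ⟨hg, hgc⟩
      show g ∈ K
      rw [hK, hN]
      exact ⟨hg, hloc g hg hgc⟩
    · intro s hs
      rw [hK, hN]
      exact ⟨Subgroup.map_subtype_le _ hs, hS₁ s hs⟩
  intro n hn x hx
  rw [← hN] at hn
  exact ((hK n).mp (hle hn)).2 x hx

theorem hs_card_lt {G : Type u} [Group G] [Finite G] {A B : Subgroup G} (h : A < B) :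
    Nat.card A < Nat.card B := by
  by_contra hc
  exact h.ne (Subgroup.eq_of_le_of_card_ge h.le (not_lt.mp hc))

/-- One step of the induction for `hs_fusion`. -/
theorem hs_fusion_step {G : Type u} [Group G] [Finite G] {p : ℕ} [Fact p.Prime] (P : Sylow p G)
    (S : Subgroup G) (hcomm : ⁅(P : Subgroup G), (P : Subgroup G)⁆ ≤ S)
    (hloc : ∀ H : Subgroup G, H ≤ (P : Subgroup G) → ∀ y ∈ Subgroup.normalizer (H : Set G),
      (orderOf y).Coprime p → ∀ x ∈ H, y * x * y⁻¹ * x⁻¹ ∈ S)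
    (g : G)
    (hIH : ∀ g' : G, Nat.card ↥((P : Subgroup G) ⊓
        (P : Subgroup G).comap (MulAut.conj g).toMonoidHom) <
        Nat.card ↥((P : Subgroup G) ⊓ (P : Subgroup G).comap (MulAut.conj g').toMonoidHom) →
      ∀ x ∈ (P : Subgroup G), g' * x * g'⁻¹ ∈ (P : Subgroup G) → g' * x * g'⁻¹ * x⁻¹ ∈ S) :
    ∀ x ∈ (P : Subgroup G), g * x * g⁻¹ ∈ (P : Subgroup G) → g * x * g⁻¹ * x⁻¹ ∈ S := by
  classical
  have hp : p.Prime := Fact.out
  have hPp : IsPGroup p (P : Subgroup G) := P.isPGroup'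
  obtain ⟨D, hD⟩ : ∃ D : Subgroup G,
      D = (P : Subgroup G) ⊓ (P : Subgroup G).comap (MulAut.conj g).toMonoidHom := ⟨_, rfl⟩
  rw [← hD] at hIH
  have hDP : D ≤ (P : Subgroup G) := by rw [hD]; exact inf_le_left
  have hDmem : ∀ x, x ∈ D ↔ (x ∈ (P : Subgroup G) ∧ g * x * g⁻¹ ∈ (P : Subgroup G)) := by
    intro x; rw [hD]; rfl
  have hcard_of_le : ∀ (g' : G) (X : Subgroup G), Nat.card D < Nat.card X →
      (∀ z ∈ X, z ∈ (P : Subgroup G) ∧ g' * z * g'⁻¹ ∈ (P : Subgroup G)) →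
      ∀ x ∈ (P : Subgroup G), g' * x * g'⁻¹ ∈ (P : Subgroup G) → g' * x * g'⁻¹ * x⁻¹ ∈ S := by
    intro g' X hlt hX
    apply hIH g'
    refine lt_of_lt_of_le hlt (Subgroup.card_le_of_le ?_)
    intro z hz
    exact hX z hz
  obtain ⟨N, hN⟩ : ∃ N : Subgroup G, N = Subgroup.normalizer (D : Set G) := ⟨_, rfl⟩
  have hconjD : ∀ n ∈ N, ∀ h ∈ D, n * h * n⁻¹ ∈ D := by
    intro n hn h hh
    rw [hN] at hn
    exact Cfsg.Agent.Lib.helper8.conj_mem_of_mem_normalizer hn hh
  have hDN : D ≤ N := by rw [hN]; exact Subgroup.le_normalizer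
  intro x hxP hgx
  have hxD : x ∈ D := (hDmem x).mpr ⟨hxP, hgx⟩
  by_cases hDeq : D = (P : Subgroup G)
  · -- `g` normalizes `P`
    have hgN : g ∈ Subgroup.normalizer (D : Set G) := by
      rw [hDeq]
      apply Cfsg.Agent.Lib.helper15.mem_normalizer_of_conj_le
      intro r hr
      rw [← hDeq] at hr
      exact ((hDmem r).mp hr).2
    obtain ⟨Q₁, hQ₁⟩ := Cfsg.Agent.Lib.helper8.exists_sylow_map_ge
      (Subgroup.le_normalizer : D ≤ Subgroup.normalizer (D : Set G)) (hPp.to_le hDP)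
    have hQ₁P : (Q₁ : Subgroup ↥(Subgroup.normalizer (D : Set G))).map
        (Subgroup.normalizer (D : Set G)).subtype = (P : Subgroup G) := by
      apply P.is_maximal' (Q₁.isPGroup'.map _)
      rw [← hDeq]; exact hQ₁
    refine hs_norm_good S D Q₁ ?_ (hloc D hDP) g hgN x hxD
    intro s hs h hh
    rw [hQ₁P] at hs
    apply hcomm
    have e : s * h * s⁻¹ * h⁻¹ = ⁅s, h⁆ := by rw [commutatorElement_def]
    rw [e]
    exact Subgroup.commutator_mem_commutator hs (hDP hh)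
  · have hDlt : D < (P : Subgroup G) := lt_of_le_of_ne hDP hDeq
    have hlt1 : D < (P : Subgroup G) ⊓ Subgroup.normalizer (D : Set G) :=
      normalizer_inf_gt (P : Subgroup G) D hPp hDlt
    obtain ⟨Q₁, hQ₁⟩ := Cfsg.Agent.Lib.helper8.exists_sylow_map_ge
      (inf_le_right : (P : Subgroup G) ⊓ Subgroup.normalizer (D : Set G) ≤
        Subgroup.normalizer (D : Set G)) (hPp.to_le inf_le_left)
    obtain ⟨S₁, hS₁⟩ : ∃ S₁ : Subgroup G,
        S₁ = (Q₁ : Subgroup ↥(Subgroup.normalizer (D : Set G))).map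
          (Subgroup.normalizer (D : Set G)).subtype := ⟨_, rfl⟩
    rw [← hS₁] at hQ₁
    have hS₁p : IsPGroup p ↥S₁ := by rw [hS₁]; exact Q₁.isPGroup'.map _
    have hS₁N : S₁ ≤ N := by rw [hS₁, hN]; exact Subgroup.map_subtype_le _
    -- conjugate `S₁` into `P`
    obtain ⟨a, ha⟩ : ∃ a : G, ∀ s ∈ S₁, a * s * a⁻¹ ∈ (P : Subgroup G) := by
      obtain ⟨Q, hQ⟩ := hS₁p.exists_le_sylow
      obtain ⟨a, ha⟩ := MulAction.exists_smul_eq G Q P
      refine ⟨a, fun s hs => ?_⟩
      rw [← ha, Cfsg.Agent.Lib.helper25.sylow_smul_coe]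
      exact ⟨s, hQ hs, rfl⟩
    have hIHa : ∀ z ∈ (P : Subgroup G) ⊓ Subgroup.normalizer (D : Set G),
        a * z * a⁻¹ * z⁻¹ ∈ S := by
      intro z hz
      exact hcard_of_le a ((P : Subgroup G) ⊓ Subgroup.normalizer (D : Set G)) (hs_card_lt hlt1)
        (fun w hw => ⟨hw.1, ha w (hQ₁ hw)⟩) z hz.1 (ha z (hQ₁ hz))
    have hIHaD : ∀ z ∈ D, a * z * a⁻¹ * z⁻¹ ∈ S := fun z hz => hIHa z ⟨hDP hz, by
      rw [← hN]; exact hDN hz⟩
    have hgood : ∀ n ∈ Subgroup.normalizer (D : Set G), ∀ h ∈ D, n * h * n⁻¹ * h⁻¹ ∈ S := by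
      refine hs_norm_good S D Q₁ ?_ (hloc D hDP)
      intro s hs h hh
      rw [← hS₁] at hs
      have hsN : s ∈ N := hS₁N hs
      have h1 := hIHaD h hh
      have h2 := hIHaD (s * h * s⁻¹) (hconjD s hsN h hh)
      have hs' : a * s * a⁻¹ ∈ (P : Subgroup G) := ha s hs
      have hX : a * h * a⁻¹ ∈ (P : Subgroup G) := ha h (hQ₁ ⟨hDP hh, by rw [← hN]; exact hDN hh⟩)
      have h3 : ⁅a * s * a⁻¹, a * h * a⁻¹⁆ ∈ S :=
        hcomm (Subgroup.commutator_mem_commutator hs' hX)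
      have e : s * h * s⁻¹ * h⁻¹
          = (a * (s * h * s⁻¹) * a⁻¹ * (s * h * s⁻¹)⁻¹)⁻¹ * ⁅a * s * a⁻¹, a * h * a⁻¹⁆
            * (a * h * a⁻¹ * h⁻¹) := by
        rw [commutatorElement_def]; group
      rw [e]
      exact S.mul_mem (S.mul_mem (S.inv_mem h2) h3) h1
    -- the other side
    obtain ⟨Q, hQ⟩ : ∃ Q : Subgroup G,
        Q = (P : Subgroup G).map (MulAut.conj g⁻¹).toMonoidHom := ⟨_, rfl⟩
    have hQmem : ∀ z, z ∈ Q ↔ g * z * g⁻¹ ∈ (P : Subgroup G) := by
      intro z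
      rw [hQ, Cfsg.Agent.Lib.helper25.mem_map_cj, inv_inv]
    have hQp : IsPGroup p ↥Q := by rw [hQ]; exact hPp.map _
    have hQcard : Nat.card ↥Q = Nat.card (P : Subgroup G) := by
      rw [hQ]; exact Subgroup.card_map_of_injective (MulAut.conj g⁻¹).injective
    have hDQ : D ≤ Q := fun z hz => (hQmem z).mpr ((hDmem z).mp hz).2
    have hDQlt : D < Q := by
      refine lt_of_le_of_ne hDQ ?_
      intro h
      have h1 := hs_card_lt hDlt
      rw [h, hQcard] at h1
      exact lt_irrefl _ h1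
    have hlt2 : D < Q ⊓ Subgroup.normalizer (D : Set G) := normalizer_inf_gt Q D hQp hDQlt
    obtain ⟨Q₂, hQ₂⟩ := Cfsg.Agent.Lib.helper8.exists_sylow_map_ge
      (inf_le_right : Q ⊓ Subgroup.normalizer (D : Set G) ≤
        Subgroup.normalizer (D : Set G)) (hQp.to_le inf_le_left)
    obtain ⟨m, hm, hmconj⟩ := Cfsg.Agent.Lib.helper8.sylow_map_conj
      (Subgroup.normalizer (D : Set G)) Q₁ Q₂
    rw [← hS₁] at hmconj
    obtain ⟨c, hc⟩ : ∃ c : G, c = a * m⁻¹ * g⁻¹ := ⟨_, rfl⟩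
    have hcmem : ∀ z ∈ Q ⊓ Subgroup.normalizer (D : Set G),
        c * (g * z * g⁻¹) * c⁻¹ ∈ (P : Subgroup G) := by
      intro z hz
      have h1 : m⁻¹ * z * m ∈ S₁ := (hmconj z).mp (hQ₂ hz)
      have e : c * (g * z * g⁻¹) * c⁻¹ = a * (m⁻¹ * z * m) * a⁻¹ := by rw [hc]; group
      rw [e]; exact ha _ h1
    have hIHc : ∀ z ∈ Q ⊓ Subgroup.normalizer (D : Set G),
        c * (g * z * g⁻¹) * c⁻¹ * (g * z * g⁻¹)⁻¹ ∈ S := by
      intro z hz
      refine hcard_of_le c ((Q ⊓ Subgroup.normalizer (D : Set G)).map (MulAut.conj g).toMonoidHom)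
        ?_ ?_ (g * z * g⁻¹) ((hQmem z).mp hz.1) (hcmem z hz)
      · rw [Subgroup.card_map_of_injective (MulAut.conj g).injective]
        exact hs_card_lt hlt2
      · rintro _ ⟨w, hw, rfl⟩
        exact ⟨(hQmem w).mp hw.1, hcmem w hw⟩
    have hxQN : x ∈ Q ⊓ Subgroup.normalizer (D : Set G) := ⟨hDQ hxD, by rw [← hN]; exact hDN hxD⟩
    have h1 := hIHc x hxQN
    have hmN : m⁻¹ ∈ N := by rw [hN]; exact Subgroup.inv_mem _ hm
    have hx₁ : m⁻¹ * x * m⁻¹⁻¹ ∈ D := hconjD m⁻¹ hmN x hxD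
    have h2 := hIHaD _ hx₁
    have h3 := hgood m⁻¹ (by rw [← hN]; exact hmN) x hxD
    have e : g * x * g⁻¹ * x⁻¹
        = (c * (g * x * g⁻¹) * c⁻¹ * (g * x * g⁻¹)⁻¹)⁻¹
          * (a * (m⁻¹ * x * m⁻¹⁻¹) * a⁻¹ * (m⁻¹ * x * m⁻¹⁻¹)⁻¹)
          * (m⁻¹ * x * m⁻¹⁻¹ * x⁻¹) := by
      rw [hc]; group
    rw [e]
    exact S.mul_mem (S.mul_mem (S.inv_mem h1) h2) h3

/-- Alperin-type fusion induction: if all local `p'`-elements act trivially modulo `S ≥ P'`,
then all fusion in `P` is trivial modulo `S`. -/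
theorem hs_fusion {G : Type u} [Group G] [Finite G] {p : ℕ} [Fact p.Prime] (P : Sylow p G)
    (S : Subgroup G) (hcomm : ⁅(P : Subgroup G), (P : Subgroup G)⁆ ≤ S)
    (hloc : ∀ H : Subgroup G, H ≤ (P : Subgroup G) → ∀ y ∈ Subgroup.normalizer (H : Set G),
      (orderOf y).Coprime p → ∀ x ∈ H, y * x * y⁻¹ * x⁻¹ ∈ S) :
    ∀ (g x : G), x ∈ (P : Subgroup G) → g * x * g⁻¹ ∈ (P : Subgroup G) →
      g * x * g⁻¹ * x⁻¹ ∈ S := by
  have main : ∀ (n : ℕ) (g : G), Nat.card (P : Subgroup G) - Nat.card ↥((P : Subgroup G) ⊓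
      (P : Subgroup G).comap (MulAut.conj g).toMonoidHom) ≤ n →
      ∀ x ∈ (P : Subgroup G), g * x * g⁻¹ ∈ (P : Subgroup G) → g * x * g⁻¹ * x⁻¹ ∈ S := by
    intro n
    induction n with
    | zero =>
      intro g hn
      apply hs_fusion_step P S hcomm hloc g
      intro g' hlt
      have := Subgroup.card_le_of_le (inf_le_left : (P : Subgroup G) ⊓
        (P : Subgroup G).comap (MulAut.conj g').toMonoidHom ≤ (P : Subgroup G))
      omega
    | succ n ih =>
      intro g hn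
      apply hs_fusion_step P S hcomm hloc g
      intro g' hlt
      have := Subgroup.card_le_of_le (inf_le_left : (P : Subgroup G) ⊓
        (P : Subgroup G).comap (MulAut.conj g').toMonoidHom ≤ (P : Subgroup G))
      exact ih g' (by omega)
  intro g
  exact main _ g le_rfl

/-- trivial fusion modulo `S ≥ P'` bounds the focal subgroup. -/
theorem hs_focal_le {G : Type u} [Group G] [Finite G] {p : ℕ} [Fact p.Prime] (P : Sylow p G)
    (S : Subgroup G) (hcomm : ⁅(P : Subgroup G), (P : Subgroup G)⁆ ≤ S)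
    (hfus : ∀ (g x : G), x ∈ (P : Subgroup G) → g * x * g⁻¹ ∈ (P : Subgroup G) →
      g * x * g⁻¹ * x⁻¹ ∈ S) :
    commutator G ⊓ (P : Subgroup G) ≤ S := by
  rw [Subgroup.commutator_inf_eq_focalSubgroup, Subgroup.focalSubgroup_def, Subgroup.closure_le]
  rintro g ⟨hgP, x, hx, u, rfl⟩
  have h1 : u * x⁻¹ * u⁻¹ ∈ (P : Subgroup G) := by
    have e : u * x⁻¹ * u⁻¹ = x⁻¹ * ⁅x, u⁆ := by rw [commutatorElement_def]; group
    rw [e]; exact mul_mem (inv_mem hx) hgP
  have h2 := hfus u x⁻¹ (inv_mem hx) h1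
  rw [inv_inv] at h2
  have hw : u * x⁻¹ * u⁻¹ * x ∈ (P : Subgroup G) := mul_mem h1 hx
  have h3 : ⁅x, u * x⁻¹ * u⁻¹ * x⁆ ∈ S := hcomm (Subgroup.commutator_mem_commutator hx hw)
  have e : ⁅x, u⁆ = ⁅x, u * x⁻¹ * u⁻¹ * x⁆ * (u * x⁻¹ * u⁻¹ * x) := by
    simp only [commutatorElement_def]; group
  show ⁅x, u⁆ ∈ S
  rw [e]
  exact S.mul_mem h3 h2

/-- a normal `p`-complement from `P ∩ G' ≤ S` with `S` inside the Frattini subgroup of `P`. -/
theorem hs_npc_of_le_frattini {G : Type u} [Group G] [Finite G] {p : ℕ} [Fact p.Prime]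
    (P : Sylow p G) (S : Subgroup G) (h1 : commutator G ⊓ (P : Subgroup G) ≤ S)
    (h2 : S.subgroupOf (P : Subgroup G) ≤ frattini (P : Subgroup G)) :
    Cfsg.HasNormalPComplement p G := by
  have h3 : (commutator G).subgroupOf (P : Subgroup G) ≤ frattini (P : Subgroup G) := by
    intro z hz
    apply h2
    rw [Subgroup.mem_subgroupOf] at hz ⊢
    exact h1 ⟨hz, z.2⟩
  have h4 := Cfsg.Agent.Lib.lead.commutator_inf_le_of_le_frattini P h3
  exact ⟨P, Cfsg.pResidual p G, Cfsg.Agent.S0075.pResidual_normal p,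
    Cfsg.Agent.Lib.lead.isComplement'_pResidual_of_commutator_le P h4⟩

/-- Normal `p`-complement from strongly closed subgroups of a fixed order of a Sylow
`p`-subgroup, when `p'`-elements have order prime to `p - 1`. -/
theorem hs_npc {G : Type u} [Group G] [Finite G] {p : ℕ} [Fact p.Prime]
    (hcop : ∀ y : G, (orderOf y).Coprime p → (orderOf y).Coprime (p - 1)) (P : Sylow p G)
    (h : IsCyclic ↥(P : Subgroup G) ∨ ∃ d : ℕ, 1 ≤ d ∧ p ^ d < Nat.card (P : Subgroup G) ∧
      HsHyp p d (P : Subgroup G)) :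
    Cfsg.HasNormalPComplement p G := by
  classical
  have hp : p.Prime := Fact.out
  have hPp : IsPGroup p (P : Subgroup G) := P.isPGroup'
  rcases h with hc | ⟨d, hd, hdP, hyp⟩
  · have hloc : ∀ H : Subgroup G, H ≤ (P : Subgroup G) → ∀ y ∈ Subgroup.normalizer (H : Set G),
        (orderOf y).Coprime p → ∀ x ∈ H,
          y * x * y⁻¹ * x⁻¹ ∈ ⁅(P : Subgroup G), (P : Subgroup G)⁆ := by
      intro H hH y hy hyp' x hx
      have : IsCyclic ↥H := Subgroup.isCyclic_of_le hH
      have h1 := hs_cyclic_central H (hPp.to_le hH) y hy hyp' (hcop y hyp') x hx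
      rw [h1, mul_inv_cancel]; exact one_mem _
    have hf := hs_fusion P _ le_rfl hloc
    have h1 := hs_focal_le P _ le_rfl hf
    exact ⟨P, Cfsg.pResidual p G, Cfsg.Agent.S0075.pResidual_normal p,
      Cfsg.Agent.Lib.lead.isComplement'_pResidual_of_commutator_le P h1⟩
  · obtain ⟨I, hI⟩ : ∃ I : Subgroup G,
        I = sInf {E : Subgroup G | E ≤ (P : Subgroup G) ∧ Nat.card E = p ^ d} := ⟨_, rfl⟩
    obtain ⟨S, hS⟩ : ∃ S : Subgroup G, S = ⁅(P : Subgroup G), (P : Subgroup G)⁆ ⊔ I := ⟨_, rfl⟩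
    have hcomm : ⁅(P : Subgroup G), (P : Subgroup G)⁆ ≤ S := by rw [hS]; exact le_sup_left
    have hloc : ∀ H : Subgroup G, H ≤ (P : Subgroup G) → ∀ y ∈ Subgroup.normalizer (H : Set G),
        (orderOf y).Coprime p → ∀ x ∈ H, y * x * y⁻¹ * x⁻¹ ∈ S := by
      intro H hH y hy hyp' x hx
      have hIS : I ≤ S := by rw [hS]; exact le_sup_right
      apply hIS
      rw [hI, Subgroup.mem_sInf]
      rintro E ⟨hEP, hEc⟩
      exact hs_claimC d hd P hyp hcop E hEP hEc H hH y hy hyp' x hx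
    have hf := hs_fusion P S hcomm hloc
    have h1 := hs_focal_le P S hcomm hf
    refine hs_npc_of_le_frattini P S h1 ?_
    simp only [frattini, Order.radical, le_iInf_iff]
    intro M hM
    obtain ⟨hMn, hMi⟩ := Cfsg.Agent.Lib.helper1.coatom_normal_index p hPp M hM
    have hMc := (Cfsg.Agent.Lib.helper1.coatom_commutator_le_and_pow_mem p hPp M hM).1
    obtain ⟨n, hn⟩ := IsPGroup.iff_card.mp hPp
    have hdn : d < n := by
      rw [hn] at hdP
      exact (Nat.pow_lt_pow_iff_right hp.one_lt).mp hdP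
    have hMcard : Nat.card M = p ^ (n - 1) := by
      have h2 := Subgroup.card_mul_index M
      rw [hMi, hn] at h2
      have h3 : p ^ n = p ^ (n - 1) * p := by
        rw [← pow_succ]; congr 1; omega
      rw [h3] at h2
      exact Nat.eq_of_mul_eq_mul_right hp.pos h2
    have hMcard' : Nat.card (M.map (P : Subgroup G).subtype) = p ^ (n - 1) := by
      rw [Subgroup.card_map_of_injective (Subgroup.subtype_injective _), hMcard]
    have hMP : M.map (P : Subgroup G).subtype ≤ (P : Subgroup G) := Subgroup.map_subtype_le _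
    have hle : S ≤ M.map (P : Subgroup G).subtype := by
      rw [hS]
      refine sup_le ?_ ?_
      · rw [← Subgroup.map_subtype_commutator]
        exact Subgroup.map_mono hMc
      · obtain ⟨E, hE, hEc⟩ := Sylow.exists_subgroup_le_card_pow_prime_of_le_card hp
          hPp (H := M) (by rw [hMcard]; exact Nat.pow_le_pow_right hp.pos (by omega) :
            p ^ d ≤ Nat.card M)
        have hE' : E.map (P : Subgroup G).subtype ≤ M.map (P : Subgroup G).subtype :=
          Subgroup.map_mono hE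
        have hEc' : Nat.card (E.map (P : Subgroup G).subtype) = p ^ d := by
          rw [Subgroup.card_map_of_injective (Subgroup.subtype_injective _), hEc]
        rw [hI]
        have hmem : E.map (P : Subgroup G).subtype ∈
            {E : Subgroup G | E ≤ (P : Subgroup G) ∧ Nat.card E = p ^ d} :=
          ⟨hE'.trans hMP, hEc'⟩
        exact (sInf_le hmem).trans hE'
    intro z hz
    rw [Subgroup.mem_subgroupOf] at hz
    obtain ⟨w, hw, hwz⟩ := hle hz
    have : w = z := Subtype.ext hwz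
    rwa [← this]

end Cfsg.Agent.Lib.helper15
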