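import Mathlib
import Cfsg.Prelude.Def_SolvableStructure
import Cfsg.Agent.Lib.helper3.Supersolvable
import Cfsg.Agent.Lib.helper3.SupersolvablePrime
import Cfsg.Agent.Lib.helper15.HSub
import Cfsg.Agent.Lib.helper15.Rank1

set_option autoImplicit false

namespace Cfsg.Agent.Lib.helper15

open scoped commutatorElement
open Cfsg.Agent.Lib.helper3 (Reach)

universe u

open Polynomial in
/-- An endomorphism of order dividing `q - 1` of a nontrivial finite `ZMod q`-module has an
eigenvector. -/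
theorem hs_ev_module {q : ℕ} [Fact q.Prime] {M : Type*} [AddCommGroup M] [Module (ZMod q) M]
    [Finite M] [Nontrivial M] (f : M →ₗ[ZMod q] M) (hf : f ^ (q - 1) = 1) :
    ∃ v : M, v ≠ 0 ∧ ∃ n : ℕ, f v = n • v := by
  classical
  have hq : q.Prime := Fact.out
  have hfq : f ^ q = f := by
    have h1 : f ^ q = f ^ (q - 1) * f := by
      rw [← pow_succ]; congr 1; have := hq.one_le; omega
    rw [h1, hf, one_mul]
  have hroot : Polynomial.aeval f (X ^ q - X : (ZMod q)[X]) = 0 := by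
    simp [hfq]
  have hdvd : minpoly (ZMod q) f ∣ X ^ q - X := minpoly.dvd _ _ hroot
  have hsplit : (X ^ q - X : (ZMod q)[X]).Splits := GaloisField.splits_zmod_X_pow_sub_X q
  have hne : (X ^ q - X : (ZMod q)[X]) ≠ 0 := FiniteField.X_pow_card_sub_X_ne_zero _ hq.one_lt
  have hms : (minpoly (ZMod q) f).Splits := hsplit.of_dvd hne hdvd
  have : Module.Finite (ZMod q) M := Module.Finite.of_finite
  have hint : IsIntegral (ZMod q) f := Algebra.IsIntegral.isIntegral f
  have hdeg : (minpoly (ZMod q) f).degree ≠ 0 := (minpoly.degree_pos hint).ne'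
  obtain ⟨μ, hμ⟩ := hms.exists_eval_eq_zero hdeg
  have hev : Module.End.HasEigenvalue f μ := Module.End.hasEigenvalue_of_isRoot hμ
  obtain ⟨v, hv⟩ := hev.exists_hasEigenvector
  have hv1 : f v = μ • v := Module.End.mem_eigenspace_iff.mp hv.1
  refine ⟨v, hv.2, μ.val, ?_⟩
  have h2 : μ • v = μ.val • v := by
    conv_lhs => rw [← ZMod.natCast_zmod_val μ]
    exact Nat.cast_smul_eq_nsmul (ZMod q) μ.val v
  rw [hv1, h2]

theorem hs_ev_comm {V : Type*} [CommGroup V] [Finite V] [Nontrivial V] {q : ℕ} [Fact q.Prime]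
    (hexp : ∀ a : V, a ^ q = 1) (φ : V →* V)
    (hφ : ∀ v : V, (φ^[q - 1]) v = v) :
    ∃ v : V, v ≠ 1 ∧ ∃ n : ℕ, φ v = v ^ n := by
  classical
  have hA : ∀ x : Additive V, q • x = 0 := fun x => by
    have h1 := hexp x.toMul
    exact congrArg Additive.ofMul h1
  have : Module (ZMod q) (Additive V) := AddCommGroup.zmodModule hA
  obtain ⟨f, hfapp⟩ : ∃ f : Module.End (ZMod q) (Additive V),
      ∀ x : Additive V, f x = Additive.ofMul (φ x.toMul) :=
    ⟨(MonoidHom.toAdditive φ).toZModLinearMap q, fun x => rfl⟩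
  have hfpow : ∀ (k : ℕ) (x : Additive V), (f ^ k) x = Additive.ofMul ((φ^[k]) x.toMul) := by
    intro k
    induction k with
    | zero => intro x; rfl
    | succ k ih =>
      intro x
      rw [pow_succ', Module.End.mul_apply, ih, hfapp, Function.iterate_succ', Function.comp_apply]
      rfl
  have hf : f ^ (q - 1) = 1 := by
    apply LinearMap.ext
    intro x
    rw [hfpow, hφ]; rfl
  have : Nontrivial (Additive V) := inferInstanceAs (Nontrivial V)
  have : Finite (Additive V) := inferInstanceAs (Finite V)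
  obtain ⟨v, hv, n, hn⟩ := hs_ev_module f hf
  refine ⟨v.toMul, ?_, n, ?_⟩
  · intro h
    exact hv (congrArg Additive.ofMul h)
  · rw [hfapp] at hn
    exact congrArg Additive.toMul hn

/-- An endomorphism of order dividing `q - 1` of a nontrivial elementary abelian `q`-group maps
some nontrivial element to a power of itself. -/
theorem hs_ev {V : Type*} [Group V] [Finite V] [Nontrivial V] {q : ℕ} [Fact q.Prime]
    (hcomm : ∀ a b : V, a * b = b * a) (hexp : ∀ a : V, a ^ q = 1) (φ : V →* V)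
    (hφ : ∀ v : V, (φ^[q - 1]) v = v) :
    ∃ v : V, v ≠ 1 ∧ ∃ n : ℕ, φ v = v ^ n := by
  letI : CommGroup V := { (inferInstance : Group V) with mul_comm := hcomm }
  exact hs_ev_comm hexp φ hφ

theorem hs_zpowers_normal {G : Type*} [Group G] (w : G)
    (h : ∀ g : G, ∃ n : ℕ, g * w * g⁻¹ = w ^ n) : (Subgroup.zpowers w).Normal := by
  constructor
  intro x hx g
  obtain ⟨k, rfl⟩ := Subgroup.mem_zpowers_iff.mp hx
  obtain ⟨n, hn⟩ := h g
  rw [← conj_zpow, hn]
  exact Subgroup.zpow_mem _ (Subgroup.pow_mem _ (Subgroup.mem_zpowers w) n) k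

/-- `G / C_G(Q)` is an extension of a `q`-group by an abelian group of exponent dividing `q - 1`,
witnessed by a normal subgroup `C`. -/
def HsQC {G : Type*} [Group G] (q : ℕ) (Q : Subgroup G) : Prop :=
  ∃ C : Subgroup G, C.Normal ∧ Q ≤ C ∧ (∀ g h : G, ⁅g, h⁆ ∈ C) ∧ (∀ g : G, g ^ (q - 1) ∈ C) ∧
    ∀ y ∈ C, ∃ k : ℕ, ∀ x ∈ Q, y ^ (q ^ k) * x * (y ^ (q ^ k))⁻¹ = x

/-- A group acting as a `q`-group on a nontrivial normal `q`-subgroup has a fixed element of
order `q`. -/
theorem hs_fixed {G : Type u} [Group G] [Finite G] {q : ℕ} [Fact q.Prime] (Q : Subgroup G)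
    [hQn : Q.Normal] (hQ : IsPGroup q Q) (hQ1 : Q ≠ ⊥) (C : Subgroup G)
    (hC : ∀ y ∈ C, ∃ k : ℕ, ∀ x ∈ Q, y ^ (q ^ k) * x * (y ^ (q ^ k))⁻¹ = x) :
    ∃ w ∈ Q, w ≠ 1 ∧ w ^ q = 1 ∧ ∀ c ∈ C, c * w * c⁻¹ = w := by
  classical
  have hq : q.Prime := Fact.out
  obtain ⟨ψ, hψ⟩ : ∃ ψ : ↥C →* MulAut ↥Q,
      ∀ (c : ↥C) (x : ↥Q), ((ψ c x : ↥Q) : G) = (c : G) * x * (c : G)⁻¹ :=
    ⟨(MulAut.conjNormal (H := Q)).comp C.subtype, fun c x => rfl⟩
  have hA : IsPGroup q ψ.range := by
    rintro ⟨a, c, rfl⟩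
    obtain ⟨k, hk⟩ := hC c c.2
    refine ⟨k, ?_⟩
    apply Subtype.ext
    show (ψ c) ^ (q ^ k) = 1
    rw [← map_pow]
    apply MulEquiv.ext
    intro x
    apply Subtype.ext
    rw [hψ]
    exact hk x x.2
  have hdvd : q ∣ Nat.card ↥Q := by
    obtain ⟨n, hn⟩ := IsPGroup.iff_card.mp hQ
    rw [hn]
    apply dvd_pow_self
    rintro rfl
    rw [pow_zero] at hn
    exact hQ1 (Subgroup.card_eq_one.mp hn)
  have h1 : (1 : ↥Q) ∈ MulAction.fixedPoints ψ.range ↥Q := by
    intro a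
    exact map_one (a : MulAut ↥Q)
  obtain ⟨b, hb, hb1⟩ := hA.exists_fixed_point_of_prime_dvd_card_of_fixed_point (↥Q) hdvd h1
  have hbC : ∀ c ∈ C, c * (b : G) * c⁻¹ = b := by
    intro c hc
    have h2 := hb ⟨ψ ⟨c, hc⟩, ⟨_, rfl⟩⟩
    have h3 : ψ ⟨c, hc⟩ b = b := h2
    have h4 := hψ ⟨c, hc⟩ b
    rw [h3] at h4
    exact h4.symm
  obtain ⟨j, hj⟩ := (IsPGroup.iff_orderOf.mp hQ) b
  have hj0 : j ≠ 0 := by
    rintro rfl
    rw [pow_zero, orderOf_eq_one_iff] at hj
    exact hb1 hj.symm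
  have hjG : orderOf (b : G) = q ^ j := by rw [← hj]; exact (Subgroup.orderOf_coe b)
  refine ⟨(b : G) ^ (q ^ (j - 1)), Q.pow_mem b.2 _, ?_, ?_, ?_⟩
  · apply pow_ne_one_of_lt_orderOf (pow_pos hq.pos _).ne'
    rw [hjG]
    exact Nat.pow_lt_pow_right hq.one_lt (by omega)
  · have e : q ^ (j - 1) * q = orderOf (b : G) := by
      rw [hjG, ← pow_succ]; congr 1; omega
    rw [← pow_mul, e]
    exact pow_orderOf_eq_one _
  · intro c hc
    rw [← conj_pow, hbC c hc]

/-- Under the hypothesis of `HsQC`, a nontrivial normal `q`-subgroup contains a nontrivial cyclic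
normal subgroup. -/
theorem hs_exists_cyclic_normal {G : Type u} [Group G] [Finite G] {q : ℕ} [Fact q.Prime]
    (Q : Subgroup G) [hQn : Q.Normal] (hQ : IsPGroup q Q) (hQ1 : Q ≠ ⊥) (C : Subgroup G)
    [hCn : C.Normal] (hQC : Q ≤ C) (hcomm : ∀ g h : G, ⁅g, h⁆ ∈ C)
    (hpow : ∀ g : G, g ^ (q - 1) ∈ C)
    (hC : ∀ y ∈ C, ∃ k : ℕ, ∀ x ∈ Q, y ^ (q ^ k) * x * (y ^ (q ^ k))⁻¹ = x) :
    ∃ w ∈ Q, w ≠ 1 ∧ (Subgroup.zpowers w).Normal := by
  classical
  have hq : q.Prime := Fact.out
  obtain ⟨w₀, hw₀Q, hw₀1, hw₀q, hw₀C⟩ := hs_fixed Q hQ hQ1 C hC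
  obtain ⟨W₂, hW₂⟩ : ∃ W₂ : Subgroup G,
      ∀ w, w ∈ W₂ ↔ (w ∈ Q ∧ w ^ q = 1 ∧ ∀ c ∈ C, c * w * c⁻¹ = w) := by
    refine ⟨{ carrier := {w | w ∈ Q ∧ w ^ q = 1 ∧ ∀ c ∈ C, c * w * c⁻¹ = w}
              mul_mem' := ?_
              one_mem' := ?_
              inv_mem' := ?_ }, fun w => Iff.rfl⟩
    · rintro a b ⟨haQ, haq, haC⟩ ⟨hbQ, hbq, hbC⟩
      have hab : Commute a b := by
        have h1 := hbC a (hQC haQ)
        show a * b = b * a
        calc a * b = a * b * a⁻¹ * a := by group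
          _ = b * a := by rw [h1]
      refine ⟨Q.mul_mem haQ hbQ, ?_, ?_⟩
      · rw [hab.mul_pow, haq, hbq, one_mul]
      · intro c hc
        rw [← conj_mul, haC c hc, hbC c hc]
    · exact ⟨Q.one_mem, one_pow q, fun c _ => by group⟩
    · rintro a ⟨haQ, haq, haC⟩
      refine ⟨Q.inv_mem haQ, by rw [inv_pow, haq, inv_one], ?_⟩
      intro c hc
      rw [← conj_inv, haC c hc]
  have hW₂Q : W₂ ≤ Q := fun w hw => ((hW₂ w).mp hw).1
  have hW₂n : W₂.Normal := by
    constructor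
    intro w hw g
    obtain ⟨hwQ, hwq, hwC⟩ := (hW₂ w).mp hw
    rw [hW₂]
    refine ⟨hQn.conj_mem w hwQ g, by rw [conj_pow, hwq]; group, ?_⟩
    intro c hc
    have h1 := hwC (g⁻¹ * c * g) (by simpa using hCn.conj_mem c hc g⁻¹)
    calc c * (g * w * g⁻¹) * c⁻¹ = g * ((g⁻¹ * c * g) * w * (g⁻¹ * c * g)⁻¹) * g⁻¹ := by group
      _ = g * w * g⁻¹ := by rw [h1]
  have hW₂comm : ∀ a ∈ W₂, ∀ b ∈ W₂, a * b = b * a := by
    intro a ha b hb
    have h1 := ((hW₂ b).mp hb).2.2 a (hQC (hW₂Q ha))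
    calc a * b = a * b * a⁻¹ * a := by group
      _ = b * a := by rw [h1]
  have hw₀W : w₀ ∈ W₂ := (hW₂ w₀).mpr ⟨hw₀Q, hw₀q, hw₀C⟩
  obtain ⟨W', ⟨hW'le, hW'ne, hW'n⟩, hmin⟩ := Set.exists_min_image
    {W : Subgroup G | W ≤ W₂ ∧ W ≠ ⊥ ∧ W.Normal} (fun W => Nat.card W) (Set.toFinite _)
    ⟨W₂, le_rfl, fun h => hw₀1 (by rw [h] at hw₀W; exact Subgroup.mem_bot.mp hw₀W), hW₂n⟩
  have hWmin : ∀ E : Subgroup G, E ≤ W' → E ≠ ⊥ → E.Normal → E = W' := by
    intro E hE hE1 hEn
    exact Subgroup.eq_of_le_of_card_ge hE (hmin E ⟨hE.trans hW'le, hE1, hEn⟩)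
  have key : ∀ g : G, ∃ n : ℕ, ∀ w ∈ W', g * w * g⁻¹ = w ^ n := by
    intro g
    have : Nontrivial ↥W' := (Subgroup.nontrivial_iff_ne_bot W').mpr hW'ne
    obtain ⟨φ, hφ⟩ : ∃ φ : ↥W' →* ↥W', ∀ v : ↥W', ((φ v : ↥W') : G) = g * v * g⁻¹ :=
      ⟨(MulAut.conjNormal g : MulAut ↥W').toMonoidHom, fun v => rfl⟩
    have hiter : ∀ (k : ℕ) (v : ↥W'), (((φ^[k]) v : ↥W') : G) = g ^ k * v * (g ^ k)⁻¹ := by
      intro k
      induction k with
      | zero => intro v; simp
      | succ k ih =>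
        intro v
        rw [Function.iterate_succ', Function.comp_apply, hφ, ih, pow_succ']
        group
    have hφq : ∀ v : ↥W', (φ^[q - 1]) v = v := by
      intro v
      apply Subtype.ext
      rw [hiter]
      exact ((hW₂ v).mp (hW'le v.2)).2.2 _ (hpow g)
    have hc' : ∀ a b : ↥W', a * b = b * a := by
      intro a b
      apply Subtype.ext
      exact hW₂comm a (hW'le a.2) b (hW'le b.2)
    have he' : ∀ a : ↥W', a ^ q = 1 := by
      intro a
      apply Subtype.ext
      rw [Subgroup.coe_pow]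
      exact ((hW₂ a).mp (hW'le a.2)).2.1
    obtain ⟨v, hv1, n, hn⟩ := hs_ev hc' he' φ hφq
    have hvn : g * (v : G) * g⁻¹ = (v : G) ^ n := by
      rw [← hφ, hn]; rfl
    obtain ⟨E, hE⟩ : ∃ E : Subgroup G, ∀ w, w ∈ E ↔ (w ∈ W' ∧ g * w * g⁻¹ = w ^ n) := by
      refine ⟨{ carrier := {w | w ∈ W' ∧ g * w * g⁻¹ = w ^ n}
                mul_mem' := ?_
                one_mem' := ?_
                inv_mem' := ?_ }, fun w => Iff.rfl⟩
      · rintro a b ⟨ha, ha'⟩ ⟨hb, hb'⟩
        refine ⟨W'.mul_mem ha hb, ?_⟩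
        have hab : Commute a b := hW₂comm a (hW'le ha) b (hW'le hb)
        rw [hab.mul_pow, ← ha', ← hb', conj_mul]
      · exact ⟨W'.one_mem, by simp⟩
      · rintro a ⟨ha, ha'⟩
        exact ⟨W'.inv_mem ha, by rw [← conj_inv, ha', inv_pow]⟩
    have hEn : E.Normal := by
      constructor
      intro w hw h
      obtain ⟨hwW, hwn⟩ := (hE w).mp hw
      rw [hE]
      refine ⟨hW'n.conj_mem w hwW h, ?_⟩
      have hc : ⁅g⁻¹, h⁻¹⁆ ∈ C := hcomm g⁻¹ h⁻¹
      have h1 := ((hW₂ w).mp (hW'le hwW)).2.2 _ hc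
      have e : g * (h * w * h⁻¹) * g⁻¹
          = h * (g * (⁅g⁻¹, h⁻¹⁆ * w * ⁅g⁻¹, h⁻¹⁆⁻¹) * g⁻¹) * h⁻¹ := by
        rw [commutatorElement_def]; group
      rw [e, h1, hwn, conj_pow]
    have hE1 : E ≠ ⊥ := by
      intro h
      have h2 : (v : G) ∈ E := (hE _).mpr ⟨v.2, hvn⟩
      rw [h, Subgroup.mem_bot] at h2
      exact hv1 (Subtype.ext h2)
    have hEW : E = W' := hWmin E (fun w hw => ((hE w).mp hw).1) hE1 hEn
    refine ⟨n, fun w hw => ?_⟩
    rw [← hEW] at hw
    exact ((hE w).mp hw).2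
  obtain ⟨w, hwW, hw1⟩ : ∃ w ∈ W', w ≠ 1 := by
    by_contra hcon
    push Not at hcon
    exact hW'ne ((Subgroup.eq_bot_iff_forall W').mpr hcon)
  refine ⟨w, hW₂Q (hW'le hwW), hw1, hs_zpowers_normal w ?_⟩
  intro g
  obtain ⟨n, hn⟩ := key g
  exact ⟨n, hn w hwW⟩

/-- A normal `q`-subgroup on which `G` acts as a (`q`-group)-by-(abelian of exponent dividing
`q - 1`) group has a `G`-invariant series with cyclic factors. -/
theorem hs_reach_of_qc {q : ℕ} [Fact q.Prime] : ∀ (n : ℕ) (G : Type u) [Group G] [Finite G]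
    (Q : Subgroup G) [Q.Normal], Nat.card Q ≤ n → IsPGroup q Q → HsQC q Q → Reach Q := by
  intro n
  induction n with
  | zero =>
    intro G _ _ Q _ hn _ _
    have := Nat.card_pos (α := ↥Q)
    omega
  | succ n ih =>
    intro G _ _ Q hQn hn hQ hqc
    by_cases hQ1 : Q = ⊥
    · rw [hQ1]; exact Reach.bot
    obtain ⟨C, hCn, hQC, hcomm, hpow, hC⟩ := hqc
    obtain ⟨w, hwQ, hw1, hwn⟩ := hs_exists_cyclic_normal Q hQ hQ1 C hQC hcomm hpow hC
    obtain ⟨N, hN⟩ : ∃ N : Subgroup G, N = Subgroup.zpowers w := ⟨_, rfl⟩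
    have hNn : N.Normal := by rw [hN]; exact hwn
    have hNc : IsCyclic ↥N := by rw [hN]; infer_instance
    have hNQ : N ≤ Q := by rw [hN]; exact Subgroup.zpowers_le.mpr hwQ
    have hsurj := QuotientGroup.mk'_surjective N
    have hQ'n : (Q.map (QuotientGroup.mk' N)).Normal := Subgroup.Normal.map hQn _ hsurj
    have hcard : Nat.card ↥Q = Nat.card ↥(Q.map (QuotientGroup.mk' N)) * Nat.card ↥N := by
      have h1 := Cfsg.Agent.Lib.helper3.card_comap_mk' N (Q.map (QuotientGroup.mk' N))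
      rw [QuotientGroup.comap_map_mk', sup_eq_right.mpr hNQ] at h1
      exact h1
    have hNcard : 2 ≤ Nat.card ↥N := by
      have h1 : N ≠ ⊥ := by
        intro h
        have h2 : w ∈ N := by rw [hN]; exact Subgroup.mem_zpowers w
        rw [h, Subgroup.mem_bot] at h2
        exact hw1 h2
      exact N.one_lt_card_iff_ne_bot.mpr h1
    have hpos : 0 < Nat.card ↥(Q.map (QuotientGroup.mk' N)) := Nat.card_pos
    have hlt : Nat.card ↥(Q.map (QuotientGroup.mk' N)) ≤ n := by nlinarith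
    have hqc' : HsQC q (Q.map (QuotientGroup.mk' N)) := by
      refine ⟨C.map (QuotientGroup.mk' N), Subgroup.Normal.map hCn _ hsurj,
        Subgroup.map_mono hQC, ?_, ?_, ?_⟩
      · intro g' h'
        obtain ⟨g, rfl⟩ := hsurj g'
        obtain ⟨h, rfl⟩ := hsurj h'
        exact ⟨⁅g, h⁆, hcomm g h, by rw [map_commutatorElement]⟩
      · intro g'
        obtain ⟨g, rfl⟩ := hsurj g'
        exact ⟨g ^ (q - 1), hpow g, by rw [map_pow]⟩
      · rintro _ ⟨y, hy, rfl⟩
        obtain ⟨k, hk⟩ := hC y hy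
        refine ⟨k, ?_⟩
        rintro _ ⟨x, hx, rfl⟩
        rw [← map_pow, ← map_inv, ← map_mul, ← map_mul, hk x hx]
    have hR := ih (G ⧸ N) (Q.map (QuotientGroup.mk' N)) hlt (hQ.map _) hqc'
    have hker : Reach (QuotientGroup.mk' N).ker := by
      rw [QuotientGroup.ker_mk']
      exact Cfsg.Agent.Lib.helper3.reach_of_isCyclic_normal N
    have h3 := Cfsg.Agent.Lib.helper3.Reach.comap_of_ker (QuotientGroup.mk' N) hker hR
    rwa [QuotientGroup.comap_map_mk', sup_eq_right.mpr hNQ] at h3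

/-- On a `G`-invariant section `X / M` of order `q`, commutators, `(q - 1)`-th powers and
`q`-elements of `G` act trivially. -/
theorem hs_sec_triv {G : Type u} [Group G] [Finite G] {q : ℕ} [Fact q.Prime] (M X : Subgroup G)
    [hMn : M.Normal] [hXn : X.Normal] (hMX : M ≤ X) (hcard : Nat.card X = q * Nat.card M) :
    (∀ g h : G, ∀ x ∈ X, x⁻¹ * (⁅g, h⁆ * x * ⁅g, h⁆⁻¹) ∈ M) ∧
    (∀ g : G, ∀ x ∈ X, x⁻¹ * (g ^ (q - 1) * x * (g ^ (q - 1))⁻¹) ∈ M) ∧
    (∀ (g : G) (k : ℕ), g ^ (q ^ k) = 1 → ∀ x ∈ X, x⁻¹ * (g * x * g⁻¹) ∈ M) := by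
  classical
  have hq : q.Prime := Fact.out
  have hsurj := QuotientGroup.mk'_surjective M
  obtain ⟨X', hX'⟩ : ∃ X' : Subgroup (G ⧸ M), X' = X.map (QuotientGroup.mk' M) := ⟨_, rfl⟩
  have hX'n : X'.Normal := by rw [hX']; exact Subgroup.Normal.map hXn _ hsurj
  have hX'card : Nat.card X' = q := by
    have h1 := Cfsg.Agent.Lib.helper3.card_comap_mk' M X'
    rw [hX', QuotientGroup.comap_map_mk', sup_eq_right.mpr hMX, hcard] at h1
    rw [hX']
    exact (Nat.eq_of_mul_eq_mul_right Nat.card_pos h1).symm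
  have hcyc : IsCyclic ↥X' := isCyclic_of_prime_card hX'card
  obtain ⟨β, hβ⟩ : ∃ β : G →* MulAut ↥X', ∀ (g : G) (x : ↥X'),
      ((β g x : ↥X') : G ⧸ M) = (g : G ⧸ M) * x * (g : G ⧸ M)⁻¹ :=
    ⟨(MulAut.conjNormal (H := X')).comp (QuotientGroup.mk' M), fun g x => rfl⟩
  have hker : ∀ g : G, β g = 1 → ∀ x ∈ X, x⁻¹ * (g * x * g⁻¹) ∈ M := by
    intro g hg x hx
    have hx' : (x : G ⧸ M) ∈ X' := by rw [hX']; exact ⟨x, hx, rfl⟩
    have h1 := hβ g ⟨_, hx'⟩
    rw [hg] at h1
    have h2 : ((x : G ⧸ M)) = ((g * x * g⁻¹ : G) : G ⧸ M) := by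
      rw [QuotientGroup.mk_mul, QuotientGroup.mk_mul, QuotientGroup.mk_inv]
      exact h1
    exact QuotientGroup.eq.mp h2
  have hcommA : ∀ a b : MulAut ↥X', a * b = b * a := by
    intro a b
    apply (IsCyclic.mulAutMulEquiv ↥X').injective
    rw [map_mul, map_mul, mul_comm]
  have hexpA : ∀ a : MulAut ↥X', a ^ (q - 1) = 1 := by
    intro a
    have h1 : Nat.card (MulAut ↥X') = q - 1 := by
      rw [IsCyclic.card_mulAut, hX'card, Nat.totient_prime hq]
    rw [← h1]; exact pow_card_eq_one'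
  refine ⟨?_, ?_, ?_⟩
  · intro g h
    apply hker
    rw [map_commutatorElement, commutatorElement_def, hcommA (β g) (β h)]
    group
  · intro g
    apply hker
    rw [map_pow]; exact hexpA _
  · intro g k hgk
    apply hker
    have h1 : (β g) ^ (q ^ k) = 1 := by rw [← map_pow, hgk, map_one]
    have h3 : orderOf (β g) ∣ q ^ k := orderOf_dvd_of_pow_eq_one h1
    have h4 : orderOf (β g) ∣ q - 1 := orderOf_dvd_of_pow_eq_one (hexpA _)
    have h5 : (q ^ k).Coprime (q - 1) := by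
      apply Nat.Coprime.pow_left
      rw [Nat.Prime.coprime_iff_not_dvd hq]
      intro h6
      by_cases h7 : q - 1 = 0
      · have := hq.two_le; omega
      · have := Nat.le_of_dvd (Nat.pos_of_ne_zero h7) h6
        have := hq.two_le; omega
    exact orderOf_eq_one_iff.mp (Nat.eq_one_of_dvd_coprimes h5 h3 h4)

/-- The elements acting trivially on every `G`-invariant section of order `q` inside `Q`. -/
def hsCent {G : Type*} [Group G] (q : ℕ) (Q : Subgroup G) : Subgroup G where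
  carrier := {g | ∀ M X : Subgroup G, M.Normal → X.Normal → M ≤ X → X ≤ Q →
    Nat.card X = q * Nat.card M → ∀ x ∈ X, x⁻¹ * (g * x * g⁻¹) ∈ M}
  mul_mem' := by
    intro a b ha hb M X hM hX hMX hXQ hc x hx
    have h1 := hb M X hM hX hMX hXQ hc x hx
    have h2 := ha M X hM hX hMX hXQ hc (b * x * b⁻¹) (hX.conj_mem x hx b)
    have e : x⁻¹ * (a * b * x * (a * b)⁻¹)
        = x⁻¹ * (b * x * b⁻¹) * ((b * x * b⁻¹)⁻¹ * (a * (b * x * b⁻¹) * a⁻¹)) := by group
    rw [e]; exact M.mul_mem h1 h2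
  one_mem' := by
    intro M X hM hX hMX hXQ hc x hx
    have e : x⁻¹ * (1 * x * 1⁻¹) = 1 := by group
    rw [e]; exact M.one_mem
  inv_mem' := by
    intro a ha M X hM hX hMX hXQ hc x hx
    have h1 := ha M X hM hX hMX hXQ hc (a⁻¹ * x * a) (by simpa using hX.conj_mem x hx a⁻¹)
    have e : x⁻¹ * (a⁻¹ * x * a⁻¹⁻¹)
        = ((a⁻¹ * x * a)⁻¹ * (a * (a⁻¹ * x * a) * a⁻¹))⁻¹ := by group
    rw [e]; exact M.inv_mem h1

theorem hsCent_normal {G : Type*} [Group G] (q : ℕ) (Q : Subgroup G) : (hsCent q Q).Normal := by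
  constructor
  intro a ha h M X hM hX hMX hXQ hc x hx
  have h1 := ha M X hM hX hMX hXQ hc (h⁻¹ * x * h) (by simpa using hX.conj_mem x hx h⁻¹)
  have e : x⁻¹ * (h * a * h⁻¹ * x * (h * a * h⁻¹)⁻¹)
      = h * ((h⁻¹ * x * h)⁻¹ * (a * (h⁻¹ * x * h) * a⁻¹)) * h⁻¹ := by group
  rw [e]; exact hM.conj_mem _ h1 h

/-- A `p'`-element normalizing a `p`-group `B` and acting trivially on `B / M` for all
subgroups `M` of index `p` centralizes `B`. -/
theorem hs_centralize_of_triv {G : Type u} [Group G] [Finite G] {p : ℕ} [Fact p.Prime]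
    (B : Subgroup G) (k : ℕ) (hB : Nat.card B = p ^ (k + 1)) (y : G)
    (_hyB : y ∈ Subgroup.normalizer (B : Set G))
    (hmax : ∀ M : Subgroup G, M ≤ B → Nat.card M = p ^ k → ∀ a ∈ Subgroup.zpowers y,
      a ∈ Subgroup.normalizer (M : Set G) ∧ ∀ b ∈ B, b⁻¹ * (a * b * a⁻¹) ∈ M)
    (h1 : (orderOf y).Coprime p) :
    ∀ b ∈ B, y * b * y⁻¹ = b := by
  classical
  have hp : p.Prime := Fact.out
  have hBp : IsPGroup p B := IsPGroup.of_card hB
  obtain ⟨A, hA⟩ : ∃ A : Subgroup G, A = Subgroup.zpowers y := ⟨_, rfl⟩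
  obtain ⟨C, hC⟩ : ∃ C : Subgroup G, C = B ⊓ Subgroup.centralizer (A : Set G) := ⟨_, rfl⟩
  have hCle : C ≤ B := by rw [hC]; exact inf_le_left
  by_contra hcon
  push Not at hcon
  obtain ⟨b₀, hb₀, hne⟩ := hcon
  have hCB : C ≠ B := by
    intro h
    have h0 : b₀ ∈ C := h ▸ hb₀
    rw [hC] at h0
    have h3 := Subgroup.mem_centralizer_iff.mp h0.2 y (by rw [hA]; exact Subgroup.mem_zpowers y)
    apply hne; rw [h3]; group
  obtain ⟨c, hc⟩ := IsPGroup.iff_card.mp (hBp.to_le hCle)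
  have hck : c ≤ k := by
    by_contra hlt
    push Not at hlt
    apply hCB; apply Subgroup.eq_of_le_of_card_ge hCle
    rw [hB, hc]; exact Nat.pow_le_pow_right hp.pos hlt
  obtain ⟨M, hCM, hMB, hM⟩ := hs_exists_between B hBp C hCle c hc k hck
    (by rw [hB]; exact Nat.pow_le_pow_right hp.pos (Nat.le_succ k))
  have hAM : A ≤ Subgroup.normalizer (M : Set G) := by
    intro a ha
    rw [hA] at ha
    exact (hmax M hMB hM a ha).1
  have hcop : (Nat.card A).Coprime (Nat.card M) := by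
    rw [hM, hA, Nat.card_zpowers]; exact Nat.Coprime.pow_right k h1
  have hsolv : Group.IsSolvable A ∨ Group.IsSolvable M := by
    left
    rw [hA]
    exact Cfsg.Agent.Lib.helper8.isSolvable_of_isMulCommutative (Subgroup.zpowers y)
  have hBM : B ≤ M := by
    intro b hb
    have hx : ∀ a ∈ A, b⁻¹ * a * b * a⁻¹ ∈ M := by
      intro a ha
      rw [hA] at ha
      have h5 := (hmax M hMB hM a ha).2 b hb
      have e : b⁻¹ * a * b * a⁻¹ = b⁻¹ * (a * b * a⁻¹) := by group
      rw [e]; exact h5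
    obtain ⟨d, hd, hfix⟩ := Cfsg.Agent.Lib.helper8.coset_fix A M hAM hcop hsolv b hx
    have hbd : b * d ∈ C := by
      rw [hC]
      refine ⟨B.mul_mem hb (hMB hd), ?_⟩
      show b * d ∈ Subgroup.centralizer (A : Set G)
      rw [Subgroup.mem_centralizer_iff]
      intro a ha
      exact hfix a ha
    have h6 := hCM hbd
    have e : b = (b * d) * d⁻¹ := by group
    rw [e]; exact M.mul_mem h6 (M.inv_mem hd)
  have h7 := Subgroup.card_le_of_le hBM
  rw [hB, hM] at h7
  exact absurd h7 (not_le.mpr (Nat.pow_lt_pow_right hp.one_lt (Nat.lt_succ_self k)))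

/-- If a `p`-group has two distinct subgroups of order `p ^ d`, one of them normal, then the
normal one has a neighbour: another subgroup of order `p ^ d` generating with it a subgroup of
order `p ^ (d + 1)`. -/
theorem hs_adjacent {G : Type u} [Group G] [Finite G] {p : ℕ} [Fact p.Prime] (Q : Subgroup G)
    (hQ : IsPGroup p Q) (d : ℕ) (D D' : Subgroup G) [hDn : D.Normal] (hDQ : D ≤ Q)
    (hD'Q : D' ≤ Q) (hD : Nat.card D = p ^ d) (hD' : Nat.card D' = p ^ d) (hne : D' ≠ D) :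
    ∃ D₂ : Subgroup G, D₂ ≤ Q ∧ Nat.card D₂ = p ^ d ∧ D₂ ≠ D ∧
      Nat.card ↥(D ⊔ D₂) = p ^ (d + 1) := by
  have hp : p.Prime := Fact.out
  have hYQ : D ⊔ D' ≤ Q := sup_le hDQ hD'Q
  have hYp : IsPGroup p ↥(D ⊔ D') := hQ.to_le hYQ
  have hD'notle : ¬ D' ≤ D := by
    intro h
    exact hne (Subgroup.eq_of_le_of_card_ge h (by rw [hD, hD']))
  have hDlt : D < D ⊔ D' :=
    lt_of_le_of_ne le_sup_left (fun h => hD'notle (by rw [h]; exact le_sup_right))
  have hYcard : p ^ (d + 1) ≤ Nat.card ↥(D ⊔ D') := by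
    obtain ⟨e, he⟩ := IsPGroup.iff_card.mp hYp
    have h1 := hs_card_lt hDlt
    rw [hD, he] at h1
    rw [he]
    exact Nat.pow_le_pow_right hp.pos ((Nat.pow_lt_pow_iff_right hp.one_lt).mp h1)
  obtain ⟨X₁, hDX₁, hX₁Y, hX₁⟩ := hs_exists_between (D ⊔ D') hYp D le_sup_left d hD (d + 1)
    (Nat.le_succ d) hYcard
  have hRnot : ¬ (X₁ ⊓ D' ≤ D) := by
    intro hR
    have hX₁D : X₁ ≤ D := by
      intro x hx
      have hx' : x ∈ ((D ⊔ D' : Subgroup G) : Set G) := hX₁Y hx
      rw [Subgroup.normal_mul] at hx'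
      obtain ⟨a, ha, b, hb, rfl⟩ := Set.mem_mul.mp hx'
      have hb' : b ∈ X₁ ⊓ D' := by
        refine ⟨?_, hb⟩
        have e : b = a⁻¹ * (a * b) := by group
        rw [e]; exact X₁.mul_mem (X₁.inv_mem (hDX₁ ha)) hx
      exact D.mul_mem ha (hR hb')
    have h1 := Subgroup.card_le_of_le hX₁D
    rw [hX₁, hD] at h1
    exact absurd h1 (not_le.mpr (Nat.pow_lt_pow_right hp.one_lt (Nat.lt_succ_self d)))
  obtain ⟨r, hr, hrD⟩ := SetLike.not_le_iff_exists.mp hRnot
  have hX₁p : IsPGroup p ↥X₁ := hYp.to_le hX₁Y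
  obtain ⟨c, hc⟩ := IsPGroup.iff_card.mp (hX₁p.to_le (inf_le_left : X₁ ⊓ D' ≤ X₁))
  have hcd : c ≤ d := by
    have h1 := Subgroup.card_le_of_le (inf_le_right : X₁ ⊓ D' ≤ D')
    rw [hc, hD'] at h1
    exact (Nat.pow_le_pow_iff_right hp.one_lt).mp h1
  obtain ⟨D₂, hRD₂, hD₂X₁, hD₂⟩ := hs_exists_between X₁ hX₁p (X₁ ⊓ D') inf_le_left c hc d hcd
    (by rw [hX₁]; exact Nat.pow_le_pow_right hp.pos (Nat.le_succ d))
  have hD₂ne : D₂ ≠ D := by
    intro h; exact hrD (h ▸ hRD₂ hr)
  refine ⟨D₂, hD₂X₁.trans (hX₁Y.trans hYQ), hD₂, hD₂ne, ?_⟩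
  have hle : D ⊔ D₂ ≤ X₁ := sup_le hDX₁ hD₂X₁
  have hD₂notle : ¬ D₂ ≤ D := by
    intro h
    exact hD₂ne (Subgroup.eq_of_le_of_card_ge h (by rw [hD, hD₂]))
  have hlt : D < D ⊔ D₂ :=
    lt_of_le_of_ne le_sup_left (fun h => hD₂notle (by rw [h]; exact le_sup_right))
  obtain ⟨e, he⟩ := IsPGroup.iff_card.mp (hX₁p.to_le hle)
  have h1 := hs_card_lt hlt
  have h2 := Subgroup.card_le_of_le hle
  rw [hD, he] at h1
  rw [he, hX₁] at h2
  have h3 : d < e := (Nat.pow_lt_pow_iff_right hp.one_lt).mp h1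
  have h4 : e ≤ d + 1 := (Nat.pow_le_pow_iff_right hp.one_lt).mp h2
  rw [he]; congr 1; omega

/-- If all subgroups of order `q ^ d` (and of order `4` when `q ^ d = 2`) of a normal
`q`-subgroup `Q` are normal in `G`, then `G` acts on `Q` as a (`q`-group)-by-(abelian of
exponent dividing `q - 1`) group. -/
theorem hs_qc_of_normal {G : Type u} [Group G] [Finite G] {q : ℕ} [Fact q.Prime]
    (Q : Subgroup G) [hQn : Q.Normal] (hQ : IsPGroup q Q) (d : ℕ) (hd : 1 ≤ d)
    (hdQ : q ^ d < Nat.card Q)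
    (hnorm : ∀ F : Subgroup G, F ≤ Q → (Nat.card F = q ^ d ∨ (q ^ d = 2 ∧ Nat.card F = 4)) →
      F.Normal) :
    HsQC q Q := by
  classical
  have hq : q.Prime := Fact.out
  have hcard : q ^ (d + 1) ≤ Nat.card Q := by
    obtain ⟨n, hn⟩ := IsPGroup.iff_card.mp hQ
    rw [hn] at hdQ ⊢
    exact Nat.pow_le_pow_right hq.pos ((Nat.pow_lt_pow_iff_right hq.one_lt).mp hdQ)
  refine ⟨hsCent q Q, hsCent_normal q Q, ?_, ?_, ?_, ?_⟩
  · intro x hx M X hM hX hMX hXQ hc z hz
    obtain ⟨k, hk⟩ := hQ ⟨x, hx⟩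
    have hk' : x ^ (q ^ k) = 1 := by
      have := congrArg Subtype.val hk
      simpa using this
    exact (hs_sec_triv M X hMX hc).2.2 x k hk' z hz
  · intro g h M X hM hX hMX hXQ hc z hz
    exact (hs_sec_triv M X hMX hc).1 g h z hz
  · intro g M X hM hX hMX hXQ hc z hz
    exact (hs_sec_triv M X hMX hc).2.1 g z hz
  · intro y hy
    obtain ⟨P⟩ : Nonempty (Sylow q G) := inferInstance
    obtain ⟨k, hk⟩ := IsPGroup.iff_card.mp P.isPGroup'
    refine ⟨k, ?_⟩
    have hy₁C' : y ^ (q ^ k) ∈ hsCent q Q := Subgroup.pow_mem _ hy _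
    have hy₁' : (orderOf (y ^ (q ^ k))).Coprime q := by rw [← hk]; exact hs_pprime_pow P y
    obtain ⟨y₁, hy₁def⟩ : ∃ y₁, y₁ = y ^ (q ^ k) := ⟨_, rfl⟩
    rw [← hy₁def] at hy₁C' hy₁' ⊢
    have hyN : y₁ ∈ Subgroup.normalizer (Q : Set G) := by
      rw [Subgroup.normalizer_eq_top]; trivial
    by_cases hq2 : q = 2
    · have hyp : HsHyp q d Q := by
        intro E hEQ hEc
        have hEn := hnorm E hEQ hEc
        refine ⟨fun g x hx _ => hEn.conj_mem x hx g, ?_⟩
        rw [Subgroup.normalizer_eq_top]; exact le_top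
      exact hs_l3 d hd Q hQ hyp Q le_rfl hcard y₁ hyN hy₁'
        (by rw [hq2]; exact Nat.coprime_one_right _)
    · have hΩ : ∀ x ∈ Q, x ^ q = 1 → Commute y₁ x := by
        intro x hx hxq
        have hzc : ∃ c, Nat.card (Subgroup.zpowers x) = q ^ c ∧ c ≤ d := by
          have h1 : orderOf x ∣ q := orderOf_dvd_of_pow_eq_one hxq
          rcases (Nat.dvd_prime hq).mp h1 with h | h
          · exact ⟨0, by rw [Nat.card_zpowers, h, pow_zero], Nat.zero_le d⟩
          · exact ⟨1, by rw [Nat.card_zpowers, h, pow_one], hd⟩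
        obtain ⟨c, hc, hcd⟩ := hzc
        obtain ⟨D, hxD, hDQ, hD⟩ := hs_exists_between Q hQ (Subgroup.zpowers x)
          (Subgroup.zpowers_le.mpr hx) c hc d hcd hdQ.le
        have hxD' : x ∈ D := hxD (Subgroup.mem_zpowers x)
        have hDn : D.Normal := hnorm D hDQ (Or.inl hD)
        have hfin : y₁ * x * y₁⁻¹ = x → Commute y₁ x := by
          intro h2
          show y₁ * x = x * y₁
          calc y₁ * x = y₁ * x * y₁⁻¹ * y₁ := by group
            _ = x * y₁ := by rw [h2]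
        apply hfin
        by_cases huniq : ∀ D' : Subgroup G, D' ≤ Q → Nat.card D' = q ^ d → D' = D
        · obtain ⟨X, hDX, hXQ, hX⟩ := hs_exists_between Q hQ D hDQ d hD (d + 1) (Nat.le_succ d)
            hcard
          have hXp : IsPGroup q X := hQ.to_le hXQ
          obtain ⟨t, htX, htD⟩ : ∃ t ∈ X, t ∉ D := by
            by_contra hcon
            push Not at hcon
            have h1 := Subgroup.card_le_of_le (show X ≤ D from hcon)
            rw [hX, hD] at h1
            exact absurd h1 (not_le.mpr (Nat.pow_lt_pow_right hq.one_lt (Nat.lt_succ_self d)))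
          have hzt : Subgroup.zpowers t = X := by
            by_contra hne
            have hle : Subgroup.zpowers t ≤ X := Subgroup.zpowers_le.mpr htX
            obtain ⟨e, he⟩ := IsPGroup.iff_card.mp (hXp.to_le hle)
            have hlt := hs_card_lt (lt_of_le_of_ne hle hne)
            rw [he, hX] at hlt
            have hed : e ≤ d := by
              have := (Nat.pow_lt_pow_iff_right hq.one_lt).mp hlt
              omega
            obtain ⟨M, htM, hMX, hM⟩ := hs_exists_between X hXp (Subgroup.zpowers t) hle e he d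
              hed (by rw [hX]; exact Nat.pow_le_pow_right hq.pos (Nat.le_succ d))
            have hMD := huniq M (hMX.trans hXQ) hM
            exact htD (hMD ▸ htM (Subgroup.mem_zpowers t))
          have hXc : IsCyclic ↥X := by rw [← hzt]; infer_instance
          have hDc : IsCyclic ↥D := Subgroup.isCyclic_of_le hDX
          have hD1 : D ≠ ⊥ := by
            intro h
            rw [h, Subgroup.card_bot] at hD
            have := Nat.one_lt_pow (by omega : d ≠ 0) hq.one_lt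
            omega
          obtain ⟨Z, hZD, hZc, hZ⟩ := uniq_of_cyclic D (hQ.to_le hDQ) hD1 hDc
          have hZn : Z.Normal := by
            constructor
            intro z hz g
            apply hZ _ (hDn.conj_mem z (hZD hz) g)
            have hzq : z ^ q = 1 := by
              have h3 : (⟨z, hz⟩ : ↥Z) ^ Nat.card ↥Z = 1 := pow_card_eq_one'
              rw [hZc] at h3
              have := congrArg Subtype.val h3
              simpa using this
            rw [conj_pow, hzq]; group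
          have hxZ : x ∈ Z := hZ x hxD' hxq
          have h1 := hy₁C' ⊥ Z Subgroup.normal_bot hZn bot_le (hZD.trans hDQ)
            (by rw [hZc, Subgroup.card_bot, mul_one]) x hxZ
          rw [Subgroup.mem_bot] at h1
          have h2 := congrArg (fun t => x * t) h1
          simpa using h2
        · push Not at huniq
          obtain ⟨D', hD'Q, hD', hne⟩ := huniq
          obtain ⟨D₂, hD₂Q, hD₂, hD₂ne, hXcard⟩ := hs_adjacent Q hQ d D D' hDQ hD'Q hD hD' hne
          have hD₂n : D₂.Normal := hnorm D₂ hD₂Q (Or.inl hD₂)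
          have hXn : (D ⊔ D₂).Normal := inferInstance
          have hXQ : D ⊔ D₂ ≤ Q := sup_le hDQ hD₂Q
          refine hs_centralize_of_triv (D ⊔ D₂) d hXcard y₁
            (by rw [Subgroup.normalizer_eq_top]; trivial) ?_ hy₁' x
            ((le_sup_left : D ≤ D ⊔ D₂) hxD')
          intro M hMX hM a ha
          have hMn : M.Normal := hnorm M (hMX.trans hXQ) (Or.inl hM)
          refine ⟨by rw [Subgroup.normalizer_eq_top]; trivial, ?_⟩
          intro b hb
          have haC : a ∈ hsCent q Q := (Subgroup.zpowers_le.mpr hy₁C') ha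
          exact haC M (D ⊔ D₂) hMn hXn hMX hXQ (by rw [hXcard, hM, pow_succ, mul_comm]) b hb
      have hcen := omega_centralize hq2 Q hQ y₁ hyN hy₁' hΩ
      intro x hx
      have h1 := Subgroup.mem_centralizer_iff.mp hcen x hx
      rw [← h1]; group

/-- A normal `q`-subgroup which is cyclic, or all of whose subgroups of some order `q ^ d`
(`1 < q ^ d < |Q|`; and of order `4` if `q ^ d = 2`) are normal in `G`, has a `G`-invariant series
with cyclic factors. -/
theorem hs_reach {G : Type u} [Group G] [Finite G] {q : ℕ} [Fact q.Prime]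
    (Q : Subgroup G) [hQn : Q.Normal] (hQ : IsPGroup q Q)
    (h : IsCyclic ↥Q ∨ ∃ d : ℕ, 1 ≤ d ∧ q ^ d < Nat.card Q ∧
      ∀ F : Subgroup G, F ≤ Q → (Nat.card F = q ^ d ∨ (q ^ d = 2 ∧ Nat.card F = 4)) →
        F.Normal) :
    Reach Q := by
  rcases h with hc | ⟨d, hd, hdQ, hnorm⟩
  · exact Cfsg.Agent.Lib.helper3.reach_of_isCyclic_normal Q
  · exact hs_reach_of_qc _ G Q le_rfl hQ (hs_qc_of_normal Q hQ d hd hdQ hnorm)

/-- The complement provided by `hs_npc` complements every Sylow `p`-subgroup. -/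
theorem hs_npc' {G : Type u} [Group G] [Finite G] {p : ℕ} [Fact p.Prime]
    (hcop : ∀ y : G, (orderOf y).Coprime p → (orderOf y).Coprime (p - 1)) (P : Sylow p G)
    (h : IsCyclic ↥(P : Subgroup G) ∨ ∃ d : ℕ, 1 ≤ d ∧ p ^ d < Nat.card (P : Subgroup G) ∧
      HsHyp p d (P : Subgroup G)) :
    ∃ N : Subgroup G, N.Normal ∧ N.IsComplement' (P : Subgroup G) := by
  have hp : p.Prime := Fact.out
  obtain ⟨P₀, N, hN, hc⟩ := hs_npc hcop P h
  refine ⟨N, hN, ?_⟩
  have hcard : Nat.card (P : Subgroup G) = Nat.card (P₀ : Subgroup G) := by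
    rw [P.card_eq_multiplicity, P₀.card_eq_multiplicity]
  apply Subgroup.isComplement'_of_coprime
  · rw [hcard]; exact hc.card_mul_card
  · have h1 : (P₀ : Subgroup G).index = Nat.card N := hc.index_eq_card
    have h2 : ¬ p ∣ Nat.card N := by rw [← h1]; exact P₀.not_dvd_index
    obtain ⟨k, hk⟩ := IsPGroup.iff_card.mp P.isPGroup'
    rw [hk]
    exact Nat.Coprime.pow_right k (((Nat.Prime.coprime_iff_not_dvd hp).mpr h2).symm)

/-- Strong closure and normalization pulled back to a subgroup. -/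
theorem hs_hyp_pullback {G : Type*} [Group G] (K : Subgroup G) (F' P' : Subgroup ↥K)
    (hsc : HsSC (F'.map K.subtype) (P'.map K.subtype))
    (hn : P'.map K.subtype ≤ Subgroup.normalizer ((F'.map K.subtype : Subgroup G) : Set G)) :
    HsSC F' P' ∧ P' ≤ Subgroup.normalizer (F' : Set ↥K) := by
  constructor
  · intro g x hx hgx
    have h1 := hsc (g : G) (x : G) ⟨x, hx, rfl⟩ ⟨g * x * g⁻¹, hgx, rfl⟩
    obtain ⟨w, hw, hwe⟩ := h1
    have e : w = g * x * g⁻¹ := Subtype.ext hwe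
    rwa [e] at hw
  · intro x hx
    have h1 := hn ⟨x, hx, rfl⟩
    rw [Subgroup.mem_normalizer_iff] at h1 ⊢
    intro f
    have h2 := h1 (f : G)
    constructor
    · intro hf
      obtain ⟨w, hw, hwe⟩ := h2.mp ⟨f, hf, rfl⟩
      have e : w = x * f * x⁻¹ := Subtype.ext hwe
      rwa [e] at hw
    · intro hf
      obtain ⟨w, hw, hwe⟩ := h2.mpr ⟨x * f * x⁻¹, hf, rfl⟩
      have e : w = f := Subtype.ext hwe
      rwa [e] at hw

theorem hs_card_mul_relIndex {G : Type*} [Group G] {R K : Subgroup G} (h : R ≤ K) :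
    Nat.card R * R.relIndex K = Nat.card K := by
  have h1 := Subgroup.card_mul_index (R.subgroupOf K)
  rw [Nat.card_congr (Subgroup.subgroupOfEquivOfLe h).toEquiv] at h1
  exact h1

/-- A normal complement of a Sylow `p`-subgroup of a normal subgroup `E` is normal in the whole
group. -/
theorem hs_compl_facts {G : Type u} [Group G] [Finite G] {p : ℕ} [Fact p.Prime] (E : Subgroup G)
    [hEn : E.Normal] (P' : Sylow p ↥E) (N' : Subgroup ↥E) (hN'n : N'.Normal)
    (hc : N'.IsComplement' (P' : Subgroup ↥E)) :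
    ∃ K : Subgroup G, K.Normal ∧ K ≤ E ∧ (Nat.card K).Coprime p ∧
      Nat.card K * Nat.card (P' : Subgroup ↥E) = Nat.card E ∧
      ∀ e ∈ E, ∃ k ∈ K, ∃ b ∈ (P' : Subgroup ↥E).map E.subtype, e = k * b := by
  have hp : p.Prime := Fact.out
  have hKcard : Nat.card (N'.map E.subtype) = Nat.card N' :=
    Subgroup.card_map_of_injective E.subtype_injective
  have hcopN : (Nat.card N').Coprime p := by
    have h1 : (P' : Subgroup ↥E).index = Nat.card N' := hc.index_eq_card
    have h2 : ¬ p ∣ Nat.card N' := by rw [← h1]; exact P'.not_dvd_index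
    exact ((Nat.Prime.coprime_iff_not_dvd hp).mpr h2).symm
  have hmem : ∀ x : ↥E, x ∈ N' ↔ (orderOf x).Coprime p := by
    intro x
    constructor
    · intro hx
      have h1 : orderOf (⟨x, hx⟩ : ↥N') ∣ Nat.card N' := orderOf_dvd_natCard _
      have h2 : orderOf (⟨x, hx⟩ : ↥N') = orderOf x := by
        rw [← Subgroup.orderOf_coe]
      rw [h2] at h1
      exact Nat.Coprime.coprime_dvd_left h1 hcopN
    · intro hx
      have hidx : N'.index = Nat.card (P' : Subgroup ↥E) := hc.symm.index_eq_card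
      obtain ⟨m, hm⟩ := IsPGroup.iff_card.mp P'.isPGroup'
      have h1 : orderOf (QuotientGroup.mk' N' x) ∣ orderOf x := orderOf_map_dvd _ x
      have h2 : orderOf (QuotientGroup.mk' N' x) ∣ p ^ m := by
        rw [← hm, ← hidx, Subgroup.index_eq_card]
        exact orderOf_dvd_natCard _
      have h3 : orderOf (QuotientGroup.mk' N' x) = 1 :=
        Nat.eq_one_of_dvd_coprimes (Nat.Coprime.pow_right m hx) h1 h2
      rw [orderOf_eq_one_iff] at h3
      exact (QuotientGroup.eq_one_iff x).mp h3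
  refine ⟨N'.map E.subtype, ?_, Subgroup.map_subtype_le _, by rw [hKcard]; exact hcopN, ?_, ?_⟩
  · constructor
    rintro _ ⟨n, hn, rfl⟩ g
    refine ⟨⟨g * (n : G) * g⁻¹, hEn.conj_mem _ n.2 g⟩, ?_, rfl⟩
    have hn' : (orderOf n).Coprime p := (hmem n).mp hn
    apply (hmem _).mpr
    have h1 : orderOf (⟨g * (n : G) * g⁻¹, hEn.conj_mem _ n.2 g⟩ : ↥E) = orderOf n := by
      rw [← Subgroup.orderOf_coe, ← Subgroup.orderOf_coe]
      exact orderOf_injective (MulAut.conj g).toMonoidHom (MulAut.conj g).injective (n : G)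
    rw [h1]; exact hn'
  · rw [hKcard]; exact hc.card_mul_card
  · intro e he
    obtain ⟨⟨n, b⟩, hnb, -⟩ := (Subgroup.isComplement'_def.mp hc).existsUnique ⟨e, he⟩
    refine ⟨(n : ↥E), ⟨n, n.2, rfl⟩, (b : ↥E), ⟨b, b.2, rfl⟩, ?_⟩
    have := congrArg Subtype.val hnb
    exact this.symm

/-- If `F ≤ P` is strongly closed in its normalizer, `P` is a Sylow `p`-subgroup of the normal
subgroup `E = K P` with `K` normal, then `F K` is normal. -/
theorem hs_sup_normal {G : Type u} [Group G] [Finite G] {p : ℕ} [Fact p.Prime]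
    (E K P F : Subgroup G) [hEn : E.Normal] [hKn : K.Normal] (hPE : P ≤ E) (hP : IsPGroup p P)
    (hsyl : Nat.card P = p ^ (Nat.card E).factorization p)
    (hdec : ∀ e ∈ E, ∃ k ∈ K, ∃ b ∈ P, e = k * b) (hFP : F ≤ P)
    (hF : ∀ g : G, F.map (MulAut.conj g).toMonoidHom ⊓ Subgroup.normalizer (F : Set G) ≤ F) :
    (F ⊔ K).Normal := by
  have hN := hs_normal_of_hsub P hP F hFP hF
  have hSC := hs_sc_of_hsub P F hN hF
  have claim : ∀ (g : G), ∀ f ∈ F, g * f * g⁻¹ ∈ F ⊔ K := by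
    intro g f hf
    have hFgE : F.map (MulAut.conj g).toMonoidHom ≤ E := by
      rintro _ ⟨x, hx, rfl⟩
      exact hEn.conj_mem x (hPE (hFP hx)) g
    have hFgp : IsPGroup p ↥(F.map (MulAut.conj g).toMonoidHom) := (hP.to_le hFP).map _
    obtain ⟨h, hhE, hh⟩ := Cfsg.Agent.Lib.helper25.exists_conj_le_of_sylCard hPE hsyl hFgp hFgE
    have h1 : h * (g * f * g⁻¹) * h⁻¹ ∈ P := hh ⟨g * f * g⁻¹, ⟨f, hf, rfl⟩, rfl⟩
    have h2 : (h * g) * f * (h * g)⁻¹ ∈ F := by
      apply hSC (h * g) f hf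
      have e : (h * g) * f * (h * g)⁻¹ = h * (g * f * g⁻¹) * h⁻¹ := by group
      rw [e]; exact h1
    obtain ⟨k, hk, b, hb, hkb⟩ := hdec h⁻¹ (E.inv_mem hhE)
    have h3 : b * ((h * g) * f * (h * g)⁻¹) * b⁻¹ ∈ F :=
      Cfsg.Agent.Lib.helper8.conj_mem_of_mem_normalizer (hN hb) h2
    have e : g * f * g⁻¹ = (b * ((h * g) * f * (h * g)⁻¹) * b⁻¹)
        * ((b * ((h * g) * f * (h * g)⁻¹) * b⁻¹)⁻¹ * k * (b * ((h * g) * f * (h * g)⁻¹) * b⁻¹)
          * k⁻¹) := by
      have e1 : g * f * g⁻¹ = h⁻¹ * ((h * g) * f * (h * g)⁻¹) * h⁻¹⁻¹ := by group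
      rw [e1, hkb]; group
    rw [e]
    refine (F ⊔ K).mul_mem ((le_sup_left : F ≤ F ⊔ K) h3) ((le_sup_right : K ≤ F ⊔ K) ?_)
    refine K.mul_mem ?_ (K.inv_mem hk)
    have := hKn.conj_mem k hk (b * ((h * g) * f * (h * g)⁻¹) * b⁻¹)⁻¹
    simpa [mul_assoc] using this
  constructor
  intro x hx g
  have hx' : x ∈ ((F ⊔ K : Subgroup G) : Set G) := hx
  rw [Subgroup.mul_normal] at hx'
  obtain ⟨f, hf, k, hk, rfl⟩ := Set.mem_mul.mp hx'
  have e : g * (f * k) * g⁻¹ = (g * f * g⁻¹) * (g * k * g⁻¹) := by group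
  rw [e]
  exact (F ⊔ K).mul_mem (claim g f hf) ((le_sup_right : K ≤ F ⊔ K) (hKn.conj_mem k hk g))

/-- The hypothesis of the supersolvability criterion on a normal subgroup `E`. -/
def HsSupHyp {G : Type*} [Group G] (E : Subgroup G) : Prop :=
  ∀ (p : ℕ), p.Prime → ∀ P : Subgroup G, P ≤ E → IsPGroup p P → ¬ p ∣ P.relIndex E →
    ¬ IsCyclic ↥P →
      ∃ D : Subgroup G, D ≤ P ∧ 1 < Nat.card D ∧ Nat.card D < Nat.card P ∧
        ∀ F : Subgroup G, F ≤ P → (Nat.card F = Nat.card D ∨ (Nat.card D = 2 ∧ Nat.card F = 4)) →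
          ∀ g : G, F.map (MulAut.conj g).toMonoidHom ⊓ Subgroup.normalizer (F : Set G) ≤ F

/-- A normal subgroup `E` whose non-cyclic Sylow subgroups have all subgroups of some fixed order
strongly closed in their normalizers has a `G`-invariant series with cyclic factors. -/
theorem hs_reach_normal {G : Type u} [Group G] [Finite G] : ∀ (n : ℕ) (E : Subgroup G),
    E.Normal → Nat.card E ≤ n → HsSupHyp E → Reach E := by
  intro n
  induction n with
  | zero =>
    intro E _ hn _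
    have := Nat.card_pos (α := ↥E)
    omega
  | succ n ih =>
    intro E hEn hn hyp
    by_cases hE1 : E = ⊥
    · rw [hE1]; exact Reach.bot
    classical
    have hcardE : Nat.card E ≠ 1 := fun h => hE1 (Subgroup.card_eq_one.mp h)
    obtain ⟨p, hp⟩ : ∃ p, p = (Nat.card E).minFac := ⟨_, rfl⟩
    have hpp : p.Prime := by rw [hp]; exact Nat.minFac_prime hcardE
    haveI : Fact p.Prime := ⟨hpp⟩
    have hpdvd : p ∣ Nat.card E := by rw [hp]; exact Nat.minFac_dvd _
    have hpmin : ∀ r : ℕ, r.Prime → r ∣ Nat.card E → p ≤ r := by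
      intro r hr hrd; rw [hp]; exact Nat.minFac_le_of_dvd hr.two_le hrd
    have hcop : ∀ y : ↥E, (orderOf y).Coprime p → (orderOf y).Coprime (p - 1) := by
      intro y _
      apply Nat.coprime_of_dvd
      intro r hr hry hrp
      have h1 : p ≤ r := hpmin r hr (hry.trans (orderOf_dvd_natCard y))
      have h3 := hpp.two_le
      have h2 : r ≤ p - 1 := Nat.le_of_dvd (by omega) hrp
      omega
    obtain ⟨P'⟩ : Nonempty (Sylow p ↥E) := inferInstance
    obtain ⟨P, hP⟩ : ∃ P : Subgroup G, P = (P' : Subgroup ↥E).map E.subtype := ⟨_, rfl⟩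
    have hPE : P ≤ E := by rw [hP]; exact Subgroup.map_subtype_le _
    have hPp : IsPGroup p P := by rw [hP]; exact P'.isPGroup'.map _
    have hPcard' : Nat.card P = Nat.card (P' : Subgroup ↥E) := by
      rw [hP]; exact Subgroup.card_map_of_injective E.subtype_injective
    have hPsyl : Nat.card P = p ^ (Nat.card E).factorization p := by
      rw [hPcard']; exact P'.card_eq_multiplicity
    have hPrel : ¬ p ∣ P.relIndex E := by
      have h1 : P.relIndex E = (P' : Subgroup ↥E).index := by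
        rw [Subgroup.relIndex, hP]
        congr 1
        exact Subgroup.comap_map_eq_self_of_injective E.subtype_injective _
      rw [h1]; exact P'.not_dvd_index
    have hS : IsCyclic ↥(P' : Subgroup ↥E) ∨ ∃ d : ℕ, 1 ≤ d ∧
        p ^ d < Nat.card (P' : Subgroup ↥E) ∧ HsHyp p d (P' : Subgroup ↥E) := by
      by_cases hcyc : IsCyclic ↥P
      · left
        have e : ↥(P' : Subgroup ↥E) ≃* ↥((P' : Subgroup ↥E).map E.subtype) :=
          (P' : Subgroup ↥E).equivMapOfInjective E.subtype E.subtype_injective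
        rw [hP] at hcyc
        exact isCyclic_of_surjective e.symm e.symm.surjective
      · right
        obtain ⟨D, hDP, hD1, hDlt, hD⟩ := hyp p hpp P hPE hPp hPrel hcyc
        obtain ⟨d, hd⟩ := IsPGroup.iff_card.mp (hPp.to_le hDP)
        refine ⟨d, ?_, ?_, ?_⟩
        · by_contra hcon
          have h0 : d = 0 := by omega
          rw [h0, pow_zero] at hd; omega
        · rw [← hPcard', ← hd]; exact hDlt
        · intro F' hF'P hF'c
          have hFP : F'.map E.subtype ≤ P := by rw [hP]; exact Subgroup.map_mono hF'P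
          have hFc : Nat.card (F'.map E.subtype) = Nat.card F' :=
            Subgroup.card_map_of_injective E.subtype_injective
          have hℋ := hD (F'.map E.subtype) hFP (by rw [hFc, hd]; exact hF'c)
          have hN := hs_normal_of_hsub P hPp _ hFP hℋ
          have hSC := hs_sc_of_hsub P _ hN hℋ
          rw [hP] at hN hSC
          exact hs_hyp_pullback E F' (P' : Subgroup ↥E) hSC hN
    obtain ⟨N', hN'n, hN'c⟩ := hs_npc' hcop P' hS
    obtain ⟨K, hKn, hKE, hKcop, hKcard, hdec⟩ := hs_compl_facts E P' N' hN'n hN'c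
    rw [← hP] at hdec
    rw [← hPcard'] at hKcard
    obtain ⟨m, hm⟩ := IsPGroup.iff_card.mp hPp
    have hKP : ∀ z, z ∈ K → z ∈ P → z = 1 := by
      intro z hzK hzP
      have h1 : orderOf z ∣ Nat.card K := by
        have h2 : orderOf (⟨z, hzK⟩ : ↥K) ∣ Nat.card K := orderOf_dvd_natCard _
        rwa [← Subgroup.orderOf_coe] at h2
      have h3 : orderOf z ∣ p ^ m := by
        have h2 : orderOf (⟨z, hzP⟩ : ↥P) ∣ Nat.card P := orderOf_dvd_natCard _
        rwa [← Subgroup.orderOf_coe, hm] at h2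
      exact orderOf_eq_one_iff.mp
        (Nat.eq_one_of_dvd_coprimes (Nat.Coprime.pow_right m hKcop) h1 h3)
    have hPpos : 2 ≤ Nat.card P := by
      have h1 : P ≠ ⊥ := by
        intro h
        rw [h, Subgroup.card_bot] at hPsyl
        have h2 : (Nat.card E).factorization p ≠ 0 := by
          have := (hpp.factorization_pos_of_dvd Nat.card_pos.ne' hpdvd)
          omega
        have := Nat.one_lt_pow h2 hpp.one_lt
        omega
      exact P.one_lt_card_iff_ne_bot.mpr h1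
    have hKpos : 0 < Nat.card K := Nat.card_pos
    have hKlt : Nat.card K ≤ n := by nlinarith
    have hypK : HsSupHyp K := by
      intro r hr R hRK hRr hRrel hRc
      have hRE : ¬ r ∣ R.relIndex E := by
        rw [← Subgroup.relIndex_mul_relIndex R K E hRK hKE]
        intro hdvd
        rcases (Nat.Prime.dvd_mul hr).mp hdvd with h | h
        · exact hRrel h
        · have h1 : K.relIndex E = Nat.card P := by
            have h2 := hs_card_mul_relIndex hKE
            rw [← hKcard] at h2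
            exact Nat.eq_of_mul_eq_mul_left hKpos h2
          rw [h1, hm] at h
          have hrp : r = p := (Nat.prime_dvd_prime_iff_eq hr hpp).mp (hr.dvd_of_dvd_pow h)
          apply hRc
          have hR1 : Nat.card R = 1 := by
            haveI : Fact r.Prime := ⟨hr⟩
            obtain ⟨j, hj⟩ := IsPGroup.iff_card.mp hRr
            have h3 : Nat.card R ∣ Nat.card K := Subgroup.card_dvd_of_le hRK
            rw [hj, hrp] at h3
            rw [hj, hrp]
            exact Nat.eq_one_of_dvd_coprimes (Nat.Coprime.pow_right j hKcop) h3 (dvd_refl _)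
          have : Subsingleton ↥R := (Nat.card_eq_one_iff_unique.mp hR1).1
          infer_instance
      exact hyp r hr R (hRK.trans hKE) hRr hRE hRc
    have hRK : Reach K := ih K hKn hKlt hypK
    have hsurj := QuotientGroup.mk'_surjective K
    obtain ⟨E', hE'⟩ : ∃ E' : Subgroup (G ⧸ K), E' = E.map (QuotientGroup.mk' K) := ⟨_, rfl⟩
    have hE'n : E'.Normal := by rw [hE']; exact Subgroup.Normal.map hEn _ hsurj
    have hE'card : Nat.card E' = Nat.card P := by
      have h1 := Cfsg.Agent.Lib.helper3.card_comap_mk' K E'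
      rw [hE', QuotientGroup.comap_map_mk', sup_eq_right.mpr hKE, ← hKcard, mul_comm] at h1
      rw [hE']
      exact (Nat.eq_of_mul_eq_mul_right hKpos h1).symm
    have hE'p : IsPGroup p E' := IsPGroup.of_card (hE'card.trans hm)
    have hE'eq : E' = P.map (QuotientGroup.mk' K) := by
      rw [hE']
      apply le_antisymm
      · rintro _ ⟨e, he, rfl⟩
        obtain ⟨k, hk, b, hb, rfl⟩ := hdec e he
        refine ⟨b, hb, ?_⟩
        rw [map_mul]
        have h1 : QuotientGroup.mk' K k = 1 := (QuotientGroup.eq_one_iff k).mpr hk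
        rw [h1, one_mul]
      · exact Subgroup.map_mono hPE
    have hRE' : Reach E' := by
      apply hs_reach E' hE'p
      by_cases hcyc : IsCyclic ↥P
      · left
        rw [hE'eq]
        exact isCyclic_of_surjective ((QuotientGroup.mk' K).subgroupMap P)
          (MonoidHom.subgroupMap_surjective _ _)
      · right
        obtain ⟨D, hDP, hD1, hDlt, hD⟩ := hyp p hpp P hPE hPp hPrel hcyc
        obtain ⟨d, hd⟩ := IsPGroup.iff_card.mp (hPp.to_le hDP)
        refine ⟨d, ?_, ?_, ?_⟩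
        · by_contra hcon
          have h0 : d = 0 := by omega
          rw [h0, pow_zero] at hd; omega
        · rw [hE'card, ← hd]; exact hDlt
        · intro F' hF'E hF'c
          obtain ⟨F, hF⟩ : ∃ F : Subgroup G, F = F'.comap (QuotientGroup.mk' K) ⊓ P := ⟨_, rfl⟩
          have hFP : F ≤ P := by rw [hF]; exact inf_le_right
          have hFmap : F.map (QuotientGroup.mk' K) = F' := by
            apply le_antisymm
            · rintro _ ⟨x, hx, rfl⟩
              rw [hF] at hx; exact hx.1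
            · intro f' hf'
              have h1 : f' ∈ P.map (QuotientGroup.mk' K) := by rw [← hE'eq]; exact hF'E hf'
              obtain ⟨b, hb, rfl⟩ := h1
              exact ⟨b, by rw [hF]; exact ⟨hf', hb⟩, rfl⟩
          have hFcard : Nat.card F = Nat.card F' := by
            rw [← hFmap]
            apply Nat.card_congr
            refine Equiv.ofBijective (fun x : ↥F =>
              (⟨QuotientGroup.mk' K x, ⟨x, x.2, rfl⟩⟩ : ↥(F.map (QuotientGroup.mk' K)))) ⟨?_, ?_⟩
            · intro x y hxy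
              have h2 : QuotientGroup.mk' K (x : G) = QuotientGroup.mk' K (y : G) :=
                congrArg Subtype.val hxy
              have h3 : (x : G)⁻¹ * y ∈ K := QuotientGroup.eq.mp h2
              have h4 := hKP _ h3 (P.mul_mem (P.inv_mem (hFP x.2)) (hFP y.2))
              apply Subtype.ext
              exact inv_mul_eq_one.mp h4
            · rintro ⟨_, x, hx, rfl⟩
              exact ⟨⟨x, hx⟩, rfl⟩
          have hℋ := hD F hFP (by rw [hFcard, hd]; exact hF'c)
          have hFKn : (F ⊔ K).Normal := hs_sup_normal E K P F hPE hPp hPsyl hdec hFP hℋ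
          have e : F' = (F ⊔ K).map (QuotientGroup.mk' K) := by
            rw [Subgroup.map_sup, hFmap, QuotientGroup.map_mk'_self, sup_bot_eq]
          rw [e]
          exact Subgroup.Normal.map hFKn _ hsurj
    have hker : Reach (QuotientGroup.mk' K).ker := by rw [QuotientGroup.ker_mk']; exact hRK
    have h3 := Cfsg.Agent.Lib.helper3.Reach.comap_of_ker (QuotientGroup.mk' K) hker hRE'
    rwa [hE', QuotientGroup.comap_map_mk', sup_eq_right.mpr hKE] at h3

end Cfsg.Agent.Lib.helper15
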