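import Mathlib
import Cfsg.Agent.Lib.helper14.S3Sec
import Cfsg.Agent.Lib.helper3.ThompsonFact

/-!
# Offenders in solvable `S₄`-free groups (seat helper15)

A variant of the offender bound of seat helper14 (`s3_offender_bound`) which returns an explicit
dihedral pair, the construction of an `S₄`-section from such a pair acting on an elementary
abelian `2`-group, and the lifting of the pair through a homomorphism with `2`-group kernel.
-/

set_option autoImplicit false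
set_option linter.style.haveILetI false
set_option linter.unusedVariables false
set_option linter.deprecated false

namespace Cfsg.Agent.Lib.helper15.JE

open Cfsg.Agent.Lib.helper14 Cfsg.Agent.Lib.helper3

universe u

/-- In an `S₃`-free group `M` with `C_M(O_{2'}(M)) ≤ O_{2'}(M)` acting faithfully on the elementary
abelian `2`-group `V`, every elementary abelian `2`-subgroup `A` has `|A|² |C_V(A)| ≤ |V|`. -/
theorem pair_offender_bound {X : Type*} [Group X] [Finite X] (M V : Subgroup X)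
    (hV : Cfsg.IsElementaryAbelian 2 V) (hMV : M ≤ Subgroup.normalizer (V : Set X))
    (hfaith : M ⊓ Subgroup.centralizer (V : Set X) = ⊥)
    (hcon : Subgroup.centralizer (Cfsg.pPrimeCore 2 ↥M : Set ↥M) ≤ Cfsg.pPrimeCore 2 ↥M)
    (hno : ¬ ∃ x ∈ M, ∃ a ∈ M, orderOf x = 3 ∧ orderOf a = 2 ∧ a * x * a⁻¹ = x⁻¹) :
    ∀ n : ℕ, ∀ A : Subgroup X, Nat.card A = n → A ≤ M → Cfsg.IsElementaryAbelian 2 A →
      Nat.card A ^ 2 * Nat.card ↥(V ⊓ Subgroup.centralizer (A : Set X)) ≤ Nat.card V := by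
  classical
  haveI : Fact (Nat.Prime 2) := ⟨Nat.prime_two⟩
  intro n
  induction n using Nat.strong_induction_on with
  | _ n ih =>
  intro A hn hAM hA
  by_cases hA1 : A = ⊥
  · subst hA1
    have : V ⊓ Subgroup.centralizer (((⊥ : Subgroup X) : Subgroup X) : Set X) = V := by
      apply inf_eq_left.mpr
      intro v _
      refine Subgroup.mem_centralizer_iff.mpr fun y hy => ?_
      have : y = 1 := by simpa using hy
      rw [this]; simp
    rw [this, Subgroup.card_bot]; simp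
  obtain ⟨hab, hexp⟩ := (isEA_iff 2 A).mp hA
  haveI : IsMulCommutative A := hA.1
  have hA2 : IsPGroup 2 A := isPGroup_of_isEA hA
  have hV2 : IsPGroup 2 V := isPGroup_of_isEA hV
  obtain ⟨Q, hQ⟩ : ∃ Q : Subgroup X, Q = ffQ 2 M := ⟨_, rfl⟩
  have hQcop : (Nat.card Q).Coprime 2 := hQ ▸ ffQ_coprime M
  have hcop : (Nat.card A).Coprime (Nat.card Q) := by
    obtain ⟨k, hk⟩ := IsPGroup.iff_card.mp hA2
    rw [hk]; exact Nat.Coprime.pow_left k hQcop.symm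
  have hMQ : M ≤ Subgroup.normalizer (Q : Set X) := hQ ▸ ffQ_normal M
  have hAQ : A ≤ Subgroup.normalizer (Q : Set X) := hAM.trans hMQ
  have hQM : Q ≤ M := hQ ▸ ffQ_le M
  -- a good hyperplane
  have hex : ∃ B : Subgroup X, B ≤ A ∧ (∃ a ∈ A, B ⊔ Subgroup.zpowers a = A) ∧
      ¬ (Q ⊓ Subgroup.centralizer (B : Set X) ≤ Subgroup.centralizer (A : Set X)) := by
    by_contra hcon'
    push Not at hcon'
    have hQc : Q ≤ Subgroup.centralizer (A : Set X) :=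
      Cfsg.Agent.Lib.helper9.gen_main A Q hAQ hcop _ (fun B hB hex => hcon' B hB hex)
    apply hA1
    rw [eq_bot_iff]
    intro a ha
    have haQ : a ∈ ffQ 2 M := ffQ_self_centralizing M hcon (hAM ha)
      (fun x hx => (Subgroup.mem_centralizer_iff.mp (hQc (hQ ▸ hx)) a ha).symm)
    have : a ∈ A ⊓ Q := Subgroup.mem_inf.mpr ⟨ha, hQ ▸ haQ⟩
    rw [Subgroup.inf_eq_bot_of_coprime hcop] at this
    exact this
  obtain ⟨B, hBA, ⟨a, haA, hBa⟩, hng⟩ := hex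
  have haa : a * a = 1 := by
    have := hexp a haA
    rwa [pow_two] at this
  have hainv : a⁻¹ = a := inv_eq_of_mul_eq_one_left haa
  obtain ⟨k, hk, hkA⟩ := SetLike.not_le_iff_exists.mp hng
  obtain ⟨hkQ, hkB⟩ := Subgroup.mem_inf.mp hk
  have hka : a * k ≠ k * a := by
    intro h
    apply hkA
    rw [← hBa]
    apply mem_centralizer_sup hkB
    have hz : Subgroup.zpowers a ≤ Subgroup.centralizer ({k} : Set X) := by
      rw [Subgroup.zpowers_le]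
      refine Subgroup.mem_centralizer_iff.mpr fun y hy => ?_
      rw [Set.mem_singleton_iff] at hy
      rw [hy]; exact h.symm
    refine Subgroup.mem_centralizer_iff.mpr fun y hy => ?_
    exact (Subgroup.mem_centralizer_iff.mp (hz hy) k rfl).symm
  have hBne : B ≠ A := by
    intro h
    apply hng
    rw [h]; exact inf_le_right
  have hBlt : B < A := lt_of_le_of_ne hBA hBne
  -- a centralizes B
  have haB : ∀ b ∈ B, a * b = b * a := fun b hb => hab a haA b (hBA hb)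
  have haNQ : a ∈ Subgroup.normalizer (Q : Set X) := hAQ haA
  have hak : a * k * a⁻¹ ∈ Q := (Subgroup.mem_normalizer_iff.mp haNQ k).mp hkQ
  -- the inverted element
  obtain ⟨x0, hx0⟩ : ∃ x0 : X, x0 = k⁻¹ * (a * k * a⁻¹) := ⟨_, rfl⟩
  have hx0Q : x0 ∈ Q := hx0 ▸ Q.mul_mem (Q.inv_mem hkQ) hak
  have hx0B : x0 ∈ Subgroup.centralizer (B : Set X) := by
    rw [hx0]
    apply (Subgroup.centralizer (B : Set X)).mul_mem ((Subgroup.centralizer (B : Set X)).inv_mem hkB)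
    refine Subgroup.mem_centralizer_iff.mpr fun b hb => ?_
    have h1 := Subgroup.mem_centralizer_iff.mp hkB b hb
    have h2 := haB b hb
    have h2' : a⁻¹ * b = b * a⁻¹ := by rw [hainv]; exact h2
    calc b * (a * k * a⁻¹) = (b * a) * k * a⁻¹ := by group
      _ = a * (b * k) * a⁻¹ := by rw [← h2]; group
      _ = a * (k * b) * a⁻¹ := by rw [h1]
      _ = a * k * (b * a⁻¹) := by group
      _ = a * k * (a⁻¹ * b) := by rw [h2']
      _ = a * k * a⁻¹ * b := by group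
  have hx0inv : a * x0 * a⁻¹ = x0⁻¹ := by
    rw [hx0, hainv]
    have e1 : a * (k⁻¹ * (a * k * a)) * a = a * k⁻¹ * a * k * (a * a) := by group
    have e2 : (k⁻¹ * (a * k * a))⁻¹ = a⁻¹ * k⁻¹ * a⁻¹ * k := by group
    rw [e1, e2, haa, hainv, mul_one]
  have hx0ne : x0 ≠ 1 := by
    intro h
    rw [hx0] at h
    apply hka
    have : a * k * a⁻¹ = k := by
      have := congrArg (fun t => k * t) h
      simpa using this
    calc a * k = (a * k * a⁻¹) * a := by group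
      _ = k * a := by rw [this]
  obtain ⟨r, hr, hrdvd⟩ := Nat.exists_prime_and_dvd (n := orderOf x0)
    (fun h => hx0ne (orderOf_eq_one_iff.mp h))
  obtain ⟨x, hxdef⟩ : ∃ x : X, x = x0 ^ (orderOf x0 / r) := ⟨_, rfl⟩
  have hxord : orderOf x = r := by
    rw [hxdef]
    exact orderOf_pow_orderOf_div (orderOf_pos x0).ne' hrdvd
  have hxQ : x ∈ Q := hxdef ▸ Q.pow_mem hx0Q _
  have hxB : x ∈ Subgroup.centralizer (B : Set X) :=
    hxdef ▸ (Subgroup.centralizer (B : Set X)).pow_mem hx0B _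
  have hxinv : a * x * a⁻¹ = x⁻¹ := by
    rw [hxdef, ← inv_pow, ← hx0inv, conj_pow]
  have hxM : x ∈ M := hQM hxQ
  have hr2 : r ≠ 2 := by
    intro h
    have h1 : r ∣ Nat.card Q := by
      rw [← hxord]
      have := Subgroup.orderOf_dvd_natCard Q hxQ
      exact this
    rw [h] at h1
    have := Nat.Coprime.eq_one_of_dvd hQcop.symm h1
    omega
  have haone : a ≠ 1 := by
    intro h
    apply hka
    rw [h]; simp
  have haord : orderOf a = 2 := by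
    apply orderOf_eq_prime
    · rw [pow_two]; exact haa
    · exact haone
  by_cases hr3 : r = 3
  · exfalso
    apply hno
    rw [hr3] at hxord
    exact ⟨x, hxM, a, hAM haA, hxord, haord, hxinv⟩
  have hr5 : 5 ≤ r := by
    have := hr.two_le
    rcases Nat.lt_or_ge r 5 with h | h
    · exfalso
      have : r = 4 := by omega
      rw [this] at hr
      exact (by decide : ¬ Nat.Prime 4) hr
    · exact h
  -- the module U = C_V(B)
  obtain ⟨U, hU⟩ : ∃ U : Subgroup X, U = V ⊓ Subgroup.centralizer (B : Set X) := ⟨_, rfl⟩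
  have hUV : U ≤ V := hU ▸ inf_le_left
  have hU2 : IsPGroup 2 U := hV2.to_le hUV
  have hnorm : ∀ g : X, g ∈ M → (∀ b ∈ B, g * b = b * g) → g ∈ Subgroup.normalizer (U : Set X) := by
    intro g hgM hgB
    apply mem_normalizer_of_forall_conj_mem
    intro u hu
    rw [hU] at hu ⊢
    obtain ⟨hu1, hu2⟩ := Subgroup.mem_inf.mp hu
    refine Subgroup.mem_inf.mpr ⟨(Subgroup.mem_normalizer_iff.mp (hMV hgM) u).mp hu1, ?_⟩
    refine Subgroup.mem_centralizer_iff.mpr fun b hb => ?_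
    have h1 := Subgroup.mem_centralizer_iff.mp hu2 b hb
    have h2 := hgB b hb
    have h2' : g⁻¹ * b = b * g⁻¹ := by
      have : Commute g b := h2
      exact this.inv_left.eq
    calc b * (g * u * g⁻¹) = (b * g) * u * g⁻¹ := by group
      _ = g * (b * u) * g⁻¹ := by rw [← h2]; group
      _ = g * (u * b) * g⁻¹ := by rw [h1]
      _ = g * u * (b * g⁻¹) := by group
      _ = g * u * (g⁻¹ * b) := by rw [h2']
      _ = g * u * g⁻¹ * b := by group
  have hxU : x ∈ Subgroup.normalizer (U : Set X) :=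
    hnorm x hxM (fun b hb => (Subgroup.mem_centralizer_iff.mp hxB b hb).symm)
  have hxc : x ∉ Subgroup.centralizer (U : Set X) := by
    intro hxc
    have hB2 : IsPGroup 2 B := hA2.to_le hBA
    have hZcop : (Nat.card (Subgroup.zpowers x)).Coprime 2 := by
      rw [Nat.card_zpowers, hxord, Nat.coprime_primes hr Nat.prime_two]
      exact hr2
    have hBZ : B ≤ Subgroup.centralizer (Subgroup.zpowers x : Set X) := by
      intro b hb
      have hz : Subgroup.zpowers x ≤ Subgroup.centralizer ({b} : Set X) := by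
        rw [Subgroup.zpowers_le]
        refine Subgroup.mem_centralizer_iff.mpr fun y hy => ?_
        rw [Set.mem_singleton_iff] at hy
        rw [hy]; exact Subgroup.mem_centralizer_iff.mp hxB b hb
      refine Subgroup.mem_centralizer_iff.mpr fun y hy => ?_
      exact (Subgroup.mem_centralizer_iff.mp (hz hy) b rfl).symm
    have hC : V ⊓ Subgroup.centralizer (B : Set X) ≤
        Subgroup.centralizer (Subgroup.zpowers x : Set X) := by
      intro u hu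
      have huU : u ∈ U := hU ▸ hu
      have h1 := Subgroup.mem_centralizer_iff.mp hxc u huU
      have hz : Subgroup.zpowers x ≤ Subgroup.centralizer ({u} : Set X) := by
        rw [Subgroup.zpowers_le]
        refine Subgroup.mem_centralizer_iff.mpr fun y hy => ?_
        rw [Set.mem_singleton_iff] at hy
        rw [hy]; exact h1
      refine Subgroup.mem_centralizer_iff.mpr fun y hy => ?_
      exact (Subgroup.mem_centralizer_iff.mp (hz hy) u rfl).symm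
    have hres := Cfsg.Agent.Lib.helper8.thompson_pq B (Subgroup.zpowers x) V hB2 hZcop hV2 hBZ
      ((hBA.trans hAM).trans hMV) (Subgroup.zpowers_le.mpr (hMV hxM)) hC
    have hx1 : x ∈ M ⊓ Subgroup.centralizer (V : Set X) :=
      Subgroup.mem_inf.mpr ⟨hxM, hres (Subgroup.mem_zpowers x)⟩
    rw [hfaith, Subgroup.mem_bot] at hx1
    rw [hx1, orderOf_one] at hxord
    exact hr.one_lt.ne hxord
  have hD := dihedral_fix_bound U hU2 x a r hr hr5 hxord haa hxinv hxU hxc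
  -- C_V(A) ≤ C_U(a)
  have hle : V ⊓ Subgroup.centralizer (A : Set X) ≤ U ⊓ Subgroup.centralizer ({a} : Set X) := by
    intro v hv
    obtain ⟨hv1, hv2⟩ := Subgroup.mem_inf.mp hv
    refine Subgroup.mem_inf.mpr ⟨?_, ?_⟩
    · rw [hU]
      exact Subgroup.mem_inf.mpr ⟨hv1,
        Subgroup.centralizer_le (SetLike.coe_subset_coe.mpr hBA) hv2⟩
    · refine Subgroup.mem_centralizer_iff.mpr fun y hy => ?_
      rw [Set.mem_singleton_iff] at hy
      rw [hy]; exact Subgroup.mem_centralizer_iff.mp hv2 a haA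
  have hcle := Subgroup.card_le_of_le hle
  -- induction
  have hBcard : Nat.card B < n := by
    rw [← hn]
    apply lt_of_le_of_ne (Subgroup.card_le_of_le hBA)
    intro h
    exact hBne (Subgroup.eq_of_le_of_card_ge hBA h.ge)
  have hBEA : Cfsg.IsElementaryAbelian 2 B :=
    (isEA_iff 2 B).mpr ⟨fun x hx y hy => hab x (hBA hx) y (hBA hy), fun x hx => hexp x (hBA hx)⟩
  have hih := ih (Nat.card B) hBcard B rfl (hBA.trans hAM) hBEA
  rw [← hU] at hih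
  -- |A| ≤ 2 |B|
  have hnB : Subgroup.zpowers a ≤ Subgroup.normalizer (B : Set X) := by
    rw [Subgroup.zpowers_le]
    apply mem_normalizer_of_forall_conj_mem
    intro b hb
    have : a * b * a⁻¹ = b := by rw [haB b hb]; group
    rw [this]; exact hb
  have hdvd := Cfsg.Agent.Lib.helper7.card_sup_dvd_of_le_normalizer B (Subgroup.zpowers a) hnB
  rw [hBa, Nat.card_zpowers, haord] at hdvd
  have hAle : Nat.card A ≤ Nat.card B * 2 := Nat.le_of_dvd (Nat.mul_pos Nat.card_pos (by norm_num)) hdvd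
  calc Nat.card A ^ 2 * Nat.card ↥(V ⊓ Subgroup.centralizer (A : Set X))
      ≤ (Nat.card B * 2) ^ 2 * Nat.card ↥(U ⊓ Subgroup.centralizer ({a} : Set X)) :=
        Nat.mul_le_mul (Nat.pow_le_pow_left hAle 2) hcle
    _ = Nat.card B ^ 2 * (4 * Nat.card ↥(U ⊓ Subgroup.centralizer ({a} : Set X))) := by ring
    _ ≤ Nat.card B ^ 2 * Nat.card U := Nat.mul_le_mul_left _ hD
    _ ≤ Nat.card V := hih


/-- **`S₄` from a dihedral action.** A `3`-element `c` and a `2`-element `τ` normalizing `⟨c⟩`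
act on an elementary abelian `2`-group `V`, `c` nontrivially with `c³` trivial, and `τ` inverts the
action of `c`: then `S₄` is involved. -/
theorem s4_of_pair {H : Type*} [Group H] [Finite H] (V : Subgroup H)
    (hV2 : ∀ v ∈ V, v * v = 1) (hVc : ∀ v ∈ V, ∀ w ∈ V, v * w = w * v)
    (c τ : H) (hcV : ∀ v ∈ V, c * v * c⁻¹ ∈ V) (hτV : ∀ v ∈ V, τ * v * τ⁻¹ ∈ V)
    (k : ℕ) (hc : c ^ 3 ^ k = 1) (j : ℕ) (hτ : τ ^ 2 ^ j = 1)
    (hτc : τ * c * τ⁻¹ ∈ Subgroup.zpowers c)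
    (hc3 : ∀ v ∈ V, c * (c * (c * v * c⁻¹) * c⁻¹) * c⁻¹ = v)
    (hcn : ∃ v ∈ V, c * v * c⁻¹ ≠ v)
    (hinv : ∀ v ∈ V, τ * (c * v * c⁻¹) * τ⁻¹ = c * (c * (τ * v * τ⁻¹) * c⁻¹) * c⁻¹) :
    Cfsg.Involves (Equiv.Perm (Fin 4)) H := by
  classical
  letI : CommGroup V :=
    { (inferInstance : Group V) with mul_comm := fun v w => Subtype.ext (hVc v v.2 w w.2) }
  let Cm : V →* V := MonoidHom.mk' (fun v => ⟨c * v * c⁻¹, hcV v v.2⟩)
    (fun a b => Subtype.ext (by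
      show c * ((a : H) * (b : H)) * c⁻¹ = c * (a : H) * c⁻¹ * (c * (b : H) * c⁻¹)
      group))
  let Tm : V →* V := MonoidHom.mk' (fun v => ⟨τ * v * τ⁻¹, hτV v v.2⟩)
    (fun a b => Subtype.ext (by
      show τ * ((a : H) * (b : H)) * τ⁻¹ = τ * (a : H) * τ⁻¹ * (τ * (b : H) * τ⁻¹)
      group))
  have hCv : ∀ v : V, ((Cm v : V) : H) = c * v * c⁻¹ := fun v => rfl
  have hTv : ∀ v : V, ((Tm v : V) : H) = τ * v * τ⁻¹ := fun v => rfl
  have hC3 : ∀ v : V, Cm (Cm (Cm v)) = v := fun v => Subtype.ext (hc3 v v.2)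
  have hTC : ∀ v : V, Tm (Cm v) = Cm (Cm (Tm v)) := fun v => Subtype.ext (hinv v v.2)
  have hsq : ∀ v : V, v * v = 1 := fun v => Subtype.ext (hV2 v v.2)
  have hinvV : ∀ v : V, v⁻¹ = v := fun v => inv_eq_of_mul_eq_one_left (hsq v)
  -- the norm
  obtain ⟨Nm, hNm⟩ : ∃ Nm : V → V, ∀ v, Nm v = v * Cm v * Cm (Cm v) := ⟨_, fun _ => rfl⟩
  have hN1 : Nm 1 = 1 := by rw [hNm]; simp
  have hNmul : ∀ v w : V, Nm v = 1 → Nm w = 1 → Nm (v * w) = 1 := by
    intro v w hv hw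
    rw [hNm] at hv hw ⊢
    simp only [map_mul]
    calc v * w * (Cm v * Cm w) * (Cm (Cm v) * Cm (Cm w))
        = (v * Cm v * Cm (Cm v)) * (w * Cm w * Cm (Cm w)) := by ac_rfl
      _ = 1 := by rw [hv, hw, one_mul]
  have hNC : ∀ v : V, Nm v = 1 → Nm (Cm v) = 1 := by
    intro v hv
    rw [hNm] at hv ⊢
    rw [hC3]
    calc Cm v * Cm (Cm v) * v = v * Cm v * Cm (Cm v) := by ac_rfl
      _ = 1 := hv
  have hNT : ∀ v : V, Nm v = 1 → Nm (Tm v) = 1 := by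
    intro v hv
    rw [hNm] at hv ⊢
    have h1 : Tm (v * Cm v * Cm (Cm v)) = 1 := by rw [hv, map_one]
    simp only [map_mul] at h1
    rw [hTC (Cm v), hTC v] at h1
    have h2 : Cm (Cm (Cm (Cm (Tm v)))) = Cm (Tm v) := by rw [hC3]
    rw [h2] at h1
    calc Tm v * Cm (Tm v) * Cm (Cm (Tm v)) = Tm v * Cm (Cm (Tm v)) * Cm (Tm v) := by ac_rfl
      _ = 1 := h1
  -- a nontrivial element of norm one
  obtain ⟨v₀, hv₀V, hv₀⟩ := hcn
  obtain ⟨w₀, hw₀⟩ : ∃ w₀ : V, w₀ = (⟨v₀, hv₀V⟩ : V) * Cm ⟨v₀, hv₀V⟩ := ⟨_, rfl⟩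
  have hw₀N : Nm w₀ = 1 := by
    rw [hNm, hw₀]
    simp only [map_mul, hC3]
    calc (⟨v₀, hv₀V⟩ : V) * Cm ⟨v₀, hv₀V⟩ * (Cm ⟨v₀, hv₀V⟩ * Cm (Cm ⟨v₀, hv₀V⟩)) *
          (Cm (Cm ⟨v₀, hv₀V⟩) * ⟨v₀, hv₀V⟩)
        = ((⟨v₀, hv₀V⟩ : V) * ⟨v₀, hv₀V⟩) * (Cm ⟨v₀, hv₀V⟩ * Cm ⟨v₀, hv₀V⟩) *
          (Cm (Cm ⟨v₀, hv₀V⟩) * Cm (Cm ⟨v₀, hv₀V⟩)) := by ac_rfl
      _ = 1 := by simp [hsq]
  have hw₀1 : w₀ ≠ 1 := by
    intro h
    rw [hw₀] at h
    have h1 : Cm ⟨v₀, hv₀V⟩ = (⟨v₀, hv₀V⟩ : V)⁻¹ := eq_inv_of_mul_eq_one_right h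
    rw [hinvV] at h1
    exact hv₀ (congrArg Subtype.val h1)
  -- a fixed point of `τ`
  obtain ⟨f, hf⟩ : ∃ f : V → V, ∀ v, f v = v * Tm v := ⟨_, fun _ => rfl⟩
  have hTpow : ∀ (n : ℕ) (v : V), (((⇑Tm)^[n] v : V) : H) = τ ^ n * v * (τ ^ n)⁻¹ := by
    intro n
    induction n with
    | zero => intro v; simp
    | succ n ih =>
      intro v
      rw [Function.iterate_succ_apply', hTv, ih v, pow_succ']
      group
  have hTmul : ∀ (n : ℕ) (a b : V), (⇑Tm)^[n] (a * b) = (⇑Tm)^[n] a * (⇑Tm)^[n] b := by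
    intro n
    induction n with
    | zero => intro a b; simp
    | succ n ih =>
      intro a b
      rw [Function.iterate_succ_apply', Function.iterate_succ_apply',
        Function.iterate_succ_apply', ih, map_mul]
  have hTj : ∀ v : V, (⇑Tm)^[2 ^ j] v = v := by
    intro v
    apply Subtype.ext
    rw [hTpow, hτ]; simp
  have hfit : ∀ (i : ℕ) (v : V), f^[2 ^ i] v = v * (⇑Tm)^[2 ^ i] v := by
    intro i
    induction i with
    | zero => intro v; simp [hf]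
    | succ i ih =>
      intro v
      have e : 2 ^ (i + 1) = 2 ^ i + 2 ^ i := by ring
      rw [e, Function.iterate_add_apply, ih, ih, hTmul, Function.iterate_add_apply]
      calc v * (⇑Tm)^[2 ^ i] v * ((⇑Tm)^[2 ^ i] v * (⇑Tm)^[2 ^ i] ((⇑Tm)^[2 ^ i] v))
          = v * ((⇑Tm)^[2 ^ i] v * (⇑Tm)^[2 ^ i] v) * (⇑Tm)^[2 ^ i] ((⇑Tm)^[2 ^ i] v) := by
            ac_rfl
        _ = v * (⇑Tm)^[2 ^ i] ((⇑Tm)^[2 ^ i] v) := by rw [hsq, mul_one]
  have hfN : ∀ (n : ℕ), Nm (f^[n] w₀) = 1 := by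
    intro n
    induction n with
    | zero => simpa using hw₀N
    | succ n ih =>
      rw [Function.iterate_succ_apply', hf]
      exact hNmul _ _ ih (hNT _ ih)
  have hfend : f^[2 ^ j] w₀ = 1 := by rw [hfit, hTj, hsq]
  have hex : ∃ n : ℕ, f^[n] w₀ = 1 := ⟨_, hfend⟩
  obtain ⟨n, hn1, hnmin⟩ : ∃ n : ℕ, f^[n] w₀ = 1 ∧ ∀ m < n, f^[m] w₀ ≠ 1 :=
    ⟨Nat.find hex, Nat.find_spec hex, fun m hm => Nat.find_min hex hm⟩
  have hnpos : n ≠ 0 := by
    intro h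
    rw [h] at hn1
    exact hw₀1 (by simpa using hn1)
  obtain ⟨n', rfl⟩ := Nat.exists_eq_succ_of_ne_zero hnpos
  obtain ⟨u, hu⟩ : ∃ u : V, u = f^[n'] w₀ := ⟨_, rfl⟩
  have hu1 : u ≠ 1 := hu ▸ hnmin n' (Nat.lt_succ_self n')
  have huN : Nm u = 1 := hu ▸ hfN n'
  have huT : Tm u = u := by
    have h1 : f u = 1 := by
      rw [hu]
      have := Function.iterate_succ_apply' f n' w₀
      rw [← this]; exact hn1
    rw [hf] at h1
    have h2 : Tm u = u⁻¹ := eq_inv_of_mul_eq_one_right h1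
    rw [h2, hinvV]
  -- the four-group
  have hCu : Cm u ≠ u := by
    intro h
    apply hu1
    rw [hNm, h, h, hsq, one_mul] at huN
    exact huN
  have hCCu : Cm (Cm u) = u * Cm u := by
    rw [hNm] at huN
    have h1 : Cm (Cm u) = (u * Cm u)⁻¹ := eq_inv_of_mul_eq_one_right huN
    rw [h1, hinvV]
  obtain ⟨u₁, hu₁⟩ : ∃ u₁ : H, u₁ = (u : H) := ⟨_, rfl⟩
  obtain ⟨u₂, hu₂⟩ : ∃ u₂ : H, u₂ = c * u₁ * c⁻¹ := ⟨_, rfl⟩
  have hu₂' : u₂ = ((Cm u : V) : H) := by rw [hu₂, hu₁, hCv]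
  have h12 : c * u₂ * c⁻¹ = u₁ * u₂ := by
    rw [hu₂', hu₁]
    have := congrArg Subtype.val hCCu
    exact this
  have hτ1 : τ * u₁ * τ⁻¹ = u₁ := by
    rw [hu₁]; exact congrArg Subtype.val huT
  have hτ2 : τ * u₂ * τ⁻¹ = u₁ * u₂ := by
    have h1 : Tm (Cm u) = u * Cm u := by rw [hTC, huT, hCCu]
    have := congrArg Subtype.val h1
    rw [hu₂', hu₁]
    exact this
  have hu₁sq : u₁ * u₁ = 1 := by rw [hu₁]; exact hV2 _ u.2
  have hu₂sq : u₂ * u₂ = 1 := by rw [hu₂']; exact hV2 _ (Cm u).2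
  have hcomm : u₁ * u₂ = u₂ * u₁ := by rw [hu₂', hu₁]; exact hVc _ u.2 _ (Cm u).2
  have hu₁ne : u₁ ≠ 1 := by
    intro h
    apply hu1
    apply Subtype.ext
    rw [← hu₁, h]; rfl
  have hu₂ne : u₂ ≠ u₁ := by
    intro h
    apply hCu
    apply Subtype.ext
    rw [← hu₂', ← hu₁]; exact h
  obtain ⟨U, hU⟩ : ∃ U : Subgroup H, U = Subgroup.zpowers u₁ ⊔ Subgroup.zpowers u₂ := ⟨_, rfl⟩
  have hu₁U : u₁ ∈ U := hU ▸ Subgroup.mem_sup_left (Subgroup.mem_zpowers u₁)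
  have hu₂U : u₂ ∈ U := hU ▸ Subgroup.mem_sup_right (Subgroup.mem_zpowers u₂)
  have hcardU : Nat.card U ≤ 4 := by
    have hnB : Subgroup.zpowers u₂ ≤ Subgroup.normalizer (Subgroup.zpowers u₁ : Set H) := by
      rw [Subgroup.zpowers_le]
      apply mem_normalizer_of_forall_conj_mem
      intro b hb
      obtain ⟨i, rfl⟩ := Subgroup.mem_zpowers_iff.mp hb
      have h1 : u₂ * u₁ ^ i * u₂⁻¹ = u₁ ^ i := by
        have hc' : Commute u₂ u₁ := hcomm.symm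
        have := (hc'.zpow_right i).eq
        rw [this]; group
      rw [h1]; exact hb
    have hdvd := Cfsg.Agent.Lib.helper7.card_sup_dvd_of_le_normalizer (Subgroup.zpowers u₁)
      (Subgroup.zpowers u₂) hnB
    rw [← hU, Nat.card_zpowers, Nat.card_zpowers] at hdvd
    have ho1 : orderOf u₁ ∣ 2 := orderOf_dvd_of_pow_eq_one (by rw [pow_two]; exact hu₁sq)
    have ho2 : orderOf u₂ ∣ 2 := orderOf_dvd_of_pow_eq_one (by rw [pow_two]; exact hu₂sq)
    have h4 : Nat.card U ∣ 4 := hdvd.trans (by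
      have := Nat.mul_dvd_mul ho1 ho2
      simpa using this)
    exact Nat.le_of_dvd (by norm_num) h4
  have hconj : ∀ g : H, g * u₁ * g⁻¹ ∈ U → g * u₂ * g⁻¹ ∈ U → ∀ x ∈ U, g * x * g⁻¹ ∈ U := by
    intro g h1 h2 x hx
    have hle : U.map (MulAut.conj g).toMonoidHom ≤ U := by
      rw [hU, Subgroup.map_sup, MonoidHom.map_zpowers, MonoidHom.map_zpowers]
      apply sup_le
      · rw [Subgroup.zpowers_le]; rw [hU] at h1; simpa using h1
      · rw [Subgroup.zpowers_le]; rw [hU] at h2; simpa using h2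
    have := hle (Subgroup.mem_map_of_mem _ hx)
    simpa using this
  have hcU : ∀ x ∈ U, c * x * c⁻¹ ∈ U :=
    hconj c (by rw [← hu₂]; exact hu₂U) (by rw [h12]; exact U.mul_mem hu₁U hu₂U)
  have hτU : ∀ x ∈ U, τ * x * τ⁻¹ ∈ U :=
    hconj τ (by rw [hτ1]; exact hu₁U) (by rw [hτ2]; exact U.mul_mem hu₁U hu₂U)
  refine s4_involved U ⊥ c τ bot_le ?_ hcU ?_ hτU ?_ ?_ k hc j hτ hτc ?_ ?_
  · rw [Subgroup.relIndex_bot_left]; exact hcardU
  · intro x hx
    rw [Subgroup.mem_bot] at hx ⊢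
    rw [hx]; group
  · intro x hx
    rw [Subgroup.mem_bot] at hx ⊢
    rw [hx]; group
  · intro x _ w hw
    rw [Subgroup.mem_bot] at hw ⊢
    rw [hw]; group
  · refine ⟨u₁, hu₁U, ?_⟩
    rw [Subgroup.mem_bot, ← hu₂]
    intro h
    apply hu₂ne
    exact mul_inv_eq_one.mp h
  · refine ⟨u₂, hu₂U, ?_⟩
    rw [Subgroup.mem_bot, hτ2]
    intro h
    apply hu₁ne
    have : u₁ * u₂ * u₂⁻¹ = u₁ := by group
    rw [← this]; exact h

/-- A power of `g` which has `p`-power order and the same image as `g`, when the image of `g`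
has order `p`. -/
theorem exists_ppow_lift {H X : Type*} [Group H] [Finite H] [Group X] (φ : H →* X) (p : ℕ)
    (hp : p.Prime) (g : H) (hg : orderOf (φ g) = p) :
    ∃ e : ℕ, (∃ k : ℕ, (g ^ e) ^ p ^ k = 1) ∧ φ (g ^ e) = φ g := by
  obtain ⟨k, m, hm, hkm⟩ := Nat.exists_eq_pow_mul_and_not_dvd (orderOf_pos g).ne' p hp.ne_one
  have hcop : Nat.Coprime m p := ((Nat.Prime.coprime_iff_not_dvd hp).mpr hm).symm
  obtain ⟨m', -, hm'⟩ := Nat.exists_mul_mod_eq_one_of_coprime hcop hp.one_lt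
  refine ⟨m * m', ⟨k, ?_⟩, ?_⟩
  · rw [← pow_mul]
    have e : m * m' * p ^ k = orderOf g * m' := by rw [hkm]; ring
    rw [e, pow_mul, pow_orderOf_eq_one, one_pow]
  · rw [map_pow, ← pow_mod_orderOf, hg, hm', pow_one]

/-- Lifting a dihedral pair of order `6` through a homomorphism whose kernel on `K₁` is a
normal `2`-subgroup. -/
theorem lift_pair {H : Type u} {X : Type*} [Group H] [Finite H] [Group X] (φ : H →* X)
    (K₁ K₂ : Subgroup H) [hK₂n : K₂.Normal] (hK₂ : IsPGroup 2 K₂) (hK₂₁ : K₂ ≤ K₁)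
    (hker : ∀ k ∈ K₁, φ k = 1 → k ∈ K₂) (hK₂φ : ∀ k ∈ K₂, φ k = 1)
    (x₁ a₁ : H) (hx₁ : x₁ ∈ K₁) (ha₁ : a₁ ∈ K₁)
    (hx : orderOf (φ x₁) = 3) (ha : orderOf (φ a₁) = 2)
    (hinv : φ a₁ * φ x₁ * (φ a₁)⁻¹ = (φ x₁)⁻¹) :
    ∃ c ∈ K₁, ∃ τ ∈ K₁, (∃ k : ℕ, c ^ 3 ^ k = 1) ∧ (∃ j : ℕ, τ ^ 2 ^ j = 1) ∧
      τ * c * τ⁻¹ ∈ Subgroup.zpowers c ∧ φ c = φ x₁ ∧ φ τ = φ a₁ := by
  classical
  haveI : Fact (Nat.Prime 3) := ⟨Nat.prime_three⟩
  haveI : Fact (Nat.Prime 2) := ⟨Nat.prime_two⟩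
  obtain ⟨e₁, ⟨k, hck⟩, hcφ⟩ := exists_ppow_lift φ 3 Nat.prime_three x₁ hx
  obtain ⟨e₂, ⟨j₀, hτj⟩, hτφ⟩ := exists_ppow_lift φ 2 Nat.prime_two a₁ ha
  obtain ⟨c, hcdef⟩ : ∃ c : H, c = x₁ ^ e₁ := ⟨_, rfl⟩
  obtain ⟨τ₀, hτ₀def⟩ : ∃ τ₀ : H, τ₀ = a₁ ^ e₂ := ⟨_, rfl⟩
  rw [← hcdef] at hck hcφ
  rw [← hτ₀def] at hτj hτφ
  have hcK : c ∈ K₁ := hcdef ▸ K₁.pow_mem hx₁ _
  have hτ₀K : τ₀ ∈ K₁ := hτ₀def ▸ K₁.pow_mem ha₁ _
  have hrel : τ₀ * c * τ₀⁻¹ * c ∈ K₂ := by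
    apply hker _ (K₁.mul_mem (K₁.mul_mem (K₁.mul_mem hτ₀K hcK) (K₁.inv_mem hτ₀K)) hcK)
    rw [map_mul, map_mul, map_mul, map_inv, hcφ, hτφ, hinv, inv_mul_cancel]
  have hJ : IsPGroup 3 (Subgroup.zpowers c) := by
    rintro ⟨g, hg⟩
    obtain ⟨i, rfl⟩ := Subgroup.mem_zpowers_iff.mp hg
    refine ⟨k, Subtype.ext ?_⟩
    show (c ^ i) ^ 3 ^ k = 1
    rw [← zpow_natCast, ← zpow_mul, mul_comm, zpow_mul, zpow_natCast, hck, one_zpow]
  have hJ' : IsPGroup 3 (Subgroup.zpowers (τ₀ * c * τ₀⁻¹)) := by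
    rintro ⟨g, hg⟩
    obtain ⟨i, rfl⟩ := Subgroup.mem_zpowers_iff.mp hg
    refine ⟨k, Subtype.ext ?_⟩
    show ((τ₀ * c * τ₀⁻¹) ^ i) ^ 3 ^ k = 1
    rw [← zpow_natCast, ← zpow_mul, mul_comm, zpow_mul, zpow_natCast, conj_pow, hck]
    simp
  have hN : (Nat.card K₂).Coprime 3 := by
    obtain ⟨a, ha⟩ := IsPGroup.iff_card.mp hK₂
    rw [ha]
    exact Nat.Coprime.pow_left a (by norm_num)
  have hle : Subgroup.zpowers (τ₀ * c * τ₀⁻¹) ≤ K₂ ⊔ Subgroup.zpowers c := by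
    rw [Subgroup.zpowers_le]
    have e : τ₀ * c * τ₀⁻¹ = (τ₀ * c * τ₀⁻¹ * c) * c⁻¹ := by group
    rw [e]
    exact Subgroup.mul_mem _ (Subgroup.mem_sup_left hrel)
      (Subgroup.mem_sup_right (Subgroup.inv_mem _ (Subgroup.mem_zpowers c)))
  obtain ⟨m, hm, hmJ⟩ := exists_conj_into K₂ (Subgroup.zpowers c)
    (Subgroup.zpowers (τ₀ * c * τ₀⁻¹)) hN hJ hJ' hle
  have h2 : IsPGroup 2 (K₂ ⊔ Subgroup.zpowers τ₀ : Subgroup H) := by
    apply IsPGroup.to_sup_of_normal_left hK₂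
    rintro ⟨g, hg⟩
    obtain ⟨i, rfl⟩ := Subgroup.mem_zpowers_iff.mp hg
    refine ⟨j₀, Subtype.ext ?_⟩
    show (τ₀ ^ i) ^ 2 ^ j₀ = 1
    rw [← zpow_natCast, ← zpow_mul, mul_comm, zpow_mul, zpow_natCast, hτj, one_zpow]
  have hτmem : m⁻¹ * τ₀ ∈ K₂ ⊔ Subgroup.zpowers τ₀ :=
    Subgroup.mul_mem _ (Subgroup.mem_sup_left (K₂.inv_mem hm))
      (Subgroup.mem_sup_right (Subgroup.mem_zpowers τ₀))
  obtain ⟨j, hj⟩ := h2 ⟨m⁻¹ * τ₀, hτmem⟩
  refine ⟨c, hcK, m⁻¹ * τ₀, K₁.mul_mem (K₁.inv_mem (hK₂₁ hm)) hτ₀K, ⟨k, hck⟩, ⟨j, ?_⟩, ?_,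
    hcφ, ?_⟩
  · have := congrArg Subtype.val hj
    simpa using this
  · have h3 := hmJ (τ₀ * c * τ₀⁻¹) (Subgroup.mem_zpowers _)
    have e : m⁻¹ * τ₀ * c * (m⁻¹ * τ₀)⁻¹ = m⁻¹ * (τ₀ * c * τ₀⁻¹) * m := by group
    rw [e]; exact h3
  · rw [map_mul, map_inv, hK₂φ m hm, hτφ]; simp

end Cfsg.Agent.Lib.helper15.JE
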