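import Mathlib
import Cfsg.Agent.Lib.helper15.JE2a
import Cfsg.Agent.Lib.helper14.HolFF
import Cfsg.Agent.Lib.helper14.PIrredQuot
import Cfsg.Agent.Lib.helper14.SolvPSolv
import Cfsg.Agent.Lib.helper10.PSolv
import Cfsg.Agent.Lib.helper16.PSolv
import Cfsg.Agent.Lib.helper3.PLocal
import Cfsg.Agent.Lib.helper9.PPrimeCore
import Cfsg.Agent.Lib.helper1.ThompsonJ
import Cfsg.Agent.Lib.helper15.PCore

/-!
# The Thompson subgroup of a solvable `S₄`-free group with Sylow `2`-subgroups of class two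
(seat helper15)

If `O_{2'}(H) = 1`, then every elementary abelian `2`-subgroup of largest order of a Sylow
`2`-subgroup lies in `O_2(H)`, so the Thompson subgroup is normal.
-/

set_option autoImplicit false
set_option linter.style.haveILetI false
set_option linter.unusedVariables false
set_option linter.deprecated false

namespace Cfsg.Agent.Lib.helper15.JE

open Cfsg.Agent.Lib.helper14 Cfsg.Agent.Lib.helper3
open scoped commutatorElement

universe u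

/-- An element of odd order normalizing an abelian `2`-group and centralizing its involutions
centralizes it. -/
theorem cent_of_omega {H : Type*} [Group H] (Z : Subgroup H)
    (hZc : ∀ a ∈ Z, ∀ b ∈ Z, a * b = b * a) (g : H) (hgZ : ∀ z ∈ Z, g * z * g⁻¹ ∈ Z)
    (hΩ : ∀ z ∈ Z, z * z = 1 → g * z * g⁻¹ = z) (m : ℕ) (hm : Odd m) (hgm : g ^ m = 1) :
    ∀ (i : ℕ) (z : H), z ∈ Z → z ^ 2 ^ i = 1 → g * z * g⁻¹ = z := by
  intro i
  induction i with
  | zero =>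
    intro z hz h
    rw [pow_zero, pow_one] at h
    rw [h]; group
  | succ i ih =>
    intro z hz h
    have hzz : (z * z) ^ 2 ^ i = 1 := by
      rw [← pow_two, ← pow_mul, ← pow_succ']
      exact h
    have h1 : g * (z * z) * g⁻¹ = z * z := ih (z * z) (Z.mul_mem hz hz) hzz
    obtain ⟨w, hw⟩ : ∃ w : H, w = g * z * g⁻¹ * z⁻¹ := ⟨_, rfl⟩
    have hgz : g * z * g⁻¹ ∈ Z := hgZ z hz
    have hwZ : w ∈ Z := hw ▸ Z.mul_mem hgz (Z.inv_mem hz)
    have hww : w * w = 1 := by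
      have e1 : w * w = (g * z * g⁻¹) * ((g * z * g⁻¹) * z⁻¹) * z⁻¹ := by
        rw [hw]
        have hc := hZc z⁻¹ (Z.inv_mem hz) (g * z * g⁻¹) hgz
        calc g * z * g⁻¹ * z⁻¹ * (g * z * g⁻¹ * z⁻¹)
            = g * z * g⁻¹ * (z⁻¹ * (g * z * g⁻¹)) * z⁻¹ := by group
          _ = g * z * g⁻¹ * ((g * z * g⁻¹) * z⁻¹) * z⁻¹ := by rw [hc]
      have e2 : (g * z * g⁻¹) * ((g * z * g⁻¹) * z⁻¹) * z⁻¹ = (g * (z * z) * g⁻¹) * (z * z)⁻¹ := by
        group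
      rw [e1, e2, h1]; group
    have hgw : g * w * g⁻¹ = w := hΩ w hwZ hww
    have hpow : ∀ n : ℕ, g ^ n * z * (g ^ n)⁻¹ = w ^ n * z := by
      intro n
      induction n with
      | zero => simp
      | succ n ihn =>
        have e : g ^ (n + 1) * z * (g ^ (n + 1))⁻¹ = g * (g ^ n * z * (g ^ n)⁻¹) * g⁻¹ := by
          rw [pow_succ']; group
        rw [e, ihn]
        have e2 : g * (w ^ n * z) * g⁻¹ = (g * w * g⁻¹) ^ n * (g * z * g⁻¹) := by
          rw [conj_pow]; group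
        rw [e2, hgw]
        have e3 : g * z * g⁻¹ = w * z := by rw [hw]; group
        rw [e3, pow_succ, mul_assoc]
    have h2 := hpow m
    rw [hgm] at h2
    have h3 : w ^ m = 1 := by
      have : w ^ m * z = z := by rw [← h2]; group
      exact mul_eq_right.mp this
    have hw1 : w = 1 := by
      obtain ⟨t, ht⟩ := hm
      rw [ht, pow_succ, pow_mul, pow_two, hww, one_pow, one_mul] at h3
      exact h3
    rw [hw1] at hw
    have : g * z * g⁻¹ = (g * z * g⁻¹ * z⁻¹) * z := by group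
    rw [this, ← hw, one_mul]

/-- An element of odd order whose commutators with a `2`-group `Q` are fixed by it
centralizes `Q`. -/
theorem cent_of_stab {H : Type*} [Group H] (g q : H) (m : ℕ) (hm : Odd m) (hgm : g ^ m = 1)
    (i : ℕ) (hζ2 : (g * q * g⁻¹ * q⁻¹) ^ 2 ^ i = 1)
    (hζ : g * (g * q * g⁻¹ * q⁻¹) * g⁻¹ = g * q * g⁻¹ * q⁻¹) : g * q * g⁻¹ = q := by
  obtain ⟨w, hw⟩ : ∃ w : H, w = g * q * g⁻¹ * q⁻¹ := ⟨_, rfl⟩
  rw [← hw] at hζ2 hζ
  have hpow : ∀ n : ℕ, g ^ n * q * (g ^ n)⁻¹ = w ^ n * q := by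
    intro n
    induction n with
    | zero => simp
    | succ n ihn =>
      have e : g ^ (n + 1) * q * (g ^ (n + 1))⁻¹ = g * (g ^ n * q * (g ^ n)⁻¹) * g⁻¹ := by
        rw [pow_succ']; group
      rw [e, ihn]
      have e2 : g * (w ^ n * q) * g⁻¹ = (g * w * g⁻¹) ^ n * (g * q * g⁻¹) := by
        rw [conj_pow]; group
      rw [e2, hζ]
      have e3 : g * q * g⁻¹ = w * q := by rw [hw]; group
      rw [e3, pow_succ, mul_assoc]
  have h2 := hpow m
  rw [hgm] at h2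
  have h3 : w ^ m = 1 := by
    have : w ^ m * q = q := by rw [← h2]; group
    exact mul_eq_right.mp this
  have hw1 : w = 1 := by
    have hd1 : orderOf w ∣ m := orderOf_dvd_of_pow_eq_one h3
    have hd2 : orderOf w ∣ 2 ^ i := orderOf_dvd_of_pow_eq_one hζ2
    have hcop : Nat.Coprime m (2 ^ i) := Nat.Coprime.pow_right i (Nat.coprime_two_right.mpr hm)
    exact orderOf_eq_one_iff.mp (Nat.eq_one_of_dvd_coprimes hcop hd1 hd2)
  rw [hw1] at hw
  have : g * q * g⁻¹ = (g * q * g⁻¹ * q⁻¹) * q := by group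
  rw [this, ← hw, one_mul]

/-- In a solvable `S₄`-free group with `O_{2'} = 1` and Sylow `2`-subgroups of class at most
two, the elementary abelian `2`-subgroups of largest order lie in `O_2`. -/
theorem maxEA_le_pCore {H : Type u} [Group H] [Finite H] [hsol : Group.IsSolvable H]
    (hO : Cfsg.pPrimeCore 2 H = ⊥) (hS4 : ¬ Cfsg.Involves (Equiv.Perm (Fin 4)) H)
    (T : Sylow 2 H)
    (hcl : ⁅⁅(T : Subgroup H), (T : Subgroup H)⁆, (T : Subgroup H)⁆ = ⊥)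
    (A : Subgroup H) (hA : A ∈ Cfsg.maxElementaryAbelianSubgroups 2 H)
    (hAT : A ≤ (T : Subgroup H)) : A ≤ Cfsg.pCore 2 H := by
  classical
  haveI : Fact (Nat.Prime 2) := ⟨Nat.prime_two⟩
  obtain ⟨Q, hQdef⟩ : ∃ Q : Subgroup H, Q = Cfsg.pCore 2 H := ⟨_, rfl⟩
  rw [← hQdef]
  haveI hQn : Q.Normal := hQdef ▸ Cfsg.Agent.Lib.helper15.pCore_normal 2 H
  have hQp : IsPGroup 2 Q := hQdef ▸ Cfsg.Agent.Lib.helper15.pCore_isPGroup 2 H
  have hQT : Q ≤ (T : Subgroup H) := hQdef ▸ Cfsg.Agent.Lib.helper15.pCore_le_sylow T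
  have hCQ : Subgroup.centralizer (Q : Set H) ≤ Q := by
    rw [hQdef]; exact Cfsg.Agent.Lib.helper10.centralizer_pCore_le_of_solvable hsol hO
  have hQ2 : ∀ q ∈ Q, ∃ i : ℕ, q ^ 2 ^ i = 1 := by
    intro q hq
    obtain ⟨i, hi⟩ := hQp ⟨q, hq⟩
    exact ⟨i, by simpa using congrArg Subtype.val hi⟩
  -- class two
  have hcl2 : ∀ s ∈ (T : Subgroup H), ∀ t ∈ (T : Subgroup H), ∀ r ∈ (T : Subgroup H),
      (s * t * s⁻¹ * t⁻¹) * r = r * (s * t * s⁻¹ * t⁻¹) := by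
    intro s hs t ht r hr
    have h1 : ⁅⁅s, t⁆, r⁆ ∈ ⁅⁅(T : Subgroup H), (T : Subgroup H)⁆, (T : Subgroup H)⁆ :=
      Subgroup.commutator_mem_commutator (Subgroup.commutator_mem_commutator hs ht) hr
    rw [hcl, Subgroup.mem_bot, commutatorElement_eq_one_iff_mul_comm] at h1
    rw [commutatorElement_def] at h1
    exact h1
  -- the centre of `Q` and its involutions
  obtain ⟨ZQ, hZQ⟩ : ∃ ZQ : Subgroup H, ZQ = Q ⊓ Subgroup.centralizer (Q : Set H) := ⟨_, rfl⟩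
  haveI hCQn : (Subgroup.centralizer (Q : Set H)).Normal := Subgroup.normal_centralizer
  haveI hZQn : ZQ.Normal := hZQ ▸ Subgroup.normal_inf_normal Q _
  have hZQQ : ZQ ≤ Q := hZQ ▸ inf_le_left
  have hZQC : ZQ ≤ Subgroup.centralizer (Q : Set H) := hZQ ▸ inf_le_right
  have hZQcomm : ∀ a ∈ ZQ, ∀ b ∈ ZQ, a * b = b * a := fun a ha b hb =>
    Subgroup.mem_centralizer_iff.mp (hZQC hb) a (hZQQ ha)
  obtain ⟨V, hV⟩ : ∃ V : Subgroup H, V = Cfsg.Agent.Lib.helper1.omegaSub 2 ZQ hZQcomm := ⟨_, rfl⟩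
  have hVmem : ∀ z : H, z ∈ V ↔ z ∈ ZQ ∧ z ^ 2 = 1 := fun z => by
    rw [hV]; exact Cfsg.Agent.Lib.helper1.mem_omegaSub 2 ZQ hZQcomm z
  haveI hVn : V.Normal := ⟨fun v hv g => (hVmem _).mpr
    ⟨hZQn.conj_mem v ((hVmem v).mp hv).1 g, by rw [conj_pow, ((hVmem v).mp hv).2]; group⟩⟩
  have hVZQ : V ≤ ZQ := fun v hv => ((hVmem v).mp hv).1
  have hV2 : ∀ v ∈ V, v * v = 1 := fun v hv => by
    rw [← pow_two]; exact ((hVmem v).mp hv).2
  have hVc : ∀ v ∈ V, ∀ w ∈ V, v * w = w * v := fun v hv w hw =>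
    hZQcomm v (hVZQ hv) w (hVZQ hw)
  have hVEA : Cfsg.IsElementaryAbelian 2 V :=
    (isEA_iff 2 V).mpr ⟨hVc, fun v hv => ((hVmem v).mp hv).2⟩
  haveI hCVn : (Subgroup.centralizer (V : Set H)).Normal := Subgroup.normal_centralizer
  -- the centralizer of `Q / Z(Q)`
  obtain ⟨K₁, hK₁⟩ : ∃ K₁ : Subgroup H, ∀ g, g ∈ K₁ ↔ ∀ q ∈ Q, g * q * g⁻¹ * q⁻¹ ∈ ZQ := by
    refine ⟨{ carrier := {g | ∀ q ∈ Q, g * q * g⁻¹ * q⁻¹ ∈ ZQ}
              mul_mem' := ?_
              one_mem' := ?_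
              inv_mem' := ?_ }, fun g => Iff.rfl⟩
    · intro a b ha hb q hq
      have h1 := hb q hq
      have h2 := ha q hq
      have h3 : a * (b * q * b⁻¹ * q⁻¹) * a⁻¹ ∈ ZQ := hZQn.conj_mem _ h1 a
      have e : a * b * q * (a * b)⁻¹ * q⁻¹ =
          (a * (b * q * b⁻¹ * q⁻¹) * a⁻¹) * (a * q * a⁻¹ * q⁻¹) := by group
      show a * b * q * (a * b)⁻¹ * q⁻¹ ∈ ZQ
      rw [e]; exact ZQ.mul_mem h3 h2
    · intro q hq
      show 1 * q * 1⁻¹ * q⁻¹ ∈ ZQ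
      have : (1 : H) * q * 1⁻¹ * q⁻¹ = 1 := by group
      rw [this]; exact ZQ.one_mem
    · intro a ha q hq
      have hq' : a⁻¹ * q * a ∈ Q := by
        have := hQn.conj_mem q hq a⁻¹
        simpa using this
      have h1 := ha _ hq'
      have e : a⁻¹ * q * a⁻¹⁻¹ * q⁻¹ = (a * (a⁻¹ * q * a) * a⁻¹ * (a⁻¹ * q * a)⁻¹)⁻¹ := by group
      show a⁻¹ * q * a⁻¹⁻¹ * q⁻¹ ∈ ZQ
      rw [e]; exact ZQ.inv_mem h1
  haveI hK₁n : K₁.Normal := ⟨fun g hg h => (hK₁ _).mpr (fun q hq => by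
    have hq' : h⁻¹ * q * h ∈ Q := by
      have := hQn.conj_mem q hq h⁻¹
      simpa using this
    have h1 := (hK₁ g).mp hg _ hq'
    have h2 := hZQn.conj_mem _ h1 h
    have e : h * g * h⁻¹ * q * (h * g * h⁻¹)⁻¹ * q⁻¹ =
        h * (g * (h⁻¹ * q * h) * g⁻¹ * (h⁻¹ * q * h)⁻¹) * h⁻¹ := by group
    rw [e]; exact h2)⟩
  have hTK₁ : (T : Subgroup H) ≤ K₁ := by
    intro g hg
    rw [hK₁]
    intro q hq
    rw [hZQ]
    refine Subgroup.mem_inf.mpr ⟨Q.mul_mem (hQn.conj_mem q hq g) (Q.inv_mem hq), ?_⟩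
    rw [Subgroup.mem_centralizer_iff]
    intro r hr
    exact (hcl2 g hg q (hQT hq) r (hQT hr)).symm
  have hQK₁ : Q ≤ K₁ := hQT.trans hTK₁
  have hQCV : Q ≤ Subgroup.centralizer (V : Set H) := by
    intro q hq
    rw [Subgroup.mem_centralizer_iff]
    intro v hv
    exact (Subgroup.mem_centralizer_iff.mp (hZQC (hVZQ hv)) q hq).symm
  -- `K₁ ∩ C(V)` is a `2`-group
  have hK₂2 : ∀ g ∈ K₁ ⊓ Subgroup.centralizer (V : Set H), ∃ i : ℕ, g ^ 2 ^ i = 1 := by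
    intro g hg
    obtain ⟨i, m, hm, him⟩ := Nat.exists_eq_pow_mul_and_not_dvd (orderOf_pos g).ne' 2
      (by norm_num)
    have hmodd : Odd m := Nat.odd_iff.mpr (Nat.two_dvd_ne_zero.mp hm)
    refine ⟨i, ?_⟩
    obtain ⟨g', hg'⟩ : ∃ g' : H, g' = g ^ 2 ^ i := ⟨_, rfl⟩
    rw [← hg']
    have hg'm : g' ^ m = 1 := by
      rw [hg', ← pow_mul, ← him, pow_orderOf_eq_one]
    have hg'mem : g' ∈ K₁ ⊓ Subgroup.centralizer (V : Set H) := hg' ▸ Subgroup.pow_mem _ hg _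
    have hg'K : g' ∈ K₁ := hg'mem.1
    have hg'V : g' ∈ Subgroup.centralizer (V : Set H) := hg'mem.2
    have hΩ : ∀ z ∈ ZQ, z * z = 1 → g' * z * g'⁻¹ = z := by
      intro z hz hzz
      have hzV : z ∈ V := (hVmem z).mpr ⟨hz, by rw [pow_two]; exact hzz⟩
      have := Subgroup.mem_centralizer_iff.mp hg'V z hzV
      rw [← this]; group
    have hZ : ∀ z ∈ ZQ, g' * z * g'⁻¹ = z := by
      intro z hz
      obtain ⟨l, hl⟩ := hQ2 z (hZQQ hz)
      exact cent_of_omega ZQ hZQcomm g' (fun z hz => hZQn.conj_mem z hz g') hΩ m hmodd hg'm l z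
        hz hl
    have hcent : g' ∈ Subgroup.centralizer (Q : Set H) := by
      rw [Subgroup.mem_centralizer_iff]
      intro q hq
      have hζ : g' * q * g'⁻¹ * q⁻¹ ∈ ZQ := (hK₁ g').mp hg'K q hq
      obtain ⟨l, hl⟩ := hQ2 _ (hZQQ hζ)
      have := cent_of_stab g' q m hmodd hg'm l hl (hZ _ hζ)
      calc q * g' = (g' * q * g'⁻¹) * g' := by rw [this]
        _ = g' * q := by group
    obtain ⟨l, hl⟩ := hQ2 g' (hCQ hcent)
    have hd1 : orderOf g' ∣ m := orderOf_dvd_of_pow_eq_one hg'm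
    have hd2 : orderOf g' ∣ 2 ^ l := orderOf_dvd_of_pow_eq_one hl
    have hcop : Nat.Coprime m (2 ^ l) := Nat.Coprime.pow_right l (Nat.coprime_two_right.mpr hmodd)
    exact orderOf_eq_one_iff.mp (Nat.eq_one_of_dvd_coprimes hcop hd1 hd2)
  have hK₂p : IsPGroup 2 (K₁ ⊓ Subgroup.centralizer (V : Set H) : Subgroup H) := by
    rintro ⟨g, hg⟩
    obtain ⟨i, hi⟩ := hK₂2 g hg
    exact ⟨i, Subtype.ext (by simpa using hi)⟩
  haveI hK₂n : (K₁ ⊓ Subgroup.centralizer (V : Set H)).Normal := Subgroup.normal_inf_normal K₁ _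
  have hK₂Q : K₁ ⊓ Subgroup.centralizer (V : Set H) ≤ Q := by
    rw [hQdef]; exact Cfsg.Agent.Lib.helper15.le_pCore hK₂n hK₂p
  -- the holomorph
  obtain ⟨φ, hφ⟩ : ∃ φ : H →* Hol V, φ = holHom V := ⟨_, rfl⟩
  have hφker : φ.ker = Subgroup.centralizer (V : Set H) := by rw [hφ]; exact holHom_ker V
  have hφ1 : ∀ g : H, φ g = 1 ↔ g ∈ Subgroup.centralizer (V : Set H) := fun g => by
    rw [← hφker, MonoidHom.mem_ker]
  obtain ⟨M, hM⟩ : ∃ M : Subgroup (Hol V), M = K₁.map φ := ⟨_, rfl⟩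
  have hV'EA : Cfsg.IsElementaryAbelian 2 (holV V) := holV_elemAb V hVEA
  have hMV : M ≤ Subgroup.normalizer (holV V : Set (Hol V)) := by
    haveI := holV_normal V
    rw [Subgroup.normalizer_eq_top]; exact le_top
  have hfaith : M ⊓ Subgroup.centralizer (holV V : Set (Hol V)) = ⊥ := by
    rw [hM, hφ]; exact hol_faithful V K₁
  -- the hypothesis on the `2'`-core
  obtain ⟨fK, hfK⟩ : ∃ fK : ↥K₁ →* ↥(K₁.map φ), fK = φ.subgroupMap K₁ := ⟨_, rfl⟩
  have hfKs : Function.Surjective fK := hfK ▸ φ.subgroupMap_surjective K₁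
  have hfKv : ∀ k : ↥K₁, ((fK k : ↥(K₁.map φ)) : Hol V) = φ (k : H) := fun k => by
    rw [hfK]; rfl
  have hkerp : IsPGroup 2 fK.ker := by
    rintro ⟨k, hk⟩
    have h1 : φ (k : H) = 1 := by
      rw [← hfKv, MonoidHom.mem_ker.mp hk]; rfl
    have h2 : (k : H) ∈ K₁ ⊓ Subgroup.centralizer (V : Set H) :=
      Subgroup.mem_inf.mpr ⟨k.2, (hφ1 _).mp h1⟩
    obtain ⟨i, hi⟩ := hK₂2 _ h2
    exact ⟨i, Subtype.ext (Subtype.ext (by simpa using hi))⟩
  have hpc : Cfsg.pCore 2 ↥(K₁.map φ) = ⊥ := by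
    rw [eq_bot_iff]
    intro y hy
    obtain ⟨k, rfl⟩ := hfKs y
    have h1 : k ∈ (Cfsg.pCore 2 ↥(K₁.map φ)).comap fK := hy
    have h2 : k ∈ Cfsg.pCore 2 ↥K₁ := Cfsg.Agent.Lib.helper14.pCore_comap_le fK hkerp h1
    have h3 : (k : H) ∈ Cfsg.pCore 2 H :=
      Cfsg.Agent.Lib.helper16.map_pCore_le_of_normal K₁ ⟨k, h2, rfl⟩
    rw [← hQdef] at h3
    rw [Subgroup.mem_bot]
    apply Subtype.ext
    rw [hfKv]
    exact (hφ1 _).mpr (hQCV h3)
  haveI hsolK : IsSolvable ↥(K₁.map φ) := solvable_of_surjective hfKs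
  have hcon : Subgroup.centralizer (Cfsg.pPrimeCore 2 ↥M : Set ↥M) ≤ Cfsg.pPrimeCore 2 ↥M := by
    subst hM
    exact centralizer_pPrimeCore_le_of_pSolvable (isPSolvable_of_solvable 2 hsolK) hpc
  -- no dihedral pair
  have hno : ¬ ∃ x ∈ M, ∃ a ∈ M, orderOf x = 3 ∧ orderOf a = 2 ∧ a * x * a⁻¹ = x⁻¹ := by
    rw [hM]
    rintro ⟨x, ⟨x₁, hx₁, rfl⟩, a, ⟨a₁, ha₁, rfl⟩, hx3, ha2, hinv⟩
    obtain ⟨c, hcK, τ, hτK, ⟨k, hck⟩, ⟨j, hτj⟩, hτc, hcφ, hτφ⟩ :=
      lift_pair φ K₁ (K₁ ⊓ Subgroup.centralizer (V : Set H)) hK₂p inf_le_left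
        (fun k hk h => Subgroup.mem_inf.mpr ⟨hk, (hφ1 k).mp h⟩)
        (fun k hk => (hφ1 k).mpr hk.2) x₁ a₁ hx₁ ha₁ hx3 ha2 hinv
    apply hS4
    have hx3' : φ x₁ ^ 3 = 1 := by rw [← hx3]; exact pow_orderOf_eq_one _
    have hcent : ∀ e : H, φ e = 1 → ∀ v ∈ V, e * v * e⁻¹ = v := by
      intro e he v hv
      have := Subgroup.mem_centralizer_iff.mp ((hφ1 e).mp he) v hv
      rw [← this]; group
    refine s4_of_pair V hV2 hVc c τ (fun v hv => hVn.conj_mem v hv c)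
      (fun v hv => hVn.conj_mem v hv τ) k hck j hτj hτc ?_ ?_ ?_
    · intro v hv
      have h1 : φ (c ^ 3) = 1 := by rw [map_pow, hcφ, hx3']
      have h2 := hcent _ h1 v hv
      have e : c * (c * (c * v * c⁻¹) * c⁻¹) * c⁻¹ = c ^ 3 * v * (c ^ 3)⁻¹ := by
        simp only [pow_succ, pow_zero, one_mul, mul_inv_rev, mul_assoc]
      rw [e]; exact h2
    · by_contra hall
      push Not at hall
      have h1 : c ∈ Subgroup.centralizer (V : Set H) := by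
        rw [Subgroup.mem_centralizer_iff]
        intro v hv
        have := hall v hv
        calc v * c = (c * v * c⁻¹) * c := by rw [this]
          _ = c * v := by group
      have h2 : φ x₁ = 1 := by rw [← hcφ]; exact (hφ1 c).mpr h1
      rw [h2, orderOf_one] at hx3
      omega
    · intro v hv
      have hv' : τ * v * τ⁻¹ ∈ V := hVn.conj_mem v hv τ
      have h1 : φ ((c * c)⁻¹ * (τ * c * τ⁻¹)) = 1 := by
        rw [map_mul, map_inv, map_mul, map_mul, map_mul, map_inv, hcφ, hτφ, hinv]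
        have : φ x₁ * φ x₁ * φ x₁ = 1 := by
          rw [← hx3']; simp only [pow_succ, pow_zero, one_mul]
        calc (φ x₁ * φ x₁)⁻¹ * (φ x₁)⁻¹ = (φ x₁ * φ x₁ * φ x₁)⁻¹ := by group
          _ = 1 := by rw [this, inv_one]
      have h2 := hcent _ h1 _ hv'
      have e : τ * (c * v * c⁻¹) * τ⁻¹ = (c * c) * (((c * c)⁻¹ * (τ * c * τ⁻¹)) * (τ * v * τ⁻¹) *
          ((c * c)⁻¹ * (τ * c * τ⁻¹))⁻¹) * (c * c)⁻¹ := by group
      rw [e, h2]; group
  -- the offender count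
  have hAK₁ : A ≤ K₁ := hAT.trans hTK₁
  obtain ⟨hAab, hAexp⟩ := (isEA_iff 2 A).mp hA.1
  have hĀEA : Cfsg.IsElementaryAbelian 2 (A.map φ) := isEA_map 2 φ hA.1
  have bound := pair_offender_bound M (holV V) hV'EA hMV hfaith hcon hno _ (A.map φ) rfl
    (hM ▸ Subgroup.map_mono hAK₁) hĀEA
  have e1 : Nat.card ↥(holV V ⊓ Subgroup.centralizer ((A.map φ : Subgroup (Hol V)) : Set (Hol V)))
      = Nat.card ↥(V ⊓ Subgroup.centralizer (A : Set H)) := by
    rw [hφ]; exact hol_cent_card V A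
  rw [e1, card_holV] at bound
  -- `B = V (A ∩ Q)`
  have hAQV : A ⊓ Q ≤ Subgroup.centralizer (V : Set H) := inf_le_right.trans hQCV
  have hBEA : Cfsg.IsElementaryAbelian 2 (A ⊓ Q ⊔ V : Subgroup H) := by
    rw [isEA_iff]
    have hcomm : ∀ a ∈ (A ⊓ Q ⊔ V : Subgroup H), ∀ b ∈ (A ⊓ Q ⊔ V : Subgroup H),
        a * b = b * a := by
      have hle : (A ⊓ Q ⊔ V : Subgroup H) ≤
          Subgroup.centralizer ((A ⊓ Q ⊔ V : Subgroup H) : Set H) := by
        rw [Subgroup.le_centralizer_iff_isMulCommutative]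
        rw [← Subgroup.closure_eq (A ⊓ Q), ← Subgroup.closure_eq V, ← Subgroup.closure_union]
        apply Subgroup.isMulCommutative_closure
        intro y hy z hz
        rcases hy with hy | hy <;> rcases hz with hz | hz
        · exact hAab y hy.1 z hz.1
        · exact (Subgroup.mem_centralizer_iff.mp (hAQV hy) z hz).symm
        · exact Subgroup.mem_centralizer_iff.mp (hAQV hz) y hy
        · exact hVc y hy z hz
      intro a ha b hb
      exact Subgroup.mem_centralizer_iff.mp (hle hb) a ha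
    refine ⟨hcomm, ?_⟩
    intro a ha
    rw [← Subgroup.closure_eq (A ⊓ Q), ← Subgroup.closure_eq V, ← Subgroup.closure_union] at ha
    induction ha using Subgroup.closure_induction with
    | mem x hx =>
      rcases hx with hx | hx
      · exact hAexp x hx.1
      · rw [pow_two]; exact hV2 x hx
    | one => simp
    | mul x y hx hy ihx ihy =>
      have hx' : x ∈ (A ⊓ Q ⊔ V : Subgroup H) := by
        rw [← Subgroup.closure_eq (A ⊓ Q), ← Subgroup.closure_eq V, ← Subgroup.closure_union]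
        exact hx
      have hy' : y ∈ (A ⊓ Q ⊔ V : Subgroup H) := by
        rw [← Subgroup.closure_eq (A ⊓ Q), ← Subgroup.closure_eq V, ← Subgroup.closure_union]
        exact hy
      have hc : Commute x y := hcomm x hx' y hy'
      rw [hc.mul_pow, ihx, ihy, one_mul]
    | inv x hx ihx => rw [inv_pow, ihx, inv_one]
  have hBle : Nat.card ↥(A ⊓ Q ⊔ V : Subgroup H) ≤ Nat.card A := hA.2 _ hBEA
  have hcard1 := card_sup_mul_card_inf_of_normal (A ⊓ Q) V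
  have hle2 : (A ⊓ Q ⊓ V : Subgroup H) ≤ V ⊓ Subgroup.centralizer (A : Set H) := by
    intro x hx
    refine Subgroup.mem_inf.mpr ⟨hx.2, ?_⟩
    rw [Subgroup.mem_centralizer_iff]
    intro a ha
    exact hAab a ha x hx.1.1
  have hcard2 := Subgroup.card_le_of_le hle2
  have hker : φ.ker ⊓ A = A ⊓ Q := by
    rw [hφker]
    apply le_antisymm
    · intro x hx
      exact Subgroup.mem_inf.mpr ⟨hx.2, hK₂Q (Subgroup.mem_inf.mpr ⟨hAK₁ hx.2, hx.1⟩)⟩
    · intro x hx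
      exact Subgroup.mem_inf.mpr ⟨hAQV hx, hx.1⟩
  have hcard3 := card_inf_ker_mul_card_map φ A
  rw [hker] at hcard3
  -- arithmetic
  obtain ⟨a, ha⟩ : ∃ a : ℕ, a = Nat.card ↥(A.map φ) := ⟨_, rfl⟩
  obtain ⟨n, hn⟩ : ∃ n : ℕ, n = Nat.card ↥(A ⊓ Q : Subgroup H) := ⟨_, rfl⟩
  obtain ⟨cc, hcc⟩ : ∃ cc : ℕ, cc = Nat.card ↥(V ⊓ Subgroup.centralizer (A : Set H)) := ⟨_, rfl⟩
  obtain ⟨v, hv⟩ : ∃ v : ℕ, v = Nat.card V := ⟨_, rfl⟩
  rw [← ha, ← hcc, ← hv] at bound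
  rw [← hn, ← hv] at hcard1
  rw [← hn, ← ha] at hcard3
  rw [← hcc] at hcard2
  rw [← hcard3] at hBle
  have hapos : 0 < a := ha ▸ Nat.card_pos
  have hnpos : 0 < n := hn ▸ Nat.card_pos
  have hcpos : 0 < cc := hcc ▸ Nat.card_pos
  have hkey : a * (a * cc * n) ≤ 1 * (a * cc * n) := by
    calc a * (a * cc * n) = (a ^ 2 * cc) * n := by ring
      _ ≤ v * n := Nat.mul_le_mul_right _ bound
      _ = n * v := by ring
      _ = Nat.card ↥(A ⊓ Q ⊔ V : Subgroup H) * Nat.card ↥(A ⊓ Q ⊓ V : Subgroup H) := hcard1.symm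
      _ ≤ (n * a) * cc := Nat.mul_le_mul hBle hcard2
      _ = 1 * (a * cc * n) := by ring
  have ha1 : a ≤ 1 := Nat.le_of_mul_le_mul_right hkey (by positivity)
  have hbot : A.map φ = ⊥ := Subgroup.eq_bot_of_card_le _ (by rw [← ha]; exact ha1)
  intro x hx
  have h1 : φ x = 1 := by
    have : φ x ∈ A.map φ := Subgroup.mem_map_of_mem φ hx
    rw [hbot, Subgroup.mem_bot] at this
    exact this
  exact hK₂Q (Subgroup.mem_inf.mpr ⟨hAK₁ hx, (hφ1 x).mp h1⟩)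

/-- The Thompson subgroup of a Sylow `2`-subgroup of class at most two is normal in a solvable
`S₄`-free group with trivial `2'`-core. -/
theorem thompson_normal_of {H : Type u} [Group H] [Finite H] [hsol : Group.IsSolvable H]
    (hO : Cfsg.pPrimeCore 2 H = ⊥) (hS4 : ¬ Cfsg.Involves (Equiv.Perm (Fin 4)) H)
    (T : Sylow 2 H)
    (hcl : ⁅⁅(T : Subgroup H), (T : Subgroup H)⁆, (T : Subgroup H)⁆ = ⊥) :
    (Cfsg.thompsonSubgroupOf 2 (T : Subgroup H)).Normal := by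
  haveI : Fact (Nat.Prime 2) := ⟨Nat.prime_two⟩
  rw [thompsonSubgroupOf_eq T]
  have key : {A : Subgroup H | A ∈ Cfsg.maxElementaryAbelianSubgroups 2 H ∧
        A ≤ (T : Subgroup H)} =
      {A : Subgroup H | A ∈ Cfsg.maxElementaryAbelianSubgroups 2 H ∧ A ≤ Cfsg.pCore 2 H} := by
    ext A
    constructor
    · rintro ⟨h1, h2⟩
      exact ⟨h1, maxEA_le_pCore hO hS4 T hcl A h1 h2⟩
    · rintro ⟨h1, h2⟩
      exact ⟨h1, h2.trans (Cfsg.Agent.Lib.helper15.pCore_le_sylow T)⟩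
  rw [key]
  constructor
  intro y hy g
  have hstep : ∀ A ∈ {A : Subgroup H | A ∈ Cfsg.maxElementaryAbelianSubgroups 2 H ∧
      A ≤ Cfsg.pCore 2 H}, A.map (MulAut.conj g).toMonoidHom ∈
      {A : Subgroup H | A ∈ Cfsg.maxElementaryAbelianSubgroups 2 H ∧ A ≤ Cfsg.pCore 2 H} := by
    intro A hA
    refine ⟨maxEA_conj g hA.1, ?_⟩
    rintro _ ⟨a, ha, rfl⟩
    exact (Cfsg.Agent.Lib.helper15.pCore_normal 2 H).conj_mem a (hA.2 ha) g
  exact sSup_conj_mem hstep y hy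

end Cfsg.Agent.Lib.helper15.JE
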