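import Cfsg.Agent.Lib.helper15.CL

set_option autoImplicit false

namespace Cfsg.Agent.Lib.helper15

open scoped Pointwise commutatorElement

theorem mcl_inf_sup {S : Type*} [Group S] [Finite S] {Q R : Subgroup S}
    (hQ : Cfsg.IsMinimalCentrallyLarge Q) (hR : Cfsg.IsCentrallyLarge R) :
    (Q ⊓ R) ⊔ Subgroup.centralizer (Q : Set S) = Q := by
  obtain ⟨hQcd, hQc⟩ := (isCentrallyLarge_iff Q).mp hQ.1
  obtain ⟨hRcd, hRc⟩ := (isCentrallyLarge_iff R).mp hR
  have hle : (Q ⊓ R) ⊔ Subgroup.centralizer (Q : Set S) ≤ Q := sup_le inf_le_left hQc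
  apply hQ.2 _ hle
  rw [isCentrallyLarge_iff]
  refine ⟨(hQcd.inf hRcd).sup hQcd.centralizer, ?_⟩
  rw [centralizer_sup_eq, hQcd.centralizer_inf hRcd, ← hQcd.eq_centralizer_centralizer]
  intro x hx
  have hx1 : x ∈ ((Subgroup.centralizer (Q : Set S) ⊔ Subgroup.centralizer (R : Set S) :
      Subgroup S) : Set S) := (Subgroup.mem_inf.mp hx).1
  have hx2 : x ∈ Q := (Subgroup.mem_inf.mp hx).2
  rw [hQcd.coe_centralizer_sup hRcd] at hx1
  obtain ⟨z₁, hz₁, z₂, hz₂, rfl⟩ := Set.mem_mul.mp hx1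
  have hz₂Q : z₂ ∈ Q := by
    have e : z₂ = z₁⁻¹ * (z₁ * z₂) := by group
    rw [e]; exact Q.mul_mem (Q.inv_mem (hQc hz₁)) hx2
  exact Subgroup.mul_mem _ (Subgroup.mem_sup_right hz₁)
    (Subgroup.mem_sup_left (Subgroup.mem_inf.mpr ⟨hz₂Q, hRc hz₂⟩))

theorem commutatorElement_mul_left_of_commute {G : Type*} [Group G] (a y z : G)
    (h : Commute z y) : ⁅a * z, y⁆ = ⁅a, y⁆ := by
  rw [commutatorElement_def, commutatorElement_def]
  have e : a * z * y * (a * z)⁻¹ * y⁻¹ = a * (z * y) * z⁻¹ * a⁻¹ * y⁻¹ := by group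
  rw [e, h.eq]; group

theorem commutatorElement_mul_right_of_commute {G : Type*} [Group G] (a b z : G)
    (h : Commute z a) : ⁅a, b * z⁆ = ⁅a, b⁆ := by
  rw [commutatorElement_def, commutatorElement_def]
  have e : a * (b * z) * a⁻¹ * (b * z)⁻¹ = a * b * (z * a⁻¹) * z⁻¹ * b⁻¹ := by group
  rw [e, (h.inv_right).eq]; group

theorem mcl_commutator_eq {S : Type*} [Group S] [Finite S] {Q R : Subgroup S}
    (hQ : Cfsg.IsMinimalCentrallyLarge Q) (hR : Cfsg.IsCentrallyLarge R) :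
    ⁅Q, Q⁆ = ⁅Q ⊓ R, Q ⊓ R⁆ := by
  apply le_antisymm _ (Subgroup.commutator_mono inf_le_left inf_le_left)
  obtain ⟨hQcd, hQc⟩ := (isCentrallyLarge_iff Q).mp hQ.1
  have hnorm : Subgroup.centralizer (Q : Set S) ≤
      Subgroup.normalizer ((Q ⊓ R : Subgroup S) : Set S) :=
    le_trans (Subgroup.centralizer_le (SetLike.coe_subset_coe.mpr inf_le_left))
      (Subgroup.centralizer_le_normalizer _)
  have hcoe := Subgroup.coe_mul_of_right_le_normalizer_left (Q ⊓ R) _ hnorm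
  rw [mcl_inf_sup hQ hR] at hcoe
  rw [Subgroup.commutator_le]
  intro x hx y hy
  have hx' : x ∈ (Q : Set S) := hx
  have hy' : y ∈ (Q : Set S) := hy
  rw [hcoe] at hx' hy'
  obtain ⟨a, ha, z, hz, rfl⟩ := Set.mem_mul.mp hx'
  obtain ⟨b, hb, z', hz', rfl⟩ := Set.mem_mul.mp hy'
  have h1 : Commute z (b * z') := (Subgroup.mem_centralizer_iff.mp hz (b * z') hy).symm
  have h2 : Commute z' a :=
    (Subgroup.mem_centralizer_iff.mp hz' a (Subgroup.mem_inf.mp ha).1).symm
  rw [commutatorElement_mul_left_of_commute a (b * z') z h1,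
    commutatorElement_mul_right_of_commute a b z' h2]
  exact Subgroup.commutator_mem_commutator ha hb

theorem mcl_arith (d zq zr q r u v w c : ℕ) (hd : 0 < d) (hzq : 0 < zq) (hq : 0 < q)
    (hw : 0 < w) (F1 : d * zq = q * u) (F2 : d * zr = r * v) (F3 : zq * zr = c * w)
    (F4 : q * zq = r * zr) (F5 : q * zq = d * c) (hwu : w ≤ u) (hwv : w ≤ v) :
    q = r ∧ zq = zr := by
  have hm : 0 < q * zq := Nat.mul_pos hq hzq
  have e1 : (q * zq) * u = d * zq * zq := by rw [mul_right_comm, ← F1]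
  have e2 : (q * zq) * v = d * zr * zr := by rw [F4, mul_right_comm, ← F2]
  have e3 : (q * zq) * w = d * (zq * zr) := by rw [F5, mul_assoc, ← F3]
  have e4 : ((q * zq) * w) * ((q * zq) * w) = ((q * zq) * u) * ((q * zq) * v) := by
    rw [e1, e2, e3]; ring
  have e5 : (q * zq) * (q * zq) * (w * w) = (q * zq) * (q * zq) * (u * v) := by
    calc (q * zq) * (q * zq) * (w * w) = ((q * zq) * w) * ((q * zq) * w) := by ring
      _ = ((q * zq) * u) * ((q * zq) * v) := e4
      _ = _ := by ring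
  have e6 : w * w = u * v := Nat.eq_of_mul_eq_mul_left (Nat.mul_pos hm hm) e5
  have hu : u = w := by
    apply le_antisymm _ hwu
    by_contra hlt
    push Not at hlt
    have h1 : w * w < u * w := Nat.mul_lt_mul_of_pos_right hlt hw
    have h2 : u * w ≤ u * v := Nat.mul_le_mul_left _ hwv
    linarith
  have e7 : d * zq * zq = d * zq * zr := by rw [← e1, hu, e3, mul_assoc]
  have hz : zq = zr := Nat.eq_of_mul_eq_mul_left (Nat.mul_pos hd hzq) e7
  refine ⟨?_, hz⟩
  rw [← hz] at F4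
  exact Nat.eq_of_mul_eq_mul_right hzq F4

theorem mcl_card_eq {S : Type*} [Group S] [Finite S] {Q R : Subgroup S}
    (hQ : Cfsg.IsMinimalCentrallyLarge Q) (hR : Cfsg.IsMinimalCentrallyLarge R) :
    Nat.card Q = Nat.card R ∧
      Nat.card (Subgroup.centralizer (Q : Set S)) = Nat.card (Subgroup.centralizer (R : Set S)) := by
  obtain ⟨hQcd, hQc⟩ := (isCentrallyLarge_iff Q).mp hQ.1
  obtain ⟨hRcd, hRc⟩ := (isCentrallyLarge_iff R).mp hR.1
  have hD := hQcd.inf hRcd
  have F1 := (hD.sup_inf_aux hQcd.centralizer).2.2.1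
  rw [mcl_inf_sup hQ hR.1] at F1
  have hD' := hRcd.inf hQcd
  have F2 := (hD'.sup_inf_aux hRcd.centralizer).2.2.1
  rw [mcl_inf_sup hR hQ.1, inf_comm R Q] at F2
  have F3 := (hQcd.sup_inf_aux hRcd).2.2.2.1
  rw [← hQcd.centralizer_inf hRcd] at F3
  have F4 : cdm Q = cdm R := hQcd.cdm_eq hRcd
  have F5 : cdm Q = cdm (Q ⊓ R) := hQcd.cdm_eq hD
  unfold cdm at F4 F5
  have hwu : Subgroup.centralizer (Q : Set S) ⊓ Subgroup.centralizer (R : Set S) ≤
      (Q ⊓ R) ⊓ Subgroup.centralizer (Q : Set S) :=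
    le_inf (inf_le_inf hQc hRc) inf_le_left
  have hwv : Subgroup.centralizer (Q : Set S) ⊓ Subgroup.centralizer (R : Set S) ≤
      (Q ⊓ R) ⊓ Subgroup.centralizer (R : Set S) :=
    le_inf (inf_le_inf hQc hRc) inf_le_right
  exact mcl_arith _ _ _ _ _ _ _ _ _ Nat.card_pos Nat.card_pos Nat.card_pos Nat.card_pos
    F1 F2 F3 F4 F5 (Subgroup.card_le_of_le hwu) (Subgroup.card_le_of_le hwv)

theorem mcl_abelian_iff {S : Type*} [Group S] [Finite S] {Q : Subgroup S}
    (hQ : Cfsg.IsMinimalCentrallyLarge Q) (hab : IsMulCommutative ↥Q) (X : Subgroup S) :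
    Cfsg.IsMinimalCentrallyLarge X ↔ X ∈ Cfsg.maxAbelianSubgroups S := by
  obtain ⟨hQcd, hQc⟩ := (isCentrallyLarge_iff Q).mp hQ.1
  have hCQ : Subgroup.centralizer (Q : Set S) = Q := le_antisymm hQc (Subgroup.le_centralizer Q)
  have hm : cdm Q = Nat.card Q * Nat.card Q := by unfold cdm; rw [hCQ]
  have hQmax : ∀ B : Subgroup S, IsMulCommutative ↥B → Nat.card B ≤ Nat.card Q := by
    intro B hB
    have h1 : cdm B ≤ cdm Q := hQcd B
    have h2 : Nat.card B * Nat.card B ≤ cdm B := by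
      unfold cdm
      exact Nat.mul_le_mul_left _ (Subgroup.card_le_of_le (Subgroup.le_centralizer B))
    rw [hm] at h1
    exact Nat.mul_self_le_mul_self_iff.mp (le_trans h2 h1)
  constructor
  · intro hX
    obtain ⟨hXcd, hXc⟩ := (isCentrallyLarge_iff X).mp hX.1
    obtain ⟨h1, h2⟩ := mcl_card_eq hX hQ
    rw [hCQ, ← h1] at h2
    have hCX : Subgroup.centralizer (X : Set S) = X :=
      Subgroup.eq_of_le_of_card_ge hXc (le_of_eq h2.symm)
    have hXab : IsMulCommutative ↥X := by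
      rw [← Subgroup.le_centralizer_iff_isMulCommutative]
      exact le_of_eq hCX.symm
    exact ⟨hXab, fun B hB => (hQmax B hB).trans (le_of_eq h1.symm)⟩
  · intro hX
    have hXab : IsMulCommutative ↥X := hX.1
    have hcard : Nat.card X = Nat.card Q := le_antisymm (hQmax X hX.1) (hX.2 Q hab)
    have hCX : Subgroup.centralizer (X : Set S) = X :=
      le_antisymm (maxAbelian_centralizer_le hX) (Subgroup.le_centralizer X)
    have hmX : cdm X = cdm Q := by
      rw [hm]; unfold cdm; rw [hCX, hcard]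
    have hXcd : IsCD X := isCD_of_cdm_le hQcd (le_of_eq hmX.symm)
    refine ⟨(isCentrallyLarge_iff X).mpr ⟨hXcd, le_of_eq hCX⟩, ?_⟩
    intro X' hX'X hX'
    obtain ⟨hX'cd, hX'c⟩ := (isCentrallyLarge_iff X').mp hX'
    have hX'ab : X' ≤ Subgroup.centralizer (X' : Set S) :=
      le_trans hX'X (le_trans (Subgroup.le_centralizer X)
        (Subgroup.centralizer_le (SetLike.coe_subset_coe.mpr hX'X)))
    have hCX' : Subgroup.centralizer (X' : Set S) = X' := le_antisymm hX'c hX'ab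
    have hmX' : cdm X' = cdm Q := hX'cd.cdm_eq hQcd
    rw [hm] at hmX'
    unfold cdm at hmX'
    rw [hCX'] at hmX'
    have hc' : Nat.card X' = Nat.card Q := Nat.mul_self_inj.mp hmX'
    exact Subgroup.eq_of_le_of_card_ge hX'X (by rw [hc', hcard])

end Cfsg.Agent.Lib.helper15
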