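import Mathlib
import Cfsg.Prelude.Def_Local
import Cfsg.Prelude.Def_Transfer
import Cfsg.Agent.Lib.helper7.PQA
import Cfsg.Agent.Lib.helper16.PSolv
import Cfsg.Agent.Lib.helper9.PPrimeCore
import Cfsg.Agent.Lib.helper8.CoprimeAction

set_option autoImplicit false
set_option linter.unusedSectionVars false
set_option linter.unusedVariables false

namespace Cfsg.Agent.Lib.helper15.PSI

universe u

theorem pc_of_pSolvable {G : Type u} [Group G] [Finite G] {p : ℕ} [Fact p.Prime]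
    (hG : Cfsg.IsPSolvable p G) : Cfsg.IsPConstrained p G := by
  rw [Cfsg.Agent.Lib.helper16.pc_iff_quot]
  exact Cfsg.Agent.Lib.helper16.centralizer_pCore_le_of_pSolvable
    (Cfsg.Agent.Lib.helper16.isPSolvable_of_surjective (QuotientGroup.mk' (Cfsg.pPrimeCore p G))
      (QuotientGroup.mk'_surjective _) hG)
    (Cfsg.Agent.Lib.helper9.pPrimeCore_quotient_eq_bot p G)

theorem s1902_main {G : Type u} [Group G] [Finite G] {p : ℕ} [Fact p.Prime] (hp : p ≠ 2)
    (hG : Cfsg.IsPSolvable p G) (B : Subgroup G) (hB : Cfsg.IsElementaryAbelian p B)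
    (b₀ : G) (hb₀ : b₀ ∈ B) (P : Sylow p ↥(Subgroup.centralizer ({b₀} : Set G)))
    (hBP : B = Subgroup.closure {x : G |
      x ∈ ((P : Subgroup ↥(Subgroup.centralizer ({b₀} : Set G))).map
        (Subgroup.centralizer ({b₀} : Set G)).subtype : Subgroup G) ∧ orderOf x = p})
    (Q : Subgroup G) (hQ : ¬ p ∣ Nat.card Q) (hinv : ∀ b ∈ B, ∀ x ∈ Q, b * x * b⁻¹ ∈ Q) :
    Q ≤ Cfsg.pPrimeCore p G := by
  have hpp : p.Prime := Fact.out
  have hBp : IsPGroup p ↥B := by
    intro g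
    refine ⟨1, ?_⟩
    apply Subtype.ext
    rw [pow_one]
    simpa using hB.2 g.1 g.2
  have hcomm : ∀ a ∈ B, ∀ b ∈ B, a * b = b * a := by
    intro a ha b hb
    have h := hB.1.is_comm.comm ⟨a, ha⟩ ⟨b, hb⟩
    exact congrArg Subtype.val h
  apply Cfsg.Agent.Lib.helper7.pprime_invariant_le_core p hp (pc_of_pSolvable hG) B hBp ?_ Q hQ
    (Cfsg.Agent.Lib.helper8.le_normalizer_of_conj_mem hinv)
  intro x hx hxo
  rw [Subgroup.mem_centralizer_iff] at hx
  have hxp : x ^ p = 1 := by rw [← hxo]; exact pow_orderOf_eq_one x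
  obtain ⟨C, hC⟩ : ∃ C : Subgroup G, C = Subgroup.centralizer ({b₀} : Set G) := ⟨_, rfl⟩
  obtain ⟨E, hE⟩ : ∃ E : Subgroup G, E = Subgroup.zpowers x ⊔ B := ⟨_, rfl⟩
  have hBn : B ≤ Subgroup.normalizer ((Subgroup.zpowers x : Subgroup G) : Set G) := by
    apply Cfsg.Agent.Lib.helper8.le_normalizer_of_conj_mem
    intro b hb y hy
    obtain ⟨k, rfl⟩ := Subgroup.mem_zpowers_iff.mp hy
    have hc : Commute b x := hx b hb
    have e : b * x ^ k * b⁻¹ = x ^ k := by
      have h1 := (hc.zpow_right k).eq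
      rw [h1]; group
    rw [e]; exact hy
  have hEmem : ∀ y, y ∈ E ↔ ∃ n ∈ Subgroup.zpowers x, ∃ a ∈ B, y = n * a := by
    intro y; rw [hE]; exact Cfsg.Agent.Lib.helper8.mem_sup_iff_of_le_normalizer hBn y
  have hEpow : ∀ y ∈ E, y ^ p = 1 := by
    intro y hy
    obtain ⟨n, hn, a, ha, rfl⟩ := (hEmem y).mp hy
    obtain ⟨k, rfl⟩ := Subgroup.mem_zpowers_iff.mp hn
    have hc0 : Commute a x := hx a ha
    have hc : Commute (x ^ k) a := (hc0.zpow_right k).symm
    rw [hc.mul_pow, hB.2 a ha, mul_one, ← zpow_natCast, ← zpow_mul, mul_comm, zpow_mul,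
      zpow_natCast, hxp, one_zpow]
  have hEp : IsPGroup p ↥E := by
    intro g
    refine ⟨1, ?_⟩
    apply Subtype.ext
    rw [pow_one]
    simpa using hEpow g.1 g.2
  have hBE : B ≤ E := by rw [hE]; exact le_sup_right
  have hxE : x ∈ E := by rw [hE]; exact le_sup_left (α := Subgroup G) (Subgroup.mem_zpowers x)
  have hEC : E ≤ Subgroup.centralizer ({b₀} : Set G) := by
    intro y hy
    obtain ⟨n, hn, a, ha, rfl⟩ := (hEmem y).mp hy
    rw [Subgroup.mem_centralizer_iff]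
    intro z hz
    rw [Set.mem_singleton_iff] at hz
    rw [hz]
    obtain ⟨k, rfl⟩ := Subgroup.mem_zpowers_iff.mp hn
    have h0 : Commute b₀ x := hx b₀ hb₀
    have h1 : Commute b₀ (x ^ k) := h0.zpow_right k
    have h2 : Commute b₀ a := hcomm b₀ hb₀ a ha
    exact (h1.mul_right h2).eq
  obtain ⟨S, hES⟩ := Cfsg.Agent.Lib.helper8.exists_sylow_map_ge hEC hEp
  obtain ⟨k, hk, hkS⟩ := Cfsg.Agent.Lib.helper8.sylow_map_conj _ P S
  have hEB : ∀ y ∈ E, k⁻¹ * y * k ∈ B := by
    intro y hy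
    have h1 := (hkS y).mp (hES hy)
    have h2 : (k⁻¹ * y * k) ^ p = 1 := by
      have e : k⁻¹ * y * k = k⁻¹ * y * k⁻¹⁻¹ := by rw [inv_inv]
      rw [e, conj_pow, hEpow y hy]; group
    by_cases h3 : k⁻¹ * y * k = 1
    · rw [h3]; exact B.one_mem
    · have h4 : orderOf (k⁻¹ * y * k) = p := orderOf_eq_prime h2 h3
      rw [hBP]
      exact Subgroup.subset_closure ⟨h1, h4⟩
  have hcard : Nat.card E ≤ Nat.card B := by
    let f : E → B := fun y => ⟨k⁻¹ * y.1 * k, hEB y.1 y.2⟩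
    have hf : Function.Injective f := by
      intro y₁ y₂ h
      have h5 := congrArg Subtype.val h
      simp only [f] at h5
      apply Subtype.ext
      exact mul_left_cancel (mul_right_cancel h5)
    exact Nat.card_le_card_of_injective f hf
  have hEB' : B = E := Subgroup.eq_of_le_of_card_ge hBE hcard
  rw [hEB']; exact hxE

end Cfsg.Agent.Lib.helper15.PSI
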