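import Mathlib
import Cfsg.Agent.Lib.helper15.QdNS

set_option autoImplicit false
set_option linter.style.haveILetI false

namespace Cfsg.Agent.Lib.helper15.Qd

open Cfsg.Agent.Lib.helper15

open scoped commutatorElement

universe u

/-- `SL₂(p)` is a quotient of `Qd(p)`. -/
theorem involves_sl2_qd (p : ℕ) [Fact p.Prime] :
    Cfsg.Involves (Matrix.SpecialLinearGroup (Fin 2) (ZMod p)) ↥(Cfsg.qd p) := by
  classical
  obtain ⟨f, hf⟩ : ∃ f : ↥(Cfsg.qd p) → Dk.SL2 (ZMod p),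
      ∀ M : ↥(Cfsg.qd p), ∃ t, (M : Matrix.SpecialLinearGroup (Fin 3) (ZMod p)) = aff (f M) t :=
    ⟨fun M => (exists_aff_of_mem_qd p M.1 M.2).choose,
      fun M => (exists_aff_of_mem_qd p M.1 M.2).choose_spec⟩
  obtain ⟨φ, hφ⟩ : ∃ φ : ↥(Cfsg.qd p) →* Dk.SL2 (ZMod p), ∀ M, φ M = f M := by
    refine ⟨{ toFun := f
              map_one' := ?_
              map_mul' := ?_ }, fun M => rfl⟩
    · obtain ⟨t, ht⟩ := hf 1
      rw [Subgroup.coe_one, ← aff_one] at ht
      exact (aff_inj ht).1.symm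
    · intro M M'
      obtain ⟨t, ht⟩ := hf M
      obtain ⟨t', ht'⟩ := hf M'
      obtain ⟨t'', ht''⟩ := hf (M * M')
      rw [Subgroup.coe_mul, ht, ht', aff_mul] at ht''
      exact (aff_inj ht'').1.symm
  have hsurj : Function.Surjective φ := by
    intro A
    refine ⟨⟨aff A 0, aff_mem_qd p A 0⟩, ?_⟩
    rw [hφ]
    obtain ⟨t, ht⟩ := hf ⟨aff A 0, aff_mem_qd p A 0⟩
    exact (aff_inj ht).1.symm
  exact Cfsg.Agent.Lib.helper14.involves_of_surjective_hom φ hsurj
    (Cfsg.Agent.Lib.helper15.inv_self _)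

/-- A non-`p`-stable action in a finite group forces `SL₂(p)` as a section (`p` odd). -/
theorem involves_sl2_of_not_stable {X : Type u} [Group X] [Finite X] {p : ℕ} [Fact p.Prime]
    (hp : p ≠ 2) (h : ¬ Cfsg.IsNormalizerPStable p X) :
    Cfsg.Involves (Matrix.SpecialLinearGroup (Fin 2) (ZMod p)) X := by
  have h1 : Cfsg.Involves ↥(Cfsg.qd p) X := by
    by_contra hcon
    exact h (normalizerPStable_of_qd_free hp hcon)
  exact Cfsg.Agent.Lib.helper15.inv_trans (involves_sl2_qd p) h1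

end Cfsg.Agent.Lib.helper15.Qd
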