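import Mathlib
import Cfsg.Prelude.Def_Local
import Cfsg.Prelude.Def_Transfer
import Cfsg.Prelude.Def_CaseTheorems
import Cfsg.Agent.Lib.helper16.PConstr
import Cfsg.Agent.Lib.helper15.PSolvInv
import Cfsg.Agent.Lib.helper14.SolvPSolv
import Cfsg.Agent.Lib.helper9.PPrimeCore
import Cfsg.Agent.Lib.helper15.RankTwo3

set_option autoImplicit false
set_option linter.style.haveILetI false

namespace Cfsg.Agent.Lib.helper15.GL2D

universe u

open scoped commutatorElement
open Cfsg

/-- A normal `p'`-subgroup of `p`-power index gives a normal `p`-complement. -/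
theorem npc_of_normal {G : Type u} [Group G] [Finite G] (p : ℕ) [Fact p.Prime] (N : Subgroup G)
    [N.Normal] (hN : (Nat.card N).Coprime p) (j : ℕ) (hidx : N.index = p ^ j) :
    HasNormalPComplement p G := by
  have hpp : p.Prime := Fact.out
  obtain ⟨P⟩ : Nonempty (Sylow p G) := inferInstance
  refine ⟨P, N, inferInstance, ?_⟩
  have hcard : Nat.card N * p ^ j = Nat.card G := by
    rw [← hidx]
    exact Subgroup.card_mul_index N
  have hndvd : ¬ p ∣ Nat.card N := (Nat.Prime.coprime_iff_not_dvd hpp).mp hN.symm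
  have hP : Nat.card P = p ^ j := by
    rw [Sylow.card_eq_multiplicity, ← hcard,
      Nat.factorization_mul Nat.card_pos.ne' (pow_ne_zero j hpp.ne_zero)]
    simp [Nat.factorization_eq_zero_of_not_dvd hndvd, hpp.factorization_pow]
  apply Subgroup.isComplement'_of_coprime
  · rw [hP]
    exact hcard
  · rw [hP]
    exact Nat.Coprime.pow_right j hN

/-- Solvable groups of odd order and `p`-rank at most two. -/
theorem s1450_main {G : Type u} [Group G] [Finite G] [Group.IsSolvable G]
    (hodd : Odd (Nat.card G)) (p : ℕ) [Fact p.Prime] (hpG : p ∣ Nat.card G)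
    (hr : Cfsg.PRankLE p 2 G) :
    (∀ q : ℕ, q.Prime → q ∣ (Cfsg.pPrimeCore p G).index → q ≤ p) ∧
      ((p = 3 ∨ ∀ q : ℕ, q.Prime → q ∣ Nat.card G → p ≤ q) → Cfsg.HasNormalPComplement p G) ∧
      Cfsg.HasNormalPComplement p ↥(commutator G) ∧
      (∀ L : Subgroup ↥(commutator G), (Nat.card L).Coprime p →
        L ≤ Cfsg.pPrimeCore p ↥(commutator G)) ∧
      commutator G ≤ Cfsg.pPrimePCore p G ∧ ((Cfsg.pPrimePCore p G).index).Coprime p := by
  have hpp : p.Prime := Fact.out
  have hpodd : Odd p := hodd.of_dvd_nat hpG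
  have hp : p ≠ 2 := by
    rintro rfl
    exact absurd hpodd (by decide)
  haveI hMn : (pPrimePCore p G).Normal := Cfsg.Agent.Lib.helper16.pPrimePCore_normal p G
  have hNM : (pPrimeCore p G) ≤ (pPrimePCore p G) := Cfsg.Agent.Lib.helper16.pPrimeCore_le_pPrimePCore
  have hNcop : (Nat.card (pPrimeCore p G)).Coprime p := Cfsg.Agent.Lib.helper9.pPrimeCore_coprime p G
  have hpowM : ∀ g ∈ (pPrimePCore p G), ∃ k : ℕ, g ^ (p ^ k) ∈ (pPrimeCore p G) := fun g hg =>
    Cfsg.Agent.Lib.helper16.exists_pow_mem_pPrimeCore hg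
  have hcopM : ∀ g ∈ (pPrimePCore p G), (orderOf g).Coprime p → g ∈ (pPrimeCore p G) := fun g hg ho =>
    Cfsg.Agent.Lib.helper16.mem_pPrimeCore_of_coprime_order hg ho
  have hleM : ∀ K : Subgroup G, K.Normal → (∀ g ∈ K, ∃ k : ℕ, g ^ (p ^ k) ∈ (pPrimeCore p G)) → K ≤ (pPrimePCore p G) :=
    fun K hK h => @Cfsg.Agent.Lib.helper16.le_pPrimePCore_of_pow G _ p K hK h
  obtain ⟨P⟩ : Nonempty (Sylow p ↥(pPrimePCore p G)) := inferInstance
  obtain ⟨P₀, hP₀⟩ : ∃ P₀ : Subgroup G, P₀ = (P : Subgroup ↥(pPrimePCore p G)).map (pPrimePCore p G).subtype := ⟨_, rfl⟩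
  have hP₀p : IsPGroup p ↥P₀ := by
    rw [hP₀]
    exact P.isPGroup'.map _
  have hpc : Subgroup.centralizer (P₀ : Set G) ≤ (pPrimePCore p G) := by
    have h1 := Cfsg.Agent.Lib.helper15.PSI.pc_of_pSolvable
      (Cfsg.Agent.Lib.helper14.isPSolvable_of_solvable (G := G) p inferInstance)
    rw [hP₀]
    exact h1 P
  have hfrat : Subgroup.normalizer (P₀ : Set G) ⊔ (pPrimePCore p G) = ⊤ := by
    rw [hP₀]
    exact Sylow.normalizer_sup_eq_top P
  obtain ⟨A, hA⟩ : ∃ A : Subgroup G, A = Subgroup.normalizer (P₀ : Set G) := ⟨_, rfl⟩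
  rw [← hA] at hfrat
  obtain ⟨D, hDP, hexp, hcl, hnorm, hcrit⟩ := exists_critical p hp P₀ hP₀p
  rw [← hA] at hnorm hcrit
  have hrk : ∀ E : Subgroup G, E ≤ D → (∀ x ∈ E, ∀ y ∈ E, x * y = y * x) →
      Nat.card E ≤ p ^ 2 := by
    intro E hE hEab
    exact hr E ⟨⟨fun a b => Subtype.ext (hEab a.1 a.2 b.1 b.2)⟩⟩ (fun a ha => hexp a (hE ha))
  have hAs : Group.IsSolvable ↥A := inferInstance
  have hAodd : Odd (Nat.card ↥A) := hodd.of_dvd_nat (Subgroup.card_subgroup_dvd_card A)
  obtain ⟨hact1, hact2⟩ := rank_two_action p hp D A hexp hcl hrk hnorm hAs hAodd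
  have hF7 : ∀ a ∈ A, a ∈ Subgroup.centralizer (D : Set G) → (orderOf a).Coprime p → a ∈ (pPrimeCore p G) := by
    intro a ha hc ho
    exact hcopM a (hpc (hcrit a ha ho hc)) ho
  have hF8 : ∀ a ∈ ⁅A, A⁆, ∃ k : ℕ, a ^ (p ^ k) ∈ (pPrimeCore p G) := by
    intro a ha
    have haA : a ∈ A :=
      (Subgroup.commutator_le.mpr (fun x hx y hy => comm_mem A hx hy)) ha
    obtain ⟨c₀, hc₀⟩ : ∃ c₀ : G, c₀ = a ^ (p ^ 2) := ⟨_, rfl⟩
    have hc₀A : c₀ ∈ A := by
      rw [hc₀]
      exact A.pow_mem haA _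
    have hc₀D : c₀ ∈ Subgroup.centralizer (D : Set G) := by
      rw [hc₀]
      exact hact1 a ha
    obtain ⟨i, m, hm, ho⟩ := Nat.exists_eq_pow_mul_and_not_dvd (orderOf_pos c₀).ne' p hpp.ne_one
    have h1 : c₀ ^ (p ^ i) ∈ (pPrimeCore p G) := by
      apply hF7 _ (A.pow_mem hc₀A _) (Subgroup.pow_mem _ hc₀D _)
      have hdvd : orderOf (c₀ ^ (p ^ i)) ∣ m := by
        apply orderOf_dvd_of_pow_eq_one
        rw [← pow_mul, ← ho, pow_orderOf_eq_one]
      exact Nat.Coprime.coprime_dvd_left hdvd ((Nat.Prime.coprime_iff_not_dvd hpp).mpr hm).symm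
    refine ⟨2 + i, ?_⟩
    rw [pow_add, pow_mul, ← hc₀]
    exact h1
  have hAtop : A.map (QuotientGroup.mk' (pPrimePCore p G)) = ⊤ := by
    have h1 : (A ⊔ (pPrimePCore p G)).map (QuotientGroup.mk' (pPrimePCore p G)) = ⊤ := by
      rw [hfrat, ← MonoidHom.range_eq_map]
      exact MonoidHom.range_eq_top.mpr (QuotientGroup.mk'_surjective _)
    rw [Subgroup.map_sup] at h1
    have h2 : (pPrimePCore p G).map (QuotientGroup.mk' (pPrimePCore p G)) = ⊥ := by
      rw [eq_bot_iff]
      rintro _ ⟨m, hm, rfl⟩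
      exact Subgroup.mem_bot.mpr ((QuotientGroup.eq_one_iff m).mpr hm)
    rwa [h2, sup_bot_eq] at h1
  have hQ' : ∀ x ∈ commutator (G ⧸ (pPrimePCore p G)), ∃ k : ℕ, x ^ (p ^ k) = 1 := by
    intro x hx
    rw [commutator_def, ← hAtop, ← Subgroup.map_commutator] at hx
    obtain ⟨a, ha, rfl⟩ := hx
    obtain ⟨k, hk⟩ := hF8 a ha
    refine ⟨k, ?_⟩
    rw [← map_pow]
    exact (QuotientGroup.eq_one_iff _).mpr (hNM hk)
  have he1 : commutator G ≤ (pPrimePCore p G) := by
    have hK : ((commutator (G ⧸ (pPrimePCore p G))).comap (QuotientGroup.mk' (pPrimePCore p G))) ≤ (pPrimePCore p G) := by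
      apply hleM _ (Subgroup.Normal.comap inferInstance _)
      intro g hg
      obtain ⟨k, hk⟩ := hQ' _ hg
      rw [← map_pow] at hk
      have h1 : g ^ (p ^ k) ∈ (pPrimePCore p G) := (QuotientGroup.eq_one_iff _).mp hk
      obtain ⟨k', hk'⟩ := hpowM _ h1
      exact ⟨k + k', by rw [pow_add, pow_mul]; exact hk'⟩
    refine le_trans ?_ hK
    intro g hg
    rw [Subgroup.mem_comap]
    rw [commutator_def] at hg ⊢
    have h1 := Subgroup.mem_map_of_mem (QuotientGroup.mk' (pPrimePCore p G)) hg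
    rw [Subgroup.map_commutator] at h1
    exact Subgroup.commutator_mono le_top le_top h1
  have he2 : ((pPrimePCore p G).index).Coprime p := by
    rw [Nat.coprime_comm, Nat.Prime.coprime_iff_not_dvd hpp]
    intro hdvd
    rw [Subgroup.index_eq_card] at hdvd
    obtain ⟨x, hx⟩ := exists_prime_orderOf_dvd_card' p hdvd
    obtain ⟨g, rfl⟩ := QuotientGroup.mk'_surjective (pPrimePCore p G) x
    obtain ⟨K₂, hK₂def⟩ : ∃ K₂ : Subgroup G, K₂ = (Subgroup.zpowers ((QuotientGroup.mk' (pPrimePCore p G)) g)).comap (QuotientGroup.mk' (pPrimePCore p G)) := ⟨_, rfl⟩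
    have hK₂n : K₂.Normal := by
      constructor
      intro k hk h
      rw [hK₂def, Subgroup.mem_comap] at hk ⊢
      have h1 : (QuotientGroup.mk' (pPrimePCore p G)) (h * k * h⁻¹) = (QuotientGroup.mk' (pPrimePCore p G)) k := by
        have h2 : h * k * h⁻¹ = ⁅h, k⁆ * k := by
          rw [commutatorElement_def]
          group
        have h3 : ⁅h, k⁆ ∈ commutator G := by
          rw [commutator_def]
          exact Subgroup.commutator_mem_commutator (Subgroup.mem_top h) (Subgroup.mem_top k)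
        have h4 : (QuotientGroup.mk' (pPrimePCore p G)) ⁅h, k⁆ = 1 := (QuotientGroup.eq_one_iff _).mpr (he1 h3)
        rw [h2, map_mul, h4, one_mul]
      rw [h1]
      exact hk
    have hK₂ : K₂ ≤ (pPrimePCore p G) := by
      apply hleM K₂ hK₂n
      intro k hk
      rw [hK₂def, Subgroup.mem_comap] at hk
      have h1 : ((QuotientGroup.mk' (pPrimePCore p G)) k) ^ p = 1 := by
        obtain ⟨n, hn⟩ := Subgroup.mem_zpowers_iff.mp hk
        rw [← hn, ← zpow_natCast, ← zpow_mul, mul_comm, zpow_mul, zpow_natCast]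
        have h2 : ((QuotientGroup.mk' (pPrimePCore p G)) g) ^ p = 1 := by
          have h5 := pow_orderOf_eq_one ((QuotientGroup.mk' (pPrimePCore p G)) g)
          rwa [hx] at h5
        rw [h2, one_zpow]
      rw [← map_pow] at h1
      obtain ⟨k', hk'⟩ := hpowM _ ((QuotientGroup.eq_one_iff _).mp h1)
      exact ⟨1 + k', by rw [pow_add, pow_one, pow_mul]; exact hk'⟩
    have hgM : g ∈ (pPrimePCore p G) := by
      apply hK₂
      rw [hK₂def, Subgroup.mem_comap]
      exact Subgroup.mem_zpowers _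
    have h1 : (QuotientGroup.mk' (pPrimePCore p G)) g = 1 := (QuotientGroup.eq_one_iff _).mpr hgM
    rw [h1, orderOf_one] at hx
    exact hpp.one_lt.ne hx
  have hrel : ∃ j : ℕ, (pPrimeCore p G).relIndex (pPrimePCore p G) = p ^ j := by
    have hpg : IsPGroup p (↥(pPrimePCore p G) ⧸ (pPrimeCore p G).subgroupOf (pPrimePCore p G)) := by
      intro x
      obtain ⟨m, rfl⟩ := QuotientGroup.mk'_surjective _ x
      obtain ⟨k, hk⟩ := hpowM m.1 m.2
      refine ⟨k, ?_⟩
      rw [← map_pow]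
      exact (QuotientGroup.eq_one_iff _).mpr (by
        rw [Subgroup.mem_subgroupOf, Subgroup.coe_pow]
        exact hk)
    obtain ⟨j, hj⟩ := IsPGroup.iff_card.mp hpg
    exact ⟨j, by rw [Subgroup.relIndex, Subgroup.index_eq_card]; exact hj⟩
  have ha : ∀ q : ℕ, q.Prime → q ∣ (pPrimeCore p G).index → q ≤ p := by
    intro q hq hqd
    by_cases hqp : q = p
    · exact hqp.le
    have hqG : q ∣ Nat.card G := hqd.trans (Subgroup.index_dvd_card _)
    have hqodd : Odd q := hodd.of_dvd_nat hqG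
    rw [← Subgroup.relIndex_mul_index hNM] at hqd
    obtain ⟨j, hj⟩ := hrel
    rw [hj] at hqd
    rcases (Nat.Prime.dvd_mul hq).mp hqd with h | h
    · exact absurd ((Nat.prime_dvd_prime_iff_eq hq hpp).mp (hq.dvd_of_dvd_pow h)) hqp
    · haveI : Fact q.Prime := ⟨hq⟩
      rw [Subgroup.index_eq_card] at h
      obtain ⟨x, hx⟩ := exists_prime_orderOf_dvd_card' q h
      have hxA : x ∈ A.map (QuotientGroup.mk' (pPrimePCore p G)) := by
        rw [hAtop]
        exact Subgroup.mem_top x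
      obtain ⟨a, haA, rfl⟩ := hxA
      obtain ⟨s, m, hm, ho⟩ := Nat.exists_eq_pow_mul_and_not_dvd (orderOf_pos a).ne' q hq.ne_one
      have ha'q : (a ^ m) ^ (q ^ s) = 1 := by
        rw [← pow_mul, mul_comm, ← ho, pow_orderOf_eq_one]
      have ha'M : a ^ m ∉ (pPrimePCore p G) := by
        intro hmem
        have h1 : ((QuotientGroup.mk' (pPrimePCore p G)) a) ^ m = 1 := by
          rw [← map_pow]
          exact (QuotientGroup.eq_one_iff _).mpr hmem
        have h2 := orderOf_dvd_of_pow_eq_one h1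
        rw [hx] at h2
        exact hm h2
      have hnc : a ^ m ∉ Subgroup.centralizer (D : Set G) := by
        intro hc
        apply ha'M
        apply hNM
        apply hF7 _ (A.pow_mem haA m) hc
        have hdvd : orderOf (a ^ m) ∣ q ^ s := orderOf_dvd_of_pow_eq_one ha'q
        exact Nat.Coprime.coprime_dvd_left hdvd
          (Nat.Coprime.pow_left s ((Nat.coprime_primes hq hpp).mpr hqp))
      have hdiv := hact2 (a ^ m) (A.pow_mem haA m) q s hq hqp ha'q hnc
      rcases (Nat.Prime.dvd_mul hq).mp hdiv with h3 | h3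
      · have h4 := Nat.le_of_dvd (Nat.sub_pos_of_lt hpp.one_lt) h3
        omega
      · have h4 := Nat.le_of_dvd (Nat.succ_pos p) h3
        have h5 : q ≠ p + 1 := by
          intro h6
          rw [h6] at hqodd
          exact (Nat.not_even_iff_odd.mpr hqodd) hpodd.add_one
        omega
  have hb : (p = 3 ∨ ∀ q : ℕ, q.Prime → q ∣ Nat.card G → p ≤ q) → HasNormalPComplement p G := by
    intro hcase
    have hall : ∀ {d : ℕ}, d.Prime → d ∣ (pPrimeCore p G).index → d = p := by
      intro d hd hdd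
      have h1 := ha d hd hdd
      have hdG : d ∣ Nat.card G := hdd.trans (Subgroup.index_dvd_card _)
      rcases hcase with h3 | hmin
      · have hdodd : Odd d := hodd.of_dvd_nat hdG
        have h2 := hd.two_le
        have h4 : d ≠ 2 := by
          rintro rfl
          exact absurd hdodd (by decide)
        omega
      · exact le_antisymm h1 (hmin d hd hdG)
    have hidx := Nat.eq_prime_pow_of_unique_prime_dvd (Subgroup.index_ne_zero_of_finite) hall
    exact npc_of_normal p (pPrimeCore p G) hNcop _ hidx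
  obtain ⟨N', hN'⟩ : ∃ N' : Subgroup ↥(commutator G), N' = (pPrimeCore p G).subgroupOf (commutator G) :=
    ⟨_, rfl⟩
  haveI hN'n : N'.Normal := by
    rw [hN']
    infer_instance
  have hN'cop : (Nat.card N').Coprime p := by
    have h1 : Nat.card N' ∣ Nat.card (pPrimeCore p G) := by
      rw [hN']
      have h2 : Nat.card ↥((pPrimeCore p G).subgroupOf (commutator G)) = Nat.card ↥((pPrimeCore p G) ⊓ commutator G) := by
        rw [← Subgroup.subgroupOf_map_subtype,
          Subgroup.card_map_of_injective (Subgroup.subtype_injective _)]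
      rw [h2]
      exact Subgroup.card_dvd_of_le inf_le_left
    exact Nat.Coprime.coprime_dvd_left h1 hNcop
  have hN'idx : ∃ j : ℕ, N'.index = p ^ j := by
    have hpg : IsPGroup p (↥(commutator G) ⧸ N') := by
      intro x
      obtain ⟨g, rfl⟩ := QuotientGroup.mk'_surjective _ x
      obtain ⟨k, hk⟩ := hpowM g.1 (he1 g.2)
      refine ⟨k, ?_⟩
      rw [← map_pow]
      exact (QuotientGroup.eq_one_iff _).mpr (by
        rw [hN', Subgroup.mem_subgroupOf, Subgroup.coe_pow]
        exact hk)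
    obtain ⟨j, hj⟩ := IsPGroup.iff_card.mp hpg
    exact ⟨j, by rw [Subgroup.index_eq_card]; exact hj⟩
  have hc : HasNormalPComplement p ↥(commutator G) := by
    obtain ⟨j, hj⟩ := hN'idx
    exact npc_of_normal p N' hN'cop j hj
  have hd : ∀ L : Subgroup ↥(commutator G), (Nat.card L).Coprime p →
      L ≤ pPrimeCore p ↥(commutator G) := by
    intro L hL l hl
    have h1 : (l : G) ∈ (pPrimeCore p G) := by
      apply hcopM _ (he1 l.2)
      rw [Subgroup.orderOf_coe l]
      have h2 : orderOf l ∣ Nat.card L := by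
        rw [← Subgroup.orderOf_mk l hl]
        exact orderOf_dvd_natCard _
      exact Nat.Coprime.coprime_dvd_left h2 hL
    have h3 : l ∈ N' := by
      rw [hN', Subgroup.mem_subgroupOf]
      exact h1
    exact Cfsg.Agent.Lib.helper9.le_pPrimeCore hN'n hN'cop h3
  exact ⟨ha, hb, hc, hd, he1, he2⟩

end Cfsg.Agent.Lib.helper15.GL2D
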