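import Mathlib
import Cfsg.Prelude.Def_CaseTheorems
import Cfsg.Agent.Lib.helper15.RankTwo3

set_option autoImplicit false

namespace Cfsg.Agent.Lib.helper15.S1451A

open scoped commutatorElement
open Cfsg
open Cfsg.Agent.Lib.helper15.GL2D

/-- In a solvable group of odd order, the elements of the derived subgroup of order prime to `q`
centralize every normal `q`-subgroup of rank at most two. -/
theorem der_centralizes {G : Type*} [Group G] [Finite G] [Group.IsSolvable G]
    (hodd : Odd (Nat.card G)) (q : ℕ) [Fact q.Prime] (R : Subgroup G) [R.Normal]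
    (hR : IsPGroup q R) (hr : Cfsg.PRankLE q 2 R) :
    ∀ g ∈ commutator G, (orderOf g).Coprime q → g ∈ Subgroup.centralizer (R : Set G) := by
  have hqq : q.Prime := Fact.out
  intro g hg hgo
  by_cases hq : q = 2
  · have hRbot : R = ⊥ := by
      rw [Subgroup.eq_bot_iff_forall]
      intro x hx
      obtain ⟨k, hk⟩ := hR ⟨x, hx⟩
      have hk' : x ^ (q ^ k) = 1 := by
        have := congrArg Subtype.val hk
        simpa using this
      have h1 : orderOf x ∣ q ^ k := orderOf_dvd_of_pow_eq_one hk'
      have h2 : orderOf x ∣ Nat.card G := orderOf_dvd_natCard x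
      have h3 : Odd (orderOf x) := hodd.of_dvd_nat h2
      have h4 : (orderOf x).Coprime (q ^ k) := by
        rw [hq]
        exact Nat.Coprime.pow_right k (Nat.coprime_two_right.mpr h3)
      have h5 : orderOf x = 1 := Nat.Coprime.eq_one_of_dvd h4 h1
      exact orderOf_eq_one_iff.mp h5
    rw [hRbot]
    intro y hy
    have : y = 1 := Subgroup.mem_bot.mp hy
    rw [this]
    simp
  · obtain ⟨D, hDR, hexp, hcl, hnorm, hcrit⟩ := exists_critical q hq R hR
    have hNtop : Subgroup.normalizer (R : Set G) = ⊤ := Subgroup.normalizer_eq_top_iff.mpr inferInstance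
    rw [hNtop] at hnorm hcrit
    have hrk : ∀ E : Subgroup G, E ≤ D → (∀ x ∈ E, ∀ y ∈ E, x * y = y * x) →
        Nat.card E ≤ q ^ 2 := by
      intro E hE hEab
      have hER : E ≤ R := hE.trans hDR
      have h1 := hr (E.subgroupOf R)
        ⟨⟨fun a b => Subtype.ext (Subtype.ext (hEab a.1.1 a.2 b.1.1 b.2))⟩⟩
        (fun a ha => Subtype.ext (hexp a.1 (hE ha)))
      rwa [Nat.card_congr (Subgroup.subgroupOfEquivOfLe hER).toEquiv] at h1
    have hAs : Group.IsSolvable ↥(⊤ : Subgroup G) := inferInstance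
    have hAodd : Odd (Nat.card ↥(⊤ : Subgroup G)) := by
      rw [Subgroup.card_top]
      exact hodd
    obtain ⟨hact1, -⟩ := rank_two_action q hq D ⊤ hexp hcl hrk hnorm hAs hAodd
    have hg' : g ∈ ⁅(⊤ : Subgroup G), (⊤ : Subgroup G)⁆ := by
      rw [commutator_def] at hg
      exact hg
    have h1 : g ^ (q ^ 2) ∈ Subgroup.centralizer (D : Set G) := hact1 g hg'
    have hcop : (orderOf g).Coprime (q ^ 2) := Nat.Coprime.pow_right 2 hgo
    have h2 : g ∈ Subgroup.centralizer (D : Set G) := by
      have h4 := Nat.gcd_eq_gcd_ab (orderOf g) (q ^ 2)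
      rw [hcop.gcd_eq_one] at h4
      have h7 : g ^ ((orderOf g : ℤ) * Nat.gcdA (orderOf g) (q ^ 2) +
          ((q ^ 2 : ℕ) : ℤ) * Nat.gcdB (orderOf g) (q ^ 2)) = g := by
        rw [← h4]
        simp
      rw [zpow_add, zpow_mul, zpow_natCast, pow_orderOf_eq_one, one_zpow, one_mul, zpow_mul,
        zpow_natCast] at h7
      rw [← h7]
      exact Subgroup.zpow_mem _ h1 _
    exact hcrit g (Subgroup.mem_top g) hgo h2

end Cfsg.Agent.Lib.helper15.S1451A
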