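import Mathlib
import Cfsg.Prelude.Def_CaseTheorems
import Cfsg.Agent.Lib.helper15.RankTwo3
import Cfsg.Agent.Lib.helper14.S1456M1
import Cfsg.Agent.Lib.helper15.S1456M2
import Cfsg.Agent.Lib.lead.S1456M4
import Cfsg.Agent.Lib.helper15.S1454T3

set_option autoImplicit false
set_option linter.style.haveILetI false

namespace Cfsg.Agent.Lib.helper15.S1454F

open scoped commutatorElement
open Cfsg.Agent.Lib.helper15.GL2D

/-- Relative form of the narrow case: `p'`-elements of `⁅A, A⁆` centralize `R`. -/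
theorem der_rel {G : Type*} [Group G] [Finite G] (p : ℕ) [Fact p.Prime] (hp : p ≠ 2)
    (R A : Subgroup G) (hR : IsPGroup p R) (hA : A ≤ Subgroup.normalizer (R : Set G))
    (hAs : Group.IsSolvable A) (hAodd : Odd (Nat.card A)) (E : Subgroup G) (hER : E ≤ R)
    (hEc : ∀ a ∈ E, ∀ b ∈ E, a * b = b * a) (hEp : ∀ a ∈ E, a ^ p = 1)
    (hr : ∀ B : Subgroup G, B ≤ R → B ≤ Subgroup.centralizer (E : Set G) →
      (∀ a ∈ B, ∀ b ∈ B, a * b = b * a) → (∀ b ∈ B, b ^ p = 1) → Nat.card B ≤ p ^ 2) :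
    ∀ g ∈ ⁅A, A⁆, (orderOf g).Coprime p → g ∈ Subgroup.centralizer (R : Set G) := by
  intro g hg hcop
  obtain ⟨D, hDR, hDexp, hDcl, hDnorm, hDcrit⟩ := exists_critical p hp R hR
  have hgA : g ∈ A := (Subgroup.commutator_le.mpr (fun x hx y hy => comm_mem A hx hy)) hg
  suffices hgD : g ∈ Subgroup.centralizer (D : Set G) from hDcrit g (hA hgA) hcop hgD
  obtain ⟨e, heR, hep, he⟩ :=
    Cfsg.Agent.Lib.helper14.S1456M1.exists_small_centralizer p R hR E hER hEc hEp hr
  by_cases heD : e ∈ D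
  · have hrk := Cfsg.Agent.Lib.helper15.S1456M2.rank_of_mem p D hDexp hDcl e heD
      (fun B hBD hBe hBc =>
        he B (hBD.trans hDR) hBe hBc (fun b hb => hDexp b (hBD hb)))
    have hact := rank_two_action p hp D A hDexp hDcl hrk (hA.trans hDnorm) hAs hAodd
    have h1 : g ^ (p ^ 2) ∈ Subgroup.centralizer (D : Set G) := hact.1 g hg
    obtain ⟨m, hm⟩ := exists_pow_eq_self_of_coprime (x := g) (n := p ^ 2)
      (Nat.Coprime.pow_left 2 hcop.symm)
    rw [← hm]
    exact pow_mem h1 m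
  · have hfix := Cfsg.Agent.Lib.lead.S1456M4.fix_card_le p R D hR hDR hDexp e heR hep heD he
    exact (Cfsg.Agent.Lib.helper15.S1454T3.small_fix_rel p R D A hR hDR
      (Subgroup.le_normalizer.trans hDnorm) hA (hA.trans hDnorm) e heR hfix).1 g hg hcop

/-- A subgroup of prime order contains an element of that order. -/
theorem exists_order_eq_card {G : Type*} [Group G] [Finite G] (A : Subgroup G)
    (hq : (Nat.card A).Prime) : ∃ a ∈ A, orderOf a = Nat.card A := by
  have hne : A ≠ ⊥ := by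
    intro h
    rw [h, Subgroup.card_bot] at hq
    exact Nat.not_prime_one hq
  obtain ⟨a, ha⟩ := (Subgroup.ne_bot_iff_exists_ne_one).mp hne
  refine ⟨a.1, a.2, ?_⟩
  rw [Subgroup.orderOf_coe]
  rcases (Nat.dvd_prime hq).mp (orderOf_dvd_natCard a) with h | h
  · exact absurd (orderOf_eq_one_iff.mp h) ha
  · exact h

/-- Part (3a): `2 * |A|` divides `p + 1`. -/
theorem two_mul_dvd {G : Type*} [Group G] [Finite G] (p : ℕ) [Fact p.Prime] (hp : p ≠ 2)
    (R A : Subgroup G) (hR : IsPGroup p R) (hr : Cfsg.PRankLE p 2 R)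
    (hA : A ≤ Subgroup.normalizer (R : Set G)) (hAs : Group.IsSolvable A)
    (hAodd : Odd (Nat.card A)) (hfaith : A ⊓ Subgroup.centralizer (R : Set G) = ⊥)
    (hq : (Nat.card A).Prime) (hqp : ¬ Nat.card A ∣ p * (p - 1)) :
    2 * Nat.card A ∣ p + 1 := by
  have hpp : p.Prime := Fact.out
  obtain ⟨a, haA, hao⟩ := exists_order_eq_card A hq
  obtain ⟨D, hDR, hDexp, hDcl, hDnorm, hDcrit⟩ := exists_critical p hp R hR
  have hrk : ∀ E : Subgroup G, E ≤ D → (∀ x ∈ E, ∀ y ∈ E, x * y = y * x) →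
      Nat.card E ≤ p ^ 2 := by
    intro E hE hEab
    have hER : E ≤ R := hE.trans hDR
    have h1 := hr (E.subgroupOf R)
      ⟨⟨fun a b => Subtype.ext (Subtype.ext (hEab a.1.1 a.2 b.1.1 b.2))⟩⟩
      (fun a ha => Subtype.ext (hDexp a.1 (hE ha)))
    rwa [Nat.card_congr (Subgroup.subgroupOfEquivOfLe hER).toEquiv] at h1
  have hact := rank_two_action p hp D A hDexp hDcl hrk (hA.trans hDnorm) hAs hAodd
  have hqne : Nat.card A ≠ p := by
    intro h
    apply hqp
    rw [h]
    exact Dvd.intro _ rfl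
  have hcop : (orderOf a).Coprime p := by
    rw [hao]
    exact (Nat.coprime_primes hq hpp).mpr hqne
  have hanot : a ∉ Subgroup.centralizer (D : Set G) := by
    intro hc
    have h1 := hDcrit a (hA haA) hcop hc
    have h2 : a ∈ A ⊓ Subgroup.centralizer (R : Set G) := ⟨haA, h1⟩
    rw [hfaith] at h2
    have h3 : a = 1 := Subgroup.mem_bot.mp h2
    rw [h3, orderOf_one] at hao
    exact hq.one_lt.ne hao
  have hdvd := hact.2 a haA (Nat.card A) 1 hq hqne
    (by rw [pow_one, ← hao]; exact pow_orderOf_eq_one a) hanot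
  have hq1 : ¬ Nat.card A ∣ p - 1 := fun h => hqp (Dvd.dvd.mul_left h p)
  have hq2 : Nat.card A ∣ p + 1 := ((Nat.Prime.dvd_mul hq).mp hdvd).resolve_left hq1
  have h2 : 2 ∣ p + 1 := by
    rcases hpp.eq_two_or_odd with h | h
    · exact absurd h hp
    · omega
  have hcop2 : Nat.Coprime 2 (Nat.card A) := Nat.coprime_two_left.mpr hAodd
  exact Nat.Coprime.mul_dvd_of_dvd_of_dvd hcop2 h2 hq2

end Cfsg.Agent.Lib.helper15.S1454F
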