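import Mathlib
import Cfsg.Agent.Lib.helper15.RankTwo3
import Cfsg.Agent.Lib.helper14.S1456M1
import Cfsg.Agent.Lib.helper15.S1456M2
import Cfsg.Agent.Lib.lead.S1456M4
import Cfsg.Agent.Lib.helper15.S1455M3

set_option autoImplicit false
set_option linter.style.haveILetI false

namespace Cfsg.Agent.Lib.helper15.S1455MC

open scoped commutatorElement

/-- If a subgroup contains all elements of `q`-power order for the primes `q` satisfying `T`,
then it contains every element all of whose prime divisors of the order satisfy `T`. -/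
theorem mem_of_primary {G : Type*} [Group G] [Finite G] (K : Subgroup G) (T : ℕ → Prop)
    (hK : ∀ x : G, ∀ q s : ℕ, q.Prime → T q → x ^ (q ^ s) = 1 → x ∈ K) :
    ∀ g : G, (∀ q : ℕ, q.Prime → q ∣ orderOf g → T q) → g ∈ K := by
  have key : ∀ n : ℕ, ∀ g : G, orderOf g = n → (∀ q : ℕ, q.Prime → q ∣ orderOf g → T q) →
      g ∈ K := by
    intro n
    induction n using Nat.strong_induction_on with
    | _ n ih =>
      intro g h hT
      by_cases h1 : n = 1
      · rw [h1] at h
        rw [orderOf_eq_one_iff.mp h]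
        exact K.one_mem
      · obtain ⟨q, hq, hqn⟩ := Nat.exists_prime_and_dvd h1
        have hn0 : n ≠ 0 := by
          rw [← h]
          exact (orderOf_pos g).ne'
        obtain ⟨s, m, hm, hnm⟩ := Nat.exists_eq_pow_mul_and_not_dvd hn0 q hq.ne_one
        have hA : g ^ m ∈ K := by
          apply hK (g ^ m) q s hq (hT q hq (h ▸ hqn))
          rw [← pow_mul, mul_comm, ← hnm, ← h, pow_orderOf_eq_one]
        have hs : s ≠ 0 := by
          rintro rfl
          rw [pow_zero, one_mul] at hnm
          exact hm (hnm ▸ hqn)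
        have hdvd : orderOf (g ^ (q ^ s)) ∣ m := by
          apply orderOf_dvd_of_pow_eq_one
          rw [← pow_mul, ← hnm, ← h, pow_orderOf_eq_one]
        have hmpos : 0 < m := by
          rcases Nat.eq_zero_or_pos m with h0 | h0
          · rw [h0, mul_zero] at hnm
            exact absurd hnm hn0
          · exact h0
        have hmn : m < n := by
          rw [hnm]
          calc m = 1 * m := (one_mul m).symm
            _ < q ^ s * m := Nat.mul_lt_mul_of_pos_right (Nat.one_lt_pow hs hq.one_lt) hmpos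
        have hlt : orderOf (g ^ (q ^ s)) < n := lt_of_le_of_lt (Nat.le_of_dvd hmpos hdvd) hmn
        have hB : g ^ (q ^ s) ∈ K := by
          apply ih _ hlt (g ^ (q ^ s)) rfl
          intro r hr hrd
          apply hT r hr
          rw [h, hnm]
          exact dvd_trans hrd (dvd_trans hdvd (Dvd.intro_left _ rfl))
        have hcop : Nat.Coprime m (q ^ s) :=
          (Nat.Coprime.pow_left s ((Nat.Prime.coprime_iff_not_dvd hq).mpr hm)).symm
        have h4 := Nat.gcd_eq_gcd_ab m (q ^ s)
        rw [hcop.gcd_eq_one] at h4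
        have h7 : g ^ ((m : ℤ) * Nat.gcdA m (q ^ s) + ((q ^ s : ℕ) : ℤ) * Nat.gcdB m (q ^ s)) = g := by
          rw [← h4]
          simp
        rw [zpow_add, zpow_mul, zpow_natCast, zpow_mul, zpow_natCast] at h7
        rw [← h7]
        exact K.mul_mem (K.zpow_mem hA _) (K.zpow_mem hB _)
  intro g hT
  exact key (orderOf g) g rfl hT

/-- Variant (MC') of the narrow case: elements all of whose prime divisors of the order exceed
`p` centralize `P`. -/
theorem narrow_big_centralizes {G : Type*} [Group G] [Finite G] [Group.IsSolvable G]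
    (hodd : Odd (Nat.card G)) (p : ℕ) [Fact p.Prime] (P : Subgroup G) [P.Normal]
    (hP : IsPGroup p P) (E : Subgroup G) (hEP : E ≤ P)
    (hEc : ∀ a ∈ E, ∀ b ∈ E, a * b = b * a) (hEp : ∀ a ∈ E, a ^ p = 1)
    (hr : ∀ B : Subgroup G, B ≤ P → B ≤ Subgroup.centralizer (E : Set G) →
      (∀ a ∈ B, ∀ b ∈ B, a * b = b * a) → (∀ b ∈ B, b ^ p = 1) → Nat.card B ≤ p ^ 2) :
    ∀ g : G, (∀ q : ℕ, q.Prime → q ∣ orderOf g → p < q) →
      g ∈ Subgroup.centralizer (P : Set G) := by
  have hpp : p.Prime := Fact.out
  have hPn : P.Normal := inferInstance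
  intro g hbig
  have hcop : (orderOf g).Coprime p :=
    Nat.Coprime.symm ((Nat.Prime.coprime_iff_not_dvd hpp).mpr
      (fun h => lt_irrefl p (hbig p hpp h)))
  have hcop' : (orderOf g).Coprime (p - 1) := by
    by_contra hcon
    obtain ⟨q, hq, hq1, hq2⟩ := Nat.Prime.not_coprime_iff_dvd.mp hcon
    have h1 := hbig q hq hq1
    have h2 : q ≤ p - 1 := Nat.le_of_dvd (by have := hpp.two_le; omega) hq2
    omega
  by_cases hp2 : p = 2
  · have hPbot : P = ⊥ := by
      obtain ⟨n, hn⟩ := IsPGroup.iff_card.mp hP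
      have hdvd : Nat.card P ∣ Nat.card G := Subgroup.card_subgroup_dvd_card P
      rw [hn, hp2] at hdvd
      have hn0 : n = 0 := by
        by_contra hn0
        have h2 : 2 ∣ Nat.card G := dvd_trans (dvd_pow_self 2 hn0) hdvd
        exact (Nat.not_even_iff_odd.mpr hodd) (even_iff_two_dvd.mpr h2)
      rw [hn0, pow_zero] at hn
      exact Subgroup.card_eq_one.mp hn
    rw [Subgroup.mem_centralizer_iff]
    intro x hx
    rw [SetLike.mem_coe, hPbot] at hx
    rw [Subgroup.mem_bot.mp hx]
    simp
  obtain ⟨D, hDP, hDexp, hDcl, hDnorm, hDcrit⟩ :=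
    Cfsg.Agent.Lib.helper15.GL2D.exists_critical p hp2 P hP
  have hPtop : Subgroup.normalizer (P : Set G) = ⊤ := Subgroup.normalizer_eq_top_iff.mpr hPn
  rw [hPtop] at hDnorm
  have hDn : D.Normal := Subgroup.normalizer_eq_top_iff.mp (top_le_iff.mp hDnorm)
  have hmemN : g ∈ Subgroup.normalizer (P : Set G) := by
    rw [hPtop]
    exact Subgroup.mem_top g
  suffices hgD : g ∈ Subgroup.centralizer (D : Set G) from hDcrit g hmemN hcop hgD
  obtain ⟨e, heP, hep, he⟩ :=
    Cfsg.Agent.Lib.helper14.S1456M1.exists_small_centralizer p P hP E hEP hEc hEp hr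
  by_cases heD : e ∈ D
  · have hrk := Cfsg.Agent.Lib.helper15.S1456M2.rank_of_mem p D hDexp hDcl e heD
      (fun B hBD hBe hBc =>
        he B (hBD.trans hDP) hBe hBc (fun b hb => hDexp b (hBD hb)))
    have hsolv : Group.IsSolvable ↥(⊤ : Subgroup G) := inferInstance
    have hoddT : Odd (Nat.card ↥(⊤ : Subgroup G)) := by
      rw [Subgroup.card_top]
      exact hodd
    have hact := Cfsg.Agent.Lib.helper15.GL2D.rank_two_action p hp2 D ⊤ hDexp hDcl hrk
      hDnorm hsolv hoddT
    apply mem_of_primary (Subgroup.centralizer (D : Set G)) (fun q => p < q) _ g hbig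
    intro x q s hq hpq hxs
    by_contra hx
    have h1 := hact.2 x (Subgroup.mem_top x) q s hq (ne_of_gt hpq) hxs hx
    rcases (Nat.Prime.dvd_mul hq).mp h1 with h2 | h2
    · have h3 : q ≤ p - 1 := Nat.le_of_dvd (by have := hpp.two_le; omega) h2
      omega
    · have h3 : q ≤ p + 1 := Nat.le_of_dvd (by omega) h2
      have h4 : q = p + 1 := by omega
      rcases hpp.eq_two_or_odd with h5 | h5
      · exact hp2 h5
      · rcases hq.eq_two_or_odd with h6 | h6
        · have := hpp.two_le
          omega
        · omega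
  · have hfix := Cfsg.Agent.Lib.lead.S1456M4.fix_card_le p P D hP hDP hDexp e heP hep heD he
    haveI := hDn
    exact Cfsg.Agent.Lib.helper15.S1455M3.cent_of_small_fix_order p P D hP hDP e heP hfix g
      hcop hcop'

end Cfsg.Agent.Lib.helper15.S1455MC
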