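import Mathlib
import Cfsg.Agent.Lib.helper15.SCFus
import Cfsg.Agent.Lib.helper16.PConstr
import Cfsg.Agent.Lib.helper10.LocalGlobal2

/-!
# Local-to-global control of strong fusion for strongly closed subgroups (seat helper15)
-/

set_option autoImplicit false
set_option linter.style.haveILetI false
set_option linter.unusedVariables false

namespace Cfsg.Agent.Lib.helper15.SCLoc

open Subgroup Cfsg.Agent.Lib.helper10 Cfsg.Agent.Lib.helper15
open scoped commutatorElement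

universe u

/-- `p`-stability on normalizers of `p`-subgroups, in elementary form. -/
def NStab (p : ℕ) (G : Type*) [Group G] : Prop :=
  ∀ B : Subgroup G, IsPGroup p B → ∃ K : Subgroup G, K ≤ normalizer (B : Set G) ∧
    (∀ x ∈ normalizer (B : Set G), ∀ k ∈ K, x * k * x⁻¹ ∈ K) ∧
    centralizer (B : Set G) ≤ K ∧
    (∀ k ∈ K, ∃ n : ℕ, k ^ p ^ n ∈ centralizer (B : Set G)) ∧
    ∀ a ∈ normalizer (B : Set G), (∀ b ∈ B, ⁅⁅b, a⁆, a⁆ = 1) → a ∈ K

theorem nstab_of_normalizerPStable {G : Type u} [Group G] [Finite G] {p : ℕ} [Fact p.Prime]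
    (hst : Cfsg.IsNormalizerPStable p G) : NStab p G := by
  intro B hBp
  have hK'n : ((Cfsg.pCore p (↥(Subgroup.normalizer (B : Set G)) ⧸
      (Subgroup.centralizer (B : Set G)).subgroupOf (Subgroup.normalizer (B : Set G)))).comap
      (QuotientGroup.mk' ((Subgroup.centralizer (B : Set G)).subgroupOf
        (Subgroup.normalizer (B : Set G))))).Normal :=
    Subgroup.Normal.comap (pCore_normal p _) _
  refine ⟨((Cfsg.pCore p (↥(Subgroup.normalizer (B : Set G)) ⧸
      (Subgroup.centralizer (B : Set G)).subgroupOf (Subgroup.normalizer (B : Set G)))).comap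
      (QuotientGroup.mk' ((Subgroup.centralizer (B : Set G)).subgroupOf
        (Subgroup.normalizer (B : Set G))))).map (Subgroup.normalizer (B : Set G)).subtype,
    Subgroup.map_subtype_le _, ?_, ?_, ?_, ?_⟩
  · rintro x hx _ ⟨k', hk', rfl⟩
    exact ⟨⟨x, hx⟩ * k' * ⟨x, hx⟩⁻¹, hK'n.conj_mem k' hk' ⟨x, hx⟩, rfl⟩
  · intro c hc
    refine ⟨⟨c, Subgroup.centralizer_le_normalizer _ hc⟩, ?_, rfl⟩
    rw [SetLike.mem_coe, Subgroup.mem_comap]
    have : QuotientGroup.mk' ((Subgroup.centralizer (B : Set G)).subgroupOf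
        (Subgroup.normalizer (B : Set G))) ⟨c, Subgroup.centralizer_le_normalizer _ hc⟩ = 1 :=
      (QuotientGroup.eq_one_iff _).mpr (Subgroup.mem_subgroupOf.mpr hc)
    rw [this]; exact Subgroup.one_mem _
  · rintro _ ⟨k', hk', rfl⟩
    rw [SetLike.mem_coe, Subgroup.mem_comap] at hk'
    obtain ⟨n, hn⟩ := (pCore_isPGroup p (↥(Subgroup.normalizer (B : Set G)) ⧸
      (Subgroup.centralizer (B : Set G)).subgroupOf (Subgroup.normalizer (B : Set G))))
      ⟨_, hk'⟩
    have hn' : (QuotientGroup.mk' ((Subgroup.centralizer (B : Set G)).subgroupOf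
        (Subgroup.normalizer (B : Set G))) k') ^ p ^ n = 1 := congrArg Subtype.val hn
    rw [← map_pow] at hn'
    have h2 := (QuotientGroup.eq_one_iff _).mp hn'
    rw [Subgroup.mem_subgroupOf] at h2
    exact ⟨n, by simpa using h2⟩
  · intro a ha hquad
    have h := hst B hBp a ha (quad_zpowers B a hquad)
    exact ⟨⟨a, ha⟩, h, rfl⟩

theorem nstab_subgroup {G : Type u} [Group G] {p : ℕ} (hst : NStab p G) (N : Subgroup G) :
    NStab p ↥N := by
  intro B' hB'p
  obtain ⟨K, hKN, hKinv, hCK, hKp, hKq⟩ := hst (B'.map N.subtype) (hB'p.map _)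
  have hnorm : ∀ x : ↥N, x ∈ normalizer (B' : Set ↥N) ↔
      (x : G) ∈ normalizer ((B'.map N.subtype : Subgroup G) : Set G) := by
    intro x
    constructor
    · intro hx
      exact Subgroup.le_normalizer_map N.subtype ⟨x, hx, rfl⟩
    · intro hx
      rw [Subgroup.mem_normalizer_iff]
      intro b
      have h1 := (Subgroup.mem_normalizer_iff.mp hx) (b : G)
      constructor
      · intro hb
        obtain ⟨y, hy, hye⟩ := h1.mp ⟨b, hb, rfl⟩
        have : y = x * b * x⁻¹ := Subtype.ext hye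
        rw [← this]; exact hy
      · intro hb
        obtain ⟨y, hy, hye⟩ := h1.mpr ⟨x * b * x⁻¹, hb, rfl⟩
        have : y = b := Subtype.ext hye
        rw [← this]; exact hy
  have hcent : ∀ x : ↥N, x ∈ centralizer (B' : Set ↥N) ↔
      (x : G) ∈ centralizer ((B'.map N.subtype : Subgroup G) : Set G) := by
    intro x
    rw [Subgroup.mem_centralizer_iff, Subgroup.mem_centralizer_iff]
    constructor
    · rintro hx _ ⟨b, hb, rfl⟩
      exact congrArg Subtype.val (hx b hb)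
    · intro hx b hb
      exact Subtype.ext (hx (b : G) ⟨b, hb, rfl⟩)
  refine ⟨K.subgroupOf N, ?_, ?_, ?_, ?_, ?_⟩
  · intro k hk
    exact (hnorm k).mpr (hKN (Subgroup.mem_subgroupOf.mp hk))
  · intro x hx k hk
    rw [Subgroup.mem_subgroupOf] at hk ⊢
    exact hKinv (x : G) ((hnorm x).mp hx) (k : G) hk
  · intro c hc
    rw [Subgroup.mem_subgroupOf]
    exact hCK ((hcent c).mp hc)
  · intro k hk
    obtain ⟨n, hn⟩ := hKp (k : G) (Subgroup.mem_subgroupOf.mp hk)
    exact ⟨n, (hcent _).mpr (by simpa using hn)⟩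
  · intro a ha hquad
    rw [Subgroup.mem_subgroupOf]
    apply hKq (a : G) ((hnorm a).mp ha)
    rintro _ ⟨b, hb, rfl⟩
    have h := congrArg N.subtype (hquad b hb)
    rw [map_commutatorElement, map_commutatorElement, map_one] at h
    exact h


theorem zstab_quot {H : Type u} [Group H] [Finite H] {p : ℕ} [Fact p.Prime]
    (hst : NStab p H) (K₀ : Subgroup H) [K₀.Normal] (hK₀ : (Nat.card K₀).Coprime p) :
    ZStab p (H ⧸ K₀) := by
  intro Bb hBbn hBbp
  haveI := hBbn
  obtain ⟨P⟩ : Nonempty (Sylow p H) := inferInstance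
  obtain ⟨Pb, hPb⟩ := exists_sylow_map P K₀
  obtain ⟨B, hBdef⟩ : ∃ B : Subgroup H,
      B = Bb.comap (QuotientGroup.mk' K₀) ⊓ (P : Subgroup H) := ⟨_, rfl⟩
  have hBp : IsPGroup p B := P.2.to_le (hBdef ▸ inf_le_right)
  have hBmap : B.map (QuotientGroup.mk' K₀) = Bb := by
    apply le_antisymm
    · rw [Subgroup.map_le_iff_le_comap, hBdef]; exact inf_le_left
    · intro y hy
      have hyP : y ∈ (Pb : Subgroup (H ⧸ K₀)) := normal_pgroup_le_sylow Bb hBbn hBbp Pb hy
      rw [hPb] at hyP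
      obtain ⟨s, hs, rfl⟩ := hyP
      exact ⟨s, by rw [hBdef]; exact ⟨hy, hs⟩, rfl⟩
  have hBK : B ⊓ K₀ = ⊥ := by
    apply Subgroup.inf_eq_bot_of_coprime
    obtain ⟨k, hk⟩ := IsPGroup.iff_card.mp hBp
    rw [hk]
    exact Nat.Coprime.pow_left k hK₀.symm
  have htriv : ∀ x ∈ B, QuotientGroup.mk' K₀ x = 1 → x = 1 := by
    intro x hx h1
    have h2 : x ∈ B ⊓ K₀ := ⟨hx, (QuotientGroup.eq_one_iff x).mp h1⟩
    rw [hBK] at h2
    exact Subgroup.mem_bot.mp h2
  have hlift : ∀ h : H, ∃ m ∈ normalizer (B : Set H),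
      QuotientGroup.mk' K₀ m = QuotientGroup.mk' K₀ h := by
    intro h
    have h1 : QuotientGroup.mk' K₀ h ∈ normalizer
        ((B.map (QuotientGroup.mk' K₀) : Subgroup (H ⧸ K₀)) : Set (H ⧸ K₀)) := by
      rw [hBmap, Subgroup.normalizer_eq_top_iff.mpr hBbn]
      exact Subgroup.mem_top _
    exact normalizer_map_le_of_coprime K₀ hK₀ B hBp h1
  have hconjB : ∀ m ∈ normalizer (B : Set H), ∀ b ∈ B, ⁅b, m⁆ ∈ B := by
    intro m hm b hb
    have h1 : m * b⁻¹ * m⁻¹ ∈ B := (Subgroup.mem_normalizer_iff.mp hm b⁻¹).mp (B.inv_mem hb)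
    have e : ⁅b, m⁆ = b * (m * b⁻¹ * m⁻¹) := by
      rw [commutatorElement_def]; group
    rw [e]
    exact B.mul_mem hb h1
  obtain ⟨K, hKN, hKinv, hCK, hKp, hKq⟩ := hst B hBp
  have hcentmap : ∀ c ∈ centralizer (B : Set H),
      QuotientGroup.mk' K₀ c ∈ centralizer (Bb : Set (H ⧸ K₀)) := by
    intro c hc
    rw [Subgroup.mem_centralizer_iff]
    intro y hy
    rw [SetLike.mem_coe, ← hBmap] at hy
    obtain ⟨b, hb, rfl⟩ := hy
    rw [← map_mul, ← map_mul, Subgroup.mem_centralizer_iff.mp hc b hb]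
  have hcent : centralizer (Bb : Set (H ⧸ K₀)) ≤ K.map (QuotientGroup.mk' K₀) := by
    intro c hc
    obtain ⟨c₀, rfl⟩ := QuotientGroup.mk'_surjective K₀ c
    obtain ⟨m, hm, hme⟩ := hlift c₀
    have hmc : m ∈ centralizer (B : Set H) := by
      rw [Subgroup.mem_centralizer_iff]
      intro b hb
      have h1 : ⁅b, m⁆ = 1 := by
        apply htriv _ (hconjB m hm b hb)
        rw [map_commutatorElement, hme, commutatorElement_eq_one_iff_mul_comm]
        exact Subgroup.mem_centralizer_iff.mp hc _ (by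
          rw [SetLike.mem_coe, ← hBmap]; exact ⟨b, hb, rfl⟩)
      exact commutatorElement_eq_one_iff_mul_comm.mp h1
    exact ⟨m, hCK hmc, hme⟩
  haveI hCn : (centralizer (Bb : Set (H ⧸ K₀))).Normal := Subgroup.normal_centralizer
  refine ⟨K.map (QuotientGroup.mk' K₀), ?_, hcent, ?_, ?_⟩
  · refine ⟨?_⟩
    rintro _ ⟨k, hk, rfl⟩ g
    obtain ⟨g₀, rfl⟩ := QuotientGroup.mk'_surjective K₀ g
    obtain ⟨m, hm, hme⟩ := hlift g₀
    exact ⟨m * k * m⁻¹, hKinv m hm k hk, by rw [map_mul, map_mul, map_inv, hme]⟩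
  · have hpg : IsPGroup p (↥(K.map (QuotientGroup.mk' K₀)) ⧸
        (centralizer (Bb : Set (H ⧸ K₀))).subgroupOf (K.map (QuotientGroup.mk' K₀))) := by
      intro q
      obtain ⟨kb, rfl⟩ := QuotientGroup.mk_surjective q
      obtain ⟨k, hk, hke⟩ := kb.2
      obtain ⟨n, hn⟩ := hKp k hk
      refine ⟨n, ?_⟩
      rw [← QuotientGroup.mk_pow, QuotientGroup.eq_one_iff, Subgroup.mem_subgroupOf,
        Subgroup.coe_pow, ← hke, ← map_pow]
      exact hcentmap _ hn
    obtain ⟨n, hn⟩ := IsPGroup.iff_card.mp hpg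
    refine ⟨n, ?_⟩
    rw [← hn, Subgroup.relIndex, Subgroup.index_eq_card]
  · intro a hquad
    obtain ⟨a₀, rfl⟩ := QuotientGroup.mk'_surjective K₀ a
    obtain ⟨m, hm, hme⟩ := hlift a₀
    refine ⟨m, hKq m hm ?_, hme⟩
    intro b hb
    apply htriv _ (hconjB m hm _ (hconjB m hm b hb))
    rw [map_commutatorElement, map_commutatorElement, hme]
    exact hquad _ (by rw [← hBmap]; exact ⟨b, hb, rfl⟩)


/-- The constrained case: in a `p`-constrained group which is `p`-stable on normalizers, the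
normalizer of `W(D)` controls strong fusion, `D` strongly closed. -/
theorem ctl_constrained {p : ℕ} [Fact p.Prime] (hp : p ≠ 2) (W : helper1.PFun.{u} p)
    (hW : ∀ (G : Type u) [Group G] [Finite G] (P : Sylow p G) (D : Subgroup G),
      Cfsg.IsStronglyClosed D (P : Subgroup G) → ZStab p G →
      centralizer (Cfsg.pCore p G : Set G) ≤ Cfsg.pCore p G → (W.W G D).Normal)
    {H : Type u} [Group H] [Finite H] (hst : NStab p H) (hpc : Cfsg.IsPConstrained p H) :
    SCStmt p W H := by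
  intro P D hD A g hA hgA
  haveI hKn : (Cfsg.pPrimeCore p H).Normal := Cfsg.Agent.Lib.helper9.ppc_normal p H
  have hKc : (Nat.card (Cfsg.pPrimeCore p H)).Coprime p :=
    Cfsg.Agent.Lib.helper9.pPrimeCore_coprime p H
  obtain ⟨Pb, hPb⟩ := exists_sylow_map P (Cfsg.pPrimeCore p H)
  have hsc : Cfsg.IsStronglyClosed (D.map (QuotientGroup.mk' (Cfsg.pPrimeCore p H)))
      (Pb : Subgroup (H ⧸ Cfsg.pPrimeCore p H)) := by
    rw [hPb]; exact sc_quot_coprime P hD _
  have hcent := Cfsg.Agent.Lib.helper16.pc_iff_quot.mp hpc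
  have hnorm := hW (H ⧸ Cfsg.pPrimeCore p H) Pb _ hsc (zstab_quot hst _ hKc) hcent
  have hmap : W.W (H ⧸ Cfsg.pPrimeCore p H) (D.map (QuotientGroup.mk' (Cfsg.pPrimeCore p H))) =
      (W.W H D).map (QuotientGroup.mk' (Cfsg.pPrimeCore p H)) := by
    apply W.map
    rw [QuotientGroup.ker_mk']
    apply Subgroup.inf_eq_bot_of_coprime
    obtain ⟨k, hk⟩ := IsPGroup.iff_card.mp (P.2.to_le hD.1)
    rw [hk]
    exact Nat.Coprime.pow_left k hKc.symm
  rw [hmap] at hnorm
  have hPW : (P : Subgroup H) ≤ normalizer ((W.W H D : Subgroup H) : Set H) :=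
    (sc_normalizer hD).trans (W.normalizer_le H D)
  exact ctl_pprime P (Cfsg.pPrimeCore p H) hKc (W.W H D) (P.2.to_le ((W.le H D).trans hD.1)) hPW
    A g hA hgA g (by rw [Subgroup.normalizer_eq_top_iff.mpr hnorm]; exact Subgroup.mem_top _)
    (fun a _ => rfl)

section functor

variable {G : Type u} [Group G]

/-- the subgroup generated by the elements of `H` conjugate to elements of `D` -/
def dcl (D H : Subgroup G) : Subgroup G :=
  Subgroup.closure {x | x ∈ H ∧ ∃ g : G, ∃ d ∈ D, x = g * d * g⁻¹}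

theorem dcl_le (D H : Subgroup G) : dcl D H ≤ H :=
  (Subgroup.closure_le H).mpr (fun x hx => hx.1)

theorem dcl_conj (D H : Subgroup G) (g : G) :
    dcl D (H.map (MulAut.conj g).toMonoidHom) = (dcl D H).map (MulAut.conj g).toMonoidHom := by
  unfold dcl
  rw [MonoidHom.map_closure]
  congr 1
  ext x
  constructor
  · rintro ⟨⟨y, hy, rfl⟩, k, d, hd, hk⟩
    refine ⟨y, ⟨hy, g⁻¹ * k, d, hd, ?_⟩, rfl⟩
    have h1 : g * y * g⁻¹ = k * d * k⁻¹ := hk
    calc y = g⁻¹ * (g * y * g⁻¹) * g := by group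
      _ = g⁻¹ * (k * d * k⁻¹) * g := by rw [h1]
      _ = g⁻¹ * k * d * (g⁻¹ * k)⁻¹ := by group
  · rintro ⟨y, ⟨hy, k, d, hd, rfl⟩, rfl⟩
    refine ⟨⟨_, hy, rfl⟩, g * k, d, hd, ?_⟩
    show g * (k * d * k⁻¹) * g⁻¹ = g * k * d * (g * k)⁻¹
    group

theorem dcl_eq_inf {D P H : Subgroup G} (hD : Cfsg.IsStronglyClosed D P) (hH : H ≤ P) :
    dcl D H = H ⊓ D := by
  apply le_antisymm
  · unfold dcl
    rw [Subgroup.closure_le]
    rintro x ⟨hx, g, d, hd, rfl⟩
    exact ⟨hx, hD.2 d hd g (hH hx)⟩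
  · intro x hx
    exact Subgroup.subset_closure ⟨hx.1, 1, x, hx.2, by group⟩

open Classical in
/-- `dcl D H` if this is nontrivial, and `H` otherwise -/
noncomputable def dtil (D H : Subgroup G) : Subgroup G := if dcl D H = ⊥ then H else dcl D H

theorem dtil_le (D H : Subgroup G) : dtil D H ≤ H := by
  unfold dtil
  split_ifs with h
  · exact le_rfl
  · exact dcl_le D H

theorem dtil_ne_bot (D : Subgroup G) {H : Subgroup G} (hH : H ≠ ⊥) : dtil D H ≠ ⊥ := by
  unfold dtil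
  split_ifs with h
  · exact hH
  · exact h

theorem dtil_conj (D H : Subgroup G) (g : G) :
    dtil D (H.map (MulAut.conj g).toMonoidHom) = (dtil D H).map (MulAut.conj g).toMonoidHom := by
  unfold dtil
  rw [dcl_conj]
  by_cases h : dcl D H = ⊥
  · rw [if_pos h, if_pos (by rw [h, Subgroup.map_bot])]
  · rw [if_neg h, if_neg (map_conj_ne_bot g h)]

theorem dtil_sc {D P H : Subgroup G} (hD : Cfsg.IsStronglyClosed D P) (hH : H ≤ P) :
    Cfsg.IsStronglyClosed (dtil D H) H := by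
  unfold dtil
  split_ifs with h
  · exact ⟨le_rfl, fun x hx g hg => hg⟩
  · rw [dcl_eq_inf hD hH]
    exact ⟨inf_le_left, fun x hx g hg => ⟨hg, hD.2 x hx.2 g (hH hg)⟩⟩

theorem dtil_top {D P : Subgroup G} (hD : Cfsg.IsStronglyClosed D P) (hDne : D ≠ ⊥) :
    dtil D P = D := by
  unfold dtil
  rw [dcl_eq_inf hD le_rfl, inf_eq_right.mpr hD.1, if_neg hDne]

theorem wf_conj [Finite G] {p : ℕ} (W : helper1.PFun.{u} p) (D : Subgroup G) :
    Cfsg.IsConjugacyFunctor p (fun H : Subgroup G => W.W G (dtil D H)) := by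
  intro P' hP'
  refine ⟨(W.le G _).trans (dtil_le D P'),
    fun h => W.ne_bot G _ (hP'.to_le (dtil_le D P')) (dtil_ne_bot D h), fun g => ?_⟩
  show W.W G (dtil D (P'.map (MulAut.conj g).toMonoidHom)) =
    (W.W G (dtil D P')).map (MulAut.conj g).toMonoidHom
  rw [dtil_conj]
  exact W.map G G (MulAut.conj g).toMonoidHom _
    (helper1.inf_ker_eq_bot_of_injective _ (MulAut.conj g).injective _)

end functor

/-- **Local-to-global control of strong fusion by a strongly closed subgroup**: `G` is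
`p`-stable on normalizers and the normalizers of the nontrivial subgroups of `P` are
`p`-constrained. -/
theorem sc_ctl_local {p : ℕ} [Fact p.Prime] (hp : p ≠ 2) (W : helper1.PFun.{u} p)
    (hW : ∀ (G : Type u) [Group G] [Finite G] (P : Sylow p G) (D : Subgroup G),
      Cfsg.IsStronglyClosed D (P : Subgroup G) → ZStab p G →
      centralizer (Cfsg.pCore p G : Set G) ≤ Cfsg.pCore p G → (W.W G D).Normal)
    {G : Type u} [Group G] [Finite G] (hst : Cfsg.IsNormalizerPStable p G) (P : Sylow p G)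
    (D : Subgroup G) (hD : Cfsg.IsStronglyClosed D (P : Subgroup G))
    (hc : ∀ U : Subgroup G, U ≤ (P : Subgroup G) → U ≠ ⊥ →
      Cfsg.IsPConstrained p ↥(Subgroup.normalizer (U : Set G))) :
    ∀ (A : Set G) (g : G), A ⊆ ((P : Subgroup G) : Set G) →
      (∀ a ∈ A, g * a * g⁻¹ ∈ (P : Subgroup G)) →
      ∃ n ∈ normalizer ((W.W G D : Subgroup G) : Set G), ∀ a ∈ A, n * a * n⁻¹ = g * a * g⁻¹ := by
  by_cases hDne : D = ⊥
  · intro A g _ _
    refine ⟨g, ?_, fun a _ => rfl⟩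
    have h1 : W.W G D = ⊥ := by
      rw [eq_bot_iff]
      exact (W.le G D).trans (le_of_eq hDne)
    have h2 : (W.W G D).Normal := by rw [h1]; infer_instance
    rw [Subgroup.normalizer_eq_top_iff.mpr h2]
    exact Subgroup.mem_top g
  have hns := nstab_of_normalizerPStable hst
  refine local_to_global P {fun H : Subgroup G => W.W G (dtil D H)} ?_
    {T : Subgroup G | T ≤ (P : Subgroup G) ∧
      ¬ p ∣ (nS (P : Subgroup G) T).relIndex (normalizer (T : Set G))}
    (fun T hT => hT) ?_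
    (fun A g => ∃ n ∈ normalizer ((W.W G D : Subgroup G) : Set G),
      ∀ a ∈ A, n * a * n⁻¹ = g * a * g⁻¹) ?_ ?_ ?_ ?_ ?_ ?_ ?_
  · intro W' hW'
    rw [Set.mem_singleton_iff] at hW'
    rw [hW']
    exact wf_conj W D
  · intro R hR
    obtain ⟨U, u, hu, hUS, hidx, -⟩ := exists_extremal_conj' P R hR
    exact ⟨U, ⟨hUS, hidx⟩, u, hu⟩
  · intro A _
    exact ⟨1, Subgroup.one_mem _, fun a _ => rfl⟩
  · rintro A g g' ⟨n, hn, hna⟩ hgg'
    exact ⟨n, hn, fun a ha => (hna a ha).trans (hgg' a ha)⟩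
  · rintro A A' g ⟨n, hn, hna⟩ hAA'
    exact ⟨n, hn, fun a ha => hna a (hAA' ha)⟩
  · rintro A g k ⟨n₁, hn₁, hna₁⟩ ⟨n₂, hn₂, hna₂⟩
    refine ⟨n₂ * n₁, Subgroup.mul_mem _ hn₂ hn₁, fun a ha => ?_⟩
    have h1 := hna₁ a ha
    have h2 := hna₂ (g * a * g⁻¹) ⟨a, ha, rfl⟩
    calc n₂ * n₁ * a * (n₂ * n₁)⁻¹ = n₂ * (n₁ * a * n₁⁻¹) * n₂⁻¹ := by group
      _ = n₂ * (g * a * g⁻¹) * n₂⁻¹ := by rw [h1]
      _ = k * (g * a * g⁻¹) * k⁻¹ := h2
      _ = k * g * a * (k * g)⁻¹ := by group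
  · rintro A g ⟨n, hn, hna⟩
    refine ⟨n⁻¹, Subgroup.inv_mem _ hn, ?_⟩
    rintro _ ⟨a, ha, rfl⟩
    have h1 := hna a ha
    calc n⁻¹ * (g * a * g⁻¹) * n⁻¹⁻¹ = n⁻¹ * (n * a * n⁻¹) * n⁻¹⁻¹ := by rw [h1]
      _ = a := by group
      _ = g⁻¹ * (g * a * g⁻¹) * g⁻¹⁻¹ := by group
  · intro W' hW' A y _ hy _
    rw [Set.mem_singleton_iff] at hW'
    rw [hW'] at hy
    have hy' : y ∈ normalizer ((W.W G (dtil D (P : Subgroup G)) : Subgroup G) : Set G) := hy
    rw [dtil_top hD hDne] at hy'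
    exact ⟨y, hy', fun a _ => rfl⟩
  · intro T hT hTne A x hA hx hxA IH
    obtain ⟨hTS, hidx⟩ := hT
    have hle : nS (P : Subgroup G) T ≤ Subgroup.normalizer (T : Set G) := inf_le_right
    have hp1 : IsPGroup p ↥((nS (P : Subgroup G) T).subgroupOf (Subgroup.normalizer (T : Set G))) :=
      (P.2.to_le inf_le_left).comap_subtype
    obtain ⟨S₁, hS₁⟩ : ∃ S₁ : Sylow p ↥(Subgroup.normalizer (T : Set G)),
        (S₁ : Subgroup ↥(Subgroup.normalizer (T : Set G))) =
          (nS (P : Subgroup G) T).subgroupOf (Subgroup.normalizer (T : Set G)) :=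
      ⟨hp1.toSylow hidx, hp1.toSylow_coe hidx⟩
    have hsc' : Cfsg.IsStronglyClosed (dtil D (nS (P : Subgroup G) T)) (nS (P : Subgroup G) T) :=
      dtil_sc hD inf_le_left
    have hscN : Cfsg.IsStronglyClosed
        ((dtil D (nS (P : Subgroup G) T)).subgroupOf (Subgroup.normalizer (T : Set G)))
        (S₁ : Subgroup ↥(Subgroup.normalizer (T : Set G))) := by
      rw [hS₁]
      refine ⟨fun y hy => ?_, fun y hy k hk => ?_⟩
      · rw [Subgroup.mem_subgroupOf] at hy ⊢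
        exact hsc'.1 hy
      · rw [Subgroup.mem_subgroupOf] at hy hk ⊢
        exact hsc'.2 (y : G) hy (k : G) hk
    have hNst : NStab p ↥(Subgroup.normalizer (T : Set G)) := nstab_subgroup hns _
    obtain ⟨c', hc'N, hc'a⟩ := ctl_constrained hp W hW hNst (hc T hTS hTne) S₁ _ hscN
      (Subtype.val ⁻¹' A) ⟨x, hx⟩
      (fun a' ha' => by
        rw [SetLike.mem_coe, hS₁, Subgroup.mem_subgroupOf]
        exact hA ha')
      (fun a' ha' => by
        rw [hS₁, Subgroup.mem_subgroupOf]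
        exact hxA (a' : G) ha')
    have hmapW : W.W G (dtil D (nS (P : Subgroup G) T)) =
        (W.W ↥(Subgroup.normalizer (T : Set G))
          ((dtil D (nS (P : Subgroup G) T)).subgroupOf (Subgroup.normalizer (T : Set G)))).map
          (Subgroup.normalizer (T : Set G)).subtype := by
      have h1 := W.map ↥(Subgroup.normalizer (T : Set G)) G (Subgroup.normalizer (T : Set G)).subtype
        ((dtil D (nS (P : Subgroup G) T)).subgroupOf (Subgroup.normalizer (T : Set G)))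
        (helper1.inf_ker_eq_bot_of_injective _ (Subgroup.subtype_injective _) _)
      rw [Subgroup.map_subgroupOf_eq_of_le ((dtil_le D _).trans hle)] at h1
      exact h1
    have hcN : (c' : G) ∈ normalizer
        ((W.W G (dtil D (nS (P : Subgroup G) T)) : Subgroup G) : Set G) := by
      rw [hmapW]
      exact Subgroup.le_normalizer_map _ ⟨c', hc'N, rfl⟩
    have hca : ∀ a ∈ A, (c' : G) * a * (c' : G)⁻¹ = x * a * x⁻¹ := by
      intro a ha
      have haN : a ∈ Subgroup.normalizer (T : Set G) := hle (hA ha)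
      have h1 := hc'a ⟨a, haN⟩ ha
      exact congrArg Subtype.val h1
    obtain ⟨n, hn, hna⟩ := IH _ (Set.mem_singleton _) A (c' : G) hA c'.2 hcN
      (fun a ha => by rw [hca a ha]; exact hxA a ha)
    exact ⟨n, hn, fun a ha => (hna a ha).trans (hca a ha)⟩

/-- `N(Z(J(D)))` controls strong fusion, `D` strongly closed, local version. -/
theorem sc_ctl_local_zjA {p : ℕ} [Fact p.Prime] (hp : p ≠ 2) {G : Type u} [Group G] [Finite G]
    (hst : Cfsg.IsNormalizerPStable p G) (P : Sylow p G)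
    (D : Subgroup G) (hD : Cfsg.IsStronglyClosed D (P : Subgroup G))
    (hc : ∀ U : Subgroup G, U ≤ (P : Subgroup G) → U ≠ ⊥ →
      Cfsg.IsPConstrained p ↥(Subgroup.normalizer (U : Set G)))
    (A : Set G) (g : G)
    (hA : A ⊆ ((P : Subgroup G) : Set G)) (hgA : ∀ a ∈ A, g * a * g⁻¹ ∈ (P : Subgroup G)) :
    ∃ n ∈ normalizer ((Cfsg.centerThompsonAOf D : Subgroup G) : Set G),
      ∀ a ∈ A, n * a * n⁻¹ = g * a * g⁻¹ :=
  sc_ctl_local hp (zjA p) (fun G _ _ P D hD hst hc => zj_normal_ab hp P D hD hst hc) hst P D hD hc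
    A g hA hgA

/-- `N(Ω₁(Z(J_e(D))))` controls strong fusion, `D` strongly closed, local version. -/
theorem sc_ctl_local_zjE {p : ℕ} [Fact p.Prime] (hp : p ≠ 2) {G : Type u} [Group G] [Finite G]
    (hst : Cfsg.IsNormalizerPStable p G) (P : Sylow p G)
    (D : Subgroup G) (hD : Cfsg.IsStronglyClosed D (P : Subgroup G))
    (hc : ∀ U : Subgroup G, U ≤ (P : Subgroup G) → U ≠ ⊥ →
      Cfsg.IsPConstrained p ↥(Subgroup.normalizer (U : Set G)))
    (A : Set G) (g : G)
    (hA : A ⊆ ((P : Subgroup G) : Set G)) (hgA : ∀ a ∈ A, g * a * g⁻¹ ∈ (P : Subgroup G)) :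
    ∃ n ∈ normalizer ((Cfsg.omegaOne p (Cfsg.centerThompsonOf p D) : Subgroup G) : Set G),
      ∀ a ∈ A, n * a * n⁻¹ = g * a * g⁻¹ :=
  sc_ctl_local hp (zjE p) (fun G _ _ P D hD hst hc => zj_normal_ea hp P D hD hst hc) hst P D hD hc
    A g hA hgA

end Cfsg.Agent.Lib.helper15.SCLoc
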