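import Mathlib
import Cfsg.Prelude.Def_SylowControl

namespace Cfsg.Agent.Lib.helper15

theorem mem_sylowMembers_iff {G : Type*} [Group G] [Finite G] {p : ℕ} [Fact p.Prime]
    (𝓕 : Set (Subgroup G)) (S X : Subgroup G) :
    X ∈ Cfsg.sylowMembers p 𝓕 S ↔
      X ∈ 𝓕 ∧ Nat.card ↥(S ⊓ X) = p ^ (Nat.card ↥X).factorization p := by
  constructor
  · rintro ⟨hX, P, hP⟩
    refine ⟨hX, ?_⟩
    rw [← hP, Subgroup.card_map_of_injective X.subtype_injective]
    exact P.card_eq_multiplicity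
  · rintro ⟨hX, hc⟩
    refine ⟨hX, Sylow.ofCard ((S ⊓ X).subgroupOf X) ?_, ?_⟩
    · rw [← hc]
      exact Nat.card_congr (Subgroup.subgroupOfEquivOfLe inf_le_right).toEquiv
    · show ((S ⊓ X).subgroupOf X).map X.subtype = S ⊓ X
      rw [Subgroup.map_subgroupOf_eq_of_le inf_le_right]

theorem conjRight_conjRight {G : Type*} [Group G] (g h : G) (X : Subgroup G) :
    Cfsg.subgroupConjRight h (Cfsg.subgroupConjRight g X) = Cfsg.subgroupConjRight (g * h) X := by
  unfold Cfsg.subgroupConjRight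
  rw [Subgroup.map_map]
  congr 1
  ext x
  simp [mul_assoc]

theorem conjRight_one {G : Type*} [Group G] (X : Subgroup G) :
    Cfsg.subgroupConjRight 1 X = X := by
  unfold Cfsg.subgroupConjRight
  ext x
  simp

theorem mem_conjRight_iff {G : Type*} [Group G] (g x : G) (X : Subgroup G) :
    x ∈ Cfsg.subgroupConjRight g X ↔ g * x * g⁻¹ ∈ X := by
  unfold Cfsg.subgroupConjRight
  constructor
  · rintro ⟨y, hy, rfl⟩
    simpa [mul_assoc] using hy
  · intro h
    exact ⟨g * x * g⁻¹, h, by simp [mul_assoc]⟩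

theorem conj_mem_conjRight {G : Type*} [Group G] (g x : G) (X : Subgroup G) (hx : x ∈ X) :
    g⁻¹ * x * g ∈ Cfsg.subgroupConjRight g X := by
  rw [mem_conjRight_iff]
  simpa [mul_assoc] using hx

theorem conjRight_inf {G : Type*} [Group G] (g : G) (X Y : Subgroup G) :
    Cfsg.subgroupConjRight g (X ⊓ Y) = Cfsg.subgroupConjRight g X ⊓ Cfsg.subgroupConjRight g Y := by
  ext x
  simp only [mem_conjRight_iff, Subgroup.mem_inf]

theorem card_conjRight {G : Type*} [Group G] (g : G) (X : Subgroup G) :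
    Nat.card ↥(Cfsg.subgroupConjRight g X) = Nat.card ↥X :=
  Subgroup.card_map_of_injective (MulAut.conj g⁻¹).injective

theorem conj_mem_sylowMembers {G : Type*} [Group G] [Finite G] {p : ℕ} [Fact p.Prime]
    {𝓕 : Set (Subgroup G)} (h𝓕 : Cfsg.IsNormalSet 𝓕) {S X : Subgroup G}
    (hX : X ∈ Cfsg.sylowMembers p 𝓕 S) (g : G) :
    Cfsg.subgroupConjRight g X ∈ Cfsg.sylowMembers p 𝓕 (Cfsg.subgroupConjRight g S) := by
  rw [mem_sylowMembers_iff] at hX ⊢
  refine ⟨h𝓕 X hX.1 g, ?_⟩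
  rw [← conjRight_inf, card_conjRight, card_conjRight]
  exact hX.2

theorem conjRight_sylow {G : Type*} [Group G] {p : ℕ} (P : Sylow p G) (g : G) :
    Cfsg.subgroupConjRight g (P : Subgroup G) = ((g⁻¹ • P : Sylow p G) : Subgroup G) := rfl

theorem conjRight_of_mem {G : Type*} [Group G] (y : G) (Y : Subgroup G) (hy : y ∈ Y) :
    Cfsg.subgroupConjRight y Y = Y := by
  ext x
  rw [mem_conjRight_iff]
  constructor
  · intro h
    have h1 : x = y⁻¹ * (y * x * y⁻¹) * y := by group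
    rw [h1]; exact Y.mul_mem (Y.mul_mem (Y.inv_mem hy) h) hy
  · intro h; exact Y.mul_mem (Y.mul_mem hy h) (Y.inv_mem hy)

end Cfsg.Agent.Lib.helper15
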